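import Mathlib
import Cfsg.Agent.Lib.Coprime.PGroup
import Cfsg.Agent.Lib.Coprime.PSolvable
import Cfsg.Agent.Lib.Coprime.PLen
import Cfsg.Agent.Lib.Char.PBlock
import Cfsg.Agent.Lib.PLocal.PSolv
import Cfsg.Agent.Lib.Basic.Glauberman
import Cfsg.Agent.Lib.LocalEven.GWS4
import Cfsg.Agent.Lib.Fusion.QdBasic
import Cfsg.Agent.Lib.Tech.Extremal

/-!
A cyclic normal subgroup of a Sylow `p`-subgroup of a `p`-soluble group lies in `O_{p',p}(G)` (`p` odd, or no section `S₄`).
-/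

set_option autoImplicit false
set_option linter.unusedSectionVars false
set_option linter.style.haveILetI false

namespace Cfsg.Agent.Lib.Coprime.CycCore

open Subgroup Cfsg Cfsg.Agent.Lib.Coprime
open scoped commutatorElement

section Power

variable {G : Type*} [Group G]

/-- The power of a product in class two. -/
theorem mul_pow_class_two {x y w : G} (h : y * x = w * x * y) (hx : Commute w x) (hy : Commute w y) (n : ℕ) :
    (x * y) ^ n = x ^ n * y ^ n * w ^ (n.choose 2) := by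
  have hyn : ∀ n : ℕ, y ^ n * x = w ^ n * x * y ^ n := by
    intro n
    induction n with
    | zero => simp
    | succ n ih =>
      rw [pow_succ, mul_assoc, h, pow_succ w]
      have h1 : y ^ n * (w * x * y) = w * (y ^ n * x) * y := by
        have h2 : y ^ n * w = w * y ^ n := ((hy.pow_right n).eq).symm
        simp only [← mul_assoc]
        rw [h2]
      rw [h1, ih]
      have h2 : w * (w ^ n * x * y ^ n) * y = (w ^ n * w) * x * (y ^ n * y) := by
        have h3 : w * w ^ n = w ^ n * w := (Commute.self_pow w n).eq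
        simp only [← mul_assoc]
        rw [h3]
      rw [h2]
  induction n with
  | zero => simp
  | succ n ih =>
    have hc : (n + 1).choose 2 = n.choose 2 + n := by
      have h5 : (n + 1).choose 2 = n.choose 1 + n.choose 2 := Nat.choose_succ_succ' n 1
      rw [h5, Nat.choose_one_right, add_comm]
    rw [pow_succ, ih, hc, pow_add w]
    set W := w ^ n.choose 2 with hW
    have hWx : W * x = x * W := (hx.pow_left _).eq
    have hWy : W * y = y * W := (hy.pow_left _).eq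
    have hVn : w ^ n * x ^ n = x ^ n * w ^ n := (hx.pow_pow n n).eq
    have hVx : w ^ n * x = x * w ^ n := (hx.pow_left n).eq
    have hVy : w ^ n * y = y * w ^ n := (hy.pow_left n).eq
    have hVyn : w ^ n * y ^ n = y ^ n * w ^ n := (hy.pow_pow n n).eq
    have hWV : W * w ^ n = w ^ n * W := ((Commute.refl w).pow_pow _ _).eq
    calc x ^ n * y ^ n * W * (x * y) = x ^ n * (y ^ n * (W * x)) * y := by simp only [mul_assoc]
      _ = x ^ n * ((y ^ n * x) * W) * y := by rw [hWx]; simp only [mul_assoc]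
      _ = x ^ n * (w ^ n * x * y ^ n) * W * y := by rw [hyn]; simp only [mul_assoc]
      _ = (x ^ n * x) * w ^ n * y ^ n * W * y := by
          simp only [mul_assoc]
          rw [← mul_assoc (w ^ n) x, hVx]
          simp only [mul_assoc]
      _ = (x ^ n * x) * (y ^ n * w ^ n) * W * y := by rw [← hVyn]; simp only [mul_assoc]
      _ = (x ^ n * x) * y ^ n * (y * (w ^ n * W)) := by
          have h1 : w ^ n * W * y = y * (w ^ n * W) := by
            rw [mul_assoc, hWy, ← mul_assoc, hVy, mul_assoc]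
          simp only [mul_assoc] at h1 ⊢
          rw [h1]
      _ = x ^ (n + 1) * y ^ (n + 1) * (w ^ n * W) := by
          rw [pow_succ x, pow_succ y]
          simp only [mul_assoc]
      _ = x ^ (n + 1) * y ^ (n + 1) * (W * w ^ n) := by rw [hWV]

end Power

section Lift

variable {G : Type*} [Group G] [Finite G] {p : ℕ} [hpf : Fact p.Prime]

theorem pCore_quot_self' : pCore p (G ⧸ pCore p G) = ⊥ := by
  haveI hQn : (pCore p G).Normal := Basic.pCore_normal p
  haveI hPn : (pCore p (G ⧸ pCore p G)).Normal := Basic.pCore_normal p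
  have hPp : IsPGroup p (pCore p (G ⧸ pCore p G)) := Basic.pCore_isPGroup p
  have hM : (pCore p (G ⧸ pCore p G)).comap (QuotientGroup.mk' (pCore p G)) ≤ pCore p G := by
    apply Basic.le_pCore (hPn.comap _)
    rintro ⟨x, hx⟩
    obtain ⟨k, hk⟩ := hPp ⟨_, hx⟩
    have h1 : (x ^ p ^ k : G) ∈ pCore p G := by
      rw [← QuotientGroup.eq_one_iff]
      have h2 := congrArg Subtype.val hk
      simpa using h2
    obtain ⟨j, hj⟩ := (Basic.pCore_isPGroup (G := G) p) ⟨_, h1⟩
    refine ⟨k + j, Subtype.ext ?_⟩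
    have h3 := congrArg Subtype.val hj
    simp only [Subgroup.coe_pow, Subgroup.coe_one, SubmonoidClass.mk_pow] at h3 ⊢
    rw [pow_add, pow_mul]
    exact h3
  rw [eq_bot_iff]
  intro y hy
  obtain ⟨x, rfl⟩ := QuotientGroup.mk'_surjective (pCore p G) y
  have h2 : x ∈ pCore p G := hM hy
  rw [Subgroup.mem_bot]
  exact (QuotientGroup.eq_one_iff x).mpr h2

/-- **The lifting step**: an element of `p`-power order outside `O_p(G)` acts nontrivially, after correction by an element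
of `O_p(G)`, on a `q`-subgroup which it normalizes. -/
theorem exists_lift (hG : IsPSolvable p G) {b : G} (hb : ∃ k : ℕ, b ^ p ^ k = 1) (hbO : b ∉ pCore p G) :
    ∃ (q : ℕ) (_ : Fact q.Prime) (R : Subgroup G) (u : G), q ≠ p ∧ IsPGroup q R ∧ u ∈ pCore p G ∧
      u * b ∈ normalizer (R : Set G) ∧ ∃ r ∈ R, (u * b) * r * (u * b)⁻¹ ≠ r := by
  classical
  set O : Subgroup G := pCore p G with hO
  haveI hOn : O.Normal := Basic.pCore_normal p
  let π : G →* G ⧸ O := QuotientGroup.mk' O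
  have hπ : Function.Surjective π := QuotientGroup.mk'_surjective O
  have hcore : pCore p (G ⧸ O) = ⊥ := pCore_quot_self'
  have hGb : IsPSolvable p (G ⧸ O) := isPSolvable_map π hπ hG
  have hC := Cfsg.Agent.Lib.PLocal.centralizer_pPrimeCore_le_of_isPSolvable hGb hcore
  set Kb : Subgroup (G ⧸ O) := pPrimeCore p (G ⧸ O) with hKb
  haveI hKbn : Kb.Normal := Basic.pPrimeCore_normal p
  have hKcop : (Nat.card Kb).Coprime p := Basic.pPrimeCore_coprime p
  set bb : G ⧸ O := π b with hbb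
  obtain ⟨k, hk⟩ := hb
  have hbbk : bb ^ p ^ k = 1 := by rw [hbb, ← map_pow, hk, map_one]
  have hbb1 : bb ≠ 1 := fun h => hbO ((QuotientGroup.eq_one_iff b).mp h)
  have hbbK : bb ∉ Kb := by
    intro h
    apply hbb1
    have h1 : orderOf (⟨bb, h⟩ : Kb) ∣ Nat.card Kb := orderOf_dvd_natCard _
    have h2 : orderOf (⟨bb, h⟩ : Kb) ∣ p ^ k := by
      apply orderOf_dvd_of_pow_eq_one
      exact Subtype.ext hbbk
    have h3 : Nat.Coprime (Nat.card Kb) (p ^ k) := hKcop.pow_right k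
    have h4 := Nat.eq_one_of_dvd_coprimes h3 h1 h2
    rw [orderOf_eq_one_iff] at h4
    exact congrArg Subtype.val h4
  have hnc : bb ∉ centralizer (Kb : Set (G ⧸ O)) := fun h => hbbK (hC h)
  set A : Subgroup (G ⧸ O) := zpowers bb with hA
  have hAK : A ≤ normalizer (Kb : Set (G ⧸ O)) := by
    rw [Subgroup.normalizer_eq_top_iff.mpr hKbn]
    exact le_top
  have hAcard : Nat.card A ∣ p ^ k := by
    rw [hA, Nat.card_zpowers]
    exact orderOf_dvd_of_pow_eq_one hbbk
  have hcop : (Nat.card A).Coprime (Nat.card Kb) :=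
    Nat.Coprime.coprime_dvd_left hAcard (hKcop.symm.pow_left k)
  have hAs : Group.IsSolvable A := by
    haveI : IsCyclic A := Subgroup.isCyclic_zpowers bb
    exact Group.isSolvable_of_comm (IsCyclic.commGroup (α := A)).mul_comm
  -- a Sylow subgroup which is not centralized
  obtain ⟨q, hqf, P, hPn, r₀, hr₀, hr₀ne⟩ : ∃ (q : ℕ) (_ : Fact q.Prime) (P : Sylow q Kb),
      A ≤ normalizer (((P : Subgroup Kb).map Kb.subtype : Subgroup (G ⧸ O)) : Set (G ⧸ O)) ∧
      ∃ r ∈ (P : Subgroup Kb).map Kb.subtype, bb * r * bb⁻¹ ≠ r := by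
    by_contra hcon
    push Not at hcon
    apply hnc
    let L : Subgroup Kb := (centralizer ({bb} : Set (G ⧸ O))).subgroupOf Kb
    have hL : L = ⊤ := by
      rw [← Subgroup.index_eq_one]
      by_contra hne
      obtain ⟨q, hq, hdvd⟩ := Nat.exists_prime_and_dvd hne
      haveI hqf : Fact q.Prime := ⟨hq⟩
      obtain ⟨P, hPn⟩ := Basic.exists_invariant_sylow hAK hcop (Or.inl hAs) q
      have hPL : (P : Subgroup Kb) ≤ L := by
        intro y hy
        refine Subgroup.mem_subgroupOf.mpr ?_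
        rw [Subgroup.mem_centralizer_singleton_iff]
        have h1 := hcon q hqf P hPn (y : G ⧸ O) ⟨y, hy, rfl⟩
        calc (y : G ⧸ O) * bb = (bb * y * bb⁻¹) * bb := by rw [h1]
          _ = bb * y := by group
      have h2 := Subgroup.relIndex_mul_index hPL
      apply P.not_dvd_index
      rw [← h2]
      exact Dvd.dvd.mul_left hdvd _
    rw [Subgroup.mem_centralizer_iff]
    intro y hy
    have h1 : (⟨y, hy⟩ : Kb) ∈ L := by rw [hL]; exact mem_top _
    have h2 := Subgroup.mem_centralizer_singleton_iff.mp (Subgroup.mem_subgroupOf.mp h1)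
    exact h2
  set Rb : Subgroup (G ⧸ O) := (P : Subgroup Kb).map Kb.subtype with hRb
  have hRbq : IsPGroup q Rb := P.isPGroup'.map _
  have hRbK : Rb ≤ Kb := Subgroup.map_subtype_le _
  have hqp : q ≠ p := by
    rintro rfl
    apply hr₀ne
    have h1 : r₀ = 1 := by
      obtain ⟨j, hj⟩ := hRbq ⟨r₀, hr₀⟩
      have h2 : r₀ ^ q ^ j = 1 := congrArg Subtype.val hj
      have h3 : orderOf (⟨r₀, hRbK hr₀⟩ : Kb) ∣ q ^ j := by
        apply orderOf_dvd_of_pow_eq_one
        exact Subtype.ext h2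
      have h4 : orderOf (⟨r₀, hRbK hr₀⟩ : Kb) ∣ Nat.card Kb := orderOf_dvd_natCard _
      have h5 := Nat.eq_one_of_dvd_coprimes (hKcop.pow_right j) h4 h3
      rw [orderOf_eq_one_iff] at h5
      exact congrArg Subtype.val h5
    rw [h1]
    group
  -- the preimage
  set M : Subgroup G := Rb.comap π with hM
  have hOM : O ≤ M := by
    intro x hx
    rw [hM, Subgroup.mem_comap]
    have h1 : π x = 1 := (QuotientGroup.eq_one_iff x).mpr hx
    rw [h1]
    exact one_mem _
  have hbM : ∀ x ∈ M, b * x * b⁻¹ ∈ M := by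
    intro x hx
    rw [hM, Subgroup.mem_comap] at hx ⊢
    rw [map_mul, map_mul, map_inv]
    exact (Subgroup.mem_normalizer_iff.mp (hPn (mem_zpowers bb)) _).mp hx
  obtain ⟨S⟩ : Nonempty (Sylow q M) := inferInstance
  set T : Subgroup G := (S : Subgroup M).map M.subtype with hT
  have hTM : T ≤ M := Subgroup.map_subtype_le _
  have hTq : IsPGroup q T := S.isPGroup'.map _
  have hTrel : ¬ q ∣ T.relIndex M := by
    have h1 : T.subgroupOf M = S := by
      rw [hT]
      exact Subgroup.comap_map_eq_self_of_injective M.subtype_injective _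
    rw [Subgroup.relIndex, h1]
    exact S.not_dvd_index
  -- `T` covers `Rb`
  have hTcov : ∀ x ∈ Rb, ∃ t ∈ T, π t = x := by
    have hle : T.map π ≤ Rb := by
      rintro _ ⟨t, ht, rfl⟩
      exact hTM ht
    have h1 : (T.map π).relIndex Rb = 1 := by
      have h2 : (T.map π).relIndex Rb ∣ Nat.card Rb := Subgroup.relIndex_dvd_card _ _
      obtain ⟨j, hj⟩ := IsPGroup.iff_card.mp hRbq
      rw [hj] at h2
      obtain ⟨i, -, hi⟩ := (Nat.dvd_prime_pow hqf.out).mp h2
      rcases Nat.eq_zero_or_pos i with rfl | hipos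
      · simpa using hi
      · exfalso
        apply hTrel
        have h3 : q ∣ (T.map π).relIndex Rb := by
          rw [hi]
          exact dvd_pow_self q (by omega)
        have h4 : (T.map π).relIndex Rb = ((T.map π).comap π).relIndex M := by
          rw [Subgroup.relIndex_comap, hM, Subgroup.map_comap_eq_self_of_surjective hπ]
        rw [h4] at h3
        have h5 : T ≤ (T.map π).comap π := Subgroup.le_comap_map π T
        exact h3.trans (Subgroup.relIndex_dvd_of_le_left M h5)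
    have h2 := Subgroup.relIndex_eq_one.mp h1
    intro x hx
    obtain ⟨t, ht, rfl⟩ := h2 hx
    exact ⟨t, ht, rfl⟩
  -- the conjugation
  set D : Subgroup G := T.map (MulAut.conj b).toMonoidHom with hD
  have hDM : D ≤ M := by
    rintro _ ⟨t, ht, rfl⟩
    exact hbM t (hTM ht)
  have hDq : IsPGroup q D := hTq.map _
  obtain ⟨m, hmM, hm⟩ := Cfsg.Agent.Lib.Tech.exists_conj_le_of_relIndex hTrel hDM hDq
  have hmb : m * b ∈ normalizer (T : Set G) := by
    apply Cfsg.Agent.Lib.Coprime.mem_normalizer_of_conj_le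
    intro t ht
    have h1 : m * (b * t * b⁻¹) * m⁻¹ ∈ T := hm ⟨_, ⟨t, ht, rfl⟩, rfl⟩
    have h2 : m * b * t * (m * b)⁻¹ = m * (b * t * b⁻¹) * m⁻¹ := by group
    rw [h2]
    exact h1
  obtain ⟨t₀, ht₀, ht₀e⟩ := hTcov (π m) hmM
  set u : G := t₀⁻¹ * m with hu
  have huO : u ∈ O := by
    refine (QuotientGroup.eq_one_iff u).mp ?_
    change π u = 1
    rw [hu, map_mul, map_inv, ht₀e, inv_mul_cancel]
  have hub : u * b ∈ normalizer (T : Set G) := by
    have h1 : u * b = t₀⁻¹ * (m * b) := by rw [hu]; group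
    rw [h1]
    exact mul_mem (inv_mem (Subgroup.le_normalizer ht₀)) hmb
  refine ⟨q, hqf, T, u, hqp, hTq, huO, hub, ?_⟩
  obtain ⟨t₁, ht₁, ht₁e⟩ := hTcov r₀ hr₀
  refine ⟨t₁, ht₁, fun h => hr₀ne ?_⟩
  have h1 := congrArg π h
  have hπu : π u = 1 := (QuotientGroup.eq_one_iff u).mpr huO
  rw [map_mul, map_mul, map_inv, map_mul, hπu, one_mul, ht₁e] at h1
  exact h1

end Lift

section Odd

variable {H : Type*} [Group H] [Finite H] {p q : ℕ} [hpf : Fact p.Prime] [hqf : Fact q.Prime]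

/-- The odd case of the main argument, in the Frattini quotient. -/
theorem odd_comm (hqp : q ≠ p) (V : Subgroup H) [hVn : V.Normal] (hVc : ∀ x ∈ V, ∀ y ∈ V, x * y = y * x)
    (hVp : IsPGroup p V) (R : Subgroup H) (hRq : IsPGroup q R) (c : H) (hcR : c ∈ normalizer (R : Set H))
    (z : H) (hzV : z ∈ V) (hzR : ∀ r ∈ R, r * z = z * r) (hzc : c * z = z * c)
    (hcV : ∀ x ∈ V, ∃ m : ℕ, c * x * c⁻¹ * x⁻¹ = z ^ m) : ⁅V, ⁅R, zpowers c⁆⁆ = ⊥ := by
  classical
  set C : Subgroup H := V ⊓ centralizer (R : Set H) with hC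
  have hzC : z ∈ C := ⟨hzV, Subgroup.mem_centralizer_iff.mpr fun r hr => hzR r hr⟩
  have hVconj : ∀ g x : H, x ∈ V → g * x * g⁻¹ ∈ V := fun g x hx => hVn.conj_mem x hx g
  -- `T`: the elements acting trivially on `V / C`
  let T : Subgroup H :=
    { carrier := {g | g ∈ normalizer (C : Set H) ∧ ∀ x ∈ V, g * x * g⁻¹ * x⁻¹ ∈ C}
      one_mem' := ⟨one_mem _, fun x _ => by simp [one_mem]⟩
      mul_mem' := by
        rintro a b ⟨ha, ha'⟩ ⟨hb, hb'⟩
        refine ⟨mul_mem ha hb, fun x hx => ?_⟩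
        have h1 : a * b * x * (a * b)⁻¹ * x⁻¹ = a * (b * x * b⁻¹ * x⁻¹) * a⁻¹ * (a * x * a⁻¹ * x⁻¹) := by group
        rw [h1]
        exact mul_mem ((Subgroup.mem_normalizer_iff.mp ha _).mp (hb' x hx)) (ha' x hx)
      inv_mem' := by
        rintro a ⟨ha, ha'⟩
        refine ⟨inv_mem ha, fun x hx => ?_⟩
        have hy : a⁻¹ * x * a ∈ V := by
          have := hVconj a⁻¹ x hx
          simpa using this
        have h3 := ha' _ hy
        have h4 : a * (a⁻¹ * x * a) * a⁻¹ * (a⁻¹ * x * a)⁻¹ = x * (a⁻¹ * x * a)⁻¹ := by group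
        rw [h4] at h3
        have h5 : a⁻¹ * x * a⁻¹⁻¹ * x⁻¹ = (x * (a⁻¹ * x * a)⁻¹)⁻¹ := by group
        rw [h5]
        exact inv_mem h3 }
  have hcn : c ∈ normalizer (C : Set H) := by
    apply Cfsg.Agent.Lib.Coprime.mem_normalizer_of_conj_le
    rintro w ⟨hw1, hw2⟩
    refine ⟨hVconj c w hw1, ?_⟩
    have hw2' : w ∈ centralizer (R : Set H) := hw2
    change c * w * c⁻¹ ∈ centralizer (R : Set H)
    rw [Subgroup.mem_centralizer_iff] at hw2' ⊢
    intro r hr
    have hr' : c⁻¹ * r * c ∈ R := by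
      have := (Subgroup.mem_normalizer_iff.mp (inv_mem hcR) r).mp hr
      simpa using this
    have h1 := hw2' _ hr'
    calc r * (c * w * c⁻¹) = c * ((c⁻¹ * r * c) * w) * c⁻¹ := by group
      _ = c * (w * (c⁻¹ * r * c)) * c⁻¹ := by rw [h1]
      _ = c * w * c⁻¹ * r := by group
  have hcT : c ∈ T := by
    refine ⟨hcn, fun x hx => ?_⟩
    obtain ⟨m, hm⟩ := hcV x hx
    rw [hm]
    exact pow_mem hzC m
  have hrC : ∀ r ∈ R, ∀ w ∈ C, r * w * r⁻¹ = w := by
    rintro r hr w ⟨-, hw2⟩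
    have h1 := Subgroup.mem_centralizer_iff.mp hw2 r hr
    rw [h1]
    group
  have hrn : ∀ r ∈ R, r ∈ normalizer (C : Set H) := by
    intro r hr
    apply Cfsg.Agent.Lib.Coprime.mem_normalizer_of_conj_le
    intro w hw
    rw [hrC r hr w hw]
    exact hw
  have hrT : ∀ r ∈ R, ∀ y ∈ T, r * y * r⁻¹ ∈ T := by
    rintro r hr y ⟨hy1, hy2⟩
    refine ⟨mul_mem (mul_mem (hrn r hr) hy1) (inv_mem (hrn r hr)), fun x hx => ?_⟩
    have hx' : r⁻¹ * x * r ∈ V := by
      have := hVconj r⁻¹ x hx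
      simpa using this
    have h1 := hy2 _ hx'
    have h2 : r * y * r⁻¹ * x * (r * y * r⁻¹)⁻¹ * x⁻¹ =
        r * (y * (r⁻¹ * x * r) * y⁻¹ * (r⁻¹ * x * r)⁻¹) * r⁻¹ := by group
    rw [h2, hrC r hr _ h1]
    exact h1
  have hzT : zpowers c ≤ T := Subgroup.zpowers_le.mpr hcT
  set Q : Subgroup H := ⁅R, zpowers c⁆ with hQ
  have hQT : Q ≤ T := by
    rw [hQ, Subgroup.commutator_le]
    intro r hr y hy
    rw [commutatorElement_def]
    exact mul_mem (hrT r hr y (hzT hy)) (inv_mem (hzT hy))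
  have hQR : Q ≤ R := by
    rw [hQ, Subgroup.commutator_le]
    intro r hr y hy
    have hyn : y ∈ normalizer (R : Set H) := (Subgroup.zpowers_le.mpr hcR) hy
    have h1 := (Subgroup.mem_normalizer_iff.mp hyn _).mp (inv_mem hr)
    have h2 : ⁅r, y⁆ = r * (y * r⁻¹ * y⁻¹) := by
      rw [commutatorElement_def]
      group
    rw [h2]
    exact mul_mem hr h1
  have h1 : ⁅V, Q⁆ ≤ C := by
    rw [Subgroup.commutator_le]
    intro x hx g hg
    have h2 := (hQT hg).2 x hx
    have h3 : ⁅x, g⁆ = (g * x * g⁻¹ * x⁻¹)⁻¹ := by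
      rw [commutatorElement_def]
      group
    rw [h3]
    exact inv_mem h2
  have h2 : ⁅⁅V, Q⁆, Q⁆ = ⊥ := by
    rw [Subgroup.commutator_eq_bot_iff_le_centralizer]
    intro w hw
    rw [Subgroup.mem_centralizer_iff]
    intro g hg
    exact Subgroup.mem_centralizer_iff.mp (h1 hw).2 g (hQR hg)
  have hact : CoprimeAction Q V := by
    refine ⟨?_, ?_, Or.inr ?_⟩
    · rw [Subgroup.normalizer_eq_top_iff.mpr hVn]
      exact le_top
    · exact IsPGroup.coprime_card_of_ne q p hqp Q V (hRq.to_le hQR) hVp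
    · exact Group.isSolvable_of_comm fun a b => Subtype.ext (hVc a a.2 b b.2)
  exact hact.commutator_eq_bot_of_commutator_commutator h2

end Odd

section Frat

variable {G : Type*} [Group G] [Finite G] {p q : ℕ} [hpf : Fact p.Prime] [hqf : Fact q.Prime]

/-- A `p`-group and a `q`-group meet trivially. -/
theorem eq_one_of_mem_of_mem {A B : Subgroup G} (hqp : q ≠ p) (hA : IsPGroup q A) (hB : IsPGroup p B) {x : G}
    (hxA : x ∈ A) (hxB : x ∈ B) : x = 1 := by
  obtain ⟨i, hi⟩ := hA ⟨x, hxA⟩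
  obtain ⟨j, hj⟩ := hB ⟨x, hxB⟩
  have h1 : x ^ q ^ i = 1 := congrArg Subtype.val hi
  have h2 : x ^ p ^ j = 1 := congrArg Subtype.val hj
  have h3 := orderOf_dvd_of_pow_eq_one h1
  have h4 := orderOf_dvd_of_pow_eq_one h2
  have h5 : Nat.Coprime (q ^ i) (p ^ j) :=
    Nat.Coprime.pow _ _ ((Nat.coprime_primes hqf.out hpf.out).mpr hqp)
  have h6 := Nat.eq_one_of_dvd_coprimes h5 h3 h4
  exact orderOf_eq_one_iff.mp h6

/-- The Frattini subgroup of `O_p(G)`. -/
noncomputable abbrev Phi (p : ℕ) (G : Type*) [Group G] : Subgroup G := (frattini ↥(pCore p G)).map (pCore p G).subtype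

instance phi_normal : (Phi p G).Normal := by
  haveI : (pCore p G).Normal := Basic.pCore_normal p
  exact PLen.normal_map_of_characteristic _

theorem phi_le : Phi p G ≤ pCore p G := Subgroup.map_subtype_le _

theorem comm_mem_phi {x y : G} (hx : x ∈ pCore p G) (hy : y ∈ pCore p G) : ⁅x, y⁆ ∈ Phi p G := by
  have hp : IsPGroup p ↥(pCore p G) := Basic.pCore_isPGroup p
  haveI := hp.isNilpotent
  have h1 : ⁅(⟨x, hx⟩ : ↥(pCore p G)), ⟨y, hy⟩⁆ ∈ commutator ↥(pCore p G) :=
    Subgroup.commutator_mem_commutator (mem_top _) (mem_top _)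
  exact ⟨_, Basic.commutator_le_frattini_of_isNilpotent h1, rfl⟩

theorem pow_mem_phi {x : G} (hx : x ∈ pCore p G) : x ^ p ∈ Phi p G := by
  have hp : IsPGroup p ↥(pCore p G) := Basic.pCore_isPGroup p
  exact ⟨_, Basic.pow_mem_frattini_of_isPGroup hp ⟨x, hx⟩, rfl⟩

/-- A `q`-group acting trivially on the Frattini quotient of `O_p(G)` is trivial. -/
theorem eq_bot_of_frat (hG : IsPSolvable p G) (hO : pPrimeCore p G = ⊥) (hqp : q ≠ p) (Q : Subgroup G) (hq : IsPGroup q Q)
    (hQ : ∀ g ∈ Q, ∀ x ∈ pCore p G, g * x * g⁻¹ * x⁻¹ ∈ Phi p G) : Q = ⊥ := by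
  haveI hOn : (pCore p G).Normal := Basic.pCore_normal p
  have hOp : IsPGroup p ↥(pCore p G) := Basic.pCore_isPGroup p
  have hact : CoprimeAction Q (pCore p G) := by
    refine ⟨?_, ?_, Or.inr ?_⟩
    · rw [Subgroup.normalizer_eq_top_iff.mpr hOn]
      exact le_top
    · exact IsPGroup.coprime_card_of_ne q p hqp Q _ hq hOp
    · haveI := hOp.isNilpotent
      infer_instance
  have hc : ⁅pCore p G, Q⁆ ≤ (frattini ↥(pCore p G)).map (pCore p G).subtype := by
    rw [Subgroup.commutator_le]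
    intro x hx g hg
    have h3 : ⁅x, g⁆ = (g * x * g⁻¹ * x⁻¹)⁻¹ := by
      rw [commutatorElement_def]
      group
    rw [h3]
    exact inv_mem (hQ g hg x hx)
  have h1 := hact.commutator_eq_bot_of_le_frattini hc
  rw [eq_bot_iff]
  intro g hg
  have h2 : g ∈ centralizer (pCore p G : Set G) := by
    rw [Subgroup.mem_centralizer_iff]
    intro x hx
    have h3 : ⁅x, g⁆ ∈ ⁅pCore p G, Q⁆ := Subgroup.commutator_mem_commutator hx hg
    rw [h1, Subgroup.mem_bot] at h3
    exact commutatorElement_eq_one_iff_mul_comm.mp h3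
  have h3 := Cfsg.Agent.Lib.Char.centralizer_pCore_le_of_isPSolvable hG hO h2
  rw [Subgroup.mem_bot]
  exact eq_one_of_mem_of_mem hqp hq hOp hg h3

end Frat

section B

variable {G : Type*} [Group G] {p : ℕ} [hpf : Fact p.Prime]

/-- The choice of `b`. -/
theorem exists_b (A O : Subgroup G) (a : G) (hgen : ∀ x ∈ A, ∃ i : ℕ, x = a ^ i) (haA : a ∈ A) {n₀ : ℕ}
    (hap : a ^ p ^ n₀ = 1) (hne : ¬ A ≤ O) :
    ∃ b ∈ A, b ∉ O ∧ b ^ p ∈ O ∧ ∀ x ∈ A, x ∈ O → ∃ m : ℕ, x = (b ^ p) ^ m := by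
  classical
  have haO : a ∉ O := by
    intro h
    apply hne
    intro x hx
    obtain ⟨i, rfl⟩ := hgen x hx
    exact pow_mem h i
  have hex : ∃ k : ℕ, a ^ p ^ k ∈ O := ⟨n₀, by rw [hap]; exact one_mem _⟩
  set k := Nat.find hex with hk
  have hk0 : k ≠ 0 := by
    intro h0
    have h1 := Nat.find_spec hex
    rw [← hk, h0, pow_zero, pow_one] at h1
    exact haO h1
  obtain ⟨j, hj⟩ := Nat.exists_eq_succ_of_ne_zero hk0
  have hbp : (a ^ p ^ j) ^ p = a ^ p ^ k := by
    rw [← pow_mul, hj, pow_succ]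
  refine ⟨a ^ p ^ j, pow_mem haA _, ?_, ?_, ?_⟩
  · exact Nat.find_min hex (by omega : j < Nat.find hex)
  · rw [hbp]
    exact Nat.find_spec hex
  · intro x hxA hxO
    obtain ⟨i, rfl⟩ := hgen x hxA
    rw [hbp]
    have ho : orderOf a ∣ p ^ n₀ := orderOf_dvd_of_pow_eq_one hap
    set g := Nat.gcd i (orderOf a) with hg
    have h1 : a ^ g ∈ O := by
      have h2 : (g : ℤ) = i * Nat.gcdA i (orderOf a) + orderOf a * Nat.gcdB i (orderOf a) := Nat.gcd_eq_gcd_ab _ _
      have h3 : a ^ g = (a ^ i) ^ Nat.gcdA i (orderOf a) := by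
        rw [← zpow_natCast a g, h2, zpow_add, zpow_mul, zpow_mul, zpow_natCast, zpow_natCast, pow_orderOf_eq_one, one_zpow,
          mul_one]
      rw [h3]
      exact Subgroup.zpow_mem _ hxO _
    obtain ⟨s, -, hs⟩ := (Nat.dvd_prime_pow hpf.out).mp ((Nat.gcd_dvd_right i (orderOf a)).trans ho)
    have hs' : g = p ^ s := hs
    rw [hs'] at h1
    have h2 : k ≤ s := Nat.find_min' hex h1
    have h3 : p ^ k ∣ i := by
      have h4 : p ^ k ∣ g := by
        rw [hs']
        exact pow_dvd_pow p h2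
      exact h4.trans (Nat.gcd_dvd_left _ _)
    obtain ⟨m, rfl⟩ := h3
    exact ⟨m, by rw [pow_mul]⟩

end B

section Inverted

variable {G : Type*} [Group G] [Finite G] {q : ℕ} [hqf : Fact q.Prime]

/-- An involution acting nontrivially on a group of odd prime power order inverts an element of order `q`. -/
theorem exists_inverted (hq2 : q ≠ 2) (R : Subgroup G) (hRq : IsPGroup q R) {c : G} (hcR : c ∈ normalizer (R : Set G))
    (hc2 : ∀ r ∈ R, c * c * r * (c * c)⁻¹ = r) {r₀ : G} (hr₀ : r₀ ∈ R) (hne : c * r₀ * c⁻¹ ≠ r₀) :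
    ∃ s t : G, s ≠ 1 ∧ s ^ q = 1 ∧ c * s * c⁻¹ = s⁻¹ ∧ t ∈ zpowers s ∧ s = t * (c * t⁻¹ * c⁻¹) := by
  set w : G := r₀⁻¹ * (c * r₀ * c⁻¹) with hw
  have hw1 : w ≠ 1 := by
    intro h
    apply hne
    rw [hw, inv_mul_eq_one] at h
    exact h.symm
  have hwc : c * w * c⁻¹ = w⁻¹ := by
    have h1 := hc2 r₀ hr₀
    calc c * w * c⁻¹ = (c * r₀ * c⁻¹)⁻¹ * (c * c * r₀ * (c * c)⁻¹) := by
          rw [hw]
          group
      _ = w⁻¹ := by
          rw [h1, hw]
          group
  have hwR : w ∈ R := by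
    rw [hw]
    exact mul_mem (inv_mem hr₀) ((Subgroup.mem_normalizer_iff.mp hcR r₀).mp hr₀)
  obtain ⟨e, he⟩ := hRq ⟨w, hwR⟩
  have he' : w ^ q ^ e = 1 := congrArg Subtype.val he
  obtain ⟨k, hk⟩ : ∃ k, orderOf w = q ^ (k + 1) := by
    obtain ⟨i, -, hi⟩ := (Nat.dvd_prime_pow hqf.out).mp (orderOf_dvd_of_pow_eq_one he')
    rcases i with _ | k
    · exfalso
      rw [pow_zero, orderOf_eq_one_iff] at hi
      exact hw1 hi
    · exact ⟨k, hi⟩
  set s : G := w ^ q ^ k with hs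
  have hs1 : s ≠ 1 := by
    rw [hs]
    apply pow_ne_one_of_lt_orderOf (Nat.pos_iff_ne_zero.mp (pow_pos hqf.out.pos k))
    rw [hk, pow_succ]
    exact lt_mul_of_one_lt_right (pow_pos hqf.out.pos k) hqf.out.one_lt
  have hsq : s ^ q = 1 := by
    rw [hs, ← pow_mul, ← pow_succ, ← hk]
    exact pow_orderOf_eq_one w
  have hsc : c * s * c⁻¹ = s⁻¹ := by
    rw [hs, ← conj_pow, hwc, inv_pow]
  have hqodd : Odd q := hqf.out.odd_of_ne_two hq2
  obtain ⟨d, hd⟩ := hqodd
  set t : G := s ^ (d + 1) with ht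
  have htt : t * t = s := by
    rw [ht, ← pow_add]
    have h1 : d + 1 + (d + 1) = q + 1 := by omega
    rw [h1, pow_succ, hsq, one_mul]
  have htc : c * t⁻¹ * c⁻¹ = t := by
    have h1 : c * t⁻¹ * c⁻¹ = (c * t * c⁻¹)⁻¹ := by group
    rw [h1, ht, ← conj_pow, hsc, inv_pow, inv_inv]
  refine ⟨s, t, hs1, hsq, hsc, ?_, ?_⟩
  · rw [ht]
    exact pow_mem (mem_zpowers s) _
  · rw [htc, htt]

end Inverted

section S4

variable {H : Type*} [Group H] [Finite H]

/-- A normal four-subgroup of the normalizer: a section `S₄`. -/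
theorem S4_of (W₀ : Subgroup H) (hcard : Nat.card W₀ = 4) (hcomm : ∀ x ∈ W₀, ∀ y ∈ W₀, x * y = y * x)
    (hexp : ∀ x ∈ W₀, x * x = 1) (a u : H) (haN : a ∈ normalizer (W₀ : Set H)) (huN : u ∈ normalizer (W₀ : Set H))
    (ha2 : ∃ k : ℕ, a ^ 2 ^ k = 1) (hanc : ∃ w ∈ W₀, a * w * a⁻¹ ≠ w) (hu3 : ∃ k : ℕ, orderOf u = 3 ^ k)
    (hunc : ∃ w ∈ W₀, u * w * u⁻¹ ≠ w) : Involves (Equiv.Perm (Fin 4)) H := by
  classical
  obtain ⟨p₀, hp₀, hp₀ne⟩ := hanc
  set q₀ : H := a * p₀ * a⁻¹ with hq₀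
  have hq₀W : q₀ ∈ W₀ := (Subgroup.mem_normalizer_iff.mp haN p₀).mp hp₀
  have hinv : ∀ x ∈ W₀, x⁻¹ = x := fun x hx => inv_eq_of_mul_eq_one_left (hexp x hx)
  have hp₀1 : p₀ ≠ 1 := by
    intro h
    apply hp₀ne
    rw [hq₀, h]
    group
  have hq₀1 : q₀ ≠ 1 := by
    intro h
    apply hp₀1
    have h1 : p₀ = a⁻¹ * q₀ * a := by
      rw [hq₀]
      group
    rw [h1, h]
    group
  have hpq : p₀ ≠ q₀ := fun h => hp₀ne h.symm
  have hpq1 : p₀ * q₀ ≠ 1 := by
    intro h
    apply hpq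
    have h1 := eq_inv_of_mul_eq_one_left h
    rw [hinv _ hq₀W] at h1
    exact h1
  have hpqp : p₀ * q₀ ≠ p₀ := by
    intro h
    exact hq₀1 (mul_left_cancel (h.trans (mul_one p₀).symm))
  have hpqq : p₀ * q₀ ≠ q₀ := by
    intro h
    exact hp₀1 (mul_right_cancel (h.trans (one_mul q₀).symm))
  have hall : ∀ t ∈ W₀, t = 1 ∨ t = p₀ ∨ t = q₀ ∨ t = p₀ * q₀ := by
    intro t ht
    by_contra hcon
    push Not at hcon
    obtain ⟨h1, h2, h3, h4⟩ := hcon
    let S : Finset H := {1, p₀, q₀, p₀ * q₀, t}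
    have hSc : S.card = 5 := by
      rw [Finset.card_insert_of_notMem, Finset.card_insert_of_notMem, Finset.card_insert_of_notMem,
        Finset.card_insert_of_notMem, Finset.card_singleton]
      · simp only [Finset.mem_singleton]
        exact h4.symm
      · simp only [Finset.mem_insert, Finset.mem_singleton]
        push Not
        exact ⟨hpqq.symm, h3.symm⟩
      · simp only [Finset.mem_insert, Finset.mem_singleton]
        push Not
        exact ⟨hpq, hpqp.symm, h2.symm⟩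
      · simp only [Finset.mem_insert, Finset.mem_singleton]
        push Not
        exact ⟨hp₀1.symm, hq₀1.symm, hpq1.symm, h1.symm⟩
    have hSW : ∀ x ∈ S, x ∈ W₀ := by
      intro x hx
      simp only [S, Finset.mem_insert, Finset.mem_singleton] at hx
      rcases hx with rfl | rfl | rfl | rfl | rfl
      · exact one_mem _
      · exact hp₀
      · exact hq₀W
      · exact mul_mem hp₀ hq₀W
      · exact ht
    haveI : Fintype W₀ := Fintype.ofFinite _
    have h5 : S.card ≤ Fintype.card W₀ := by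
      let f : S → W₀ := fun x => ⟨x.1, hSW x.1 x.2⟩
      have hf : Function.Injective f := fun x y h => Subtype.ext (congrArg (fun w : W₀ => (w : H)) h)
      have := Fintype.card_le_of_injective f hf
      rwa [Fintype.card_coe] at this
    rw [Fintype.card_eq_nat_card, hcard, hSc] at h5
    omega
  have hqa : a * q₀ * a⁻¹ = p₀ := by
    have h1 : a * q₀ * a⁻¹ ∈ W₀ := (Subgroup.mem_normalizer_iff.mp haN q₀).mp hq₀W
    rcases hall _ h1 with h | h | h | h
    · exfalso
      apply hq₀1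
      have h2 : q₀ = a⁻¹ * (a * q₀ * a⁻¹) * a := by group
      rw [h2, h]
      group
    · exact h
    · exfalso
      apply hpq
      have h2 : a * q₀ * a⁻¹ = a * p₀ * a⁻¹ := h.trans hq₀
      have h3 : q₀ = p₀ := by
        have := mul_left_cancel (mul_right_cancel h2)
        exact this
      exact h3.symm
    · exfalso
      -- a three-cycle
      obtain ⟨k, hk⟩ := ha2
      have hpq0 : a * (p₀ * q₀) * a⁻¹ = p₀ := by
        have e1 : a * (p₀ * q₀) * a⁻¹ = (a * p₀ * a⁻¹) * (a * q₀ * a⁻¹) := by group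
        rw [e1, ← hq₀, h, ← mul_assoc, hcomm _ hq₀W _ hp₀, mul_assoc, hexp _ hq₀W, mul_one]
      have h3 : a ^ 3 * p₀ * (a ^ 3)⁻¹ = p₀ := by
        have e1 : a ^ 3 * p₀ * (a ^ 3)⁻¹ = a * (a * (a * p₀ * a⁻¹) * a⁻¹) * a⁻¹ := by
          simp only [pow_succ, pow_zero, one_mul]
          group
        rw [e1, ← hq₀, h, hpq0]
      have hc3 : Commute (a ^ 3) p₀ := by
        change a ^ 3 * p₀ = p₀ * a ^ 3
        calc a ^ 3 * p₀ = (a ^ 3 * p₀ * (a ^ 3)⁻¹) * a ^ 3 := by group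
          _ = p₀ * a ^ 3 := by rw [h3]
      have hcop : Nat.Coprime 3 (orderOf a) := by
        have h4 : orderOf a ∣ 2 ^ k := orderOf_dvd_of_pow_eq_one hk
        exact Nat.Coprime.coprime_dvd_right h4 (Nat.Coprime.pow_right k (by decide))
      obtain ⟨m, hm⟩ := exists_pow_eq_self_of_coprime hcop
      have hc1 : Commute a p₀ := by
        have := hc3.pow_left m
        rwa [hm] at this
      apply hp₀ne
      rw [hq₀, hc1.eq]
      group
  have hpqfix : a * (p₀ * q₀) * a⁻¹ = p₀ * q₀ := by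
    have e1 : a * (p₀ * q₀) * a⁻¹ = (a * p₀ * a⁻¹) * (a * q₀ * a⁻¹) := by group
    rw [e1, ← hq₀, hqa, hcomm _ hq₀W _ hp₀]
  -- the section
  set Γ : Subgroup H := normalizer (W₀ : Set H) with hΓ
  have hWΓ : W₀ ≤ Γ := Subgroup.le_normalizer
  let W : Subgroup Γ := W₀.subgroupOf Γ
  haveI hWn : W.Normal := by
    constructor
    intro x hx g
    refine Subgroup.mem_subgroupOf.mpr ?_
    exact (Subgroup.mem_normalizer_iff.mp g.2 _).mp (Subgroup.mem_subgroupOf.mp hx)
  have hWc : Nat.card W = 4 := by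
    rw [← hcard]
    exact Nat.card_congr (Subgroup.subgroupOfEquivOfLe hWΓ).toEquiv
  have hmemW : ∀ (x : H) (hx : x ∈ W₀), (⟨x, hWΓ hx⟩ : Γ) ∈ W := fun x hx => Subgroup.mem_subgroupOf.mpr hx
  have hmain : Involves (Equiv.Perm (Fin 4)) Γ := by
    refine Cfsg.Agent.Lib.LocalEven.involves_S4_of_normal W hWc ⟨a, haN⟩ ⟨u, huN⟩ ?_ ?_ ?_
    · refine ⟨⟨⟨p₀, hWΓ hp₀⟩, hmemW _ hp₀⟩, ⟨⟨q₀, hWΓ hq₀W⟩, hmemW _ hq₀W⟩, ?_, ?_, ?_, ?_⟩
      · intro h
        exact hpq (congrArg (fun x : W => ((x : Γ) : H)) h)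
      · exact Subtype.ext rfl
      · exact Subtype.ext hqa
      · rintro ⟨⟨t, htΓ⟩, htW⟩ h1 h2
        have ht0 : t ∈ W₀ := Subgroup.mem_subgroupOf.mp htW
        apply Subtype.ext
        change a * t * a⁻¹ = t
        rcases hall t ht0 with rfl | rfl | rfl | rfl
        · group
        · exact (h1 rfl).elim
        · exact (h2 rfl).elim
        · exact hpqfix
    · obtain ⟨k, hk⟩ := hu3
      exact ⟨k, by rw [Subgroup.orderOf_mk]; exact hk⟩
    · obtain ⟨w, hw, hw2⟩ := hunc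
      refine ⟨⟨w, hWΓ hw⟩, hmemW _ hw, fun h => hw2 (congrArg Subtype.val h)⟩
  exact Cfsg.Agent.Lib.Fusion.Qd.involves_of_subgroup Γ hmain

/-- The even case, in the Frattini quotient. -/
theorem even_S4 {q : ℕ} [hqf : Fact q.Prime] (hq2 : q ≠ 2) (V : Subgroup H) [hVn : V.Normal]
    (hVc : ∀ x ∈ V, ∀ y ∈ V, x * y = y * x) (hV2 : ∀ x ∈ V, x * x = 1) (s t c z : H) (hzV : z ∈ V)
    (hz : ∀ x ∈ V, c * x * c⁻¹ * x⁻¹ = 1 ∨ c * x * c⁻¹ * x⁻¹ = z) (hc2 : ∃ k : ℕ, c ^ 2 ^ k = 1)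
    (hsq : s ^ q = 1) (hs1 : ∃ x ∈ V, s * x * s⁻¹ ≠ x) (hcs : c * s * c⁻¹ = s⁻¹) (ht : t ∈ zpowers s)
    (hst : s = t * (c * t⁻¹ * c⁻¹)) : Involves (Equiv.Perm (Fin 4)) H := by
  classical
  have hVconj : ∀ g x : H, x ∈ V → g * x * g⁻¹ ∈ V := fun g x hx => hVn.conj_mem x hx g
  have hVconj' : ∀ g x : H, x ∈ V → g⁻¹ * x * g ∈ V := fun g x hx => by
    have := hVn.conj_mem x hx g⁻¹
    simpa using this
  have hVinv : ∀ x ∈ V, x⁻¹ = x := fun x hx => inv_eq_of_mul_eq_one_left (hV2 x hx)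
  let W : Subgroup H :=
    { carrier := {w | ∃ x ∈ V, w = s * x * s⁻¹ * x⁻¹}
      one_mem' := ⟨1, one_mem _, by group⟩
      mul_mem' := by
        rintro _ _ ⟨x, hx, rfl⟩ ⟨y, hy, rfl⟩
        refine ⟨x * y, mul_mem hx hy, ?_⟩
        have h1 : x⁻¹ * (s * y * s⁻¹) = (s * y * s⁻¹) * x⁻¹ := hVc _ (inv_mem hx) _ (hVconj s y hy)
        have h2 : x⁻¹ * y⁻¹ = y⁻¹ * x⁻¹ := hVc _ (inv_mem hx) _ (inv_mem hy)
        calc s * x * s⁻¹ * x⁻¹ * (s * y * s⁻¹ * y⁻¹) = (s * x * s⁻¹) * (x⁻¹ * (s * y * s⁻¹)) * y⁻¹ := by group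
          _ = (s * x * s⁻¹) * (s * y * s⁻¹) * (x⁻¹ * y⁻¹) := by rw [h1]; group
          _ = s * (x * y) * s⁻¹ * (x * y)⁻¹ := by rw [h2]; group
      inv_mem' := by
        rintro _ ⟨x, hx, rfl⟩
        refine ⟨x⁻¹, inv_mem hx, ?_⟩
        have h1 : x * (s * x⁻¹ * s⁻¹) = (s * x⁻¹ * s⁻¹) * x := hVc _ hx _ (hVconj s _ (inv_mem hx))
        calc (s * x * s⁻¹ * x⁻¹)⁻¹ = x * (s * x⁻¹ * s⁻¹) := by group
          _ = (s * x⁻¹ * s⁻¹) * x := h1
          _ = s * x⁻¹ * s⁻¹ * x⁻¹⁻¹ := by group }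
  have hmemW : ∀ w, w ∈ W ↔ ∃ x ∈ V, w = s * x * s⁻¹ * x⁻¹ := fun w => Iff.rfl
  have hWV : W ≤ V := by
    rintro _ ⟨x, hx, rfl⟩
    exact mul_mem (hVconj s x hx) (inv_mem hx)
  -- the bound
  set z' : H := t * z * t⁻¹ with hz'
  have hz'V : z' ∈ V := hVconj t z hzV
  have hbound : ∀ w ∈ W, w = 1 ∨ w = z ∨ w = z' ∨ w = z' * z := by
    rintro _ ⟨x, hx, rfl⟩
    set x₁ : H := c⁻¹ * x * c with hx₁
    have hx₁V : x₁ ∈ V := hVconj' c x hx
    set x₂ : H := t⁻¹ * x₁ * t with hx₂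
    have hx₂V : x₂ ∈ V := hVconj' t x₁ hx₁V
    have he1 : x * x₁⁻¹ = 1 ∨ x * x₁⁻¹ = z := by
      have h1 := hz x₁ hx₁V
      have h2 : c * x₁ * c⁻¹ = x := by
        rw [hx₁]
        group
      rwa [h2] at h1
    have he2 := hz x₂ hx₂V
    have hcx₂ : c * x₂ * c⁻¹ = (c * x₂ * c⁻¹ * x₂⁻¹) * x₂ := by group
    have h3 : s * x * s⁻¹ * x⁻¹ = (t * (c * x₂ * c⁻¹ * x₂⁻¹) * t⁻¹) * (x₁ * x⁻¹) := by
      have e1 : s * x * s⁻¹ = t * (c * (t⁻¹ * (c⁻¹ * x * c) * t) * c⁻¹) * t⁻¹ := by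
        conv_lhs => rw [hst]
        group
      rw [e1, ← hx₁, ← hx₂, hcx₂]
      have e2 : t * x₂ * t⁻¹ = x₁ := by
        rw [hx₂]
        group
      calc t * ((c * x₂ * c⁻¹ * x₂⁻¹) * x₂) * t⁻¹ * x⁻¹
          = (t * (c * x₂ * c⁻¹ * x₂⁻¹) * t⁻¹) * (t * x₂ * t⁻¹) * x⁻¹ := by group
        _ = _ := by rw [e2]; group
    have h4 : x₁ * x⁻¹ = 1 ∨ x₁ * x⁻¹ = z := by
      have h5 : x₁ * x⁻¹ = (x * x₁⁻¹)⁻¹ := by group
      rw [h5]
      rcases he1 with h | h
      · left
        rw [h, inv_one]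
      · right
        rw [h, hVinv z hzV]
    rw [h3]
    rcases he2 with h | h <;> rcases h4 with h' | h' <;> rw [h, h']
    · left
      group
    · right; left
      group
    · right; right; left
      simp only [mul_one, hz']
    · right; right; right
      rfl
  have hWcard : Nat.card W ≤ 4 := by
    let S : Finset H := {1, z, z', z' * z}
    have hSW : ∀ w : W, (w : H) ∈ S := by
      intro w
      simp only [S, Finset.mem_insert, Finset.mem_singleton]
      exact hbound _ w.2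
    haveI : Fintype W := Fintype.ofFinite _
    let f : W → S := fun x => ⟨x.1, hSW x⟩
    have hf : Function.Injective f := fun x y h => Subtype.ext (congrArg (fun w : S => (w : H)) h)
    have h1 := Fintype.card_le_of_injective f hf
    rw [Fintype.card_coe] at h1
    have h2 : S.card ≤ 4 := Finset.card_le_four
    rw [Nat.card_eq_fintype_card]
    omega
  -- `s` normalizes `W`
  have hsN : s ∈ normalizer (W : Set H) := by
    apply Cfsg.Agent.Lib.Coprime.mem_normalizer_of_conj_le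
    rintro _ ⟨x, hx, rfl⟩
    refine ⟨s * x * s⁻¹, hVconj s x hx, ?_⟩
    group
  have hsW : ∀ g ∈ zpowers s, g ∈ normalizer (W : Set H) := fun g hg => (Subgroup.zpowers_le.mpr hsN) hg
  have hcN : c ∈ normalizer (W : Set H) := by
    apply Cfsg.Agent.Lib.Coprime.mem_normalizer_of_conj_le
    rintro _ ⟨x, hx, rfl⟩
    set X : H := c * x * c⁻¹ with hX
    have hXV : X ∈ V := hVconj c x hx
    set Y : H := s⁻¹ * X * s with hY
    have hYV : Y ∈ V := hVconj' s X hXV
    have h1 : c * (s * x * s⁻¹ * x⁻¹) * c⁻¹ = (s * Y * s⁻¹ * Y⁻¹)⁻¹ := by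
      have e1 : c * (s * x * s⁻¹ * x⁻¹) * c⁻¹ = (c * s * c⁻¹) * X * (c * s * c⁻¹)⁻¹ * X⁻¹ := by
        rw [hX]
        group
      rw [e1, hcs, hY]
      group
    rw [h1]
    exact inv_mem ⟨Y, hYV, rfl⟩
  -- fixed point freeness
  have hfpf : ∀ w ∈ W, s * w * s⁻¹ = w → w = 1 := by
    rintro w ⟨x, hx, hw⟩ hfix
    have h1 : s * x * s⁻¹ = w * x := by
      rw [hw]
      group
    have h2 : ∀ n : ℕ, s ^ n * x * (s ^ n)⁻¹ = w ^ n * x := by
      intro n
      induction n with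
      | zero => simp
      | succ n ih =>
        have h3 : s ^ n * w * (s ^ n)⁻¹ = w := by
          have hc : Commute s w := by
            change s * w = w * s
            calc s * w = (s * w * s⁻¹) * s := by group
              _ = w * s := by rw [hfix]
          rw [(hc.pow_left n).eq]
          group
        calc s ^ (n + 1) * x * (s ^ (n + 1))⁻¹ = s ^ n * (s * x * s⁻¹) * (s ^ n)⁻¹ := by
              rw [pow_succ]
              group
          _ = (s ^ n * w * (s ^ n)⁻¹) * (s ^ n * x * (s ^ n)⁻¹) := by rw [h1]; group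
          _ = w ^ (n + 1) * x := by rw [h3, ih, pow_succ']; group
    have h3 := h2 q
    rw [hsq] at h3
    have h4 : w ^ q = 1 := by
      have h5 : (1 : H) * x * (1 : H)⁻¹ = x := by group
      rw [h5] at h3
      exact (mul_eq_right.mp h3.symm)
    have h5 : w ^ 2 = 1 := by
      rw [pow_two]
      exact hV2 w (hWV ⟨x, hx, hw⟩)
    have h6 : Nat.Coprime q 2 := (Nat.coprime_primes hqf.out Nat.prime_two).mpr hq2
    have h7 := pow_gcd_eq_one (a := w) (m := q) (n := 2)
    rw [h6.gcd_eq_one, pow_one] at h7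
    exact h7.mpr ⟨h4, h5⟩
  obtain ⟨x₀, hx₀, hx₀ne⟩ := hs1
  set w₀ : H := s * x₀ * s⁻¹ * x₀⁻¹ with hw₀
  have hw₀W : w₀ ∈ W := ⟨x₀, hx₀, rfl⟩
  have hw₀1 : w₀ ≠ 1 := by
    intro h
    apply hx₀ne
    rw [hw₀, mul_inv_eq_one] at h
    exact h
  -- the order of `W`
  have hW2 : IsPGroup 2 W := by
    intro w
    refine ⟨1, Subtype.ext ?_⟩
    have := hV2 w (hWV w.2)
    simpa [pow_two] using this
  obtain ⟨k, hk⟩ := IsPGroup.iff_card.mp hW2
  have hmod : Nat.card W ≡ 1 [MOD q] := by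
    haveI : Fintype W := Fintype.ofFinite _
    let f : Function.End W := fun w => ⟨s * w * s⁻¹, (Subgroup.mem_normalizer_iff.mp hsN _).mp w.2⟩
    have hfa : ∀ (n : ℕ) (w : W), (((f ^ n) w : W) : H) = s ^ n * w * (s ^ n)⁻¹ := by
      intro n w
      induction n with
      | zero =>
        rw [pow_zero]
        change (w : H) = _
        simp
      | succ n ih =>
        have h3 : (f ^ (n + 1)) w = f ((f ^ n) w) := by
          rw [pow_succ']
          rfl
        rw [h3]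
        change s * ((f ^ n) w : W) * s⁻¹ = _
        rw [ih, pow_succ']
        group
    have hf1 : f ^ q ^ 1 = 1 := by
      rw [pow_one]
      funext w
      apply Subtype.ext
      rw [hfa, hsq]
      change (1 : H) * w * (1 : H)⁻¹ = w
      group
    have h1 := Equiv.Perm.card_fixedPoints_modEq hf1
    have h2 : Nat.card (Function.fixedPoints f) = 1 := by
      rw [Nat.card_eq_one_iff_unique]
      refine ⟨⟨?_⟩, ⟨⟨1, ?_⟩⟩⟩
      · rintro ⟨a, ha⟩ ⟨b, hb⟩
        have h3 : (a : H) = 1 := hfpf a a.2 (congrArg Subtype.val ha)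
        have h4 : (b : H) = 1 := hfpf b b.2 (congrArg Subtype.val hb)
        exact Subtype.ext (Subtype.ext (h3.trans h4.symm))
      · apply Subtype.ext
        change s * ((1 : W) : H) * s⁻¹ = 1
        simp
    rw [Fintype.card_eq_nat_card, Fintype.card_eq_nat_card, h2] at h1
    exact h1
  have hqodd : 3 ≤ q := by
    have := hqf.out.two_le
    omega
  have hk12 : k = 2 ∧ q = 3 := by
    rw [hk] at hmod hWcard
    have hk0 : k ≠ 0 := by
      rintro rfl
      rw [pow_zero] at hk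
      have h1 : (⟨w₀, hw₀W⟩ : W) = 1 := (Nat.card_eq_one_iff_unique.mp hk).1.elim _ _
      exact hw₀1 (congrArg Subtype.val h1)
    have hk2 : k ≤ 2 := by
      by_contra h
      have h2 : 2 ^ 3 ≤ 2 ^ k := Nat.pow_le_pow_right (by norm_num) (by omega)
      omega
    have hk1 : k ≠ 1 := by
      rintro rfl
      have h1 : q ∣ 2 - 1 := (Nat.modEq_iff_dvd' (by norm_num)).mp hmod.symm
      have := Nat.le_of_dvd (by norm_num) h1
      omega
    have hk3 : k = 2 := by omega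
    subst hk3
    refine ⟨rfl, ?_⟩
    have h1 : q ∣ 2 ^ 2 - 1 := (Nat.modEq_iff_dvd' (by norm_num)).mp hmod.symm
    have h2 : q ∣ 3 := by simpa using h1
    exact (Nat.prime_dvd_prime_iff_eq hqf.out Nat.prime_three).mp h2
  obtain ⟨rfl, rfl⟩ := hk12
  have hs1' : s ≠ 1 := by
    rintro rfl
    apply hx₀ne
    group
  refine S4_of W hk (fun x hx y hy => hVc x (hWV hx) y (hWV hy)) (fun x hx => hV2 x (hWV hx)) c s hcN hsN hc2 ?_ ?_ ?_
  · -- `c` does not centralize `W`
    by_contra hcon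
    push Not at hcon
    apply hw₀1
    apply hfpf w₀ hw₀W
    have h1 : c⁻¹ * w₀ * c = w₀ := by
      have := hcon w₀ hw₀W
      calc c⁻¹ * w₀ * c = c⁻¹ * (c * w₀ * c⁻¹) * c := by rw [this]
        _ = w₀ := by group
    have ht' : t⁻¹ ∈ normalizer (W : Set H) := inv_mem (hsW t ht)
    have h2 : t⁻¹ * w₀ * t ∈ W := by
      have := (Subgroup.mem_normalizer_iff.mp ht' w₀).mp hw₀W
      simpa using this
    have h3 := hcon _ h2
    conv_lhs => rw [hst]
    calc t * (c * t⁻¹ * c⁻¹) * w₀ * (t * (c * t⁻¹ * c⁻¹))⁻¹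
        = t * (c * (t⁻¹ * (c⁻¹ * w₀ * c) * t) * c⁻¹) * t⁻¹ := by group
      _ = t * (c * (t⁻¹ * w₀ * t) * c⁻¹) * t⁻¹ := by rw [h1]
      _ = t * (t⁻¹ * w₀ * t) * t⁻¹ := by rw [h3]
      _ = w₀ := by group
  · refine ⟨1, ?_⟩
    rw [pow_one]
    exact orderOf_eq_prime hsq hs1'
  · refine ⟨w₀, hw₀W, fun h => hw₀1 (hfpf w₀ hw₀W h)⟩

end S4

section Main

variable {G : Type*} [Group G] [Finite G] {p : ℕ} [hpf : Fact p.Prime]

/-- The main theorem when `O_{p'}(G) = 1`. -/
theorem core_main (hG : IsPSolvable p G) (hO : pPrimeCore p G = ⊥) (P : Sylow p G) (A : Subgroup G)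
    (hAP : A ≤ (P : Subgroup G)) (hAn : (P : Subgroup G) ≤ normalizer (A : Set G)) (hA : IsCyclic A)
    (h : p ≠ 2 ∨ ¬ Involves (Equiv.Perm (Fin 4)) G) : A ≤ pCore p G := by
  classical
  by_contra hne
  set O : Subgroup G := pCore p G with hOdef
  haveI hOn : O.Normal := Basic.pCore_normal p
  have hOp : IsPGroup p ↥O := Basic.pCore_isPGroup p
  have hOP : O ≤ (P : Subgroup G) := Basic.pCore_le_sylow P
  obtain ⟨a₀, ha₀⟩ := hA.exists_generator
  set a : G := (a₀ : G) with ha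
  have haA : a ∈ A := a₀.2
  have hPp : ∀ x ∈ (P : Subgroup G), ∃ k : ℕ, x ^ p ^ k = 1 := by
    intro x hx
    obtain ⟨k, hk⟩ := P.isPGroup' ⟨x, hx⟩
    exact ⟨k, congrArg Subtype.val hk⟩
  obtain ⟨n₀, hn₀⟩ := hPp a (hAP haA)
  have hgen : ∀ x ∈ A, ∃ i : ℕ, x = a ^ i := by
    intro x hx
    obtain ⟨k, hk⟩ := Subgroup.mem_zpowers_iff.mp (ha₀ ⟨x, hx⟩)
    have hk2 : a ^ k = x := by
      have := congrArg Subtype.val hk
      simpa using this
    have hfin : IsOfFinOrder a := isOfFinOrder_of_finite a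
    obtain ⟨i, hi⟩ := (mem_powers_iff_mem_zpowers (x := a) (y := x)).mpr ⟨k, hk2⟩
    exact ⟨i, hi.symm⟩
  obtain ⟨b, hbA, hbO, hbpO, hbm⟩ := exists_b A O a hgen haA hn₀ hne
  have hbP : b ∈ (P : Subgroup G) := hAP hbA
  obtain ⟨q, hqf, R, u, hqp, hRq, huO, hcR, r₀, hr₀, hr₀ne⟩ := exists_lift hG (hPp b hbP) hbO
  set c : G := u * b with hc
  have hcP : c ∈ (P : Subgroup G) := mul_mem (hOP huO) hbP
  -- the commutators with `b`
  have hbcomm : ∀ x ∈ O, ∃ m : ℕ, b * x * b⁻¹ * x⁻¹ = (b ^ p) ^ m := by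
    intro x hx
    apply hbm
    · have h1 : x * b⁻¹ * x⁻¹ ∈ A := (Subgroup.mem_normalizer_iff.mp (hAn (hOP hx)) _).mp (inv_mem hbA)
      have h2 : b * x * b⁻¹ * x⁻¹ = b * (x * b⁻¹ * x⁻¹) := by group
      rw [h2]
      exact mul_mem hbA h1
    · exact mul_mem (hOn.conj_mem x hx b) (inv_mem hx)
  -- the power of `c` in `O` centralizes `R`
  have hcpO : c ^ p ∈ O := by
    refine (QuotientGroup.eq_one_iff _).mp ?_
    have h1 : ((c : G) : G ⧸ O) = (b : G ⧸ O) := by
      have h2 : ((u : G) : G ⧸ O) = 1 := (QuotientGroup.eq_one_iff u).mpr huO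
      rw [hc, QuotientGroup.mk_mul, h2, one_mul]
    rw [QuotientGroup.mk_pow, h1, ← QuotientGroup.mk_pow]
    exact (QuotientGroup.eq_one_iff _).mpr hbpO
  have hcpR : ∀ r ∈ R, r * c ^ p = c ^ p * r := by
    intro r hr
    have hcpN : c ^ p ∈ normalizer (R : Set G) := pow_mem hcR p
    have h1 : ⁅c ^ p, r⁆ ∈ R := by
      have h2 := (Subgroup.mem_normalizer_iff.mp hcpN r).mp hr
      rw [commutatorElement_def]
      exact mul_mem h2 (inv_mem hr)
    have h2 : ⁅c ^ p, r⁆ ∈ O := by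
      have h3 : ⁅c ^ p, r⁆ = c ^ p * (r * (c ^ p)⁻¹ * r⁻¹) := by
        rw [commutatorElement_def]
        group
      rw [h3]
      exact mul_mem hcpO (hOn.conj_mem _ (inv_mem hcpO) r)
    have h3 := eq_one_of_mem_of_mem hqp hRq hOp h1 h2
    exact (commutatorElement_eq_one_iff_mul_comm.mp h3).symm
  -- the Frattini quotient
  set Φ : Subgroup G := Phi p G with hΦ
  haveI hΦn : Φ.Normal := phi_normal
  let π : G →* G ⧸ Φ := QuotientGroup.mk' Φ
  have hπ : Function.Surjective π := QuotientGroup.mk'_surjective Φ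
  have hπ1 : ∀ x, π x = 1 ↔ x ∈ Φ := fun x => QuotientGroup.eq_one_iff x
  set V : Subgroup (G ⧸ Φ) := O.map π with hV
  haveI hVn : V.Normal := hOn.map π hπ
  have hVp : IsPGroup p ↥V := hOp.map π
  have hVO : ∀ x ∈ O, π x ∈ V := fun x hx => ⟨x, hx, rfl⟩
  have hVc : ∀ x ∈ V, ∀ y ∈ V, x * y = y * x := by
    rintro _ ⟨x, hx, rfl⟩ _ ⟨y, hy, rfl⟩
    have h1 : π ⁅x, y⁆ = 1 := (hπ1 _).mpr (comm_mem_phi hx hy)
    rw [map_commutatorElement] at h1
    exact commutatorElement_eq_one_iff_mul_comm.mp h1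
  have hVe : ∀ x ∈ V, x ^ p = 1 := by
    rintro _ ⟨x, hx, rfl⟩
    rw [← map_pow]
    exact (hπ1 _).mpr (pow_mem_phi hx)
  set z : G ⧸ Φ := π (b ^ p) with hz
  have hzV : z ∈ V := hVO _ hbpO
  have hcV : ∀ x ∈ V, ∃ m : ℕ, π c * x * (π c)⁻¹ * x⁻¹ = z ^ m := by
    rintro _ ⟨x, hx, rfl⟩
    obtain ⟨m, hm⟩ := hbcomm x hx
    refine ⟨m, ?_⟩
    have h1 : π b * π x * (π b)⁻¹ * (π x)⁻¹ = z ^ m := by
      rw [hz, ← map_pow, ← hm]
      simp only [map_mul, map_inv]
    have h2 : π u * (π b * π x * (π b)⁻¹) = (π b * π x * (π b)⁻¹) * π u :=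
      hVc _ (hVO u huO) _ (by
        have := hVO _ (hOn.conj_mem x hx b)
        simpa only [map_mul, map_inv] using this)
    rw [← h1, hc, map_mul]
    calc π u * π b * π x * (π u * π b)⁻¹ * (π x)⁻¹ = (π u * (π b * π x * (π b)⁻¹)) * (π u)⁻¹ * (π x)⁻¹ := by group
      _ = _ := by rw [h2]; group
  by_cases hp2 : p = 2
  · -- the even case
    subst hp2
    have hS4 := h.resolve_left (fun h0 => h0 rfl)
    apply hS4
    have hq2 : q ≠ 2 := hqp
    have hc2 : ∀ r ∈ R, c * c * r * (c * c)⁻¹ = r := by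
      intro r hr
      have h1 := hcpR r hr
      rw [pow_two] at h1
      rw [← h1]
      group
    obtain ⟨s, t, hs1, hsq, hcs, ht, hst⟩ := exists_inverted hq2 R hRq hcR hc2 hr₀ hr₀ne
    refine Cfsg.Agent.Lib.Fusion.Qd.involves_of_quotient Φ ?_
    refine even_S4 hq2 V hVc (fun x hx => by
      have := hVe x hx
      rwa [pow_two] at this) (π s) (π t) (π c) z hzV ?_ ?_ ?_ ?_ ?_ ?_ ?_
    · intro x hx
      obtain ⟨m, hm⟩ := hcV x hx
      rw [hm]
      have hz2 : z ^ 2 = 1 := hVe z hzV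
      rcases Nat.even_or_odd m with hm2 | hm2
      · left
        obtain ⟨d, rfl⟩ := hm2
        rw [← two_mul, pow_mul, hz2, one_pow]
      · right
        obtain ⟨d, rfl⟩ := hm2
        rw [pow_succ, pow_mul, hz2, one_pow, one_mul]
    · obtain ⟨k, hk⟩ := hPp c hcP
      exact ⟨k, by rw [← map_pow, hk, map_one]⟩
    · rw [← map_pow, hsq, map_one]
    · by_contra hcon
      push Not at hcon
      have hzp : IsPGroup q (zpowers s) := by
        rw [IsPGroup.iff_card, Nat.card_zpowers]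
        exact ⟨1, by rw [pow_one]; exact orderOf_eq_prime hsq hs1⟩
      have hb := eq_bot_of_frat hG hO hqp (zpowers s) hzp (by
        intro g hg x hx
        rw [← hπ1]
        obtain ⟨i, rfl⟩ := Subgroup.mem_zpowers_iff.mp hg
        have h1 : Commute (π s) (π x) := by
          change π s * π x = π x * π s
          calc π s * π x = (π s * π x * (π s)⁻¹) * π s := by group
            _ = π x * π s := by rw [hcon _ (hVO x hx)]
        have h2 := (h1.zpow_left i).eq
        simp only [map_mul, map_inv, map_zpow]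
        rw [h2]
        group)
      apply hs1
      have h2 : s ∈ zpowers s := mem_zpowers s
      rw [hb, Subgroup.mem_bot] at h2
      exact h2
    · have h1 := congrArg π hcs
      simpa only [map_mul, map_inv] using h1
    · rw [← MonoidHom.map_zpowers]
      exact ⟨t, ht, rfl⟩
    · have h1 := congrArg π hst
      simpa only [map_mul, map_inv] using h1
  · -- the odd case
    have hp3 : 2 < p := by
      have := hpf.out.two_le
      omega
    have hcz : π c ^ p = z := by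
      obtain ⟨m₀, hm₀⟩ := hbcomm u huO
      set w : G ⧸ Φ := z ^ m₀ with hw
      have hwV : w ∈ V := pow_mem hzV _
      have h1 : π b * π u = w * π u * π b := by
        have h2 : π b * π u * (π b)⁻¹ * (π u)⁻¹ = w := by
          rw [hw, hz, ← map_pow, ← hm₀]
          simp only [map_mul, map_inv]
        rw [← h2]
        group
      have hb1 : Commute z (π b) := by
        change π (b ^ p) * π b = π b * π (b ^ p)
        rw [← map_mul, ← map_mul, ← pow_succ, ← pow_succ']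
      have h2 := mul_pow_class_two h1 (hVc _ hwV _ (hVO u huO)) (hb1.pow_left m₀) p
      rw [hc, map_mul, h2, hVe _ (hVO u huO), one_mul]
      have h3 : p ∣ p.choose 2 := hpf.out.dvd_choose_self (by norm_num) hp3
      obtain ⟨d, hd⟩ := h3
      rw [hd, pow_mul, hVe w hwV, one_pow, mul_one, hz, map_pow]
    set Rb : Subgroup (G ⧸ Φ) := R.map π with hRb
    have hcRb : π c ∈ normalizer (Rb : Set (G ⧸ Φ)) := by
      apply Cfsg.Agent.Lib.Coprime.mem_normalizer_of_conj_le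
      rintro _ ⟨r, hr, rfl⟩
      refine ⟨c * r * c⁻¹, (Subgroup.mem_normalizer_iff.mp hcR r).mp hr, ?_⟩
      simp only [map_mul, map_inv]
    have h1 := odd_comm (p := p) (q := q) hqp V hVc hVp Rb (hRq.map π) (π c) hcRb z hzV (by
      rintro _ ⟨r, hr, rfl⟩
      rw [← hcz, ← map_pow, ← map_mul, ← map_mul, hcpR r hr]) (by
      rw [← hcz, ← pow_succ, ← pow_succ']) hcV
    set Q : Subgroup G := ⁅R, zpowers c⁆ with hQ
    have hQR : Q ≤ R := by
      rw [hQ, Subgroup.commutator_le]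
      intro r hr y hy
      have hyn : y ∈ normalizer (R : Set G) := (Subgroup.zpowers_le.mpr hcR) hy
      have h1 := (Subgroup.mem_normalizer_iff.mp hyn _).mp (inv_mem hr)
      have h2 : ⁅r, y⁆ = r * (y * r⁻¹ * y⁻¹) := by
        rw [commutatorElement_def]
        group
      rw [h2]
      exact mul_mem hr h1
    have hQb : Q.map π = ⁅Rb, zpowers (π c)⁆ := by
      rw [hQ, Subgroup.map_commutator, MonoidHom.map_zpowers]
    have hQbot := eq_bot_of_frat hG hO hqp Q (hRq.to_le hQR) (by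
      intro g hg x hx
      rw [← hπ1]
      have h2 : ⁅π x, π g⁆ ∈ ⁅V, ⁅Rb, zpowers (π c)⁆⁆ :=
        Subgroup.commutator_mem_commutator (hVO x hx) (hQb ▸ ⟨g, hg, rfl⟩)
      rw [h1, Subgroup.mem_bot] at h2
      have h3 : π g * π x = π x * π g := (commutatorElement_eq_one_iff_mul_comm.mp h2).symm
      simp only [map_mul, map_inv]
      rw [h3]
      group)
    apply hr₀ne
    have h2 : ⁅r₀, c⁆ ∈ Q := Subgroup.commutator_mem_commutator hr₀ (mem_zpowers c)
    rw [hQbot, Subgroup.mem_bot] at h2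
    have h3 := (commutatorElement_eq_one_iff_mul_comm.mp h2).symm
    rw [h3]
    group

/-- **S3788**. -/
theorem cyc_main (hG : IsPSolvable p G) (P : Sylow p G) (A : Subgroup G)
    (hAP : A ≤ (P : Subgroup G)) (hAn : (P : Subgroup G) ≤ normalizer (A : Set G)) (hA : IsCyclic A)
    (h : p ≠ 2 ∨ ¬ Involves (Equiv.Perm (Fin 4)) G) : A ≤ pPrimePCore p G := by
  classical
  set T : Subgroup G := pPrimeCore p G with hT
  haveI hTn : T.Normal := Basic.pPrimeCore_normal p
  let π : G →* G ⧸ T := QuotientGroup.mk' T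
  have hπ : Function.Surjective π := QuotientGroup.mk'_surjective T
  have hcore : pPrimeCore p (G ⧸ T) = ⊥ := Basic.pPrimeCore_quotient_eq_bot p
  have hGb : IsPSolvable p (G ⧸ T) := isPSolvable_map π hπ hG
  have hcyc : IsCyclic ↥(A.map π) := by
    haveI := hA
    exact isCyclic_of_surjective (π.subgroupMap A) (π.subgroupMap_surjective A)
  have h1 := core_main hGb hcore (P.mapSurjective hπ) (A.map π) (Subgroup.map_mono hAP)
    (by
      rintro _ ⟨x, hx, rfl⟩
      apply Cfsg.Agent.Lib.Coprime.mem_normalizer_of_conj_le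
      rintro _ ⟨y, hy, rfl⟩
      refine ⟨x * y * x⁻¹, (Subgroup.mem_normalizer_iff.mp (hAn hx) y).mp hy, ?_⟩
      simp only [map_mul, map_inv]) hcyc
    (h.imp id (fun h0 h2 => h0 (Cfsg.Agent.Lib.Fusion.Qd.involves_of_quotient T h2)))
  intro x hx
  exact h1 ⟨x, hx, rfl⟩

end Main

end Cfsg.Agent.Lib.Coprime.CycCore
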