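import Mathlib
import Cfsg.Agent.Lib.LocalEven2.JC2
import Cfsg.Agent.Lib.PLocal.Timmesfeld
import Cfsg.Agent.Lib.PLocal.Offender9

/-!
# Abelian best offenders are elementary

In the offender setting with `p = 2`, an abelian 2-subgroup maximizing `|B| |C_V(B)|` over its
subgroups has exponent 2, so it is a best offender.
-/

set_option autoImplicit false
set_option linter.unusedSectionVars false
set_option linter.unusedVariables false
set_option linter.style.haveILetI false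

namespace Cfsg.Agent.Lib.Coprime.AbOff

open Subgroup Cfsg Cfsg.Agent.Lib.PLocal Cfsg.Agent.Lib.LocalEven2.JC
open scoped commutatorElement

variable {Γ : Type*} [Group Γ] [Finite Γ] {V H : Subgroup Γ}

lemma sq_conj (a x : Γ) : a ^ 2 * x * (a ^ 2)⁻¹ = a * (a * x * a⁻¹) * a⁻¹ := by
  rw [pow_two]
  group

/-- A quadratic element has square acting trivially. -/
lemma sq_comm_of_quad (hV : IsElementaryAbelian 2 V) {a x : Γ} (ha : a ∈ normalizer (V : Set Γ))
    (hx : x ∈ V) (h : ⁅⁅x, a⁆, a⁆ = 1) : a ^ 2 * x = x * a ^ 2 := by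
  have hE := isEA_iff.mp hV
  set c := ⁅x, a⁆ with hc
  have hcV : c ∈ V := by
    rw [hc, commutatorElement_def]
    have h1 : a * x⁻¹ * a⁻¹ ∈ V := (mem_normalizer_iff.mp ha _).mp (V.inv_mem hx)
    have h2 : x * a * x⁻¹ * a⁻¹ = x * (a * x⁻¹ * a⁻¹) := by group
    rw [h2]
    exact V.mul_mem hx h1
  have hca : c * a = a * c := commutatorElement_eq_one_iff_mul_comm.mp h
  have hc2 : c * c = 1 := by
    have := hE.2 c hcV
    rwa [pow_two] at this
  have hx2 : x * x = 1 := by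
    have := hE.2 x hx
    rwa [pow_two] at this
  have hxi : x⁻¹ = x := inv_eq_of_mul_eq_one_left hx2
  have h1 : a * x * a⁻¹ = c * x := by
    have h3 : c * x = x * c := hE.1 c hcV x hx
    rw [h3, hc, commutatorElement_def, hxi]
    have h4 : x * (x * a * x * a⁻¹) = (x * x) * a * x * a⁻¹ := by group
    rw [h4, hx2, one_mul]
  have h2 : a * c * a⁻¹ = c := by rw [← hca, mul_inv_cancel_right]
  have h3 : a ^ 2 * x * (a ^ 2)⁻¹ = x := by
    calc a ^ 2 * x * (a ^ 2)⁻¹ = a * (a * x * a⁻¹) * a⁻¹ := sq_conj a x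
      _ = a * (c * x) * a⁻¹ := by rw [h1]
      _ = (a * c * a⁻¹) * (a * x * a⁻¹) := by group
      _ = c * (c * x) := by rw [h2, h1]
      _ = x := by rw [← mul_assoc, hc2, one_mul]
  calc a ^ 2 * x = (a ^ 2 * x * (a ^ 2)⁻¹) * a ^ 2 := by group
    _ = x * a ^ 2 := by rw [h3]

/-- Elements of a group of order three. -/
lemma three {R : Subgroup Γ} (hR : Nat.card R = 3) {r x : Γ} (hr : r ∈ R) (hr1 : r ≠ 1) (hx : x ∈ R) :
    (x = 1 ∨ x = r ∨ x = r⁻¹) ∧ r ^ 3 = 1 := by
  have h1 : orderOf r ∣ 3 := by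
    have := Subgroup.orderOf_dvd_natCard R hr
    rwa [hR] at this
  have h2 : orderOf r = 3 := by
    rcases (Nat.dvd_prime Nat.prime_three).mp h1 with h | h
    · exact absurd (orderOf_eq_one_iff.mp h) hr1
    · exact h
  have h3 : r ^ 3 = 1 := by rw [← h2]; exact pow_orderOf_eq_one r
  refine ⟨?_, h3⟩
  have h4 : zpowers r = R := by
    apply Subgroup.eq_of_le_of_card_ge (zpowers_le.mpr hr)
    rw [Nat.card_zpowers, h2, hR]
  rw [← h4] at hx
  obtain ⟨k, rfl⟩ := mem_zpowers_iff.mp hx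
  rw [← zpow_mod_orderOf, h2]
  have h5 : (k % ((3 : ℕ) : ℤ)) = 0 ∨ (k % ((3 : ℕ) : ℤ)) = 1 ∨ (k % ((3 : ℕ) : ℤ)) = 2 := by
    push_cast
    omega
  rcases h5 with h | h | h
  · left; rw [h, zpow_zero]
  · right; left; rw [h, zpow_one]
  · right; right
    rw [h]
    have h6 : r ^ (2 : ℤ) * r = 1 := by
      have : r ^ (2 : ℤ) * r = r ^ 3 := by
        rw [pow_succ]; norm_cast
      rw [this, h3]
    exact eq_inv_of_mul_eq_one_left h6

/-- The key step: the square of an element centralizing a best offender, if inside it, is trivial. -/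
lemma key (S : OffSetup 2 V H) {D : Subgroup Γ} (hDH : D ≤ H) (hD : IsBestOffenderOn 2 V D)
    {a : Γ} (haH : a ∈ H) (hac : ∀ d ∈ D, a * d = d * a) (ht : a ^ 2 ∈ D) : a ^ 2 = 1 := by
  classical
  by_contra hne
  set t := a ^ 2 with htd
  have hDE := S.isEA_of_bo hDH hD
  have hDE' := isEA_iff.mp hDE
  have hT : zpowers t ≤ D := zpowers_le.mpr ht
  have hT1 : zpowers t ≠ ⊥ := by
    intro h
    exact hne (zpowers_eq_bot.mp h)
  obtain ⟨B, b, y, hBD, hb, hsup, hy, hyB, hyT⟩ := S.exists_good hDH hDE hT hT1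
  have hyD : y ∉ centralizer (D : Set Γ) := fun h => hyT (centralizer_le hT h)
  obtain ⟨hB, hj, hc⟩ := S.good_step hDH hD hBD hb hsup hy hyB hyD
  have hlt : B < D := lt_of_le_of_ne hBD (fun h => hyD (h ▸ hyB))
  obtain ⟨R, hRD, hR, hRc, hRB⟩ := S.exists_min_not_le _ D B rfl hDH hD hlt
  obtain ⟨τ, rfl, hτ⟩ := S.trv_of_card (hRD.trans hDH) hR hRc
  have hτD : τ ∈ D := hRD (mem_zpowers τ)
  have hτB : τ ∉ B := fun h => hRB (zpowers_le.mpr h)
  have hyt : t * y ≠ y * t := by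
    intro h
    apply hyT
    rw [mem_centralizer_iff]
    intro x hx
    obtain ⟨k, rfl⟩ := mem_zpowers_iff.mp hx
    exact ((Commute.zpow_left (show Commute t y from h) k).eq)
  have htB : t ∉ B := fun h => hyt (mem_centralizer_iff.mp hyB t h)
  have hb1 : t * τ ∈ B := mul_mem_of_card_le_two hBD (by rw [hc]) ht hτD htB hτB
  have hτ2 : τ * τ = 1 := by
    have := hτ.pow
    rwa [pow_two] at this
  have hτi : τ⁻¹ = τ := inv_eq_of_mul_eq_one_left hτ2
  set r := y * τ * y⁻¹ * τ⁻¹ with hr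
  have hrR : r ∈ ⁅coreOf 2 H, zpowers τ⁆ :=
    Subgroup.commutator_mem_commutator hy (mem_zpowers τ)
  have hcard := fac'_card S hτ
  have hb1y : Commute (t * τ) y := mem_centralizer_iff.mp hyB _ hb1
  have hb1τ : Commute (t * τ) τ := hDE'.1 _ (D.mul_mem ht hτD) _ hτD
  have htτ : t = (t * τ) * τ⁻¹ := by group
  have hr1 : r ≠ 1 := by
    intro h
    have h1 : y * τ = τ * y := by
      have h2 : y * τ * y⁻¹ = τ := mul_inv_eq_one.mp h
      exact mul_inv_eq_iff_eq_mul.mp h2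
    have h3 : Commute τ y := h1.symm
    apply hyt
    rw [htτ]
    exact (hb1y.mul_left h3.inv_left).eq
  -- `a` normalizes `R₀`
  have hconj : ∀ x ∈ (⁅coreOf 2 H, zpowers τ⁆ : Subgroup Γ), a * x * a⁻¹ ∈ (⁅coreOf 2 H, zpowers τ⁆ : Subgroup Γ) := by
    have hle : (⁅coreOf 2 H, zpowers τ⁆ : Subgroup Γ) ≤
        (⁅coreOf 2 H, zpowers τ⁆ : Subgroup Γ).comap (MulAut.conj a).toMonoidHom := by
      rw [Subgroup.commutator_le]
      intro u hu z hz
      rw [Subgroup.mem_comap]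
      have h1 : (MulAut.conj a).toMonoidHom ⁅u, z⁆ = ⁅a * u * a⁻¹, a * z * a⁻¹⁆ := by
        rw [map_commutatorElement]
        rfl
      rw [h1]
      apply Subgroup.commutator_mem_commutator
      · exact (mem_normalizer_iff.mp (coreOf_normalized H haH) u).mp hu
      · obtain ⟨k, rfl⟩ := mem_zpowers_iff.mp hz
        have h2 : Commute a τ := hac τ hτD
        have h3 : a * τ ^ k * a⁻¹ = τ ^ k := by
          rw [(h2.zpow_right k).eq, mul_inv_cancel_right]
        rw [h3]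
        exact ⟨k, rfl⟩
    intro x hx
    exact hle hx
  have hrconj : a ^ 2 * r * (a ^ 2)⁻¹ = r := by
    have hρ := hconj r hrR
    obtain ⟨h1, -⟩ := three hcard hrR hr1 hρ
    rcases h1 with h1 | h1 | h1
    · exfalso
      apply hr1
      have h2 : a * r = a := by
        have := mul_inv_eq_one.mp h1
        exact this
      exact mul_eq_left.mp h2
    · calc a ^ 2 * r * (a ^ 2)⁻¹ = a * (a * r * a⁻¹) * a⁻¹ := sq_conj a r
        _ = a * r * a⁻¹ := congrArg (fun z => a * z * a⁻¹) h1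
        _ = r := h1
    · calc a ^ 2 * r * (a ^ 2)⁻¹ = a * (a * r * a⁻¹) * a⁻¹ := sq_conj a r
        _ = a * r⁻¹ * a⁻¹ := by rw [h1]
        _ = (a * r * a⁻¹)⁻¹ := by group
        _ = r := by rw [h1, inv_inv]
  have htr : Commute t r := by
    show t * r = r * t
    calc t * r = (a ^ 2 * r * (a ^ 2)⁻¹) * t := by rw [htd]; group
      _ = r * t := by rw [hrconj]
  have hb1r : Commute (t * τ) r := by
    rw [hr]
    exact (((hb1y.mul_right hb1τ).mul_right hb1y.inv_right).mul_right hb1τ.inv_right)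
  have hτr : Commute τ r := by
    have h1 : τ = t⁻¹ * (t * τ) := by group
    rw [h1]
    exact htr.inv_left.mul_left hb1r
  have hr2 : r * r = 1 := by
    have h1 : τ * r = r * τ := hτr.eq
    have h2 : r = y * τ * y⁻¹ * τ := by rw [hr, hτi]
    have h3 : r * τ = y * τ * y⁻¹ := by
      rw [h2, mul_assoc, hτ2, mul_one]
    calc r * r = (y * τ * y⁻¹) * (τ * r) := by
            nth_rewrite 1 [h2]
            group
      _ = (y * τ * y⁻¹) * (r * τ) := by rw [h1]
      _ = (y * τ * y⁻¹) * (y * τ * y⁻¹) := by rw [h3]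
      _ = y * (τ * τ) * y⁻¹ := by group
      _ = 1 := by rw [hτ2]; group
  obtain ⟨-, hr3⟩ := three hcard hrR hr1 hrR
  apply hr1
  calc r = r ^ 3 * (r * r)⁻¹ := by rw [pow_succ, pow_two]; group
    _ = 1 := by rw [hr3, hr2]; group

/-- Weak best offender. -/
def WBO (V A : Subgroup Γ) : Prop :=
  (∀ B : Subgroup Γ, B ≤ A → Nat.card B * Nat.card ↥(V ⊓ centralizer (B : Set Γ)) ≤
      Nat.card A * Nat.card ↥(V ⊓ centralizer (A : Set Γ))) ∧
    (∀ a ∈ A, ∀ b ∈ A, a * b = b * a) ∧ IsPGroup 2 A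

lemma comm_normal {U A : Subgroup Γ} (hAU : A ≤ normalizer (U : Set Γ)) :
    A ≤ normalizer ((⁅U, A⁆ : Subgroup Γ) : Set Γ) := by
  intro a ha
  apply Cfsg.Agent.Lib.Coprime.mem_normalizer_of_conj_le
  have hle : (⁅U, A⁆ : Subgroup Γ) ≤ (⁅U, A⁆ : Subgroup Γ).comap (MulAut.conj a).toMonoidHom := by
    rw [Subgroup.commutator_le]
    intro u hu z hz
    rw [Subgroup.mem_comap]
    have h1 : (MulAut.conj a).toMonoidHom ⁅u, z⁆ = ⁅a * u * a⁻¹, a * z * a⁻¹⁆ := by
      rw [map_commutatorElement]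
      rfl
    rw [h1]
    apply Subgroup.commutator_mem_commutator
    · exact (mem_normalizer_iff.mp (hAU ha) u).mp hu
    · exact A.mul_mem (A.mul_mem ha hz) (A.inv_mem ha)
  intro x hx
  exact hle hx

lemma exists_U {A : Subgroup Γ} (hVp : IsPGroup 2 V) (hAp : IsPGroup 2 A) (hAV : A ≤ normalizer (V : Set Γ)) :
    ∀ (n : ℕ) (U : Subgroup Γ), Nat.card U = n → U ≤ V → A ≤ normalizer (U : Set Γ) →
      ⁅⁅U, A⁆, A⁆ ≠ ⊥ →
      ∃ U' : Subgroup Γ, U' ≤ V ∧ ⁅⁅U', A⁆, A⁆ ≠ ⊥ ∧ ⁅⁅⁅U', A⁆, A⁆, A⁆ = ⊥ := by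
  intro n
  induction n using Nat.strong_induction_on with
  | _ n IH =>
  intro U hn hUV hAU hne
  by_cases h3 : ⁅⁅⁅U, A⁆, A⁆, A⁆ = ⊥
  · exact ⟨U, hUV, hne, h3⟩
  · have hle : ⁅U, A⁆ ≤ U := Cfsg.Agent.Lib.PLocal.commutator_le_of_le hAU le_rfl
    have hlt : ⁅U, A⁆ < U := by
      refine lt_of_le_of_ne hle fun he => ?_
      haveI : Fact (Nat.Prime 2) := ⟨Nat.prime_two⟩
      have hP : IsPGroup 2 ↥(V ⊔ A) := IsPGroup.to_sup_of_normal_left' hVp hAp hAV
      have hbot : U = ⊥ := by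
        apply Cfsg.Agent.Lib.PLocal.eq_bot_of_le_commutator_of_isPGroup hP (hUV.trans le_sup_left)
        calc U = ⁅U, A⁆ := he.symm
          _ ≤ ⁅U, V ⊔ A⁆ := Subgroup.commutator_mono le_rfl le_sup_right
      apply hne
      rw [hbot]
      simp [Subgroup.commutator_bot_left]
    have hc : Nat.card ↥(⁅U, A⁆ : Subgroup Γ) < n := by
      rw [← hn]
      exact Set.ncard_lt_ncard (by exact_mod_cast hlt) (Set.toFinite _)
    exact IH _ hc _ rfl (hle.trans hUV) (comm_normal hAU) h3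

/-- Weak best offenders have exponent 2. -/
theorem wbo_sq (S : OffSetup 2 V H) : ∀ (n : ℕ) (A : Subgroup Γ), Nat.card A = n → A ≤ H → WBO V A →
    ∀ a ∈ A, a ^ 2 = 1 := by
  intro n
  induction n using Nat.strong_induction_on with
  | _ n IH =>
  intro A hn hAH hW a ha
  obtain ⟨hbest, hcomm, hAp⟩ := hW
  have hAV : A ≤ normalizer (V : Set Γ) := hAH.trans S.hHV
  have hab : ⁅A, A⁆ ≤ centralizer (V : Set Γ) := by
    rw [Subgroup.commutator_le]
    intro x hx y hy
    have : ⁅x, y⁆ = 1 := commutatorElement_eq_one_iff_mul_comm.mpr (hcomm x hx y hy)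
    rw [this]
    exact one_mem _
  by_cases hq : ⁅⁅V, A⁆, A⁆ = ⊥
  · apply S.eq_one_of_central (H.pow_mem (hAH ha) 2)
    rw [mem_centralizer_iff]
    intro v hv
    have h1 : ⁅⁅v, a⁆, a⁆ ∈ ⁅⁅V, A⁆, A⁆ :=
      Subgroup.commutator_mem_commutator (Subgroup.commutator_mem_commutator hv ha) ha
    rw [hq, Subgroup.mem_bot] at h1
    exact (sq_comm_of_quad S.hV (hAV ha) hv h1).symm
  · obtain ⟨U, hUV, hU2, hU3⟩ := exists_U S.pgroup hAp hAV _ V rfl le_rfl hAV hq
    obtain ⟨h1, h2⟩ := Cfsg.Agent.Lib.PLocal.tight_of_le S.vab hAV hab hbest hUV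
    set D := A ⊓ centralizer ((⁅U, A⁆ : Subgroup Γ) : Set Γ) with hD
    have hDA : D ≤ A := inf_le_left
    have hne : D ≠ A := by
      intro he
      apply hU2
      have h3 : A ≤ centralizer ((⁅U, A⁆ : Subgroup Γ) : Set Γ) := by
        have : A ≤ D := he.ge
        exact this.trans inf_le_right
      rw [eq_bot_iff, Subgroup.commutator_le]
      intro x hx b hb
      rw [Subgroup.mem_bot, commutatorElement_eq_one_iff_mul_comm]
      exact mem_centralizer_iff.mp (h3 hb) x hx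
    have hlt : D < A := lt_of_le_of_ne hDA hne
    have hc : Nat.card D < n := by
      rw [← hn]
      exact Set.ncard_lt_ncard (by exact_mod_cast hlt) (Set.toFinite _)
    have hDW : WBO V D := by
      refine ⟨?_, ?_, hAp.to_le hDA⟩
      · intro B hB
        rw [h1]
        exact hbest B (hB.trans hDA)
      · intro x hx y hy
        exact hcomm x (hDA hx) y (hDA hy)
    have hDsq := IH _ hc D rfl (hDA.trans hAH) hDW
    have hDbo : IsBestOffenderOn 2 V D := by
      refine ⟨hDW.1, ?_, ?_⟩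
      · exact (Subgroup.commutator_mono hDA hDA).trans hab
      · intro d hd
        rw [hDsq d hd]
        exact one_mem _
    refine key S (hDA.trans hAH) hDbo (hAH ha) (fun d hd => hcomm a ha d (hDA hd)) ?_
    refine Subgroup.mem_inf.mpr ⟨A.pow_mem ha 2, ?_⟩
    rw [mem_centralizer_iff]
    intro x hx
    have hxV : x ∈ V := Cfsg.Agent.Lib.PLocal.commutator_le_of_le hAV hUV hx
    have h3 : ⁅⁅x, a⁆, a⁆ ∈ ⁅⁅⁅U, A⁆, A⁆, A⁆ :=
      Subgroup.commutator_mem_commutator (Subgroup.commutator_mem_commutator hx ha) ha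
    rw [hU3, Subgroup.mem_bot] at h3
    exact (sq_comm_of_quad S.hV (hAV ha) hxV h3).symm

theorem wbo_bo (S : OffSetup 2 V H) {A : Subgroup Γ} (hAH : A ≤ H) (hA : WBO V A) :
    IsBestOffenderOn 2 V A := by
  refine ⟨hA.1, ?_, ?_⟩
  · rw [Subgroup.commutator_le]
    intro x hx y hy
    have : ⁅x, y⁆ = 1 := commutatorElement_eq_one_iff_mul_comm.mpr (hA.2.1 x hx y hy)
    rw [this]
    exact one_mem _
  · intro a ha
    rw [wbo_sq S _ A rfl hAH hA a ha]
    exact one_mem _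

end Cfsg.Agent.Lib.Coprime.AbOff
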