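import Mathlib
import Cfsg.Agent.Lib.Coprime.AbOff
import Cfsg.Agent.Lib.Classical.SmallIso
import Cfsg.Agent.Lib.Basic.Solv1
import Cfsg.Agent.Lib.Components.Basic

/-!
# Largest abelian subgroups and offenders
-/

set_option autoImplicit false
set_option linter.unusedSectionVars false
set_option linter.unusedVariables false
set_option linter.style.haveILetI false

namespace Cfsg.Agent.Lib.Coprime.AbOff

open Subgroup Cfsg Cfsg.Agent.Lib.PLocal
open scoped commutatorElement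

section abmax

variable {X : Type*} [Group X]

/-- `A` is an abelian subgroup of `T` of largest order. -/
structure AbMax (T A : Subgroup X) : Prop where
  le : A ≤ T
  comm : ∀ a ∈ A, ∀ b ∈ A, a * b = b * a
  max : ∀ B : Subgroup X, B ≤ T → (∀ a ∈ B, ∀ b ∈ B, a * b = b * a) → Nat.card B ≤ Nat.card A

lemma abMax_of_mem {T : Subgroup X} {A' : Subgroup ↥T} (hA : A' ∈ maxAbelianSubgroups ↥T) :
    AbMax T (A'.map T.subtype) := by
  refine ⟨map_subtype_le _, ?_, ?_⟩
  · rintro _ ⟨a, ha, rfl⟩ _ ⟨b, hb, rfl⟩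
    have h := hA.1.is_comm.comm (⟨a, ha⟩ : ↥A') ⟨b, hb⟩
    have h2 := congrArg (fun x : ↥A' => ((x : ↥T) : X)) h
    exact h2
  · intro B hB hc
    have h1 : Nat.card ↥(B.subgroupOf T) = Nat.card B := Nat.card_congr (subgroupOfEquivOfLe hB).toEquiv
    have h2 : Nat.card ↥(A'.map T.subtype) = Nat.card A' := Subgroup.card_map_of_injective T.subtype_injective
    rw [← h1, h2]
    apply hA.2
    refine ⟨⟨fun a b => ?_⟩⟩
    apply Subtype.ext
    apply Subtype.ext
    exact hc _ a.2 _ b.2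

lemma le_thompson_of {T A : Subgroup X} (hA : AbMax T A) : A ≤ thompsonSubgroupAOf T := by
  have h1 : A = (A.subgroupOf T).map T.subtype := (Subgroup.map_subgroupOf_eq_of_le hA.le).symm
  rw [h1]
  apply Subgroup.map_mono
  apply le_sSup
  refine ⟨⟨⟨fun a b => ?_⟩⟩, ?_⟩
  · apply Subtype.ext
    apply Subtype.ext
    exact hA.comm _ a.2 _ b.2
  · intro B hB
    have h2 : Nat.card ↥(A.subgroupOf T) = Nat.card A := Nat.card_congr (subgroupOfEquivOfLe hA.le).toEquiv
    have h3 : Nat.card ↥(B.map T.subtype) = Nat.card B := Subgroup.card_map_of_injective T.subtype_injective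
    rw [h2, ← h3]
    apply hA.max _ (map_subtype_le _)
    rintro _ ⟨a, ha, rfl⟩ _ ⟨b, hb, rfl⟩
    have h := hB.is_comm.comm (⟨a, ha⟩ : ↥B) ⟨b, hb⟩
    have h2 := congrArg (fun x : ↥B => ((x : ↥T) : X)) h
    exact h2

lemma thompson_le {T K : Subgroup X} (h : ∀ A, AbMax T A → A ≤ K) : thompsonSubgroupAOf T ≤ K := by
  rw [thompsonSubgroupAOf, Subgroup.map_le_iff_le_comap]
  refine sSup_le fun A' hA' => ?_
  rw [← Subgroup.map_le_iff_le_comap]
  exact h _ (abMax_of_mem hA')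

lemma abMax_conj {T A : Subgroup X} (hA : AbMax T A) (g : X) :
    AbMax (T.map (MulAut.conj g).toMonoidHom) (A.map (MulAut.conj g).toMonoidHom) := by
  refine ⟨Subgroup.map_mono hA.le, ?_, ?_⟩
  · rintro _ ⟨a, ha, rfl⟩ _ ⟨b, hb, rfl⟩
    rw [← map_mul, ← map_mul, hA.comm a ha b hb]
  · intro B hB hc
    have h1 : Nat.card ↥(A.map (MulAut.conj g).toMonoidHom) = Nat.card A :=
      Subgroup.card_map_of_injective (MulAut.conj g).injective
    have h2 : Nat.card ↥(B.map (MulAut.conj g⁻¹).toMonoidHom) = Nat.card B :=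
      Subgroup.card_map_of_injective (MulAut.conj g⁻¹).injective
    rw [h1, ← h2]
    apply hA.max
    · rintro _ ⟨b, hb, rfl⟩
      obtain ⟨t, ht, rfl⟩ := hB hb
      have : (MulAut.conj g⁻¹).toMonoidHom ((MulAut.conj g).toMonoidHom t) = t := by
        show g⁻¹ * (g * t * g⁻¹) * g⁻¹⁻¹ = t
        group
      rw [this]
      exact ht
    · rintro _ ⟨a, ha, rfl⟩ _ ⟨b, hb, rfl⟩
      rw [← map_mul, ← map_mul, hc a ha b hb]

lemma abMax_inf {T U A : Subgroup X} (hA : AbMax T A) (hU : A ≤ U) : AbMax (T ⊓ U) A :=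
  ⟨le_inf hA.le hU, hA.comm, fun B hB hc => hA.max B (hB.trans inf_le_left) hc⟩

lemma exists_abMax [Finite X] (T : Subgroup X) : ∃ A, AbMax T A := by
  let s : Set (Subgroup X) := {B | B ≤ T ∧ ∀ a ∈ B, ∀ b ∈ B, a * b = b * a}
  have hs : s.Nonempty := by
    refine ⟨⊥, bot_le, ?_⟩
    intro a ha b hb
    rw [Subgroup.mem_bot] at ha hb
    rw [ha, hb]
  obtain ⟨A, hA, hmax⟩ := Set.exists_max_image s (fun B : Subgroup X => Nat.card B) (Set.toFinite _) hs
  exact ⟨A, hA.1, hA.2, fun B hB hc => hmax B ⟨hB, hc⟩⟩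

lemma abMax_of_inf [Finite X] {T U A : Subgroup X} (hU : ∀ A₀, AbMax T A₀ → A₀ ≤ U) (hA : AbMax (T ⊓ U) A) :
    AbMax T A := by
  refine ⟨hA.le.trans inf_le_left, hA.comm, fun B hB hc => ?_⟩
  obtain ⟨A₀, hA₀⟩ := exists_abMax T
  have h1 := hA.max A₀ (le_inf hA₀.le (hU _ hA₀)) hA₀.comm
  exact (hA₀.max B hB hc).trans h1

variable [Finite X]

/-- The `j`-inequality at the group level. -/
lemma abMax_j {V T A : Subgroup X} (hVc : ∀ x ∈ V, ∀ y ∈ V, x * y = y * x) (hVT : V ≤ T) (hA : AbMax T A)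
    (B : Subgroup X) (hBA : B ≤ A) :
    Nat.card B * Nat.card ↥(V ⊓ centralizer (B : Set X)) ≤ Nat.card A * Nat.card ↥(V ⊓ centralizer (A : Set X)) := by
  set CB := V ⊓ centralizer (B : Set X) with hCB
  have hcomm : ∀ a ∈ B, ∀ b ∈ CB, a * b = b * a := by
    intro a ha b hb
    exact mem_centralizer_iff.mp (Subgroup.mem_inf.mp hb).2 a ha
  have hsup := Cfsg.Agent.Lib.PLocal.comm_sup (fun a ha b hb => hA.comm a (hBA ha) b (hBA hb))
    (fun a ha b hb => hVc a (Subgroup.mem_inf.mp ha).1 b (Subgroup.mem_inf.mp hb).1) hcomm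
  have hle : B ⊔ CB ≤ T := sup_le (hBA.trans hA.le) (inf_le_left.trans hVT)
  have h1 := hA.max _ hle hsup
  have hCN : CB ≤ normalizer (B : Set X) := by
    intro c hc
    rw [mem_normalizer_iff]
    intro b
    have h2 : ∀ b ∈ B, c * b * c⁻¹ = b := by
      intro b hb
      rw [← hcomm b hb c hc]; group
    constructor
    · intro hb
      rw [h2 b hb]; exact hb
    · intro hb
      have h3 := h2 _ hb
      have h6 : c * b * c⁻¹ = b := by
        apply mul_left_cancel (a := c)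
        apply mul_right_cancel (b := c⁻¹)
        simpa [mul_assoc] using h3
      rw [h6] at hb
      exact hb
  have h4 := Cfsg.Agent.Lib.OddLocal.card_sup_mul_card_inf hCN
  have h5 : Nat.card ↥(B ⊓ CB) ≤ Nat.card ↥(V ⊓ centralizer (A : Set X)) := by
    apply Subgroup.card_le_of_le
    intro x hx
    obtain ⟨hx1, hx2⟩ := Subgroup.mem_inf.mp hx
    refine Subgroup.mem_inf.mpr ⟨(Subgroup.mem_inf.mp hx2).1, mem_centralizer_iff.mpr fun a ha => ?_⟩
    exact hA.comm a ha x (hBA hx1)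
  rw [← h4]
  exact Nat.mul_le_mul h1 h5

/-- Transfer to the holomorph. -/
lemma wbo_map {V T A : Subgroup X} [V.Normal] (hVc : ∀ x ∈ V, ∀ y ∈ V, x * y = y * x) (hVT : V ≤ T)
    (hT : IsPGroup 2 T) (hA : AbMax T A) : WBO (holV V) (A.map (holAct V)) := by
  refine ⟨?_, ?_, ?_⟩
  · intro B₁ hB₁
    set B := A ⊓ B₁.comap (holAct V) with hB
    have hmap : B.map (holAct V) = B₁ := by
      apply le_antisymm
      · rintro _ ⟨b, hb, rfl⟩
        exact (Subgroup.mem_inf.mp hb).2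
      · intro x hx
        obtain ⟨a, ha, rfl⟩ := hB₁ hx
        exact ⟨a, Subgroup.mem_inf.mpr ⟨ha, hx⟩, rfl⟩
    have hinf : B ⊓ centralizer (V : Set X) = A ⊓ centralizer (V : Set X) := by
      apply le_antisymm
      · exact inf_le_inf_right _ inf_le_left
      · intro x hx
        obtain ⟨h1, h2⟩ := Subgroup.mem_inf.mp hx
        refine Subgroup.mem_inf.mpr ⟨Subgroup.mem_inf.mpr ⟨h1, ?_⟩, h2⟩
        rw [Subgroup.mem_comap, holAct_eq_one_iff.mpr h2]
        exact one_mem _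
    have h1 := abMax_j hVc hVT hA B inf_le_left
    have hcB := card_map_holAct_mul (V := V) B
    have hcA := card_map_holAct_mul (V := V) A
    rw [hmap, hinf] at hcB
    rw [card_fix_hol]
    have h2 : holV V ⊓ centralizer ((B₁ : Subgroup (Hol V)) : Set (Hol V)) =
        holV V ⊓ centralizer (B.map (holAct V) : Set (Hol V)) := by rw [hmap]
    rw [h2, card_fix_hol]
    have hpos : 0 < Nat.card ↥(A ⊓ centralizer (V : Set X)) := Nat.card_pos
    apply Nat.le_of_mul_le_mul_right _ hpos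
    calc Nat.card B₁ * Nat.card ↥(V ⊓ centralizer (B : Set X)) * Nat.card ↥(A ⊓ centralizer (V : Set X))
        = (Nat.card B₁ * Nat.card ↥(A ⊓ centralizer (V : Set X))) * Nat.card ↥(V ⊓ centralizer (B : Set X)) := by ring
      _ = Nat.card B * Nat.card ↥(V ⊓ centralizer (B : Set X)) := by rw [hcB]
      _ ≤ Nat.card A * Nat.card ↥(V ⊓ centralizer (A : Set X)) := h1
      _ = _ := by rw [← hcA]; ring
  · rintro _ ⟨a, ha, rfl⟩ _ ⟨b, hb, rfl⟩
    rw [← map_mul, ← map_mul, hA.comm a ha b hb]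
  · exact (hT.to_le hA.le).map (holAct V)

end abmax

section pi

variable {Γ : Type*} [Group Γ] [Finite Γ]

/-- An internal direct product of copies of `S₃`. -/
lemma pi_iso {ι : Type*} [Finite ι] {E : ι → Subgroup Γ} {H : Subgroup Γ}
    (hcomm : ∀ i j, i ≠ j → ∀ x ∈ E i, ∀ y ∈ E j, x * y = y * x)
    (hind : iSupIndep E) (hsup : ⨆ i, E i = H) (hiso : ∀ i, Nonempty (E i ≃* Equiv.Perm (Fin 3))) :
    Nonempty (H ≃* (Fin (Nat.card ι) → Equiv.Perm (Fin 3))) := by
  classical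
  haveI := Fintype.ofFinite ι
  have hc : Pairwise fun i j : ι => ∀ x y : Γ, x ∈ E i → y ∈ E j → Commute x y :=
    fun i j hij x y hx hy => hcomm i j hij x hx y hy
  let f := Subgroup.noncommPiCoprod hc
  have hinj : Function.Injective f := Subgroup.injective_noncommPiCoprod_of_iSupIndep hind
  have hr : f.range = H := by
    rw [← hsup]
    exact Subgroup.noncommPiCoprod_range
  let e₀ : (∀ i, E i) ≃* f.range := MonoidHom.ofInjective hinj
  let e₁ : f.range ≃* H := MulEquiv.subgroupCongr hr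
  let e₂ : (∀ i, E i) ≃* (ι → Equiv.Perm (Fin 3)) :=
    MulEquiv.piCongrRight fun i => (hiso i).some
  let e₃ : (ι → Equiv.Perm (Fin 3)) ≃* (Fin (Nat.card ι) → Equiv.Perm (Fin 3)) :=
    MulEquiv.arrowCongr (Finite.equivFin ι) (MulEquiv.refl _)
  exact ⟨(e₁.symm.trans e₀.symm).trans (e₂.trans e₃)⟩

end pi

section omega

variable {X : Type*} [Group X]

/-- The subgroup of involutions of an abelian subgroup. -/
def omegaAb (W : Subgroup X) (hW : ∀ x ∈ W, ∀ y ∈ W, x * y = y * x) : Subgroup X where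
  carrier := {w | w ∈ W ∧ w ^ 2 = 1}
  mul_mem' := by
    rintro a b ⟨ha, ha2⟩ ⟨hb, hb2⟩
    refine ⟨W.mul_mem ha hb, ?_⟩
    have : Commute a b := hW a ha b hb
    rw [this.mul_pow, ha2, hb2, one_mul]
  one_mem' := ⟨W.one_mem, one_pow 2⟩
  inv_mem' := by
    rintro a ⟨ha, ha2⟩
    exact ⟨W.inv_mem ha, by rw [inv_pow, ha2, inv_one]⟩

lemma mem_omegaAb {W : Subgroup X} {hW : ∀ x ∈ W, ∀ y ∈ W, x * y = y * x} {w : X} :
    w ∈ omegaAb W hW ↔ w ∈ W ∧ w ^ 2 = 1 := Iff.rfl

lemma omegaAb_normal {W : Subgroup X} [hn : W.Normal] {hW : ∀ x ∈ W, ∀ y ∈ W, x * y = y * x} :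
    (omegaAb W hW).Normal := by
  refine ⟨fun w hw g => ?_⟩
  obtain ⟨h1, h2⟩ := mem_omegaAb.mp hw
  refine mem_omegaAb.mpr ⟨hn.conj_mem w h1 g, ?_⟩
  rw [conj_pow, h2]
  simp

lemma omegaAb_isEA {W : Subgroup X} {hW : ∀ x ∈ W, ∀ y ∈ W, x * y = y * x} :
    IsElementaryAbelian 2 (omegaAb W hW) := by
  rw [isEA_iff]
  exact ⟨fun a ha b hb => hW a ha.1 b hb.1, fun a ha => ha.2⟩

/-- An element of odd order fixing `Ω₁(W)` fixes `W`. -/
lemma fix_of_fix_omega {W : Subgroup X} (hW : ∀ x ∈ W, ∀ y ∈ W, x * y = y * x) {y : X}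
    (hyW : y ∈ normalizer (W : Set X)) {m : ℕ} (hm : Odd m) (hy : y ^ m = 1)
    (hfix : ∀ v ∈ W, v ^ 2 = 1 → y * v = v * y) :
    ∀ k : ℕ, ∀ x ∈ W, x ^ (2 ^ k) = 1 → y * x = x * y := by
  intro k
  induction k with
  | zero =>
    intro x _ hx
    have : x = 1 := by simpa using hx
    rw [this, mul_one, one_mul]
  | succ k ih =>
    intro x hx hxk
    have h2 : y * x ^ 2 = x ^ 2 * y := by
      apply ih (x ^ 2) (W.pow_mem hx 2)
      rw [← pow_mul, ← pow_succ']
      exact hxk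
    set x' := y * x * y⁻¹ with hx'
    have hx'W : x' ∈ W := (mem_normalizer_iff.mp hyW x).mp hx
    have hxc : Commute x⁻¹ x' := hW _ (W.inv_mem hx) _ hx'W
    set e := x⁻¹ * x' with he
    have heW : e ∈ W := W.mul_mem (W.inv_mem hx) hx'W
    have hx'2 : x' ^ 2 = x ^ 2 := by
      rw [hx', conj_pow, h2]
      group
    have he2 : e ^ 2 = 1 := by
      rw [he, hxc.mul_pow, hx'2, inv_pow, inv_mul_cancel]
    have hye : y * e = e * y := hfix e heW he2
    have hi : ∀ i : ℕ, y ^ i * x * (y ^ i)⁻¹ = x * e ^ i := by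
      intro i
      induction i with
      | zero => simp
      | succ i ih2 =>
        have h5 : y * e ^ i * y⁻¹ = e ^ i := by
          rw [((show Commute y e from hye).pow_right i).eq, mul_inv_cancel_right]
        calc y ^ (i + 1) * x * (y ^ (i + 1))⁻¹ = y * (y ^ i * x * (y ^ i)⁻¹) * y⁻¹ := by
              rw [pow_succ']
              group
          _ = y * (x * e ^ i) * y⁻¹ := by rw [ih2]
          _ = (y * x * y⁻¹) * (y * e ^ i * y⁻¹) := by group
          _ = x' * e ^ i := by rw [h5]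
          _ = x * e * e ^ i := by rw [he]; group
          _ = x * e ^ (i + 1) := by rw [pow_succ']; group
    have h6 : x * e ^ m = x := by
      rw [← hi m, hy]
      simp
    have h7 : e ^ m = 1 := mul_eq_left.mp h6
    obtain ⟨s, rfl⟩ := hm
    have h8 : e = 1 := by
      have h9 : e ^ (2 * s + 1) = e := by
        rw [pow_succ, pow_mul, he2, one_pow, one_mul]
      rwa [h9] at h7
    have h10 : x' = x := by
      have : x⁻¹ * x' = 1 := h8
      exact (inv_mul_eq_one.mp this).symm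
    rw [hx'] at h10
    exact mul_inv_eq_iff_eq_mul.mp h10

end omega

end Cfsg.Agent.Lib.Coprime.AbOff
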