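import Mathlib
import Cfsg.Agent.Lib.Coprime.BProp2
import Cfsg.Agent.Lib.OddLocal.FrobComp
import Cfsg.Agent.Lib.Coprime.Abelian

/-!
# Sylow subgroups of soluble groups whose abelian subgroups of equal order are conjugate
-/

set_option autoImplicit false
set_option linter.unusedSectionVars false
set_option linter.style.haveILetI false
set_option linter.unusedVariables false

namespace Cfsg.Agent.Lib.Coprime.BP

open Subgroup Cfsg
open Cfsg.Agent.Lib.OddLocal (UniqueP)
open scoped Pointwise commutatorElement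

universe u

variable {G : Type*} [Group G]

section

variable [Finite G]

theorem c4_of_bprop (hB : BProp G) (x y : G) (hx : orderOf x = 4) (hy : orderOf y = 4) :
    ∃ g : G, y ∈ (zpowers x).map (MulAut.conj g).toMonoidHom := by
  obtain ⟨g, hg⟩ := hB (zpowers x) (zpowers y) (mulComm_of_forall (zpowers_comm x)) (mulComm_of_forall (zpowers_comm y))
    (by rw [Nat.card_zpowers, Nat.card_zpowers, hx, hy])
  exact ⟨g, hg ▸ Subgroup.mem_zpowers y⟩

/-- If all point stabilisers in an abelian coprime group have the same order, the action is semiregular. -/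
theorem fpf_of_equal_centralizers (M P : Subgroup G) [hMn : M.Normal]
    (hMc : ∀ a ∈ M, ∀ b ∈ M, a * b = b * a) (hPc : ∀ a ∈ P, ∀ b ∈ P, a * b = b * a)
    (hcop : (Nat.card M).Coprime (Nat.card P))
    (hfaith : ∀ a ∈ P, (∀ v ∈ M, a * v = v * a) → a = 1)
    (heq : ∀ u ∈ M, ∀ v ∈ M, u ≠ 1 → v ≠ 1 →
      Nat.card ↥(P ⊓ centralizer ({u} : Set G)) ≤ Nat.card ↥(P ⊓ centralizer ({v} : Set G))) :
    ∀ v ∈ M, v ≠ 1 → P ⊓ centralizer ({v} : Set G) = ⊥ := by
  intro v₁ hv₁ hv₁1
  set S := P ⊓ centralizer ({v₁} : Set G) with hS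
  have hSP : S ≤ P := inf_le_left
  have hab : IsMulCommutative ↥M := mulComm_of_forall hMc
  have hca : CoprimeAction S M := by
    refine ⟨?_, ?_, ?_⟩
    · rw [Subgroup.normalizer_eq_top_iff.2 hMn]; exact le_top
    · exact Nat.Coprime.coprime_dvd_left (Subgroup.card_dvd_of_le hSP) hcop.symm
    · right
      haveI := hab
      letI : CommGroup ↥M := { (inferInstance : Group ↥M) with mul_comm := fun a b => Subtype.ext (hMc _ a.2 _ b.2) }
      exact Group.isSolvable_of_comm (fun a b => mul_comm a b)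
  have hUY := hca.commutator_inf_centralizer_eq_bot hab
  set U : Subgroup G := ⁅M, S⁆ with hU
  set Y : Subgroup G := M ⊓ centralizer (S : Set G) with hY
  have hUM : U ≤ M := hca.commutator_le_self
  have hv₁Y : v₁ ∈ Y := by
    refine Subgroup.mem_inf.mpr ⟨hv₁, ?_⟩
    rw [Subgroup.mem_centralizer_iff]
    intro s hs
    have h1 := (Subgroup.mem_inf.1 hs).2
    rw [Subgroup.mem_centralizer_singleton_iff] at h1
    exact h1
  have hnU : ∀ a ∈ P, ∀ u ∈ U, a * u * a⁻¹ ∈ U := by
    intro a ha u hu
    have h1 : U ≤ U.comap (MulAut.conj a).toMonoidHom := by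
      rw [hU, Subgroup.commutator_le]
      intro m hm s hs
      rw [Subgroup.mem_comap]
      have h2 : (MulAut.conj a).toMonoidHom ⁅m, s⁆ = ⁅a * m * a⁻¹, s⁆ := by
        have h3 : a * s * a⁻¹ = s := by
          rw [hPc a ha s (hSP hs)]; group
        have h4 : (MulAut.conj a).toMonoidHom ⁅m, s⁆ = ⁅(MulAut.conj a).toMonoidHom m, (MulAut.conj a).toMonoidHom s⁆ :=
          map_commutatorElement _ _ _
        rw [h4]
        simp only [MulEquiv.coe_toMonoidHom, MulAut.conj_apply]
        rw [h3]
      rw [h2]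
      exact Subgroup.commutator_mem_commutator (hMn.conj_mem m hm a) hs
    exact h1 hu
  have hnY : ∀ a ∈ P, ∀ y ∈ Y, a * y * a⁻¹ ∈ Y := by
    intro a ha y hy
    obtain ⟨hy1, hy2⟩ := Subgroup.mem_inf.1 hy
    refine Subgroup.mem_inf.mpr ⟨hMn.conj_mem y hy1 a, ?_⟩
    rw [Subgroup.mem_centralizer_iff] at hy2 ⊢
    intro s hs
    have h1 := hy2 s hs
    have h2 := hPc a ha s (hSP hs)
    have h3 : Commute s a := h2.symm
    have h4 : Commute s y := h1
    exact ((h3.mul_right h4).mul_right h3.inv_right).eq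
  have hUbot : U = ⊥ := by
    by_contra hne
    obtain ⟨⟨u, huU⟩, hu1⟩ := (Subgroup.ne_bot_iff_exists_ne_one).1 hne
    have hu1' : u ≠ 1 := fun h => hu1 (Subtype.ext h)
    have huM := hUM huU
    have hw1 : v₁ * u ≠ 1 := by
      intro h
      have h1 : u = v₁⁻¹ := eq_inv_of_mul_eq_one_right h
      have h2 : u ∈ U ⊓ Y := Subgroup.mem_inf.mpr ⟨huU, by rw [h1]; exact Y.inv_mem hv₁Y⟩
      rw [hUY, Subgroup.mem_bot] at h2
      exact hu1' h2
    have hle : P ⊓ centralizer ({v₁ * u} : Set G) ≤ S := by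
      intro a ha
      obtain ⟨haP, hac⟩ := Subgroup.mem_inf.1 ha
      rw [Subgroup.mem_centralizer_singleton_iff] at hac
      refine Subgroup.mem_inf.mpr ⟨haP, ?_⟩
      rw [Subgroup.mem_centralizer_singleton_iff]
      have h1 : (a * v₁ * a⁻¹) * (a * u * a⁻¹) = v₁ * u := by
        calc (a * v₁ * a⁻¹) * (a * u * a⁻¹) = a * (v₁ * u) * a⁻¹ := by group
          _ = (v₁ * u) * a * a⁻¹ := by rw [hac]
          _ = v₁ * u := by group
      have h2 : v₁⁻¹ * (a * v₁ * a⁻¹) = u * (a * u * a⁻¹)⁻¹ := by
        calc v₁⁻¹ * (a * v₁ * a⁻¹) = v₁⁻¹ * ((a * v₁ * a⁻¹) * (a * u * a⁻¹)) * (a * u * a⁻¹)⁻¹ := by group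
          _ = v₁⁻¹ * (v₁ * u) * (a * u * a⁻¹)⁻¹ := by rw [h1]
          _ = u * (a * u * a⁻¹)⁻¹ := by group
      have h3 : v₁⁻¹ * (a * v₁ * a⁻¹) ∈ U ⊓ Y := by
        refine Subgroup.mem_inf.mpr ⟨?_, Y.mul_mem (Y.inv_mem hv₁Y) (hnY a haP v₁ hv₁Y)⟩
        rw [h2]
        exact U.mul_mem huU (U.inv_mem (hnU a haP u huU))
      rw [hUY, Subgroup.mem_bot] at h3
      have h4 : a * v₁ * a⁻¹ = v₁ := (inv_mul_eq_one.1 h3).symm
      calc a * v₁ = a * v₁ * a⁻¹ * a := by group
        _ = v₁ * a := by rw [h4]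
    have hcard := heq v₁ hv₁ (v₁ * u) (M.mul_mem hv₁ huM) hv₁1 hw1
    have hEq : P ⊓ centralizer ({v₁ * u} : Set G) = S := Subgroup.eq_of_le_of_card_ge hle hcard
    apply hu1'
    have h5 : u ∈ U ⊓ Y := by
      refine Subgroup.mem_inf.mpr ⟨huU, Subgroup.mem_inf.mpr ⟨huM, ?_⟩⟩
      rw [Subgroup.mem_centralizer_iff]
      intro s hs
      have hs' : s ∈ P ⊓ centralizer ({v₁ * u} : Set G) := by rw [hEq]; exact hs
      have h6 := (Subgroup.mem_inf.1 hs').2
      rw [Subgroup.mem_centralizer_singleton_iff] at h6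
      have h7 := (Subgroup.mem_inf.1 hs).2
      rw [Subgroup.mem_centralizer_singleton_iff] at h7
      have h8 : v₁ * (s * u) = v₁ * (u * s) := by
        calc v₁ * (s * u) = (v₁ * s) * u := by group
          _ = (s * v₁) * u := by rw [h7]
          _ = s * (v₁ * u) := by group
          _ = (v₁ * u) * s := h6
          _ = v₁ * (u * s) := by group
      exact mul_left_cancel h8
    rw [hUY, Subgroup.mem_bot] at h5
    exact h5
  rw [eq_bot_iff]
  intro s hs
  rw [Subgroup.mem_bot]
  apply hfaith s (hSP hs)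
  intro v hv
  have h1 : ⁅v, s⁆ ∈ U := Subgroup.commutator_mem_commutator hv hs
  rw [hUbot, Subgroup.mem_bot] at h1
  have h2 : v * s * v⁻¹ * s⁻¹ = 1 := h1
  have h3 : v * s * v⁻¹ = s := mul_inv_eq_one.1 h2
  calc s * v = (v * s * v⁻¹) * v := by rw [h3]
    _ = v * s := by group

/-- The main case in the Sylow structure. -/
theorem cyc_or_normal_of_lift (hB : BProp G) (M : Subgroup G) [hMn : M.Normal] (q p : ℕ) [hq : Fact q.Prime]
    [hp : Fact p.Prime] (hMc : ∀ a ∈ M, ∀ b ∈ M, a * b = b * a) (hMe : ∀ a ∈ M, a ^ q = 1) (hM1 : M ≠ ⊥) (hqp : q ≠ p)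
    (P : Sylow p G) (hPe : ∀ x ∈ (P : Subgroup G), x ^ p = 1)
    (hPc : ∀ u ∈ (P : Subgroup G), ∀ v ∈ (P : Subgroup G), u * v = v * u)
    (hLn : ((P : Subgroup G) ⊔ M).Normal) :
    IsCyclic ↥(P : Subgroup G) ∨ (P : Subgroup G).Normal := by
  have hqpc : Nat.Coprime q p := (Nat.coprime_primes hq.out hp.out).2 hqp
  by_cases hcm : ∀ a ∈ (P : Subgroup G), ∀ v ∈ M, a * v = v * a
  · right
    refine ⟨fun x hx g => ?_⟩
    have h1 : g * x * g⁻¹ ∈ (P : Subgroup G) ⊔ M := hLn.conj_mem x (Subgroup.mem_sup_left hx) g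
    obtain ⟨u, hu, m, hm, hum⟩ := exists_mul_of_mem_sup _ _ hcm h1
    have h2 : (g * x * g⁻¹) ^ p = 1 := by
      rw [conj_pow, hPe x hx]; group
    rw [hum, (show Commute u m from hcm u hu m hm).mul_pow, hPe u hu, one_mul] at h2
    have h3 : orderOf m = 1 :=
      Nat.eq_one_of_dvd_coprimes hqpc (orderOf_dvd_of_pow_eq_one (hMe m hm)) (orderOf_dvd_of_pow_eq_one h2)
    rw [hum, orderOf_eq_one_iff.1 h3, mul_one]
    exact hu
  · left
    push Not at hcm
    obtain ⟨a₀, ha₀, v₀, hv₀, hne⟩ := hcm
    -- the action is faithful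
    have hfaith : ∀ b ∈ (P : Subgroup G), (∀ v ∈ M, b * v = v * b) → b = 1 := by
      intro b hb hbc
      by_contra hb1
      apply hne
      by_cases ha1 : a₀ = 1
      · rw [ha1]; group
      have h1 : orderOf b = p := orderOf_eq_prime (hPe b hb) hb1
      have h2 : orderOf a₀ = p := orderOf_eq_prime (hPe a₀ ha₀) ha1
      obtain ⟨g, hg⟩ := hB (zpowers b) (zpowers a₀) (mulComm_of_forall (zpowers_comm b)) (mulComm_of_forall (zpowers_comm a₀))
        (by rw [Nat.card_zpowers, Nat.card_zpowers, h1, h2])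
      have h3 : a₀ ∈ (zpowers b).map (MulAut.conj g).toMonoidHom := hg ▸ Subgroup.mem_zpowers a₀
      obtain ⟨d, hd, hda⟩ := mem_conj_iff.1 h3
      obtain ⟨i, rfl⟩ := Subgroup.mem_zpowers_iff.1 hd
      have h4 : g⁻¹ * v₀ * g ∈ M := by
        have := hMn.conj_mem v₀ hv₀ g⁻¹
        simpa using this
      have h5 : Commute b (g⁻¹ * v₀ * g) := hbc _ h4
      have h6 : Commute (b ^ i) (g⁻¹ * v₀ * g) := h5.zpow_left i
      rw [hda]
      calc g * b ^ i * g⁻¹ * v₀ = g * (b ^ i * (g⁻¹ * v₀ * g)) * g⁻¹ := by group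
        _ = g * ((g⁻¹ * v₀ * g) * b ^ i) * g⁻¹ := by rw [h6.eq]
        _ = v₀ * (g * b ^ i * g⁻¹) := by group
    -- a fixed point free action
    have hfpf : ∀ h ∈ (P : Subgroup G), h ≠ 1 → M ⊓ centralizer ({h} : Set G) = ⊥ := by
      by_cases hMcard : Nat.card M = q
      · intro h hh hh1
        rw [eq_bot_iff]
        intro x hx
        obtain ⟨hxM, hxc⟩ := Subgroup.mem_inf.1 hx
        rw [Subgroup.mem_centralizer_singleton_iff] at hxc
        rw [Subgroup.mem_bot]
        by_contra hx1
        apply hh1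
        apply hfaith h hh
        intro v hv
        have hord : orderOf x = q := orderOf_eq_prime (hMe x hxM) hx1
        have hz : zpowers x = M := by
          apply Subgroup.eq_of_le_of_card_ge
          · exact (Subgroup.zpowers_le).2 hxM
          · rw [Nat.card_zpowers, hord, hMcard]
        rw [← hz] at hv
        obtain ⟨i, rfl⟩ := Subgroup.mem_zpowers_iff.1 hv
        have : Commute h x := hxc.symm
        exact (this.zpow_right i).eq
      · -- `M` has rank at least two
        have hMr : IsPGroup q M := fun x => ⟨1, by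
          rw [pow_one]; exact Subtype.ext (hMe x x.2)⟩
        obtain ⟨k, hk⟩ := IsPGroup.iff_card.1 hMr
        have hr2 : q ^ 2 ∣ Nat.card M := by
          rw [hk]
          apply pow_dvd_pow
          rcases k with _ | _ | k
          · exfalso
            rw [pow_zero] at hk
            exact hM1 ((Subgroup.card_eq_one (H := M)).1 hk)
          · exfalso
            rw [zero_add, pow_one] at hk
            exact hMcard hk
          · omega
        have hcop : (Nat.card M).Coprime (Nat.card (P : Subgroup G)) := by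
          obtain ⟨l, hl⟩ := IsPGroup.iff_card.1 P.isPGroup'
          rw [hk, hl]
          exact Nat.Coprime.pow _ _ hqpc
        have hkey : ∀ u ∈ M, ∀ v ∈ M, u ≠ 1 → v ≠ 1 →
            Nat.card ↥((P : Subgroup G) ⊓ centralizer ({u} : Set G)) ≤
              Nat.card ↥((P : Subgroup G) ⊓ centralizer ({v} : Set G)) := by
          intro u hu v hv hu1 hv1
          have h1 : orderOf u = q := orderOf_eq_prime (hMe u hu) hu1
          have h2 : orderOf v = q := orderOf_eq_prime (hMe v hv) hv1
          obtain ⟨g, hg⟩ := hB (zpowers u) (zpowers v) (mulComm_of_forall (zpowers_comm u)) (mulComm_of_forall (zpowers_comm v))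
            (by rw [Nat.card_zpowers, Nat.card_zpowers, h1, h2])
          have h3 : v ∈ (zpowers u).map (MulAut.conj g).toMonoidHom := hg ▸ Subgroup.mem_zpowers v
          obtain ⟨d, hd, hda⟩ := mem_conj_iff.1 h3
          obtain ⟨i, rfl⟩ := Subgroup.mem_zpowers_iff.1 hd
          -- conjugate `P`
          let S₂ : Sylow p G := g • P
          have hS₂ : (S₂ : Subgroup G) = (P : Subgroup G).map (MulAut.conj g).toMonoidHom := by
            rw [Sylow.coe_subgroup_smul]
            rfl
          have hS₂L : (S₂ : Subgroup G) ≤ (P : Subgroup G) ⊔ M := by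
            rw [hS₂]
            intro x hx
            obtain ⟨a, ha, rfl⟩ := mem_conj_iff.1 hx
            exact hLn.conj_mem a (Subgroup.mem_sup_left ha) g
          obtain ⟨l, hl, hlS⟩ := sylow_conj_in ((P : Subgroup G) ⊔ M) P S₂ le_sup_left hS₂L
          have hl' : l ∈ ((M ⊔ (P : Subgroup G) : Subgroup G) : Set G) := by
            rw [sup_comm]; exact hl
          rw [Subgroup.normal_mul, Set.mem_mul] at hl'
          obtain ⟨m, hm, y, hy, rfl⟩ := hl'
          set g₁ := m⁻¹ * g with hg₁
          have hg₁P : ∀ a ∈ (P : Subgroup G), g₁ * a * g₁⁻¹ ∈ (P : Subgroup G) := by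
            intro a ha
            have h4 : g * a * g⁻¹ ∈ (S₂ : Subgroup G) := by
              rw [hS₂]; exact mem_conj_iff.2 ⟨a, ha, rfl⟩
            rw [hlS] at h4
            obtain ⟨b, hb, hb'⟩ := mem_conj_iff.1 h4
            have h5 : g₁ * a * g₁⁻¹ = y * b * y⁻¹ := by
              calc g₁ * a * g₁⁻¹ = m⁻¹ * (g * a * g⁻¹) * m := by rw [hg₁]; group
                _ = y * b * y⁻¹ := by rw [hb']; group
            rw [h5]
            exact (P : Subgroup G).mul_mem ((P : Subgroup G).mul_mem hy hb) ((P : Subgroup G).inv_mem hy)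
          have hg₁v : g₁ * u ^ i * g₁⁻¹ = g * u ^ i * g⁻¹ := by
            have h4 : g * u ^ i * g⁻¹ ∈ M := by
              rw [← hda]; exact hv
            calc g₁ * u ^ i * g₁⁻¹ = m⁻¹ * (g * u ^ i * g⁻¹) * m := by rw [hg₁]; group
              _ = (g * u ^ i * g⁻¹) * m⁻¹ * m := by rw [hMc _ (M.inv_mem hm) _ h4]
              _ = g * u ^ i * g⁻¹ := by group
          have hle : (((P : Subgroup G) ⊓ centralizer ({u} : Set G))).map (MulAut.conj g₁).toMonoidHom ≤
              (P : Subgroup G) ⊓ centralizer ({g * u ^ i * g⁻¹} : Set G) := by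
            intro x hx
            obtain ⟨a, ha, rfl⟩ := mem_conj_iff.1 hx
            obtain ⟨haP, hac⟩ := Subgroup.mem_inf.1 ha
            rw [Subgroup.mem_centralizer_singleton_iff] at hac
            refine Subgroup.mem_inf.mpr ⟨hg₁P a haP, ?_⟩
            rw [Subgroup.mem_centralizer_singleton_iff, ← hg₁v]
            have h6 : Commute a (u ^ i) := (show Commute a u from hac).zpow_right i
            have h7 := h6.eq
            calc g₁ * a * g₁⁻¹ * (g₁ * u ^ i * g₁⁻¹) = g₁ * (a * u ^ i) * g₁⁻¹ := by group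
              _ = g₁ * (u ^ i * a) * g₁⁻¹ := by rw [h7]
              _ = g₁ * u ^ i * g₁⁻¹ * (g₁ * a * g₁⁻¹) := by group
          have h8 := Subgroup.card_le_of_le hle
          rw [card_conj] at h8
          rw [hda]
          exact h8
        have hlem := fpf_of_equal_centralizers M (P : Subgroup G) hMc hPc hcop hfaith hkey
        intro h hh hh1
        rw [eq_bot_iff]
        intro x hx
        obtain ⟨hxM, hxc⟩ := Subgroup.mem_inf.1 hx
        rw [Subgroup.mem_centralizer_singleton_iff] at hxc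
        rw [Subgroup.mem_bot]
        by_contra hx1
        have h3 : h ∈ (P : Subgroup G) ⊓ centralizer ({x} : Set G) := by
          refine Subgroup.mem_inf.mpr ⟨hh, ?_⟩
          rw [Subgroup.mem_centralizer_singleton_iff]
          exact hxc.symm
        rw [hlem x hxM hx1, Subgroup.mem_bot] at h3
        exact hh1 h3
    have hU : UniqueP p ↥(P : Subgroup G) :=
      Cfsg.Agent.Lib.OddLocal.uniqueP_of_fpf hM1 P.isPGroup' hfpf
    have hle := hU.card_le_of_forall_pow ⊤ (fun x _ => Subtype.ext (hPe x x.2))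
    rw [Subgroup.card_top] at hle
    obtain ⟨l, hl⟩ := IsPGroup.iff_card.1 P.isPGroup'
    rcases l with _ | l
    · rw [pow_zero] at hl
      haveI : Subsingleton ↥(P : Subgroup G) := (Nat.card_eq_one_iff_unique.1 hl).1
      exact isCyclic_of_subsingleton
    · rcases l with _ | l
      · rw [zero_add, pow_one] at hl
        exact isCyclic_of_prime_card hl
      · exfalso
        have h1 : p ^ 2 ≤ p ^ (l + 1 + 1) := Nat.pow_le_pow_right hp.out.pos (by omega)
        have h2 : p < p ^ 2 := by
          have := hp.out.two_le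
          nlinarith
        omega

end

/-- The Sylow subgroups of a soluble group with the property: cyclic, quaternion of order eight, or
normal and elementary abelian. -/
theorem sylow_struct : ∀ (n : ℕ) (G : Type u) [Group G] [Finite G], Nat.card G = n → BProp G → Group.IsSolvable G →
    ∀ (p : ℕ) [Fact p.Prime] (P : Sylow p G), IsCyclic ↥(P : Subgroup G) ∨
      (p = 2 ∧ Nat.card (P : Subgroup G) = 8 ∧ (¬ ∀ u ∈ (P : Subgroup G), ∀ v ∈ (P : Subgroup G), u * v = v * u) ∧
        UniqueP p ↥(P : Subgroup G)) ∨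
      ((P : Subgroup G).Normal ∧ (∀ x ∈ (P : Subgroup G), x ^ p = 1) ∧
        ∀ u ∈ (P : Subgroup G), ∀ v ∈ (P : Subgroup G), u * v = v * u) := by
  intro n
  induction n using Nat.strong_induction_on with
  | _ n ih =>
  intro G _ _ hn hB hsol p hpf P
  have hp := hpf.out
  by_cases hO : pPrimeCore p G = ⊥
  · by_cases hnt : Nontrivial G
    · obtain ⟨M, hM⟩ := Cfsg.Agent.Lib.Basic.exists_isMinNormal (G := G)
      haveI hMn : M.Normal := hM.1
      obtain ⟨h1, q, hq, h2⟩ := hM.elementary
      haveI hqf : Fact q.Prime := ⟨hq⟩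
      have hMc := forall_of_mulComm h1
      have hMr : IsPGroup q M := fun x => ⟨1, by
        rw [pow_one]; exact Subtype.ext (h2 x x.2)⟩
      obtain ⟨k, hk⟩ := IsPGroup.iff_card.1 hMr
      have hqp : q = p := by
        by_contra hne
        have h3 : (Nat.card M).Coprime p := by
          rw [hk]
          exact Nat.Coprime.pow_left _ ((Nat.coprime_primes hq hp).2 hne)
        have h4 := Cfsg.Agent.Lib.Basic.le_pPrimeCore hMn h3
        rw [hO] at h4
        exact hM.2.1 (le_bot_iff.1 h4)
      subst hqp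
      rcases k with _ | _ | k
      · exfalso
        rw [pow_zero] at hk
        exact hM.2.1 ((Subgroup.card_eq_one (H := M)).1 hk)
      · -- prime order
        rw [zero_add, pow_one] at hk
        have hun : ∀ x : G, x ^ q = 1 → x ∈ M := fun x hx => mem_of_pow_r hB hMc hk hx
        have hunP : UniqueP q G := by
          intro H K hH hK
          have key : ∀ X : Subgroup G, Nat.card X = q → X = M := by
            intro X hX
            apply Subgroup.eq_of_le_of_card_ge
            · intro x hx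
              apply hun
              have := pow_card_eq_one' (G := X) (x := ⟨x, hx⟩)
              rw [hX] at this
              exact congrArg Subtype.val this
            · rw [hX, hk]
          rw [key H hH, key K hK]
        by_cases hp2 : q = 2
        · subst hp2
          by_cases hcomm : ∀ u ∈ (P : Subgroup G), ∀ v ∈ (P : Subgroup G), u * v = v * u
          · left
            exact Cfsg.Agent.Lib.OddLocal.isCyclic_of_comm_uniqueP P.isPGroup'
              (fun a b => Subtype.ext (hcomm _ a.2 _ b.2)) (hunP.subgroup P)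
          · right; left
            exact ⟨rfl, card_sylow_eight hsol hunP (c4_of_bprop hB) P hcomm, hcomm, hunP.subgroup P⟩
        · left
          exact Cfsg.Agent.Lib.OddLocal.isCyclic_of_uniqueP_odd hp2 _ _ rfl P.isPGroup' (hunP.subgroup P)
      · -- `M` is the Sylow subgroup
        right; right
        have hr2 : q ^ 2 ∣ Nat.card M := by
          rw [hk]; exact pow_dvd_pow q (by omega)
        have hPM : (P : Subgroup G) ≤ M := by
          intro x hx
          obtain ⟨a, ha⟩ := P.isPGroup' ⟨x, hx⟩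
          exact mem_of_pow_eq_one hB hMc h2 hr2 (congrArg Subtype.val ha)
        have hMP : M ≤ P := Cfsg.Agent.Lib.Basic.normal_pGroup_le_sylow hMn hMr P
        have he : (P : Subgroup G) = M := le_antisymm hPM hMP
        rw [he]
        exact ⟨hMn, h2, hMc⟩
    · rw [not_nontrivial_iff_subsingleton] at hnt
      left
      exact isCyclic_of_subsingleton
  · -- `O_{p'}(G) ≠ 1`
    obtain ⟨M, hM, hMO⟩ := Cfsg.Agent.Lib.Basic.exists_isMinNormal_le (Cfsg.Agent.Lib.Basic.pPrimeCore_normal p) hO
    haveI hMn : M.Normal := hM.1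
    obtain ⟨h1, q, hq, h2⟩ := hM.elementary
    haveI hqf : Fact q.Prime := ⟨hq⟩
    have hMc := forall_of_mulComm h1
    have hcop : (Nat.card M).Coprime p :=
      Nat.Coprime.coprime_dvd_left (Subgroup.card_dvd_of_le hMO) (Cfsg.Agent.Lib.Basic.pPrimeCore_coprime p)
    have hqp : q ≠ p := by
      rintro rfl
      obtain ⟨⟨x, hxM⟩, hx1⟩ := (Subgroup.ne_bot_iff_exists_ne_one).1 hM.2.1
      have hx1' : x ≠ 1 := fun h => hx1 (Subtype.ext h)
      have h3 : orderOf x = q := orderOf_eq_prime (h2 x hxM) hx1'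
      have h4 : q ∣ Nat.card M := by
        rw [← h3]; exact Subgroup.orderOf_dvd_natCard M hxM
      exact hq.one_lt.ne' (Nat.Coprime.eq_one_of_dvd hcop.symm h4)
    set f := QuotientGroup.mk' M with hf
    have hfs : Function.Surjective f := QuotientGroup.mk'_surjective M
    have hPcop : (Nat.card M).Coprime (Nat.card (P : Subgroup G)) := by
      obtain ⟨l, hl⟩ := IsPGroup.iff_card.1 P.isPGroup'
      rw [hl]
      exact Nat.Coprime.pow_right _ hcop
    have hinj : ∀ x ∈ (P : Subgroup G), f x = 1 → x = 1 := by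
      intro x hx h3
      have h4 : x ∈ M ⊓ (P : Subgroup G) := Subgroup.mem_inf.mpr ⟨(QuotientGroup.eq_one_iff x).1 h3, hx⟩
      rw [(Subgroup.disjoint_of_coprime_natCard hPcop).eq_bot, Subgroup.mem_bot] at h4
      exact h4
    have hlt : Nat.card (G ⧸ M) < n := by
      have h3 := Subgroup.card_eq_card_quotient_mul_card_subgroup M
      have h4 : 1 < Nat.card M := (Subgroup.one_lt_card_iff_ne_bot M).mpr hM.2.1
      rw [← hn, h3]
      exact lt_mul_of_one_lt_right Nat.card_pos h4
    have hq' : BProp (G ⧸ M) := core hB hsol M q hMc h2 hM.2.1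
    have hcard := card_map_of_inj f (P : Subgroup G) hinj
    rcases ih _ hlt (G ⧸ M) rfl hq' inferInstance p (P.mapSurjective hfs) with hc | ⟨h3, h4, h5, h6⟩ | ⟨h3, h4, h5⟩
    · left
      rw [Sylow.coe_mapSurjective] at hc
      refine isCyclic_of_injective (f.subgroupMap (P : Subgroup G)) ?_
      intro a b hab
      have h3 : f (a : G) = f (b : G) := congrArg Subtype.val hab
      have h4 : f ((a : G) * (b : G)⁻¹) = 1 := by
        rw [map_mul, map_inv, h3, mul_inv_cancel]
      exact Subtype.ext (mul_inv_eq_one.1 (hinj _ ((P : Subgroup G).mul_mem a.2 ((P : Subgroup G).inv_mem b.2)) h4))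
    · right; left
      rw [Sylow.coe_mapSurjective] at h4 h5 h6
      refine ⟨h3, by rw [← hcard]; exact h4, fun hc => h5 (isMulCommutative_map f _ hc), ?_⟩
      have hφ : Function.Injective (f.subgroupMap (P : Subgroup G)) := by
        intro a b hab
        have h7 : f (a : G) = f (b : G) := congrArg Subtype.val hab
        have h8 : f ((a : G) * (b : G)⁻¹) = 1 := by
          rw [map_mul, map_inv, h7, mul_inv_cancel]
        exact Subtype.ext (mul_inv_eq_one.1 (hinj _ ((P : Subgroup G).mul_mem a.2 ((P : Subgroup G).inv_mem b.2)) h8))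
      intro H₁ H₂ hH₁ hH₂
      have hc' : ∀ X : Subgroup ↥(P : Subgroup G), Nat.card (X.map (f.subgroupMap (P : Subgroup G))) = Nat.card X := fun X =>
        (Nat.card_congr (Subgroup.equivMapOfInjective X _ hφ).toEquiv).symm
      exact Subgroup.map_injective hφ (h6 _ _ ((hc' H₁).trans hH₁) ((hc' H₂).trans hH₂))
    · rw [Sylow.coe_mapSurjective] at h3 h4 h5
      have hPe : ∀ x ∈ (P : Subgroup G), x ^ p = 1 := by
        intro x hx
        apply hinj _ ((P : Subgroup G).pow_mem hx p)
        rw [map_pow]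
        exact h4 _ ⟨x, hx, rfl⟩
      have hPc : ∀ u ∈ (P : Subgroup G), ∀ v ∈ (P : Subgroup G), u * v = v * u := by
        intro u hu v hv
        have h6 : u * v * (v * u)⁻¹ = 1 := by
          apply hinj
          · exact (P : Subgroup G).mul_mem ((P : Subgroup G).mul_mem hu hv)
              ((P : Subgroup G).inv_mem ((P : Subgroup G).mul_mem hv hu))
          · rw [map_mul, map_inv, map_mul, map_mul, h5 _ ⟨u, hu, rfl⟩ _ ⟨v, hv, rfl⟩, mul_inv_cancel]
        exact mul_inv_eq_one.1 h6
      have hLn : ((P : Subgroup G) ⊔ M).Normal := by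
        have h6 : Subgroup.comap f ((P : Subgroup G).map f) = (P : Subgroup G) ⊔ M := by
          rw [Subgroup.comap_map_eq, hf, QuotientGroup.ker_mk']
        rw [← h6]
        exact h3.comap f
      rcases cyc_or_normal_of_lift hB M q p hMc h2 hM.2.1 hqp P hPe hPc hLn with h6 | h6
      · exact Or.inl h6
      · exact Or.inr (Or.inr ⟨h6, hPe, hPc⟩)

end Cfsg.Agent.Lib.Coprime.BP
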