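import Mathlib
import Cfsg.Agent.Lib.Coprime.BProp3

/-!
# The quaternion case
-/

set_option autoImplicit false
set_option linter.unusedSectionVars false
set_option linter.style.haveILetI false
set_option linter.unusedVariables false

namespace Cfsg.Agent.Lib.Coprime.BP

open Subgroup Cfsg
open Cfsg.Agent.Lib.OddLocal (UniqueP)
open scoped Pointwise commutatorElement

universe u

variable {G : Type*} [Group G]

theorem UniqueP.of_injective {A B : Type*} [Group A] [Group B] {p : ℕ} (φ : A →* B) (hφ : Function.Injective φ)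
    (h : UniqueP p B) : UniqueP p A := by
  intro H₁ H₂ hH₁ hH₂
  have hc' : ∀ X : Subgroup A, Nat.card (X.map φ) = Nat.card X := fun X =>
    (Nat.card_congr (Subgroup.equivMapOfInjective X _ hφ).toEquiv).symm
  exact Subgroup.map_injective hφ (h _ _ ((hc' H₁).trans hH₁) ((hc' H₂).trans hH₂))

theorem two_part_unique {a b m n : ℕ} (ha : ∃ s, a = 2 ^ s) (hb : ∃ t, b = 2 ^ t) (hm : ¬ 2 ∣ m) (hn : ¬ 2 ∣ n)
    (h : a * m = b * n) : a = b ∧ m = n := by
  obtain ⟨s, rfl⟩ := ha
  obtain ⟨t, rfl⟩ := hb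
  have hp := Nat.prime_two
  have h1 : (2 ^ s) ∣ 2 ^ t := by
    have h2 : (2 ^ s) ∣ 2 ^ t * n := ⟨m, h.symm⟩
    exact (Nat.Coprime.pow_left s ((Nat.Prime.coprime_iff_not_dvd hp).2 hn)).dvd_of_dvd_mul_right h2
  have h2 : (2 ^ t) ∣ 2 ^ s := by
    have h2 : (2 ^ t) ∣ 2 ^ s * m := ⟨n, h⟩
    exact (Nat.Coprime.pow_left t ((Nat.Prime.coprime_iff_not_dvd hp).2 hm)).dvd_of_dvd_mul_right h2
  have h3 := Nat.dvd_antisymm h1 h2
  refine ⟨h3, ?_⟩
  rw [h3] at h
  exact Nat.eq_of_mul_eq_mul_left (by positivity) h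

section

variable [Finite G]

theorem q8_data {Q : Subgroup G} (hQ2 : IsPGroup 2 Q) (h8 : Nat.card Q = 8)
    (hna : ¬ ∀ u ∈ Q, ∀ v ∈ Q, u * v = v * u) (hun : UniqueP 2 ↥Q) :
    ∃ i ∈ Q, ∃ j ∈ Q, orderOf i = 4 ∧ orderOf j = 4 ∧ orderOf (i * j) = 4 ∧ j * i * j⁻¹ = i⁻¹ ∧ j ^ 2 = i ^ 2 ∧
      ∀ q ∈ Q, ∃ k l : ℕ, q = i ^ k * j ^ l := by
  haveI : Fact (Nat.Prime 2) := ⟨Nat.prime_two⟩
  rcases Cfsg.Agent.Lib.OddLocal.cyclic_or_quaternion hQ2 hun with hc | ⟨n, ⟨e⟩⟩
  · exfalso
    apply hna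
    intro u hu v hv
    letI := hc.commGroup
    exact congrArg Subtype.val (mul_comm (⟨u, hu⟩ : ↥Q) ⟨v, hv⟩)
  have h1 := Nat.card_congr e.toEquiv
  rw [h8, Nat.card_eq_fintype_card, QuaternionGroup.card] at h1
  have hn1 : n = 1 := by
    have hn : 2 ^ n = 2 ^ 1 := by omega
    exact Nat.pow_right_injective (le_refl 2) hn
  subst hn1
  let e' : ↥Q ≃* QuaternionGroup 2 := e
  have hord : ∀ w : ↥Q, orderOf (w : G) = orderOf (e' w) := by
    intro w
    rw [Subgroup.orderOf_coe, MulEquiv.orderOf_eq]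
  set I : ↥Q := e'.symm (QuaternionGroup.a 1) with hI
  set J : ↥Q := e'.symm (QuaternionGroup.xa 0) with hJ
  refine ⟨I, I.2, J, J.2, ?_, ?_, ?_, ?_, ?_, ?_⟩
  · rw [hord, hI, MulEquiv.apply_symm_apply, QuaternionGroup.orderOf_a_one]
  · rw [hord, hJ, MulEquiv.apply_symm_apply]
    exact QuaternionGroup.orderOf_xa 0
  · have h2 : (I : G) * J = ((I * J : ↥Q) : G) := rfl
    rw [h2, hord, map_mul, hI, hJ, MulEquiv.apply_symm_apply, MulEquiv.apply_symm_apply, QuaternionGroup.a_mul_xa]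
    exact QuaternionGroup.orderOf_xa _
  · have h2 : J * I * J⁻¹ = I⁻¹ := by
      apply e'.injective
      rw [map_mul, map_mul, map_inv, map_inv, hI, hJ, MulEquiv.apply_symm_apply, MulEquiv.apply_symm_apply]
      decide
    exact congrArg Subtype.val h2
  · have h2 : J ^ 2 = I ^ 2 := by
      apply e'.injective
      rw [map_pow, map_pow, hI, hJ, MulEquiv.apply_symm_apply, MulEquiv.apply_symm_apply]
      decide
    exact congrArg Subtype.val h2
  · intro q hq
    have hdec : ∀ x : QuaternionGroup 2, ∃ k : Fin 4, ∃ l : Fin 2,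
        x = (QuaternionGroup.a 1) ^ (k : ℕ) * (QuaternionGroup.xa 0) ^ (l : ℕ) := by decide
    obtain ⟨k, l, hkl⟩ := hdec (e' ⟨q, hq⟩)
    refine ⟨k, l, ?_⟩
    have h2 : (⟨q, hq⟩ : ↥Q) = I ^ (k : ℕ) * J ^ (l : ℕ) := by
      apply e'.injective
      rw [hkl, map_mul, map_pow, map_pow, hI, hJ, MulEquiv.apply_symm_apply, MulEquiv.apply_symm_apply]
    exact congrArg Subtype.val h2

end

theorem card_eq_of_elem_cyclic [Finite G] {M S : Subgroup G} (hMS : M ≤ S) (hS : IsCyclic ↥S) {q : ℕ} (hq : q.Prime)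
    (hMe : ∀ x ∈ M, x ^ q = 1) (hM1 : M ≠ ⊥) : Nat.card M = q := by
  have hc : IsCyclic ↥M :=
    isCyclic_of_injective (Subgroup.inclusion hMS) (Subgroup.inclusion_injective hMS)
  obtain ⟨⟨m, hm⟩, hgen⟩ := hc.exists_generator
  have h3 : orderOf (⟨m, hm⟩ : ↥M) = Nat.card M := orderOf_eq_card_of_forall_mem_zpowers hgen
  have h4 : (⟨m, hm⟩ : ↥M) ^ q = 1 := Subtype.ext (hMe m hm)
  have h5 := orderOf_dvd_of_pow_eq_one h4
  rw [h3] at h5
  rcases (Nat.dvd_prime hq).1 h5 with h6 | h6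
  · exfalso
    exact hM1 ((Subgroup.card_eq_one (H := M)).1 h6)
  · exact h6

/-- A Sylow `2`-subgroup of quaternion type is normal. -/
theorem quat_normal [Fact (Nat.Prime 2)] : ∀ (n : ℕ) (H : Type u) [Group H] [Finite H], Nat.card H = n → BProp H →
    Group.IsSolvable H → (∀ (q : ℕ) [Fact q.Prime], q ≠ 2 → ∀ S : Sylow q H, IsCyclic ↥(S : Subgroup H)) →
    ∀ Q : Sylow 2 H, Nat.card (Q : Subgroup H) = 8 →
      (¬ ∀ u ∈ (Q : Subgroup H), ∀ v ∈ (Q : Subgroup H), u * v = v * u) → UniqueP 2 ↥(Q : Subgroup H) →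
      (Q : Subgroup H).Normal := by
  intro n
  induction n using Nat.strong_induction_on with
  | _ n ih =>
  intro H _ _ hn hB hsol hodd Q h8 hna hun
  obtain ⟨i, hi, j, hj, hoi, hoj, hok, hji, hjj, hgen⟩ := q8_data Q.isPGroup' h8 hna hun
  by_cases hK : pPrimeCore 2 H = ⊥
  · -- trivial core
    have hnt : Nontrivial H := ⟨⟨i, 1, fun h => by
      rw [h, orderOf_one] at hoi; omega⟩⟩
    obtain ⟨M, hM⟩ := Cfsg.Agent.Lib.Basic.exists_isMinNormal (G := H)
    haveI hMn : M.Normal := hM.1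
    obtain ⟨h1, q, hq, h2⟩ := hM.elementary
    haveI hqf : Fact q.Prime := ⟨hq⟩
    have hMc := forall_of_mulComm h1
    have hMr : IsPGroup q M := fun x => ⟨1, by
      rw [pow_one]; exact Subtype.ext (h2 x x.2)⟩
    obtain ⟨k, hk⟩ := IsPGroup.iff_card.1 hMr
    have hq2 : q = 2 := by
      by_contra hne
      have h3 : (Nat.card M).Coprime 2 := by
        rw [hk]
        exact Nat.Coprime.pow_left _ ((Nat.coprime_primes hq Nat.prime_two).2 hne)
      have h4 := Cfsg.Agent.Lib.Basic.le_pPrimeCore hMn h3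
      rw [hK] at h4
      exact hM.2.1 (le_bot_iff.1 h4)
    subst hq2
    have hMQ : M ≤ Q := Cfsg.Agent.Lib.Basic.normal_pGroup_le_sylow hMn hMr Q
    have hMcard : Nat.card M = 2 := by
      have h3 := hun.card_le_of_forall_pow (M.subgroupOf Q) (fun x hx => Subtype.ext (h2 x hx))
      rw [Nat.card_congr (Subgroup.subgroupOfEquivOfLe hMQ).toEquiv] at h3
      have h4 : 1 < Nat.card M := (Subgroup.one_lt_card_iff_ne_bot M).mpr hM.2.1
      omega
    have hun2 : ∀ x : H, x ^ 2 = 1 → x ∈ M := fun x hx => mem_of_pow_r hB hMc hMcard hx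
    have hunP : UniqueP 2 H := by
      intro A B hA hB
      have key : ∀ X : Subgroup H, Nat.card X = 2 → X = M := by
        intro X hX
        apply Subgroup.eq_of_le_of_card_ge
        · intro x hx
          apply hun2
          have := pow_card_eq_one' (G := X) (x := ⟨x, hx⟩)
          rw [hX] at this
          exact congrArg Subtype.val this
        · rw [hX, hMcard]
      rw [key A hA, key B hB]
    have hfour := four_mem hsol hunP (c4_of_bprop hB) Q hna
    have hQN : (Q : Subgroup H) ≤ pPrimePCore 2 H := by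
      intro q hq
      obtain ⟨k, l, rfl⟩ := hgen q hq
      exact Subgroup.mul_mem _ (_root_.pow_mem (hfour i hoi) k) (_root_.pow_mem (hfour j hoj) l)
    have hNn : (pPrimePCore 2 H).Normal :=
      Subgroup.Normal.comap (Cfsg.Agent.Lib.Basic.pCore_normal 2) (QuotientGroup.mk' (pPrimeCore 2 H))
    have hN2 : IsPGroup 2 (pPrimePCore 2 H) := by
      rintro ⟨x, hx⟩
      obtain ⟨a, ha⟩ := Cfsg.Agent.Lib.Basic.pCore_isPGroup (G := H ⧸ pPrimeCore 2 H) 2 ⟨_, hx⟩
      refine ⟨a, Subtype.ext ?_⟩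
      have h3 : ((x ^ 2 ^ a : H) : H ⧸ pPrimeCore 2 H) = 1 := congrArg Subtype.val ha
      rw [QuotientGroup.eq_one_iff, hK, Subgroup.mem_bot] at h3
      exact h3
    have hNQ := Cfsg.Agent.Lib.Basic.normal_pGroup_le_sylow hNn hN2 Q
    have he : (Q : Subgroup H) = pPrimePCore 2 H := le_antisymm hQN hNQ
    rw [he]
    exact hNn
  · -- nontrivial core
    obtain ⟨M, hM, hMO⟩ := Cfsg.Agent.Lib.Basic.exists_isMinNormal_le (Cfsg.Agent.Lib.Basic.pPrimeCore_normal 2) hK
    haveI hMn : M.Normal := hM.1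
    obtain ⟨h1, q, hq, h2⟩ := hM.elementary
    haveI hqf : Fact q.Prime := ⟨hq⟩
    have hMc := forall_of_mulComm h1
    have hcop : (Nat.card M).Coprime 2 :=
      Nat.Coprime.coprime_dvd_left (Subgroup.card_dvd_of_le hMO) (Cfsg.Agent.Lib.Basic.pPrimeCore_coprime 2)
    have hMr : IsPGroup q M := fun x => ⟨1, by
      rw [pow_one]; exact Subtype.ext (h2 x x.2)⟩
    obtain ⟨⟨m₀, hm₀⟩, hm₀1⟩ := (Subgroup.ne_bot_iff_exists_ne_one).1 hM.2.1
    have hm₀1' : m₀ ≠ 1 := fun h => hm₀1 (Subtype.ext h)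
    have hm₀o : orderOf m₀ = q := orderOf_eq_prime (h2 m₀ hm₀) hm₀1'
    have hq2 : q ≠ 2 := by
      rintro rfl
      have h4 : 2 ∣ Nat.card M := by
        rw [← hm₀o]; exact Subgroup.orderOf_dvd_natCard M hm₀
      exact Nat.prime_two.one_lt.ne' (Nat.Coprime.eq_one_of_dvd hcop.symm h4)
    obtain ⟨S, hS⟩ := hMr.exists_le_sylow
    have hMcard : Nat.card M = q := card_eq_of_elem_cyclic hS (hodd q hq2 S) hq h2 hM.2.1
    have hMz : M = zpowers m₀ := by
      symm
      apply Subgroup.eq_of_le_of_card_ge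
      · exact (Subgroup.zpowers_le).2 hm₀
      · rw [Nat.card_zpowers, hm₀o, hMcard]
    -- the action on `M` is by powers
    have hexp : ∀ a : H, ∃ e : ℕ, ∀ m ∈ M, a * m * a⁻¹ = m ^ e := by
      intro a
      have h3 : a * m₀ * a⁻¹ ∈ zpowers m₀ := by
        rw [← hMz]; exact hMn.conj_mem m₀ hm₀ a
      obtain ⟨e, he0⟩ := (mem_powers_iff_mem_zpowers).2 h3
      have he : m₀ ^ e = a * m₀ * a⁻¹ := he0
      refine ⟨e, fun m hm => ?_⟩
      rw [hMz] at hm
      obtain ⟨t, rfl⟩ := Subgroup.mem_zpowers_iff.1 hm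
      rw [← conj_zpow, ← he, ← zpow_natCast m₀ e, ← zpow_mul, ← zpow_natCast (m₀ ^ t) e, ← zpow_mul, mul_comm]
    have hconj : ∀ g c : H, ∀ m ∈ M, (g * c * g⁻¹) * m * (g * c * g⁻¹)⁻¹ = c * m * c⁻¹ := by
      intro g c m hm
      obtain ⟨e, he⟩ := hexp c
      have h3 : g⁻¹ * m * g ∈ M := by
        have := hMn.conj_mem m hm g⁻¹
        simpa using this
      calc (g * c * g⁻¹) * m * (g * c * g⁻¹)⁻¹ = g * (c * (g⁻¹ * m * g) * c⁻¹) * g⁻¹ := by group
        _ = g * (g⁻¹ * m * g) ^ e * g⁻¹ := by rw [he _ h3]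
        _ = m ^ e := by
            rw [← conj_pow]
            congr 1
            group
        _ = c * m * c⁻¹ := (he m hm).symm
    have hcomm : ∀ a b : H, ∀ m ∈ M, a * (b * m * b⁻¹) * a⁻¹ = b * (a * m * a⁻¹) * b⁻¹ := by
      intro a b m hm
      obtain ⟨e, he⟩ := hexp a
      obtain ⟨d, hd⟩ := hexp b
      rw [he _ (hMn.conj_mem m hm b), hd m hm, hd _ (hMn.conj_mem m hm a), he m hm]
      rw [← pow_mul, ← pow_mul, mul_comm]
    -- `i²` centralises `M`
    have hzc : ∀ m ∈ M, i ^ 2 * m * (i ^ 2)⁻¹ = m := by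
      intro m hm
      have h3 := hconj j i m hm
      rw [hji] at h3
      -- `i⁻¹` acts as `i`
      have h4 : i * (i * m * i⁻¹) * i⁻¹ = i * (i⁻¹ * m * i⁻¹⁻¹) * i⁻¹ := by
        rw [h3]
      calc i ^ 2 * m * (i ^ 2)⁻¹ = i * (i * m * i⁻¹) * i⁻¹ := by
            rw [pow_two]; group
        _ = i * (i⁻¹ * m * i⁻¹⁻¹) * i⁻¹ := h4
        _ = m := by group
    have hi4 : i ^ 4 = 1 := by
      rw [← hoi]; exact pow_orderOf_eq_one i
    -- order four elements act as `i`
    have hyact : ∀ y : H, orderOf y = 4 → ∀ m ∈ M, y * m * y⁻¹ = i * m * i⁻¹ := by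
      intro y hy m hm
      obtain ⟨g, hg⟩ := c4_of_bprop hB i y hoi hy
      obtain ⟨d, hd, hyd⟩ := mem_conj_iff.1 hg
      obtain ⟨t, rfl⟩ := Subgroup.mem_zpowers_iff.1 hd
      rw [hyd, hconj g _ m hm]
      rcases Int.even_or_odd' t with ⟨s, rfl | rfl⟩
      · exfalso
        have h3 : y ^ 2 = 1 := by
          rw [hyd, conj_pow, ← zpow_natCast, ← zpow_mul]
          have h4 : (2 : ℤ) * s * ((2 : ℕ) : ℤ) = 4 * s := by push_cast; ring
          rw [h4, zpow_mul, zpow_ofNat, hi4, one_zpow]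
          group
        have h4 := orderOf_dvd_of_pow_eq_one h3
        rw [hy] at h4
        omega
      · have h3 : i ^ ((2 : ℤ) * s + 1) = (i ^ 2) ^ s * i := by
          rw [zpow_add, zpow_mul, zpow_one, zpow_ofNat]
        have h5 : ∀ (r : ℤ), ∀ m ∈ M, (i ^ 2) ^ r * m * ((i ^ 2) ^ r)⁻¹ = m := by
          intro r
          have hC : i ^ 2 ∈ Subgroup.centralizer (M : Set H) := by
            rw [Subgroup.mem_centralizer_iff]
            intro m hm
            have := hzc m hm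
            exact (mul_inv_eq_iff_eq_mul.1 this).symm
          intro m hm
          have h6 := Subgroup.zpow_mem _ hC r
          rw [Subgroup.mem_centralizer_iff] at h6
          have h7 := h6 m hm
          rw [← h7]
          group
        rw [h3]
        have h6 := h5 s _ (hMn.conj_mem m hm i)
        calc (i ^ 2) ^ s * i * m * ((i ^ 2) ^ s * i)⁻¹ = (i ^ 2) ^ s * (i * m * i⁻¹) * ((i ^ 2) ^ s)⁻¹ := by group
          _ = i * m * i⁻¹ := h6
    -- `Q` centralises `M`
    have hicen : ∀ m ∈ M, i * m * i⁻¹ = m := by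
      intro m hm
      have h3 := hyact (i * j) hok m hm
      have h4 : (i * j) * m * (i * j)⁻¹ = i * (j * m * j⁻¹) * i⁻¹ := by group
      rw [h4, hyact j hoj m hm] at h3
      rw [← h3]
      have h5 := hzc m hm
      calc i * (i * m * i⁻¹) * i⁻¹ = i ^ 2 * m * (i ^ 2)⁻¹ := by
            rw [pow_two]; group
        _ = m := h5
    have hjcen : ∀ m ∈ M, j * m * j⁻¹ = m := fun m hm => by rw [hyact j hoj m hm, hicen m hm]
    have hQc : ∀ a ∈ (Q : Subgroup H), ∀ m ∈ M, a * m = m * a := by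
      intro a ha
      have hiC : i ∈ Subgroup.centralizer (M : Set H) := by
        rw [Subgroup.mem_centralizer_iff]
        intro m hm
        exact (mul_inv_eq_iff_eq_mul.1 (hicen m hm)).symm
      have hjC : j ∈ Subgroup.centralizer (M : Set H) := by
        rw [Subgroup.mem_centralizer_iff]
        intro m hm
        exact (mul_inv_eq_iff_eq_mul.1 (hjcen m hm)).symm
      obtain ⟨k, l, rfl⟩ := hgen a ha
      have h3 : i ^ k * j ^ l ∈ Subgroup.centralizer (M : Set H) :=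
        Subgroup.mul_mem _ (_root_.pow_mem hiC k) (_root_.pow_mem hjC l)
      rw [Subgroup.mem_centralizer_iff] at h3
      intro m hm
      exact (h3 m hm).symm
    -- the quotient
    set f := QuotientGroup.mk' M with hf
    have hfs : Function.Surjective f := QuotientGroup.mk'_surjective M
    have hPcop : (Nat.card M).Coprime (Nat.card (Q : Subgroup H)) := by
      obtain ⟨l, hl⟩ := IsPGroup.iff_card.1 Q.isPGroup'
      rw [hl]
      exact Nat.Coprime.pow_right _ hcop
    have hinj : ∀ x ∈ (Q : Subgroup H), f x = 1 → x = 1 := by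
      intro x hx h3
      have h4 : x ∈ M ⊓ (Q : Subgroup H) := Subgroup.mem_inf.mpr ⟨(QuotientGroup.eq_one_iff x).1 h3, hx⟩
      rw [(Subgroup.disjoint_of_coprime_natCard hPcop).eq_bot, Subgroup.mem_bot] at h4
      exact h4
    have hlt : Nat.card (H ⧸ M) < n := by
      have h3 := Subgroup.card_eq_card_quotient_mul_card_subgroup M
      have h4 : 1 < Nat.card M := (Subgroup.one_lt_card_iff_ne_bot M).mpr hM.2.1
      rw [← hn, h3]
      exact lt_mul_of_one_lt_right Nat.card_pos h4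
    have hq' : BProp (H ⧸ M) := core hB hsol M q hMc h2 hM.2.1
    have hodd' : ∀ (q : ℕ) [Fact q.Prime], q ≠ 2 → ∀ S : Sylow q (H ⧸ M), IsCyclic ↥(S : Subgroup (H ⧸ M)) := by
      intro q' _ hq' S'
      obtain ⟨S₀, rfl⟩ := Sylow.mapSurjective_surjective hfs q' S'
      rw [Sylow.coe_mapSurjective]
      haveI := hodd q' hq' S₀
      exact isCyclic_of_surjective (f.subgroupMap (S₀ : Subgroup H)) (f.subgroupMap_surjective _)
    have hφ : Function.Injective (f.subgroupMap (Q : Subgroup H)) := by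
      intro a b hab
      have h7 : f (a : H) = f (b : H) := congrArg Subtype.val hab
      have h8 : f ((a : H) * (b : H)⁻¹) = 1 := by
        rw [map_mul, map_inv, h7, mul_inv_cancel]
      exact Subtype.ext (mul_inv_eq_one.1 (hinj _ ((Q : Subgroup H).mul_mem a.2 ((Q : Subgroup H).inv_mem b.2)) h8))
    have hQbar := ih _ hlt (H ⧸ M) rfl hq' inferInstance hodd' (Q.mapSurjective hfs)
      (by rw [Sylow.coe_mapSurjective, card_map_of_inj f _ hinj]; exact h8)
      (by
        rw [Sylow.coe_mapSurjective]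
        intro hc
        apply hna
        intro u hu v hv
        have h6 : u * v * (v * u)⁻¹ = 1 := by
          apply hinj
          · exact (Q : Subgroup H).mul_mem ((Q : Subgroup H).mul_mem hu hv)
              ((Q : Subgroup H).inv_mem ((Q : Subgroup H).mul_mem hv hu))
          · rw [map_mul, map_inv, map_mul, map_mul, hc _ ⟨u, hu, rfl⟩ _ ⟨v, hv, rfl⟩, mul_inv_cancel]
        exact mul_inv_eq_one.1 h6)
      (by
        rw [Sylow.coe_mapSurjective]
        have hφ' : Function.Bijective (f.subgroupMap (Q : Subgroup H)) := ⟨hφ, f.subgroupMap_surjective _⟩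
        exact UniqueP.of_injective (MulEquiv.ofBijective _ hφ').symm.toMonoidHom
          (MulEquiv.ofBijective _ hφ').symm.injective hun)
    rw [Sylow.coe_mapSurjective] at hQbar
    have hLn : ((Q : Subgroup H) ⊔ M).Normal := by
      have h6 : Subgroup.comap f ((Q : Subgroup H).map f) = (Q : Subgroup H) ⊔ M := by
        rw [Subgroup.comap_map_eq, hf, QuotientGroup.ker_mk']
      rw [← h6]
      exact hQbar.comap f
    refine ⟨fun x hx g => ?_⟩
    have h3 : g * x * g⁻¹ ∈ (Q : Subgroup H) ⊔ M := hLn.conj_mem x (Subgroup.mem_sup_left hx) g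
    obtain ⟨u, hu, m, hm, hum⟩ := exists_mul_of_mem_sup _ _ hQc h3
    have hQ8 : ∀ w ∈ (Q : Subgroup H), w ^ 8 = 1 := by
      intro w hw
      have := pow_card_eq_one' (G := ↥(Q : Subgroup H)) (x := ⟨w, hw⟩)
      rw [h8] at this
      exact congrArg Subtype.val this
    have h4 : (g * x * g⁻¹) ^ 8 = 1 := by
      rw [conj_pow, hQ8 x hx]; group
    rw [hum, (show Commute u m from hQc u hu m hm).mul_pow, hQ8 u hu, one_mul] at h4
    have h5 : Nat.Coprime q 8 := by
      have : (8 : ℕ) = 2 ^ 3 := by norm_num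
      rw [this]
      exact Nat.Coprime.pow_right _ ((Nat.coprime_primes hq Nat.prime_two).2 hq2)
    have h6 : orderOf m = 1 :=
      Nat.eq_one_of_dvd_coprimes h5 (orderOf_dvd_of_pow_eq_one (h2 m hm)) (orderOf_dvd_of_pow_eq_one h4)
    rw [hum, orderOf_eq_one_iff.1 h6, mul_one]
    exact hu

end Cfsg.Agent.Lib.Coprime.BP
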