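import Mathlib
import Cfsg.Agent.Lib.Coprime.BProp4

/-!
# Conjugacy of all subgroups of equal order in the quaternion case
-/

set_option autoImplicit false
set_option linter.unusedSectionVars false
set_option linter.style.haveILetI false
set_option linter.unusedVariables false

namespace Cfsg.Agent.Lib.Coprime.BP

open Subgroup Cfsg
open Cfsg.Agent.Lib.OddLocal (UniqueP)
open scoped Pointwise commutatorElement

universe u

variable {G : Type*} [Group G]

theorem odd_centralizes [Finite G] (c r : G) (hc : orderOf c = 4) (hr : ¬ 2 ∣ orderOf r) (hn : r * c * r⁻¹ ∈ zpowers c) :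
    r * c = c * r := by
  obtain ⟨t, ht⟩ := Subgroup.mem_zpowers_iff.1 hn
  have hc4 : c ^ 4 = 1 := by
    rw [← hc]; exact pow_orderOf_eq_one c
  have hr2 : r ^ 2 * c * (r ^ 2)⁻¹ = c := by
    rcases Int.even_or_odd' t with ⟨s, rfl | rfl⟩
    · exfalso
      have h1 : (r * c * r⁻¹) ^ 2 = 1 := by
        rw [← ht, ← zpow_natCast, ← zpow_mul]
        have h4 : (2 : ℤ) * s * ((2 : ℕ) : ℤ) = 4 * s := by push_cast; ring
        rw [h4, zpow_mul, zpow_ofNat, hc4, one_zpow]
      rw [conj_pow] at h1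
      have h2 : r * c ^ 2 = r := mul_inv_eq_one.1 h1
      have h3 : c ^ 2 = 1 := mul_left_cancel (h2.trans (mul_one r).symm)
      have h4 := orderOf_dvd_of_pow_eq_one h3
      rw [hc] at h4
      omega
    · have h1 : r * (r * c * r⁻¹) * r⁻¹ = (r * c * r⁻¹) ^ ((2 : ℤ) * s + 1) := by
        conv_lhs => rw [← ht]
        rw [conj_zpow]
      have h2 : r ^ 2 * c * (r ^ 2)⁻¹ = r * (r * c * r⁻¹) * r⁻¹ := by
        rw [pow_two]; group
      rw [h2, h1, ← ht, ← zpow_mul]
      have h4 : ((2 : ℤ) * s + 1) * ((2 : ℤ) * s + 1) = 4 * (s * s + s) + 1 := by ring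
      rw [h4, zpow_add, zpow_mul, zpow_ofNat, hc4, one_zpow, one_mul, zpow_one]
  have hr2c : Commute (r ^ 2) c := (mul_inv_eq_iff_eq_mul.1 hr2)
  obtain ⟨d, hd⟩ : ∃ d, orderOf r = 2 * d + 1 := by
    have := Nat.odd_iff.2 (Nat.mod_two_ne_zero.1 (fun h => hr (Nat.dvd_of_mod_eq_zero h)))
    exact this
  have h3 : r = (r ^ 2) ^ (d + 1) := by
    rw [← pow_mul]
    have h4 : 2 * (d + 1) = (2 * d + 1) + 1 := by ring
    rw [h4, pow_succ, ← hd, pow_orderOf_eq_one, one_mul]
  have h5 : Commute r c := by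
    rw [h3]
    exact hr2c.pow_left _
  exact h5.eq

theorem AProp.conj_in {C : Subgroup G} (hC : AProp ↥C) {X Y : Subgroup G} (hX : X ≤ C) (hY : Y ≤ C)
    (h : Nat.card X = Nat.card Y) : ∃ a ∈ C, Y = X.map (MulAut.conj a).toMonoidHom := by
  obtain ⟨a, ha⟩ := hC (X.subgroupOf C) (Y.subgroupOf C) (by
    rw [Nat.card_congr (Subgroup.subgroupOfEquivOfLe hX).toEquiv,
      Nat.card_congr (Subgroup.subgroupOfEquivOfLe hY).toEquiv, h])
  refine ⟨a, a.2, ?_⟩
  ext y
  rw [mem_conj_iff]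
  constructor
  · intro hy
    have h1 : (⟨y, hY hy⟩ : ↥C) ∈ Y.subgroupOf C := Subgroup.mem_subgroupOf.2 hy
    rw [ha] at h1
    obtain ⟨x, hx, hxy⟩ := Subgroup.mem_map.1 h1
    refine ⟨x, Subgroup.mem_subgroupOf.1 hx, ?_⟩
    have h2 := congrArg Subtype.val hxy
    exact h2.symm
  · rintro ⟨x, hx, rfl⟩
    have h1 : (MulAut.conj a).toMonoidHom (⟨x, hX hx⟩ : ↥C) ∈ Y.subgroupOf C := by
      rw [ha]
      exact Subgroup.mem_map_of_mem _ (Subgroup.mem_subgroupOf.2 hx)
    exact Subgroup.mem_subgroupOf.1 h1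

theorem exists_gen_four [Finite G] {Q T : Subgroup G} (hTQ : T ≤ Q) (hT : Nat.card T = 4) (hQ2 : IsPGroup 2 Q)
    (hun : UniqueP 2 ↥Q) : ∃ c ∈ Q, T = zpowers c ∧ orderOf c = 4 := by
  haveI : Fact (Nat.Prime 2) := ⟨Nat.prime_two⟩
  have hT2 : IsPGroup 2 T := IsPGroup.of_card (n := 2) (by rw [hT]; norm_num)
  have hcomm : ∀ a b : ↥T, a * b = b * a := by
    have h1 := IsPGroup.isMulCommutative_of_card_eq_prime_sq (p := 2) (G := ↥T) (by rw [hT]; norm_num)
    exact fun a b => h1.is_comm.comm a b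
  have hunT : UniqueP 2 ↥T := UniqueP.of_injective (Subgroup.inclusion hTQ) (Subgroup.inclusion_injective hTQ) hun
  have hcyc := Cfsg.Agent.Lib.OddLocal.isCyclic_of_comm_uniqueP hT2 hcomm hunT
  obtain ⟨⟨c, hc⟩, hgen⟩ := hcyc.exists_generator
  have h3 : orderOf (⟨c, hc⟩ : ↥T) = Nat.card T := orderOf_eq_card_of_forall_mem_zpowers hgen
  have h4 : orderOf c = 4 := by
    rw [← Subgroup.orderOf_mk c hc, h3, hT]
  refine ⟨c, hTQ hc, ?_, h4⟩
  symm
  apply Subgroup.eq_of_le_of_card_ge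
  · exact (Subgroup.zpowers_le).2 hc
  · rw [Nat.card_zpowers, h4, hT]

/-- Quaternion case of the conjugacy of all subgroups of equal order. -/
theorem aprop_of_quat_normal {B : Type u} [Group B] [Finite B] (Q : Subgroup B) [hQn : Q.Normal] (hQ2 : IsPGroup 2 Q)
    (hQ8 : Nat.card Q = 8) (hQun : UniqueP 2 ↥Q) (hidx : ¬ 2 ∣ Q.index)
    (hodd : ∀ (q : ℕ) [Fact q.Prime], q ≠ 2 → ∀ S : Sylow q B, IsCyclic ↥(S : Subgroup B))
    (hconj : ∀ c ∈ Q, ∀ c' ∈ Q, orderOf c = 4 → orderOf c' = 4 →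
      ∃ u : B, zpowers c' = (zpowers c).map (MulAut.conj u).toMonoidHom) : AProp B := by
  classical
  haveI hf2 : Fact (Nat.Prime 2) := ⟨Nat.prime_two⟩
  have h2c : ∀ n : ℕ, ¬ 2 ∣ n → Nat.Coprime 2 n := fun n hn => (Nat.Prime.coprime_iff_not_dvd Nat.prime_two).2 hn
  set f := QuotientGroup.mk' Q with hf
  have hfs : Function.Surjective f := QuotientGroup.mk'_surjective Q
  have hcardq : Nat.card (B ⧸ Q) = Q.index := rfl
  -- all `2`-elements lie in `Q`
  have h2el : ∀ (x : B) (a : ℕ), x ^ 2 ^ a = 1 → x ∈ Q := by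
    intro x a hx
    have h1 : orderOf (f x) ∣ 2 ^ a := by
      apply orderOf_dvd_of_pow_eq_one
      rw [← map_pow, hx, map_one]
    have h2 : orderOf (f x) ∣ Q.index := orderOf_dvd_natCard (f x)
    have h3 : Nat.Coprime (2 ^ a) Q.index := Nat.Coprime.pow_left a (h2c _ hidx)
    have h4 : orderOf (f x) = 1 := Nat.eq_one_of_dvd_coprimes h3 h1 h2
    exact (QuotientGroup.eq_one_iff x).1 (orderOf_eq_one_iff.1 h4)
  -- the quotient is a `Z`-group
  have hZq : IsZGroup (B ⧸ Q) := by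
    refine ⟨fun p hp S => ?_⟩
    haveI : Fact p.Prime := ⟨hp⟩
    by_cases hp2 : p = 2
    · subst hp2
      obtain ⟨k, hk⟩ := IsPGroup.iff_card.1 S.isPGroup'
      have h1 : Nat.card (S : Subgroup (B ⧸ Q)) ∣ Q.index := Subgroup.card_subgroup_dvd_card _
      rcases k with _ | k
      · rw [pow_zero] at hk
        haveI : Subsingleton ↥(S : Subgroup (B ⧸ Q)) := (Nat.card_eq_one_iff_unique.1 hk).1
        exact isCyclic_of_subsingleton
      · exfalso
        apply hidx
        rw [hk] at h1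
        exact (dvd_pow_self 2 (by omega)).trans h1
    · obtain ⟨S₀, rfl⟩ := Sylow.mapSurjective_surjective hfs p S
      rw [Sylow.coe_mapSurjective]
      haveI := hodd p hp2 S₀
      exact isCyclic_of_surjective (f.subgroupMap (S₀ : Subgroup B)) (f.subgroupMap_surjective _)
  have hAq : AProp (B ⧸ Q) := aprop_of_isZGroup _ _ rfl
  -- the centraliser is a `Z`-group
  set C := centralizer (Q : Set B) with hC
  haveI hCn : C.Normal := by
    rw [hC]; infer_instance
  have hZC : IsZGroup ↥C := by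
    refine ⟨fun p hp S => ?_⟩
    haveI : Fact p.Prime := ⟨hp⟩
    by_cases hp2 : p = 2
    · subst hp2
      have hS2 : ∀ x : ↥(S : Subgroup ↥C), ((x : ↥C) : B) ∈ Q := by
        intro x
        obtain ⟨a, ha⟩ := S.isPGroup' x
        apply h2el _ a
        have := congrArg (fun y : ↥(S : Subgroup ↥C) => ((y : ↥C) : B)) ha
        simpa using this
      have hcomm : ∀ a b : ↥(S : Subgroup ↥C), a * b = b * a := by
        intro a b
        apply Subtype.ext
        apply Subtype.ext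
        have h1 := (Subgroup.mem_centralizer_iff.1 (a : ↥C).2) _ (hS2 b)
        exact h1.symm
      let φ : ↥(S : Subgroup ↥C) →* ↥Q :=
        { toFun := fun x => ⟨((x : ↥C) : B), hS2 x⟩
          map_one' := rfl
          map_mul' := fun _ _ => rfl }
      have hφ : Function.Injective φ := by
        intro a b hab
        apply Subtype.ext
        apply Subtype.ext
        have h9 : ((φ a : ↥Q) : B) = ((φ b : ↥Q) : B) := congrArg Subtype.val hab
        exact h9
      exact Cfsg.Agent.Lib.OddLocal.isCyclic_of_comm_uniqueP S.isPGroup' hcomm (UniqueP.of_injective φ hφ hQun)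
    · have hS' : IsPGroup p ((S : Subgroup ↥C).map C.subtype) := S.isPGroup'.map C.subtype
      obtain ⟨S₂, hS₂⟩ := hS'.exists_le_sylow
      haveI := hodd p hp2 S₂
      let φ : ↥(S : Subgroup ↥C) →* ↥(S₂ : Subgroup B) :=
        { toFun := fun x => ⟨((x : ↥C) : B), hS₂ ⟨x, x.2, rfl⟩⟩
          map_one' := rfl
          map_mul' := fun _ _ => rfl }
      refine isCyclic_of_injective φ ?_
      intro a b hab
      apply Subtype.ext
      apply Subtype.ext
      have h9 : ((φ a : ↥(S₂ : Subgroup B)) : B) = ((φ b : ↥(S₂ : Subgroup B)) : B) := congrArg Subtype.val hab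
      exact h9
  have hAC : AProp ↥C := aprop_of_isZGroup _ _ rfl
  -- decomposition
  have hdec : ∀ X : Subgroup B, ∃ R ≤ X, (X ⊓ Q) ⊔ R = X ∧ (X ⊓ Q) ⊓ R = ⊥ ∧ ¬ 2 ∣ Nat.card R ∧
      Nat.card ↥(X ⊓ Q) * Nat.card R = Nat.card X ∧ ∀ x ∈ R, f x = 1 → x = 1 := by
    intro X
    have hle : X ⊓ Q ≤ X := inf_le_left
    have hn : X ≤ normalizer ((X ⊓ Q : Subgroup B) : Set B) := by
      intro x hx
      rw [Subgroup.mem_normalizer_iff]
      intro y
      constructor
      · rintro hy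
        obtain ⟨h1, h2⟩ := Subgroup.mem_inf.1 hy
        exact Subgroup.mem_inf.mpr ⟨X.mul_mem (X.mul_mem hx h1) (X.inv_mem hx), hQn.conj_mem y h2 x⟩
      · intro hy
        obtain ⟨h1, h2⟩ := Subgroup.mem_inf.1 hy
        have h3 : y = x⁻¹ * (x * y * x⁻¹) * x := by group
        rw [h3]
        refine Subgroup.mem_inf.mpr ⟨X.mul_mem (X.mul_mem (X.inv_mem hx) h1) hx, ?_⟩
        have := hQn.conj_mem _ h2 x⁻¹
        simpa using this
    have hri : ¬ 2 ∣ (X ⊓ Q).relIndex X := by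
      intro h
      apply hidx
      have h1 : (X ⊓ Q).relIndex X = Q.relIndex X := by
        rw [inf_comm, Subgroup.inf_relIndex_right]
      rw [h1] at h
      exact h.trans (Subgroup.relIndex_dvd_index_of_normal Q X)
    have h2p : ∃ s, Nat.card ↥(X ⊓ Q) = 2 ^ s := IsPGroup.iff_card.1 (hQ2.to_le inf_le_right)
    obtain ⟨s, hs⟩ := h2p
    obtain ⟨R, hRX, hsup, hinf, hcard⟩ := Cfsg.Agent.Lib.Coprime.exists_complement_of_coprime hle hn (by
      rw [hs]; exact Nat.Coprime.pow_left s (h2c _ hri))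
    refine ⟨R, hRX, hsup, hinf, by rw [hcard]; exact hri, ?_, ?_⟩
    · rw [hcard]
      have h3 := ((X ⊓ Q).subgroupOf X).card_mul_index
      rwa [Nat.card_congr (Subgroup.subgroupOfEquivOfLe hle).toEquiv] at h3
    · intro x hx h1
      have h2 : x ∈ (X ⊓ Q) ⊓ R :=
        Subgroup.mem_inf.mpr ⟨Subgroup.mem_inf.mpr ⟨hRX hx, (QuotientGroup.eq_one_iff x).1 h1⟩, hx⟩
      rw [hinf, Subgroup.mem_bot] at h2
      exact h2
  intro X Y hXY
  obtain ⟨RX, hRX, hsupX, hinfX, hoddX, hcardX, hinjX⟩ := hdec X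
  obtain ⟨RY, hRY, hsupY, hinfY, hoddY, hcardY, hinjY⟩ := hdec Y
  obtain ⟨hTc, hRc⟩ := two_part_unique (IsPGroup.iff_card.1 (hQ2.to_le (inf_le_right : X ⊓ Q ≤ Q)))
    (IsPGroup.iff_card.1 (hQ2.to_le (inf_le_right : Y ⊓ Q ≤ Q))) hoddX hoddY (by rw [hcardX, hcardY, hXY])
  -- conjugate the complements
  obtain ⟨gq, hgq⟩ := hAq (RX.map f) (RY.map f) (by
    rw [card_map_of_inj f _ hinjX, card_map_of_inj f _ hinjY, hRc])
  obtain ⟨g, rfl⟩ := hfs gq
  set R' := RX.map (MulAut.conj g).toMonoidHom with hR'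
  have hcR' : Nat.card R' = Nat.card RX := card_conj RX g
  have h1 : R'.map f = RY.map f := by
    rw [hR', map_conj_map, hgq]
  have h2 := congrArg (Subgroup.comap f) h1
  rw [Subgroup.comap_map_eq, Subgroup.comap_map_eq, hf, QuotientGroup.ker_mk'] at h2
  have hnormQ : ∀ Z : Subgroup B, Z ≤ normalizer (Q : Set B) := by
    intro Z
    rw [Subgroup.normalizer_eq_top_iff.2 hQn]
    exact le_top
  have hQ2card : ∃ s, Nat.card Q = 2 ^ s := IsPGroup.iff_card.1 hQ2
  have hcopZ : ∀ Z : Subgroup B, ¬ 2 ∣ Nat.card Z → (Nat.card Q).Coprime (Nat.card Z) := by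
    intro Z hZ
    rw [hQ8]
    have : (8 : ℕ) = 2 ^ 3 := by norm_num
    rw [this]
    exact Nat.Coprime.pow_left 3 (h2c _ hZ)
  haveI hQsolv : Group.IsSolvable ↥Q := by
    haveI := hQ2.isNilpotent
    infer_instance
  obtain ⟨a, haQ, ha⟩ := Cfsg.Agent.Lib.Basic.schurZassenhaus_conj_rel Q R' RY (hnormQ _) (hnormQ _)
    (hcopZ _ (by rw [hcR']; exact hoddX)) (hcopZ _ hoddY) h2 (Or.inl hQsolv)
  have hRg : RY = RX.map (MulAut.conj (a * g)).toMonoidHom := by
    rw [← map_conj_mul, ← ha]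
    rfl
  set g₁ := a * g with hg₁
  set T' := (X ⊓ Q).map (MulAut.conj g₁).toMonoidHom with hT'
  set TY := Y ⊓ Q with hTY
  have hT'Q : T' ≤ Q := by
    intro x hx
    obtain ⟨t, ht, rfl⟩ := mem_conj_iff.1 hx
    exact hQn.conj_mem t (Subgroup.mem_inf.1 ht).2 g₁
  have hTYQ : TY ≤ Q := inf_le_right
  have hcT : Nat.card T' = Nat.card TY := by
    rw [hT', card_conj]; exact hTc
  have hXg : X.map (MulAut.conj g₁).toMonoidHom = T' ⊔ RY := by
    conv_lhs => rw [← hsupX]
    rw [Subgroup.map_sup, ← hRg]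
  by_cases hTT : T' = TY
  · refine ⟨g₁, ?_⟩
    rw [hXg, hTT]
    exact hsupY.symm
  -- the order four case
  have hc4 : Nat.card TY = 4 := by
    have hd : Nat.card TY ∣ 8 := hQ8 ▸ Subgroup.card_dvd_of_le hTYQ
    have hle : Nat.card TY ≤ 8 := Nat.le_of_dvd (by norm_num) hd
    interval_cases hv : Nat.card TY
    · exact absurd hd (by norm_num)
    · exfalso
      apply hTT
      rw [(Subgroup.card_eq_one (H := TY)).1 hv, (Subgroup.card_eq_one (H := T')).1 (by rw [hcT])]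
    · exfalso
      apply hTT
      have h5 := hQun (T'.subgroupOf Q) (TY.subgroupOf Q)
        (by rw [Nat.card_congr (Subgroup.subgroupOfEquivOfLe hT'Q).toEquiv, hcT])
        (by rw [Nat.card_congr (Subgroup.subgroupOfEquivOfLe hTYQ).toEquiv, hv])
      have h6 := Subgroup.subgroupOf_inj.1 h5
      rwa [inf_of_le_left hT'Q, inf_of_le_left hTYQ] at h6
    · exact absurd hd (by norm_num)
    · rfl
    · exact absurd hd (by norm_num)
    · exact absurd hd (by norm_num)
    · exact absurd hd (by norm_num)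
    · exfalso
      apply hTT
      have h5 : T' = Q := Subgroup.eq_of_le_of_card_ge hT'Q (by rw [hcT, hQ8])
      have h6 : TY = Q := Subgroup.eq_of_le_of_card_ge hTYQ (by rw [hv, hQ8])
      rw [h5, h6]
  obtain ⟨c, hcQ, hcT', hco⟩ := exists_gen_four hT'Q (by rw [hcT, hc4]) hQ2 hQun
  obtain ⟨c', hc'Q, hc'T, hc'o⟩ := exists_gen_four hTYQ hc4 hQ2 hQun
  -- `RY` centralises `Q`
  have hRodd : ∀ r ∈ RY, ¬ 2 ∣ orderOf r := by
    intro r hr h
    exact hoddY (h.trans (Subgroup.orderOf_dvd_natCard RY hr))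
  have hrc : ∀ r ∈ RY, r * c = c * r := by
    intro r hr
    apply odd_centralizes c r hco (hRodd r hr)
    rw [← hcT']
    rw [hRg] at hr
    obtain ⟨r₀, hr₀, rfl⟩ := mem_conj_iff.1 hr
    have hcT2 : c ∈ T' := by
      rw [hcT']; exact Subgroup.mem_zpowers c
    obtain ⟨t, ht, htc⟩ := mem_conj_iff.1 hcT2
    refine mem_conj_iff.2 ⟨r₀ * t * r₀⁻¹, ?_, ?_⟩
    · obtain ⟨h3, h4⟩ := Subgroup.mem_inf.1 ht
      exact Subgroup.mem_inf.mpr ⟨X.mul_mem (X.mul_mem (hRX hr₀) h3) (X.inv_mem (hRX hr₀)), hQn.conj_mem t h4 r₀⟩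
    · rw [htc]; group
  have hrc' : ∀ r ∈ RY, r * c' = c' * r := by
    intro r hr
    apply odd_centralizes c' r hc'o (hRodd r hr)
    rw [← hc'T]
    have hcT2 : c' ∈ TY := by
      rw [hc'T]; exact Subgroup.mem_zpowers c'
    obtain ⟨h3, h4⟩ := Subgroup.mem_inf.1 hcT2
    exact Subgroup.mem_inf.mpr ⟨Y.mul_mem (Y.mul_mem (hRY hr) h3) (Y.inv_mem (hRY hr)), hQn.conj_mem c' h4 r⟩
  have hQsup : zpowers c ⊔ zpowers c' = Q := by
    have hle : zpowers c ⊔ zpowers c' ≤ Q :=
      sup_le ((Subgroup.zpowers_le).2 hcQ) ((Subgroup.zpowers_le).2 hc'Q)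
    apply Subgroup.eq_of_le_of_card_ge hle
    have h3 : Nat.card ↥(zpowers c ⊔ zpowers c') ∣ 8 := hQ8 ▸ Subgroup.card_dvd_of_le hle
    have h4 : zpowers c < zpowers c ⊔ zpowers c' := by
      refine lt_of_le_of_ne le_sup_left ?_
      intro h5
      have h6 : zpowers c' ≤ zpowers c := by
        rw [h5]; exact le_sup_right
      apply hTT
      rw [hcT', hc'T]
      symm
      apply Subgroup.eq_of_le_of_card_ge h6
      rw [Nat.card_zpowers, Nat.card_zpowers, hco, hc'o]
    have h5 : 4 < Nat.card ↥(zpowers c ⊔ zpowers c') := by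
      have := Cfsg.Agent.Lib.OddLocal.card_lt_of_lt h4
      rwa [Nat.card_zpowers, hco] at this
    have h6 := Nat.le_of_dvd (by norm_num) h3
    rw [hQ8]
    interval_cases hv : Nat.card ↥(zpowers c ⊔ zpowers c')
    · exact absurd h3 (by norm_num)
    · exact absurd h3 (by norm_num)
    · exact absurd h3 (by norm_num)
    · exact le_refl _
  have hRC : RY ≤ C := by
    intro r hr
    rw [hC, Subgroup.mem_centralizer_iff]
    intro x hx
    have hle : zpowers c ⊔ zpowers c' ≤ centralizer ({r} : Set B) := by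
      refine sup_le ((Subgroup.zpowers_le).2 ?_) ((Subgroup.zpowers_le).2 ?_)
      · rw [Subgroup.mem_centralizer_singleton_iff]
        exact (hrc r hr).symm
      · rw [Subgroup.mem_centralizer_singleton_iff]
        exact (hrc' r hr).symm
    rw [← hQsup] at hx
    have := hle hx
    rw [Subgroup.mem_centralizer_singleton_iff] at this
    exact this
  -- the final conjugation
  obtain ⟨u, hu⟩ := hconj c hcQ c' hc'Q hco hc'o
  have hR2C : RY.map (MulAut.conj u).toMonoidHom ≤ C := by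
    intro x hx
    obtain ⟨r, hr, rfl⟩ := mem_conj_iff.1 hx
    exact hCn.conj_mem r (hRC hr) u
  obtain ⟨a', ha'C, ha'⟩ := AProp.conj_in hAC hR2C hRC (card_conj RY u)
  refine ⟨(a' * u) * g₁, ?_⟩
  rw [← map_conj_mul, hXg, Subgroup.map_sup, ← map_conj_mul, ← map_conj_mul, ← ha']
  have h7 : (T'.map (MulAut.conj u).toMonoidHom).map (MulAut.conj a').toMonoidHom = TY := by
    rw [hcT', ← hu, ← hc'T]
    ext x
    rw [mem_conj_iff]
    constructor
    · rintro ⟨t, ht, rfl⟩
      have h8 := (Subgroup.mem_centralizer_iff.1 ha'C) t (hTYQ ht)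
      have h9 : a' * t * a'⁻¹ = t := by
        rw [← h8]; group
      rw [h9]
      exact ht
    · intro hx
      have h8 := (Subgroup.mem_centralizer_iff.1 ha'C) x (hTYQ hx)
      exact ⟨x, hx, by rw [← h8]; group⟩
  rw [h7]
  exact hsupY.symm

end Cfsg.Agent.Lib.Coprime.BP
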