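import Mathlib
import Cfsg.Agent.Lib.Coprime.BProp5

/-!
# Abelian normal Hall subgroup and a complement with Sylow subgroups cyclic or quaternion
-/

set_option autoImplicit false
set_option linter.unusedSectionVars false
set_option linter.style.haveILetI false
set_option linter.unusedVariables false

namespace Cfsg.Agent.Lib.Coprime.BP

open Subgroup Cfsg
open Cfsg.Agent.Lib.OddLocal (UniqueP)
open scoped Pointwise commutatorElement

universe u

variable {G : Type*} [Group G]

/-- The decomposition. -/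
structure Dec (F H₀ : Subgroup G) : Prop where
  normal : F.Normal
  comm : ∀ a ∈ F, ∀ b ∈ F, a * b = b * a
  inf : F ⊓ H₀ = ⊥
  sup : F ⊔ H₀ = ⊤
  cop : (Nat.card F).Coprime (Nat.card H₀)
  syl : ∀ (q : ℕ) [Fact q.Prime] (T : Subgroup G), T ≤ H₀ → IsPGroup q T → IsCyclic ↥T ∨
    (q = 2 ∧ Nat.card T = 8 ∧ (¬ ∀ u ∈ T, ∀ v ∈ T, u * v = v * u) ∧ UniqueP q ↥T)
  fsyl : ∀ x ∈ F, ∀ (p a : ℕ), p.Prime → x ^ p ^ a = 1 → ∃ V : Subgroup G, V.Normal ∧ x ∈ V ∧ V ≤ F ∧ ∀ v ∈ V, v ^ p = 1

section

variable [Finite G]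

theorem mem_of_normal_sylow {p : ℕ} [Fact p.Prime] (P : Sylow p G) (hPn : (P : Subgroup G).Normal) (x : G) (a : ℕ)
    (hx : x ^ p ^ a = 1) : x ∈ (P : Subgroup G) := by
  have hz : IsPGroup p (zpowers x) := by
    intro y
    obtain ⟨y, hy⟩ := y
    obtain ⟨t, rfl⟩ := Subgroup.mem_zpowers_iff.1 hy
    refine ⟨a, Subtype.ext ?_⟩
    show (x ^ t) ^ p ^ a = 1
    rw [← zpow_natCast, zpow_comm, zpow_natCast, hx, one_zpow]
  obtain ⟨P', hP'⟩ := hz.exists_le_sylow
  have h1 : (P : Subgroup G) ≤ P' := Cfsg.Agent.Lib.Basic.normal_pGroup_le_sylow hPn P.isPGroup' P'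
  have h2 : (P : Subgroup G) = P' := Subgroup.eq_of_le_of_card_ge h1 (by
    rw [Sylow.card_eq_multiplicity, Sylow.card_eq_multiplicity])
  rw [h2]
  exact hP' (Subgroup.mem_zpowers x)

/-- Existence of the decomposition. -/
theorem exists_F (hB : BProp G) (hsol : Group.IsSolvable G) (S : Finset ℕ)
    (hS : ∀ p ∈ S, ∃ (hp : Fact p.Prime) (P : Sylow p G), (P : Subgroup G).Normal ∧ (∀ x ∈ (P : Subgroup G), x ^ p = 1) ∧
      (∀ u ∈ (P : Subgroup G), ∀ v ∈ (P : Subgroup G), u * v = v * u)) :
    ∃ F : Subgroup G, F.Normal ∧ (∀ a ∈ F, ∀ b ∈ F, a * b = b * a) ∧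
      (∀ p ∈ S, ∀ (x : G) (a : ℕ), x ^ p ^ a = 1 → x ∈ F) ∧ (∀ q : ℕ, q.Prime → q ∣ Nat.card F → q ∈ S) := by
  classical
  induction S using Finset.induction_on with
  | empty =>
    refine ⟨⊥, inferInstance, ?_, ?_, ?_⟩
    · intro a ha b hb
      rw [Subgroup.mem_bot] at ha hb
      rw [ha, hb]
    · intro p hp
      simp at hp
    · intro q hq h
      rw [Subgroup.card_bot] at h
      exact absurd (Nat.dvd_one.1 h) hq.one_lt.ne'
  | insert p S hpS ih =>
    obtain ⟨F, hFn, hFc, hFp, hFq⟩ := ih (fun p' hp' => hS p' (Finset.mem_insert_of_mem hp'))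
    obtain ⟨hpf, P, hPn, hPe, hPc⟩ := hS p (Finset.mem_insert_self p S)
    haveI := hpf
    haveI := hFn
    haveI := hPn
    have hcop : (Nat.card F).Coprime (Nat.card (P : Subgroup G)) := by
      obtain ⟨k, hk⟩ := IsPGroup.iff_card.1 P.isPGroup'
      rw [hk]
      apply Nat.Coprime.pow_right
      rw [Nat.coprime_comm, Nat.Prime.coprime_iff_not_dvd hpf.out]
      exact fun h => hpS (hFq p hpf.out h)
    have hinf : F ⊓ (P : Subgroup G) = ⊥ := (Subgroup.disjoint_of_coprime_natCard hcop).eq_bot
    have hcomm : ∀ u ∈ F, ∀ v ∈ (P : Subgroup G), u * v = v * u := by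
      intro u hu v hv
      have h1 : u * v * u⁻¹ * v⁻¹ ∈ F ⊓ (P : Subgroup G) := by
        refine Subgroup.mem_inf.mpr ⟨?_, ?_⟩
        · have : u * v * u⁻¹ * v⁻¹ = u * (v * u⁻¹ * v⁻¹) := by group
          rw [this]
          exact F.mul_mem hu (hFn.conj_mem _ (F.inv_mem hu) v)
        · exact (P : Subgroup G).mul_mem (hPn.conj_mem v hv u) ((P : Subgroup G).inv_mem hv)
      rw [hinf, Subgroup.mem_bot] at h1
      have h2 : u * v * u⁻¹ = v := mul_inv_eq_one.1 h1
      calc u * v = u * v * u⁻¹ * u := by group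
        _ = v * u := by rw [h2]
    refine ⟨F ⊔ (P : Subgroup G), inferInstance, comm_sup _ _ hcomm hFc hPc, ?_, ?_⟩
    · intro p' hp' x a hx
      rcases Finset.mem_insert.1 hp' with rfl | hp''
      · apply Subgroup.mem_sup_right
        have hz : IsPGroup p' (zpowers x) := by
          intro y
          obtain ⟨y, hy⟩ := y
          obtain ⟨t, rfl⟩ := Subgroup.mem_zpowers_iff.1 hy
          refine ⟨a, Subtype.ext ?_⟩
          show (x ^ t) ^ p' ^ a = 1
          rw [← zpow_natCast, zpow_comm, zpow_natCast, hx, one_zpow]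
        obtain ⟨P', hP'⟩ := hz.exists_le_sylow
        have h1 : (P : Subgroup G) ≤ P' := Cfsg.Agent.Lib.Basic.normal_pGroup_le_sylow hPn P.isPGroup' P'
        have h2 : (P : Subgroup G) = P' := Subgroup.eq_of_le_of_card_ge h1 (by
          rw [Sylow.card_eq_multiplicity, Sylow.card_eq_multiplicity])
        rw [h2]
        exact hP' (Subgroup.mem_zpowers x)
      · exact Subgroup.mem_sup_left (hFp p' hp'' x a hx)
    · intro q hq hd
      rw [card_sup_of_comm _ _ hcomm hinf] at hd
      rcases (Nat.Prime.dvd_mul hq).1 hd with h1 | h1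
      · exact Finset.mem_insert_of_mem (hFq q hq h1)
      · obtain ⟨k, hk⟩ := IsPGroup.iff_card.1 P.isPGroup'
        rw [hk] at h1
        have := (Nat.prime_dvd_prime_iff_eq hq hpf.out).1 (hq.dvd_of_dvd_pow h1)
        rw [this]
        exact Finset.mem_insert_self p S

/-- Existence of the decomposition. -/
theorem exists_dec (hB : BProp G) (hsol : Group.IsSolvable G) : ∃ F H₀ : Subgroup G, Dec F H₀ := by
  classical
  -- the bad primes
  let S : Finset ℕ := (Nat.card G).primeFactors.filter (fun p => ∃ (hp : Fact p.Prime) (P : Sylow p G),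
    (P : Subgroup G).Normal ∧ (∀ x ∈ (P : Subgroup G), x ^ p = 1) ∧
      (∀ u ∈ (P : Subgroup G), ∀ v ∈ (P : Subgroup G), u * v = v * u) ∧ ¬ IsCyclic ↥(P : Subgroup G))
  obtain ⟨F, hFn, hFc, hFp, hFq⟩ := exists_F hB hsol S (fun p hp => by
    obtain ⟨hpf, P, h1, h2, h3, -⟩ := (Finset.mem_filter.1 hp).2
    exact ⟨hpf, P, h1, h2, h3⟩)
  haveI := hFn
  have hidx : (Nat.card F).Coprime F.index := by
    rw [Nat.coprime_iff_gcd_eq_one] 
    by_contra hne
    obtain ⟨q, hq, hqd⟩ := Nat.exists_prime_and_dvd hne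
    have hq1 : q ∣ Nat.card F := hqd.trans (Nat.gcd_dvd_left _ _)
    have hq2 : q ∣ F.index := hqd.trans (Nat.gcd_dvd_right _ _)
    have hqS := hFq q hq hq1
    obtain ⟨hpf, P, h1, h2, h3, -⟩ := (Finset.mem_filter.1 hqS).2
    haveI := hpf
    have h4 : (P : Subgroup G) ≤ F := by
      intro x hx
      obtain ⟨a, ha⟩ := P.isPGroup' ⟨x, hx⟩
      exact hFp q hqS x a (congrArg Subtype.val ha)
    have h5 : F.index ∣ (P : Subgroup G).index := Subgroup.index_dvd_of_le h4
    exact P.not_dvd_index (hq2.trans h5)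
  obtain ⟨H₀, hH₀⟩ := Subgroup.exists_right_complement'_of_coprime hidx
  have hcardH : Nat.card H₀ = F.index := hH₀.symm.index_eq_card.symm
  refine ⟨F, H₀, hFn, hFc, hH₀.disjoint.eq_bot, hH₀.sup_eq_top, by rw [hcardH]; exact hidx, ?_, ?_⟩
  · intro q hq T hTH hTq
    have hsyl := fun (P : Sylow q G) => sylow_struct _ G rfl hB hsol q P
    by_cases hqS : q ∈ S
    · left
      obtain ⟨hpf, P, h1, h2, h3, h6⟩ := (Finset.mem_filter.1 hqS).2
      have hq1 : q ∣ Nat.card F := by
        have h4 : (P : Subgroup G) ≤ F := by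
          intro x hx
          obtain ⟨a, ha⟩ := P.isPGroup' ⟨x, hx⟩
          exact hFp q hqS x a (congrArg Subtype.val ha)
        obtain ⟨k, hk⟩ := IsPGroup.iff_card.1 P.isPGroup'
        rcases k with _ | k
        · exfalso
          rw [pow_zero] at hk
          haveI : Subsingleton ↥(P : Subgroup G) := (Nat.card_eq_one_iff_unique.1 hk).1
          exact h6 isCyclic_of_subsingleton
        · have h5 : q ∣ Nat.card (P : Subgroup G) := by
            rw [hk]; exact dvd_pow_self q (by omega)
          exact h5.trans (Subgroup.card_dvd_of_le h4)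
      have hT1 : Nat.card T = 1 := by
        obtain ⟨k, hk⟩ := IsPGroup.iff_card.1 hTq
        rcases k with _ | k
        · rw [hk, pow_zero]
        · exfalso
          have h4 : q ∣ Nat.card H₀ := by
            have h5 : q ∣ Nat.card T := by
              rw [hk]; exact dvd_pow_self q (by omega)
            exact h5.trans (Subgroup.card_dvd_of_le hTH)
          rw [hcardH] at h4
          exact hq.out.one_lt.ne' (Nat.eq_one_of_dvd_coprimes hidx hq1 h4)
      haveI : Subsingleton ↥T := (Nat.card_eq_one_iff_unique.1 hT1).1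
      exact isCyclic_of_subsingleton
    · -- a good prime
      obtain ⟨P, hP⟩ := hTq.exists_le_sylow
      have hcyc : IsCyclic ↥(P : Subgroup G) → IsCyclic ↥T := fun hc =>
        isCyclic_of_injective (Subgroup.inclusion hP) (Subgroup.inclusion_injective hP)
      rcases hsyl P with h1 | ⟨h1, h2, h3, h4⟩ | ⟨h1, h2, h3⟩
      · exact Or.inl (hcyc h1)
      · have hc8 : Nat.card T ∣ 8 := h2 ▸ Subgroup.card_dvd_of_le hP
        by_cases hT8 : Nat.card T = 8
        · right
          have he : T = P := Subgroup.eq_of_le_of_card_ge hP (by rw [h2, hT8])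
          rw [he]
          exact ⟨h1, h2, h3, h4⟩
        · left
          subst h1
          have hle : Nat.card T ≤ 4 := by
            have h5 := Nat.le_of_dvd (by norm_num) hc8
            interval_cases hv : Nat.card T
            · exact absurd hc8 (by norm_num)
            · norm_num
            · norm_num
            · exact absurd hc8 (by norm_num)
            · norm_num
            · exact absurd hc8 (by norm_num)
            · exact absurd hc8 (by norm_num)
            · exact absurd hc8 (by norm_num)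
            · exact absurd rfl hT8
          have hcT := comm_of_card_le_four hTq hle
          exact Cfsg.Agent.Lib.OddLocal.isCyclic_of_comm_uniqueP hTq
            (fun a b => Subtype.ext (hcT _ a.2 _ b.2))
            (UniqueP.of_injective (Subgroup.inclusion hP) (Subgroup.inclusion_injective hP) h4)
      · left
        by_cases hc : IsCyclic ↥(P : Subgroup G)
        · exact hcyc hc
        · exfalso
          apply hqS
          refine Finset.mem_filter.mpr ⟨?_, ‹Fact q.Prime›, P, h1, h2, h3, hc⟩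
          rw [Nat.mem_primeFactors]
          refine ⟨(‹Fact q.Prime›).out, ?_, Nat.card_pos.ne'⟩
          obtain ⟨k, hk⟩ := IsPGroup.iff_card.1 P.isPGroup'
          rcases k with _ | k
          · exfalso
            rw [pow_zero] at hk
            haveI : Subsingleton ↥(P : Subgroup G) := (Nat.card_eq_one_iff_unique.1 hk).1
            exact hc isCyclic_of_subsingleton
          · have h5 : q ∣ Nat.card (P : Subgroup G) := by
              rw [hk]; exact dvd_pow_self q (by omega)
            exact h5.trans (Subgroup.card_subgroup_dvd_card _)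
  · intro x hx p a hp hxa
    by_cases hx1 : x = 1
    · refine ⟨⊥, inferInstance, ?_, bot_le, ?_⟩
      · rw [hx1]; exact Subgroup.one_mem _
      · intro v hv
        rw [Subgroup.mem_bot] at hv
        rw [hv, one_pow]
    obtain ⟨b, hb, hbo⟩ := (Nat.dvd_prime_pow hp).1 (orderOf_dvd_of_pow_eq_one hxa)
    have hb0 : b ≠ 0 := by
      rintro rfl
      apply hx1
      exact orderOf_eq_one_iff.1 (by simpa using hbo)
    have hpd : p ∣ Nat.card F := by
      have h1 : p ∣ orderOf x := by
        rw [hbo]; exact dvd_pow_self p hb0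
      exact h1.trans (Subgroup.orderOf_dvd_natCard F hx)
    have hpS := hFq p hp hpd
    obtain ⟨hpf, P, h1, h2, h3, -⟩ := (Finset.mem_filter.1 hpS).2
    haveI := hpf
    refine ⟨P, h1, mem_of_normal_sylow P h1 x a hxa, ?_, h2⟩
    intro y hy
    obtain ⟨c, hc⟩ := P.isPGroup' ⟨y, hy⟩
    exact hFp p hpS y c (congrArg Subtype.val hc)

end

end Cfsg.Agent.Lib.Coprime.BP
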