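import Mathlib
import Cfsg.Agent.Lib.Coprime.BProp6

/-!
# The action of a quaternion subgroup on the abelian part
-/

set_option autoImplicit false
set_option linter.unusedSectionVars false
set_option linter.style.haveILetI false
set_option linter.unusedVariables false

namespace Cfsg.Agent.Lib.Coprime.BP

open Subgroup Cfsg
open Cfsg.Agent.Lib.OddLocal (UniqueP)
open scoped Pointwise commutatorElement

universe u

variable {G : Type*} [Group G] [Finite G]

/-- A quaternion subgroup acting by power maps on a normal subgroup centralises it. -/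
theorem q8_central_of_power (hB : BProp G) (M : Subgroup G) [hMn : M.Normal] (Q : Subgroup G)
    {i j : G} (hi : i ∈ Q) (hj : j ∈ Q) (hoi : orderOf i = 4) (hoj : orderOf j = 4) (hok : orderOf (i * j) = 4)
    (hji : j * i * j⁻¹ = i⁻¹) (hgen : ∀ q ∈ Q, ∃ k l : ℕ, q = i ^ k * j ^ l)
    (hexp : ∀ c ∈ Q, ∃ e : ℕ, ∀ m ∈ M, c * m * c⁻¹ = m ^ e) :
    ∀ a ∈ Q, ∀ m ∈ M, a * m = m * a := by
  have hconj : ∀ g : G, ∀ c ∈ Q, ∀ m ∈ M, (g * c * g⁻¹) * m * (g * c * g⁻¹)⁻¹ = c * m * c⁻¹ := by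
    intro g c hc m hm
    obtain ⟨e, he⟩ := hexp c hc
    have h3 : g⁻¹ * m * g ∈ M := by
      have := hMn.conj_mem m hm g⁻¹
      simpa using this
    calc (g * c * g⁻¹) * m * (g * c * g⁻¹)⁻¹ = g * (c * (g⁻¹ * m * g) * c⁻¹) * g⁻¹ := by group
      _ = g * (g⁻¹ * m * g) ^ e * g⁻¹ := by rw [he _ h3]
      _ = m ^ e := by
          rw [← conj_pow]
          congr 1
          group
      _ = c * m * c⁻¹ := (he m hm).symm
  have hzc : ∀ m ∈ M, i ^ 2 * m * (i ^ 2)⁻¹ = m := by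
    intro m hm
    have h3 := hconj j i hi m hm
    rw [hji] at h3
    have h4 : i * (i * m * i⁻¹) * i⁻¹ = i * (i⁻¹ * m * i⁻¹⁻¹) * i⁻¹ := by
      rw [h3]
    calc i ^ 2 * m * (i ^ 2)⁻¹ = i * (i * m * i⁻¹) * i⁻¹ := by
          rw [pow_two]; group
      _ = i * (i⁻¹ * m * i⁻¹⁻¹) * i⁻¹ := h4
      _ = m := by group
  have hi4 : i ^ 4 = 1 := by
    rw [← hoi]; exact pow_orderOf_eq_one i
  have hyact : ∀ y : G, orderOf y = 4 → ∀ m ∈ M, y * m * y⁻¹ = i * m * i⁻¹ := by
    intro y hy m hm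
    obtain ⟨g, hg⟩ := c4_of_bprop hB i y hoi hy
    obtain ⟨d, hd, hyd⟩ := mem_conj_iff.1 hg
    obtain ⟨t, rfl⟩ := Subgroup.mem_zpowers_iff.1 hd
    rw [hyd, hconj g _ (Subgroup.zpow_mem _ hi t) m hm]
    rcases Int.even_or_odd' t with ⟨s, rfl | rfl⟩
    · exfalso
      have h3 : y ^ 2 = 1 := by
        rw [hyd, conj_pow, ← zpow_natCast, ← zpow_mul]
        have h4 : (2 : ℤ) * s * ((2 : ℕ) : ℤ) = 4 * s := by push_cast; ring
        rw [h4, zpow_mul, zpow_ofNat, hi4, one_zpow]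
        group
      have h4 := orderOf_dvd_of_pow_eq_one h3
      rw [hy] at h4
      omega
    · have h3 : i ^ ((2 : ℤ) * s + 1) = (i ^ 2) ^ s * i := by
        rw [zpow_add, zpow_mul, zpow_one, zpow_ofNat]
      have h5 : ∀ (r : ℤ), ∀ m ∈ M, (i ^ 2) ^ r * m * ((i ^ 2) ^ r)⁻¹ = m := by
        intro r
        have hC : i ^ 2 ∈ Subgroup.centralizer (M : Set G) := by
          rw [Subgroup.mem_centralizer_iff]
          intro m hm
          have := hzc m hm
          exact (mul_inv_eq_iff_eq_mul.1 this).symm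
        intro m hm
        have h6 := Subgroup.zpow_mem _ hC r
        rw [Subgroup.mem_centralizer_iff] at h6
        have h7 := h6 m hm
        rw [← h7]
        group
      rw [h3]
      have h6 := h5 s _ (hMn.conj_mem m hm i)
      calc (i ^ 2) ^ s * i * m * ((i ^ 2) ^ s * i)⁻¹ = (i ^ 2) ^ s * (i * m * i⁻¹) * ((i ^ 2) ^ s)⁻¹ := by group
        _ = i * m * i⁻¹ := h6
  have hicen : ∀ m ∈ M, i * m * i⁻¹ = m := by
    intro m hm
    have h3 := hyact (i * j) hok m hm
    have h4 : (i * j) * m * (i * j)⁻¹ = i * (j * m * j⁻¹) * i⁻¹ := by group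
    rw [h4, hyact j hoj m hm] at h3
    rw [← h3]
    have h5 := hzc m hm
    calc i * (i * m * i⁻¹) * i⁻¹ = i ^ 2 * m * (i ^ 2)⁻¹ := by
          rw [pow_two]; group
      _ = m := h5
  have hjcen : ∀ m ∈ M, j * m * j⁻¹ = m := fun m hm => by rw [hyact j hoj m hm, hicen m hm]
  intro a ha
  have hiC : i ∈ Subgroup.centralizer (M : Set G) := by
    rw [Subgroup.mem_centralizer_iff]
    intro m hm
    exact (mul_inv_eq_iff_eq_mul.1 (hicen m hm)).symm
  have hjC : j ∈ Subgroup.centralizer (M : Set G) := by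
    rw [Subgroup.mem_centralizer_iff]
    intro m hm
    exact (mul_inv_eq_iff_eq_mul.1 (hjcen m hm)).symm
  obtain ⟨k, l, rfl⟩ := hgen a ha
  have h3 : i ^ k * j ^ l ∈ Subgroup.centralizer (M : Set G) :=
    Subgroup.mul_mem _ (_root_.pow_mem hiC k) (_root_.pow_mem hjC l)
  rw [Subgroup.mem_centralizer_iff] at h3
  intro m hm
  exact (h3 m hm).symm

/-- Elementwise power action from stability of all cyclic subgroups. -/
theorem exists_power_of_lines {p : ℕ} [hp : Fact p.Prime] (V : Subgroup G) (hVc : ∀ a ∈ V, ∀ b ∈ V, a * b = b * a)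
    (hVe : ∀ v ∈ V, v ^ p = 1) (hV1 : V ≠ ⊥) (a : G) (hnV : ∀ v ∈ V, a * v * a⁻¹ ∈ V)
    (hline : ∀ v ∈ V, a * v * a⁻¹ ∈ zpowers v) : ∃ e : ℕ, ∀ v ∈ V, a * v * a⁻¹ = v ^ e := by
  obtain ⟨⟨v₀, hv₀⟩, hv₀1⟩ := (Subgroup.ne_bot_iff_exists_ne_one).1 hV1
  have hv₀1' : v₀ ≠ 1 := fun h => hv₀1 (Subtype.ext h)
  obtain ⟨e, he0⟩ := (mem_powers_iff_mem_zpowers).2 (hline v₀ hv₀)
  have he : v₀ ^ e = a * v₀ * a⁻¹ := he0
  have hov₀ : orderOf v₀ = p := orderOf_eq_prime (hVe v₀ hv₀) hv₀1'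
  refine ⟨e, fun v hv => ?_⟩
  by_cases hvz : v ∈ zpowers v₀
  · obtain ⟨t, rfl⟩ := Subgroup.mem_zpowers_iff.1 hvz
    rw [← conj_zpow, ← he, ← zpow_natCast v₀ e, ← zpow_mul, ← zpow_natCast (v₀ ^ t) e, ← zpow_mul, mul_comm]
  · have hv1 : v ≠ 1 := fun h => hvz (h ▸ Subgroup.one_mem _)
    have hov : orderOf v = p := orderOf_eq_prime (hVe v hv) hv1
    obtain ⟨s, hs0⟩ := (mem_powers_iff_mem_zpowers).2 (hline v hv)
    have hs : v ^ s = a * v * a⁻¹ := hs0
    obtain ⟨r, hr0⟩ := (mem_powers_iff_mem_zpowers).2 (hline (v₀ * v) (V.mul_mem hv₀ hv))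
    have hr : (v₀ * v) ^ r = a * (v₀ * v) * a⁻¹ := hr0
    have hcomm : Commute v₀ v := hVc _ hv₀ _ hv
    have h1 : v₀ ^ r * v ^ r = v₀ ^ e * v ^ s := by
      rw [← hcomm.mul_pow, hr, he, hs]
      group
    -- separating the components
    have h2 : (v₀ ^ e)⁻¹ * v₀ ^ r = v ^ s * (v ^ r)⁻¹ := by
      have h3 : Commute (v₀ ^ r) (v ^ r) := hcomm.pow_pow r r
      calc (v₀ ^ e)⁻¹ * v₀ ^ r = (v₀ ^ e)⁻¹ * (v₀ ^ r * v ^ r) * (v ^ r)⁻¹ := by group
        _ = (v₀ ^ e)⁻¹ * (v₀ ^ e * v ^ s) * (v ^ r)⁻¹ := by rw [h1]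
        _ = v ^ s * (v ^ r)⁻¹ := by group
    have h3 : v ^ s * (v ^ r)⁻¹ = 1 := by
      by_contra hne
      apply hvz
      have h4 : v ^ s * (v ^ r)⁻¹ ∈ zpowers v₀ := by
        rw [← h2]
        exact Subgroup.mul_mem _ (Subgroup.inv_mem _ (_root_.pow_mem (Subgroup.mem_zpowers _) _))
          (_root_.pow_mem (Subgroup.mem_zpowers _) _)
      have h5 : v ^ s * (v ^ r)⁻¹ ∈ zpowers v :=
        Subgroup.mul_mem _ (_root_.pow_mem (Subgroup.mem_zpowers _) _)
          (Subgroup.inv_mem _ (_root_.pow_mem (Subgroup.mem_zpowers _) _))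
      have h6 : v ^ s * (v ^ r)⁻¹ ∈ V :=
        V.mul_mem (_root_.pow_mem hv _) (V.inv_mem (_root_.pow_mem hv _))
      have h7 : orderOf (v ^ s * (v ^ r)⁻¹) = p := orderOf_eq_prime (hVe _ h6) hne
      have h8 : zpowers (v ^ s * (v ^ r)⁻¹) = zpowers v := by
        apply Subgroup.eq_of_le_of_card_ge ((Subgroup.zpowers_le).2 h5)
        rw [Nat.card_zpowers, Nat.card_zpowers, h7, hov]
      have h9 : v ∈ zpowers (v ^ s * (v ^ r)⁻¹) := by
        rw [h8]; exact Subgroup.mem_zpowers v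
      exact ((Subgroup.zpowers_le).2 h4) h9
    rw [h3] at h2
    have h4 : v₀ ^ r = v₀ ^ e := (inv_mul_eq_one.1 h2).symm
    have h5 : v ^ s = v ^ r := mul_inv_eq_one.1 h3
    have h6 : r ≡ e [MOD p] := by
      have := (pow_inj_mod (x := v₀) (n := r) (m := e)).1 h4
      rw [hov₀] at this
      exact this
    have h7 : v ^ r = v ^ e := by
      apply (pow_inj_mod).2
      rw [hov]
      exact h6
    rw [← hs, h5, h7]

/-- The key lemma: a quaternion subgroup stabilising a proper nontrivial subgroup of an elementary abelian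
normal subgroup centralises it. -/
theorem centralizes_of_invariant (hB : BProp G) {F H₀ : Subgroup G} (hd : Dec F H₀) (Q : Subgroup G) (hQH : Q ≤ H₀)
    (hnQ : ∀ h ∈ H₀, ∀ a ∈ Q, h * a * h⁻¹ ∈ Q)
    {i j : G} (hi : i ∈ Q) (hj : j ∈ Q) (hoi : orderOf i = 4) (hoj : orderOf j = 4) (hok : orderOf (i * j) = 4)
    (hji : j * i * j⁻¹ = i⁻¹) (hgen : ∀ q ∈ Q, ∃ k l : ℕ, q = i ^ k * j ^ l)
    {p : ℕ} [hp : Fact p.Prime] (V : Subgroup G) [hVn : V.Normal] (hVF : V ≤ F) (hVe : ∀ v ∈ V, v ^ p = 1)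
    (U : Subgroup G) (hUV : U ≤ V) (hU1 : U ≠ ⊥) (hUne : U ≠ V) (hQU : ∀ a ∈ Q, ∀ x ∈ U, a * x * a⁻¹ ∈ U) :
    ∀ a ∈ Q, ∀ v ∈ V, a * v = v * a := by
  classical
  haveI := hd.normal
  have hFc := hd.comm
  have hVc : ∀ a ∈ V, ∀ b ∈ V, a * b = b * a := fun a ha b hb => hFc a (hVF ha) b (hVF hb)
  have hV1 : V ≠ ⊥ := by
    intro h
    apply hU1
    rw [h] at hUV
    exact le_bot_iff.1 hUV
  -- decompose elements of `G`
  have hdecG : ∀ g : G, ∃ f ∈ F, ∃ h ∈ H₀, g = f * h := by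
    intro g
    have h1 : g ∈ ((F ⊔ H₀ : Subgroup G) : Set G) := by
      rw [hd.sup]; exact Subgroup.mem_top g
    rw [Subgroup.normal_mul, Set.mem_mul] at h1
    obtain ⟨f, hf, h, hh, rfl⟩ := h1
    exact ⟨f, hf, h, hh, rfl⟩
  -- all subgroups of the same order are stable
  have hstab : ∀ U' : Subgroup G, U' ≤ V → Nat.card U' = Nat.card U → ∀ a ∈ Q, ∀ x ∈ U', a * x * a⁻¹ ∈ U' := by
    intro U' hU' hc a ha x hx
    obtain ⟨g, hg⟩ := hB U U' (mulComm_of_forall (fun a ha b hb => hVc a (hUV ha) b (hUV hb)))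
      (mulComm_of_forall (fun a ha b hb => hVc a (hU' ha) b (hU' hb))) hc.symm
    obtain ⟨f, hf, h, hh, rfl⟩ := hdecG g
    have hact : ∀ u ∈ U, (f * h) * u * (f * h)⁻¹ = h * u * h⁻¹ := by
      intro u hu
      have h1 : h * u * h⁻¹ ∈ F := hd.normal.conj_mem u (hVF (hUV hu)) h
      calc (f * h) * u * (f * h)⁻¹ = f * (h * u * h⁻¹) * f⁻¹ := by group
        _ = (h * u * h⁻¹) * f * f⁻¹ := by rw [hFc f hf _ h1]
        _ = h * u * h⁻¹ := by group
    rw [hg] at hx ⊢
    obtain ⟨u, hu, rfl⟩ := mem_conj_iff.1 hx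
    rw [hact u hu]
    have hb : h⁻¹ * a * h ∈ Q := by
      have := hnQ h⁻¹ (H₀.inv_mem hh) a ha
      simpa using this
    have hu' := hQU _ hb u hu
    refine mem_conj_iff.2 ⟨_, hu', ?_⟩
    rw [hact _ hu']
    group
  -- stable cyclic subgroups
  have hline : ∀ a ∈ Q, ∀ v ∈ V, a * v * a⁻¹ ∈ zpowers v := by
    intro a ha v hv
    by_contra hy
    set y := a * v * a⁻¹ with hyd
    have hyV : y ∈ V := hVn.conj_mem v hv a
    have hv1 : v ≠ 1 := by
      rintro rfl
      apply hy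
      rw [hyd]
      simp
    have hy1 : y ≠ 1 := by
      intro h
      apply hy
      rw [h]
      exact Subgroup.one_mem _
    have hoy : orderOf y = p := orderOf_eq_prime (hVe y hyV) hy1
    have hov : orderOf v = p := orderOf_eq_prime (hVe v hv) hv1
    -- a maximal subgroup containing `v` and avoiding `y`
    obtain ⟨W, hzW, hWmax⟩ := (Set.toFinite {W : Subgroup G | W ≤ V ∧ v ∈ W ∧ y ∉ W}).exists_le_maximal
      (a := zpowers v) ⟨(Subgroup.zpowers_le).2 hv, Subgroup.mem_zpowers v, hy⟩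
    obtain ⟨hWV, hvW, hyW⟩ := hWmax.prop
    have hWsup : W ⊔ zpowers y = V := by
      apply le_antisymm (sup_le hWV ((Subgroup.zpowers_le).2 hyV))
      intro x hxV
      by_contra hxn
      have hx1 : x ≠ 1 := by
        rintro rfl
        exact hxn (Subgroup.one_mem _)
      have hox : orderOf x = p := orderOf_eq_prime (hVe x hxV) hx1
      have hcc : ∀ u ∈ W, ∀ t ∈ zpowers x, u * t = t * u := by
        intro u hu t ht
        exact hVc _ (hWV hu) _ (((Subgroup.zpowers_le).2 hxV) ht)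
      have hW' : W ⊔ zpowers x ∈ {W : Subgroup G | W ≤ V ∧ v ∈ W ∧ y ∉ W} := by
        refine ⟨sup_le hWV ((Subgroup.zpowers_le).2 hxV), Subgroup.mem_sup_left hvW, ?_⟩
        intro hym
        obtain ⟨u, hu, t, ht, hut⟩ := exists_mul_of_mem_sup _ _ hcc hym
        by_cases ht1 : t = 1
        · rw [ht1, mul_one] at hut
          exact hyW (hut ▸ hu)
        · apply hxn
          have htV : t ∈ V := ((Subgroup.zpowers_le).2 hxV) ht
          have hot : orderOf t = p := orderOf_eq_prime (hVe t htV) ht1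
          have h1 : zpowers t = zpowers x := by
            apply Subgroup.eq_of_le_of_card_ge ((Subgroup.zpowers_le).2 ht)
            rw [Nat.card_zpowers, Nat.card_zpowers, hot, hox]
          have h2 : x ∈ zpowers t := by
            rw [h1]; exact Subgroup.mem_zpowers x
          have h3 : t ∈ W ⊔ zpowers y := by
            have h4 : t = u⁻¹ * y := by rw [hut]; group
            rw [h4]
            exact Subgroup.mul_mem _ (Subgroup.mem_sup_left (W.inv_mem hu)) (Subgroup.mem_sup_right (Subgroup.mem_zpowers y))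
          exact ((Subgroup.zpowers_le).2 h3) h2
      have hle : W ≤ W ⊔ zpowers x := le_sup_left
      have heq := hWmax.eq_of_le hW' hle
      have hxW : x ∈ W := by
        rw [heq]; exact Subgroup.mem_sup_right (Subgroup.mem_zpowers x)
      exact hxn (Subgroup.mem_sup_left hxW)
    -- orders
    have hinf : W ⊓ zpowers y = ⊥ := by
      rw [eq_bot_iff]
      intro t ht
      obtain ⟨h1, h2⟩ := Subgroup.mem_inf.1 ht
      rw [Subgroup.mem_bot]
      by_contra ht1
      have hot : orderOf t = p := orderOf_eq_prime (hVe t (hWV h1)) ht1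
      have h3 : zpowers t = zpowers y := by
        apply Subgroup.eq_of_le_of_card_ge ((Subgroup.zpowers_le).2 h2)
        rw [Nat.card_zpowers, Nat.card_zpowers, hot, hoy]
      apply hyW
      have h4 : y ∈ zpowers t := by
        rw [h3]; exact Subgroup.mem_zpowers y
      exact ((Subgroup.zpowers_le).2 h1) h4
    have hcardV : Nat.card V = Nat.card W * p := by
      rw [← hWsup, card_sup_of_comm _ _ (fun u hu t ht => hVc _ (hWV hu) _ (((Subgroup.zpowers_le).2 hyV) ht)) hinf,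
        Nat.card_zpowers, hoy]
    have hVr : IsPGroup p V := fun x => ⟨1, by
      rw [pow_one]; exact Subtype.ext (hVe x x.2)⟩
    obtain ⟨k, hk⟩ := IsPGroup.iff_card.1 hVr
    obtain ⟨j', hj'⟩ := IsPGroup.iff_card.1 (hVr.to_le hUV)
    obtain ⟨w, hw⟩ := IsPGroup.iff_card.1 (hVr.to_le hWV)
    have hpp := hp.out
    have hkw : k = w + 1 := by
      have h1 : p ^ k = p ^ (w + 1) := by
        rw [← hk, hcardV, hw, pow_succ]
      exact Nat.pow_right_injective hpp.two_le h1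
    have hjk : j' ≤ w := by
      have h1 : Nat.card U ≤ Nat.card V := Subgroup.card_le_of_le hUV
      have h2 : Nat.card U ≠ Nat.card V := fun h => hUne (Subgroup.eq_of_le_of_card_ge hUV h.symm.le)
      rw [hj', hk, hkw] at h1
      rw [hj', hk, hkw] at h2
      have h3 : j' ≤ w + 1 := (Nat.pow_le_pow_iff_right hpp.one_lt).1 h1
      have h4 : j' ≠ w + 1 := fun h => h2 (by rw [h])
      omega
    have hj1 : 1 ≤ j' := by
      rcases j' with _ | j'
      · exfalso
        rw [pow_zero] at hj'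
        exact hU1 ((Subgroup.card_eq_one (H := U)).1 hj')
      · omega
    -- a subgroup of the right order containing `v`
    have hzW' : zpowers (⟨v, hvW⟩ : ↥W) ≤ (⊤ : Subgroup ↥W) := le_top
    obtain ⟨K, hKc, hKle⟩ := Sylow.exists_subgroup_card_pow_prime_le (G := ↥W) p (n := 1) (m := j')
      (by rw [hw]; exact pow_dvd_pow p hjk) (zpowers (⟨v, hvW⟩ : ↥W))
      (by rw [Nat.card_zpowers, Subgroup.orderOf_mk, hov, pow_one]) hj1
    set K' := K.map W.subtype with hK'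
    have hK'W : K' ≤ W := Subgroup.map_subtype_le K
    have hcK' : Nat.card K' = Nat.card U := by
      rw [hj', ← hKc]
      exact (Nat.card_congr (Subgroup.equivMapOfInjective K _ W.subtype_injective).toEquiv).symm
    have hvK' : v ∈ K' := ⟨⟨v, hvW⟩, hKle (Subgroup.mem_zpowers _), rfl⟩
    have h5 := hstab K' (hK'W.trans hWV) hcK' a ha v hvK'
    exact hyW (hK'W h5)
  -- the power maps
  have hexp : ∀ c ∈ Q, ∃ e : ℕ, ∀ m ∈ V, c * m * c⁻¹ = m ^ e :=
    fun c hc => exists_power_of_lines V hVc hVe hV1 c (fun v hv => hVn.conj_mem v hv c) (hline c hc)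
  exact q8_central_of_power hB V Q hi hj hoi hoj hok hji hgen hexp

end Cfsg.Agent.Lib.Coprime.BP
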