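import Mathlib
import Cfsg.Agent.Lib.Coprime.BProp7

/-!
# All subgroups of equal order are conjugate
-/

set_option autoImplicit false
set_option linter.unusedSectionVars false
set_option linter.style.haveILetI false
set_option linter.unusedVariables false

namespace Cfsg.Agent.Lib.Coprime.BP

open Subgroup Cfsg
open Cfsg.Agent.Lib.OddLocal (UniqueP)
open scoped Pointwise commutatorElement

universe u

section

variable {G : Type*} [Group G] [Finite G]

/-- Elements are products of powers of prime power order. -/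
theorem mem_of_prime_power_parts (D D₂ : Subgroup G) (hpp : ∀ x ∈ D, ∀ p a : ℕ, p.Prime → x ^ p ^ a = 1 → x ∈ D₂) :
    ∀ x ∈ D, x ∈ D₂ := by
  have key : ∀ n : ℕ, ∀ x ∈ D, orderOf x = n → x ∈ D₂ := by
    intro n
    induction n using Nat.strong_induction_on with
    | _ n ih =>
    intro x hx hn
    by_cases hn1 : n = 1
    · rw [orderOf_eq_one_iff.1 (hn.trans hn1)]
      exact D₂.one_mem
    have hn0 : n ≠ 0 := by
      rw [← hn]
      exact (orderOf_pos x).ne'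
    obtain ⟨p, hp, hpd⟩ := Nat.exists_prime_and_dvd hn1
    obtain ⟨e, m, hm, he⟩ := Nat.exists_eq_pow_mul_and_not_dvd hn0 p hp.ne_one
    by_cases hm1 : m = 1
    · rw [hm1, mul_one] at he
      refine hpp x hx p e hp ?_
      rw [← he, ← hn]
      exact pow_orderOf_eq_one x
    have he0 : e ≠ 0 := by
      rintro rfl
      rw [pow_zero, one_mul] at he
      exact hm (he ▸ hpd)
    have hm0 : m ≠ 0 := by
      rintro rfl
      exact hm (dvd_zero p)
    have hu1 : 1 < p ^ e := Nat.one_lt_pow he0 hp.one_lt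
    have hm1' : 1 < m := by omega
    have hcop : Nat.Coprime (p ^ e) m := Nat.Coprime.pow_left e ((Nat.Prime.coprime_iff_not_dvd hp).2 hm)
    have hpow : x ^ n = 1 := by
      rw [← hn]; exact pow_orderOf_eq_one x
    have h1 : x ^ p ^ e ∈ D₂ := by
      have h2 : orderOf (x ^ p ^ e) ∣ m := by
        apply orderOf_dvd_of_pow_eq_one
        rw [← pow_mul, ← he, hpow]
      have h3 : orderOf (x ^ p ^ e) < n := by
        have h4 := Nat.le_of_dvd (Nat.pos_of_ne_zero hm0) h2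
        have h5 : m < n := by
          rw [he]
          exact lt_mul_of_one_lt_left (Nat.pos_of_ne_zero hm0) hu1
        omega
      exact ih _ h3 _ (D.pow_mem hx _) rfl
    have h2 : x ^ m ∈ D₂ := by
      have h3 : orderOf (x ^ m) ∣ p ^ e := by
        apply orderOf_dvd_of_pow_eq_one
        rw [← pow_mul, mul_comm, ← he, hpow]
      have h4 : orderOf (x ^ m) < n := by
        have h5 := Nat.le_of_dvd (by omega) h3
        have h6 : p ^ e < n := by
          rw [he]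
          exact lt_mul_of_one_lt_right (by omega) hm1'
        omega
      exact ih _ h4 _ (D.pow_mem hx _) rfl
    have hbez := Nat.gcd_eq_gcd_ab (p ^ e) m
    rw [hcop] at hbez
    have h3 : x = (x ^ p ^ e) ^ (Nat.gcdA (p ^ e) m) * (x ^ m) ^ (Nat.gcdB (p ^ e) m) := by
      rw [← zpow_natCast, ← zpow_natCast, ← zpow_mul, ← zpow_mul, ← zpow_add, ← hbez]
      simp
    rw [h3]
    exact D₂.mul_mem (D₂.zpow_mem h1 _) (D₂.zpow_mem h2 _)
  exact fun x hx => key _ x hx rfl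

theorem mem_normalizer_of_forall_conj (K : Subgroup G) (x : G) (h : ∀ y ∈ K, x * y * x⁻¹ ∈ K) :
    x ∈ normalizer (K : Set G) := by
  rw [Subgroup.mem_normalizer_iff]
  intro y
  refine ⟨h y, fun hy => ?_⟩
  have h1 : K.map (MulAut.conj x).toMonoidHom ≤ K := by
    intro z hz
    obtain ⟨t, ht, rfl⟩ := mem_conj_iff.1 hz
    exact h t ht
  have h2 : K.map (MulAut.conj x).toMonoidHom = K := Subgroup.eq_of_le_of_card_ge h1 (by rw [card_conj])
  rw [← h2] at hy
  obtain ⟨t, ht, htt⟩ := mem_conj_iff.1 hy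
  have h3 : y = t := by
    have h4 : x * y = x * t := by
      have := mul_right_cancel htt
      exact this
    exact mul_left_cancel h4
  rw [h3]
  exact ht

/-- The quaternion subgroup permutes its cyclic subgroups of order four under the normaliser of any
subgroup of `F` it stabilises. -/
theorem exists_conj_in_B (hB : BProp G) {F H₀ : Subgroup G} (hd : Dec F H₀) (Q : Subgroup G) (hQH : Q ≤ H₀)
    (hnQ : ∀ h ∈ H₀, ∀ a ∈ Q, h * a * h⁻¹ ∈ Q) (hQ2 : IsPGroup 2 Q) (h8 : Nat.card Q = 8)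
    (hna : ¬ ∀ u ∈ Q, ∀ v ∈ Q, u * v = v * u) (hun : UniqueP 2 ↥Q)
    (D : Subgroup G) (hDF : D ≤ F) (hQD : ∀ a ∈ Q, ∀ x ∈ D, a * x * a⁻¹ ∈ D)
    (c c' : G) (hcQ : c ∈ Q) (hc'Q : c' ∈ Q) (hco : orderOf c = 4) (hc'o : orderOf c' = 4) :
    ∃ u ∈ H₀, (∀ x ∈ D, u * x * u⁻¹ ∈ D) ∧ zpowers c' = (zpowers c).map (MulAut.conj u).toMonoidHom := by
  classical
  haveI hFn := hd.normal
  have hFc := hd.comm
  obtain ⟨i, hi, j, hj, hoi, hoj, hok, hji, hjj, hgen⟩ := q8_data hQ2 h8 hna hun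
  -- `F` has odd order
  have hF2 : (Nat.card F).Coprime 2 := by
    have h1 : (2 : ℕ) ∣ Nat.card H₀ := by
      have h2 : Nat.card Q ∣ Nat.card H₀ := Subgroup.card_dvd_of_le hQH
      rw [h8] at h2
      exact (by norm_num : (2 : ℕ) ∣ 8).trans h2
    exact Nat.Coprime.coprime_dvd_right h1 hd.cop
  set D' := D ⊓ centralizer (Q : Set G) with hD'
  have hD'F : D' ≤ F := inf_le_left.trans hDF
  have hD'c : ∀ d ∈ D', ∀ q ∈ Q, q * d = d * q := by
    intro d hd' q hq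
    exact (Subgroup.mem_centralizer_iff.1 (Subgroup.mem_inf.1 hd').2) q hq
  have hW : ∀ t ∈ Q, orderOf t = 4 → IsMulCommutative ↥(D' ⊔ zpowers t) ∧ Nat.card ↥(D' ⊔ zpowers t) = Nat.card D' * 4 := by
    intro t ht hot
    have hzQ : zpowers t ≤ Q := (Subgroup.zpowers_le).2 ht
    have hcc : ∀ u ∈ D', ∀ v ∈ zpowers t, u * v = v * u := fun u hu v hv => (hD'c u hu v (hzQ hv)).symm
    constructor
    · exact mulComm_of_forall (comm_sup _ _ hcc (fun a ha b hb => hFc a (hD'F ha) b (hD'F hb)) (zpowers_comm t))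
    · rw [card_sup_of_comm _ _ hcc, Nat.card_zpowers, hot]
      have h1 : (Nat.card D').Coprime (Nat.card (zpowers t)) := by
        rw [Nat.card_zpowers, hot]
        have h2 : (4 : ℕ) = 2 ^ 2 := by norm_num
        rw [h2]
        exact Nat.Coprime.pow_right 2 (Nat.Coprime.coprime_dvd_left (Subgroup.card_dvd_of_le hD'F) hF2)
      exact (Subgroup.disjoint_of_coprime_natCard h1).eq_bot
  obtain ⟨hA, hAc⟩ := hW c hcQ hco
  obtain ⟨hA', hA'c⟩ := hW c' hc'Q hc'o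
  obtain ⟨g, hg⟩ := hB _ _ hA hA' (by rw [hAc, hA'c])
  -- decompose `g`
  have h1 : g ∈ ((F ⊔ H₀ : Subgroup G) : Set G) := by
    rw [hd.sup]; exact Subgroup.mem_top g
  rw [Subgroup.normal_mul, Set.mem_mul] at h1
  obtain ⟨f, hf, h, hh, rfl⟩ := h1
  have hact : ∀ x ∈ F, (f * h) * x * (f * h)⁻¹ = h * x * h⁻¹ := by
    intro x hx
    have h2 : h * x * h⁻¹ ∈ F := hd.normal.conj_mem x hx h
    calc (f * h) * x * (f * h)⁻¹ = f * (h * x * h⁻¹) * f⁻¹ := by group
      _ = (h * x * h⁻¹) * f * f⁻¹ := by rw [hFc f hf _ h2]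
      _ = h * x * h⁻¹ := by group
  have hcc' : ∀ u ∈ D', ∀ v ∈ zpowers c', u * v = v * u := fun u hu v hv =>
    (hD'c u hu v (((Subgroup.zpowers_le).2 hc'Q) hv)).symm
  have hFH : ∀ x ∈ F, x ∈ H₀ → x = 1 := by
    intro x hx hx'
    have h2 : x ∈ F ⊓ H₀ := Subgroup.mem_inf.mpr ⟨hx, hx'⟩
    rw [hd.inf, Subgroup.mem_bot] at h2
    exact h2
  have hDh : ∀ d ∈ D', h * d * h⁻¹ ∈ D' := by
    intro d hd'
    have h2 : (f * h) * d * (f * h)⁻¹ ∈ D' ⊔ zpowers c' := by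
      rw [hg]
      exact mem_conj_iff.2 ⟨d, Subgroup.mem_sup_left hd', rfl⟩
    rw [hact d (hD'F hd')] at h2
    obtain ⟨d₁, hd₁, t, ht, hdt⟩ := exists_mul_of_mem_sup _ _ hcc' h2
    have htQ : t ∈ Q := ((Subgroup.zpowers_le).2 hc'Q) ht
    have h3 : t = d₁⁻¹ * (h * d * h⁻¹) := by rw [hdt]; group
    have h4 : t ∈ F := by
      rw [h3]
      exact F.mul_mem (F.inv_mem (hD'F hd₁)) (hd.normal.conj_mem d (hD'F hd') h)
    have h5 := hFH t h4 (hQH htQ)
    rw [hdt, h5, mul_one]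
    exact hd₁
  have hch : h * c * h⁻¹ ∈ zpowers c' := by
    have h2 : (f * h) * c * (f * h)⁻¹ ∈ D' ⊔ zpowers c' := by
      rw [hg]
      exact mem_conj_iff.2 ⟨c, Subgroup.mem_sup_right (Subgroup.mem_zpowers c), rfl⟩
    obtain ⟨d₁, hd₁, t, ht, hdt⟩ := exists_mul_of_mem_sup _ _ hcc' h2
    have htQ : t ∈ Q := ((Subgroup.zpowers_le).2 hc'Q) ht
    set w := h * c * h⁻¹ with hw
    have hwQ : w ∈ Q := hnQ h hh c hcQ
    have h3 : (f * h) * c * (f * h)⁻¹ = f * w * f⁻¹ := by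
      rw [hw]; group
    rw [h3] at hdt
    have h4 : w * t⁻¹ = (w * f⁻¹ * w⁻¹)⁻¹ * (f⁻¹ * d₁) := by
      have h5 : f⁻¹ * d₁ = w * f⁻¹ * t⁻¹ := by
        have h6 : d₁ = f * w * f⁻¹ * t⁻¹ := by rw [hdt]; group
        rw [h6]; group
      rw [h5]; group
    have h6 : w * f⁻¹ * w⁻¹ ∈ F := hd.normal.conj_mem _ (F.inv_mem hf) w
    have h7 : w * t⁻¹ ∈ F := by
      rw [h4]
      exact F.mul_mem (F.inv_mem h6) (F.mul_mem (F.inv_mem hf) (hD'F hd₁))
    have h8' : w * t⁻¹ ∈ H₀ := H₀.mul_mem (hQH hwQ) (H₀.inv_mem (hQH htQ))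
    have h9 := hFH _ h7 h8'
    rw [mul_inv_eq_one.1 h9]
    exact ht
  refine ⟨h, hh, ?_, ?_⟩
  · -- `h` normalises `D`
    have key := mem_of_prime_power_parts D (D.comap (MulAut.conj h).toMonoidHom) ?_
    · intro x hx
      exact key x hx
    intro x hx p a hp hxa
    show h * x * h⁻¹ ∈ D
    by_cases hx1 : x = 1
    · rw [hx1]
      simp [D.one_mem]
    haveI : Fact p.Prime := ⟨hp⟩
    obtain ⟨V, hVn, hxV, hVF, hVe⟩ := hd.fsyl x (hDF hx) p a hp hxa
    haveI := hVn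
    by_cases hVc : ∀ q ∈ Q, ∀ v ∈ V, q * v = v * q
    · have h2 : x ∈ D' := by
        refine Subgroup.mem_inf.mpr ⟨hx, ?_⟩
        rw [Subgroup.mem_centralizer_iff]
        intro q hq
        exact hVc q hq x hxV
      exact (inf_le_left : D' ≤ D) (hDh x h2)
    · by_cases hUV : D ⊓ V = V
      · have h2 : V ≤ D := by
          rw [← hUV]; exact inf_le_left
        exact h2 (hVn.conj_mem x hxV h)
      · exfalso
        apply hVc
        refine centralizes_of_invariant hB hd Q hQH hnQ hi hj hoi hoj hok hji hgen V hVF hVe (D ⊓ V) inf_le_right ?_ hUV ?_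
        · intro hbot
          have h2 : x ∈ D ⊓ V := Subgroup.mem_inf.mpr ⟨hx, hxV⟩
          rw [hbot, Subgroup.mem_bot] at h2
          exact hx1 h2
        · intro q hq y hy
          obtain ⟨h2, h3⟩ := Subgroup.mem_inf.1 hy
          exact Subgroup.mem_inf.mpr ⟨hQD q hq y h2, hVn.conj_mem y h3 q⟩
  · symm
    apply Subgroup.eq_of_le_of_card_ge
    · intro x hx
      obtain ⟨t, ht, rfl⟩ := mem_conj_iff.1 hx
      obtain ⟨s, rfl⟩ := Subgroup.mem_zpowers_iff.1 ht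
      rw [← conj_zpow]
      exact Subgroup.zpow_mem _ hch s
    · rw [card_conj, Nat.card_zpowers, Nat.card_zpowers, hco, hc'o]

end

/-- Transfer of cyclicity through the inclusion of a subgroup. -/
theorem isCyclic_of_map_subtype {G : Type*} [Group G] {K : Subgroup G} (S : Subgroup ↥K)
    (h : IsCyclic ↥(S.map K.subtype)) : IsCyclic ↥S :=
  isCyclic_of_injective (Subgroup.equivMapOfInjective S K.subtype K.subtype_injective).toMonoidHom
    (Subgroup.equivMapOfInjective S K.subtype K.subtype_injective).injective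

/-- The normaliser of a subgroup of `F` in the complement has the property. -/
theorem aprop_normalizer {G : Type u} [Group G] [Finite G] (hB : BProp G) (hsol : Group.IsSolvable G) {F H₀ : Subgroup G}
    (hd : Dec F H₀) (hBH : BProp ↥H₀) (D : Subgroup G) (hDF : D ≤ F) :
    AProp ↥(H₀ ⊓ normalizer (D : Set G)) := by
  classical
  set B := H₀ ⊓ normalizer (D : Set G) with hB'
  have hBH₀ : B ≤ H₀ := inf_le_left
  haveI hf2 : Fact (Nat.Prime 2) := ⟨Nat.prime_two⟩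
  by_cases hall : ∀ T : Subgroup G, T ≤ B → IsPGroup 2 T → IsCyclic ↥T
  · have hZ : IsZGroup ↥B := by
      refine ⟨fun p hp S => ?_⟩
      haveI : Fact p.Prime := ⟨hp⟩
      apply isCyclic_of_map_subtype
      have hT : IsPGroup p ((S : Subgroup ↥B).map B.subtype) := S.isPGroup'.map B.subtype
      have hTB : (S : Subgroup ↥B).map B.subtype ≤ B := Subgroup.map_subtype_le _
      by_cases hp2 : p = 2
      · subst hp2
        exact hall _ hTB hT
      · rcases hd.syl p _ (hTB.trans hBH₀) hT with h1 | ⟨h1, -⟩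
        · exact h1
        · exact absurd h1 hp2
    exact aprop_of_isZGroup _ _ rfl
  · push Not at hall
    obtain ⟨Q, hQB, hQ2, hQnc⟩ := hall
    obtain ⟨-, h8, hna, hun⟩ : 2 = 2 ∧ Nat.card Q = 8 ∧ (¬ ∀ u ∈ Q, ∀ v ∈ Q, u * v = v * u) ∧ UniqueP 2 ↥Q := by
      rcases hd.syl 2 Q (hQB.trans hBH₀) hQ2 with h1 | h1
      · exact absurd h1 hQnc
      · exact h1
    have hQH : Q ≤ H₀ := hQB.trans hBH₀
    have hQmax : ∀ T : Subgroup G, T ≤ H₀ → IsPGroup 2 T → Q ≤ T → T = Q := by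
      intro T hT hT2 hQT
      rcases hd.syl 2 T hT hT2 with h1 | ⟨-, h2, -⟩
      · exact absurd (isCyclic_of_injective (Subgroup.inclusion hQT) (Subgroup.inclusion_injective hQT)) hQnc
      · exact (Subgroup.eq_of_le_of_card_ge hQT (by rw [h2, h8])).symm
    have hidx : ∀ K : Subgroup G, K ≤ H₀ → Q ≤ K → ¬ 2 ∣ (Q.subgroupOf K).index := by
      intro K hKH hQK
      have hP : IsPGroup 2 (Q.subgroupOf K) := hQ2.comap_of_injective K.subtype K.subtype_injective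
      obtain ⟨S, hS⟩ := hP.exists_le_sylow
      have hT : IsPGroup 2 ((S : Subgroup ↥K).map K.subtype) := S.isPGroup'.map K.subtype
      have hT1 : (S : Subgroup ↥K).map K.subtype ≤ K := Subgroup.map_subtype_le _
      have hQT : Q ≤ (S : Subgroup ↥K).map K.subtype := by
        intro x hx
        exact ⟨⟨x, hQK hx⟩, hS (Subgroup.mem_subgroupOf.2 hx), rfl⟩
      have he := hQmax _ (hT1.trans hKH) hT hQT
      have h1 : Q.subgroupOf K = S := by
        rw [← he]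
        exact Subgroup.comap_map_eq_self_of_injective K.subtype_injective _
      rw [h1]
      exact S.not_dvd_index
    -- `Q` is normal in `H₀`
    have hcyc : ∀ (K : Subgroup G), K ≤ H₀ → ∀ (q : ℕ) [Fact q.Prime], q ≠ 2 → ∀ S : Sylow q ↥K, IsCyclic ↥(S : Subgroup ↥K) := by
      intro K hKH q _ hq2 S
      apply isCyclic_of_map_subtype
      have hT : IsPGroup q ((S : Subgroup ↥K).map K.subtype) := S.isPGroup'.map K.subtype
      have hT1 : (S : Subgroup ↥K).map K.subtype ≤ K := Subgroup.map_subtype_le _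
      rcases hd.syl q _ (hT1.trans hKH) hT with h1 | ⟨h1, -⟩
      · exact h1
      · exact absurd h1 hq2
    have hdata : ∀ K : Subgroup G, Q ≤ K → Nat.card (Q.subgroupOf K) = 8 ∧
        (¬ ∀ u ∈ Q.subgroupOf K, ∀ v ∈ Q.subgroupOf K, u * v = v * u) ∧ UniqueP 2 ↥(Q.subgroupOf K) := by
      intro K hQK
      refine ⟨by rw [Nat.card_congr (Subgroup.subgroupOfEquivOfLe hQK).toEquiv]; exact h8, ?_, ?_⟩
      · intro hc
        apply hna
        intro u hu v hv
        have := hc ⟨u, hQK hu⟩ (Subgroup.mem_subgroupOf.2 hu) ⟨v, hQK hv⟩ (Subgroup.mem_subgroupOf.2 hv)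
        exact congrArg Subtype.val this
      · exact UniqueP.of_injective (Subgroup.subgroupOfEquivOfLe hQK).toMonoidHom
          (Subgroup.subgroupOfEquivOfLe hQK).injective hun
    have hQ1 : IsPGroup 2 (Q.subgroupOf H₀) := hQ2.comap_of_injective H₀.subtype H₀.subtype_injective
    have hsolH : Group.IsSolvable ↥H₀ := inferInstance
    obtain ⟨h81, hna1, hun1⟩ := hdata H₀ hQH
    have hNorm : (Q.subgroupOf H₀).Normal :=
      quat_normal _ ↥H₀ rfl hBH hsolH (hcyc H₀ le_rfl) (hQ1.toSylow (hidx H₀ le_rfl hQH)) h81 hna1 hun1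
    have hnQ : ∀ h ∈ H₀, ∀ a ∈ Q, h * a * h⁻¹ ∈ Q := by
      intro h hh a ha
      have h2 := hNorm.conj_mem ⟨a, hQH ha⟩ (Subgroup.mem_subgroupOf.2 ha) ⟨h, hh⟩
      exact Subgroup.mem_subgroupOf.1 h2
    -- `Q` in `B`
    have hQD : ∀ a ∈ Q, ∀ x ∈ D, a * x * a⁻¹ ∈ D := by
      intro a ha x hx
      have h2 := (Subgroup.mem_inf.1 (hQB ha)).2
      exact (Subgroup.mem_normalizer_iff.1 h2 x).1 hx
    haveI hQBn : (Q.subgroupOf B).Normal := by
      refine ⟨fun x hx g => ?_⟩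
      exact Subgroup.mem_subgroupOf.2 (hnQ g (hBH₀ g.2) x (Subgroup.mem_subgroupOf.1 hx))
    obtain ⟨h82, hna2, hun2⟩ := hdata B hQB
    refine aprop_of_quat_normal (Q.subgroupOf B) (hQ2.comap_of_injective B.subtype B.subtype_injective) h82 hun2
      (hidx B hBH₀ hQB) (hcyc B hBH₀) ?_
    intro c hc c' hc' hco hc'o
    have hco' : orderOf (c : G) = 4 := by rw [Subgroup.orderOf_coe]; exact hco
    have hc'o' : orderOf (c' : G) = 4 := by rw [Subgroup.orderOf_coe]; exact hc'o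
    obtain ⟨u, huH, huD, huz⟩ := exists_conj_in_B hB hd Q hQH hnQ hQ2 h8 hna hun D hDF hQD c c'
      (Subgroup.mem_subgroupOf.1 hc) (Subgroup.mem_subgroupOf.1 hc') hco' hc'o'
    have huB : u ∈ B := Subgroup.mem_inf.mpr ⟨huH, mem_normalizer_of_forall_conj D u huD⟩
    refine ⟨⟨u, huB⟩, ?_⟩
    symm
    apply Subgroup.eq_of_le_of_card_ge
    · intro x hx
      obtain ⟨t, ht, rfl⟩ := mem_conj_iff.1 hx
      obtain ⟨s, rfl⟩ := Subgroup.mem_zpowers_iff.1 ht
      rw [← conj_zpow]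
      apply Subgroup.zpow_mem
      have h2 : u * (c : G) * u⁻¹ ∈ zpowers (c' : G) := by
        rw [huz]
        exact mem_conj_iff.2 ⟨c, Subgroup.mem_zpowers _, rfl⟩
      obtain ⟨r, hr⟩ := Subgroup.mem_zpowers_iff.1 h2
      refine Subgroup.mem_zpowers_iff.2 ⟨r, Subtype.ext ?_⟩
      simpa using hr
    · rw [card_conj, Nat.card_zpowers, Nat.card_zpowers, hco, hc'o]

/-- Splitting a subgroup along the decomposition. -/
theorem exists_reduce {G : Type u} [Group G] [Finite G] {F H₀ : Subgroup G} (hd : Dec F H₀)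
    (hidx : F.index = Nat.card H₀) (X : Subgroup G) :
    ∃ a : G, ∃ X₁ C : Subgroup G, X₁ ≤ F ∧ C ≤ H₀ ∧ X.map (MulAut.conj a).toMonoidHom = X₁ ⊔ C ∧
      (∀ c ∈ C, ∀ x ∈ X₁, c * x * c⁻¹ ∈ X₁) ∧ Nat.card X₁ * Nat.card C = Nat.card X := by
  classical
  haveI hFn := hd.normal
  have hFc := hd.comm
  haveI hFcomm : IsMulCommutative ↥F := mulComm_of_forall hFc
  have hle : X ⊓ F ≤ X := inf_le_left
  have hconjX : ∀ x ∈ X, ∀ y ∈ X ⊓ F, x * y * x⁻¹ ∈ X ⊓ F := by
    intro x hx y hy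
    obtain ⟨h1, h2⟩ := Subgroup.mem_inf.1 hy
    exact Subgroup.mem_inf.mpr ⟨X.mul_mem (X.mul_mem hx h1) (X.inv_mem hx), hFn.conj_mem y h2 x⟩
  have hn : X ≤ normalizer ((X ⊓ F : Subgroup G) : Set G) := by
    intro x hx
    rw [Subgroup.mem_normalizer_iff]
    intro y
    refine ⟨hconjX x hx y, fun hy => ?_⟩
    have h := hconjX x⁻¹ (X.inv_mem hx) _ hy
    have h3 : y = x⁻¹ * (x * y * x⁻¹) * x⁻¹⁻¹ := by group
    rw [h3]
    exact h
  have hri : (X ⊓ F).relIndex X ∣ Nat.card H₀ := by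
    have h1 : (X ⊓ F).relIndex X = F.relIndex X := by
      rw [inf_comm, Subgroup.inf_relIndex_right]
    rw [h1, ← hidx]
    exact Subgroup.relIndex_dvd_index_of_normal F X
  have hcop : (Nat.card ↥(X ⊓ F)).Coprime ((X ⊓ F).relIndex X) :=
    Nat.Coprime.coprime_dvd_left (Subgroup.card_dvd_of_le (inf_le_right : X ⊓ F ≤ F))
      (Nat.Coprime.coprime_dvd_right hri hd.cop)
  obtain ⟨R, hRX, hsup, hinf, hcard⟩ := Cfsg.Agent.Lib.Coprime.exists_complement_of_coprime hle hn hcop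
  -- a conjugate of `R` in `H₀`
  set C' := H₀ ⊓ (R ⊔ F) with hC'
  have hnormF : ∀ Z : Subgroup G, Z ≤ normalizer (F : Set G) := by
    intro Z
    rw [Subgroup.normalizer_eq_top_iff.2 hFn]
    exact le_top
  have hsupC : R ⊔ F = C' ⊔ F := by
    apply le_antisymm
    · intro x hx
      have h1 : x ∈ ((H₀ ⊔ F : Subgroup G) : Set G) := by
        rw [sup_comm, hd.sup]; exact Subgroup.mem_top x
      rw [Subgroup.mul_normal, Set.mem_mul] at h1
      obtain ⟨h, hh, f, hf, rfl⟩ := h1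
      have h2 : h ∈ C' := by
        refine Subgroup.mem_inf.mpr ⟨hh, ?_⟩
        have h3 : h = (h * f) * f⁻¹ := by group
        rw [h3]
        exact (R ⊔ F).mul_mem hx (Subgroup.mem_sup_right (F.inv_mem hf))
      exact Subgroup.mul_mem_sup h2 hf
    · exact sup_le (inf_le_right) le_sup_right
  have hRcop : (Nat.card F).Coprime (Nat.card R) := by
    rw [hcard]
    exact Nat.Coprime.coprime_dvd_right hri hd.cop
  have hCcop : (Nat.card F).Coprime (Nat.card C') :=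
    Nat.Coprime.coprime_dvd_right (Subgroup.card_dvd_of_le inf_le_left) hd.cop
  obtain ⟨a, haF, ha⟩ := Cfsg.Agent.Lib.Basic.schurZassenhaus_conj_abelian_rel F R C' (hnormF _) (hnormF _) hRcop hCcop hsupC
  have ha' : C' = R.map (MulAut.conj a).toMonoidHom := ha.symm
  have hfix : (X ⊓ F).map (MulAut.conj a).toMonoidHom = X ⊓ F := by
    ext x
    rw [mem_conj_iff]
    constructor
    · rintro ⟨t, ht, rfl⟩
      have h1 : a * t * a⁻¹ = t := by
        rw [hFc a haF t (Subgroup.mem_inf.1 ht).2]; group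
      rw [h1]
      exact ht
    · intro hx
      refine ⟨x, hx, ?_⟩
      rw [hFc a haF x (Subgroup.mem_inf.1 hx).2]; group
  refine ⟨a, X ⊓ F, C', inf_le_right, inf_le_left, ?_, ?_, ?_⟩
  · conv_lhs => rw [← hsup]
    rw [Subgroup.map_sup, hfix, ← ha']
  · intro c hc x hx
    rw [ha'] at hc
    obtain ⟨r, hr, rfl⟩ := mem_conj_iff.1 hc
    have hxF : x ∈ F := (Subgroup.mem_inf.1 hx).2
    have h1 : a⁻¹ * x * a = x := by
      rw [hFc a⁻¹ (F.inv_mem haF) x hxF]; group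
    have h2 : r * x * r⁻¹ ∈ X ⊓ F := hconjX r (hRX hr) x hx
    have h3 : a * (r * x * r⁻¹) * a⁻¹ = r * x * r⁻¹ := by
      rw [hFc a haF _ (Subgroup.mem_inf.1 h2).2]; group
    have h4 : a * r * a⁻¹ * x * (a * r * a⁻¹)⁻¹ = a * (r * (a⁻¹ * x * a) * r⁻¹) * a⁻¹ := by group
    rw [h4, h1, h3]
    exact h2
  · rw [ha', card_conj, hcard]
    have h3 := ((X ⊓ F).subgroupOf X).card_mul_index
    rwa [Nat.card_congr (Subgroup.subgroupOfEquivOfLe hle).toEquiv] at h3

theorem coprime_split {a a' b b' n m : ℕ} (hpos : 0 < a) (ha : a ∣ n) (ha' : a' ∣ n) (hb : b ∣ m) (hb' : b' ∣ m)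
    (hcop : n.Coprime m) (h : a * b = a' * b') : a = a' ∧ b = b' := by
  have h1 : a ∣ a' := by
    have h2 : a ∣ a' * b' := ⟨b, h.symm⟩
    exact (Nat.Coprime.coprime_dvd_left ha (Nat.Coprime.coprime_dvd_right hb' hcop)).dvd_of_dvd_mul_right h2
  have h2 : a' ∣ a := by
    have h2 : a' ∣ a * b := ⟨b', h⟩
    exact (Nat.Coprime.coprime_dvd_left ha' (Nat.Coprime.coprime_dvd_right hb hcop)).dvd_of_dvd_mul_right h2
  have h3 := Nat.dvd_antisymm h1 h2
  refine ⟨h3, ?_⟩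
  subst h3
  exact Nat.eq_of_mul_eq_mul_left hpos h

/-- **Main theorem**: in a finite soluble group whose abelian subgroups of equal order are conjugate, all subgroups of
equal order are conjugate. -/
theorem aprop_of_bprop {G : Type u} [Group G] [Finite G] (hB : BProp G) (hsol : Group.IsSolvable G) : AProp G := by
  classical
  obtain ⟨F, H₀, hd⟩ := exists_dec hB hsol
  haveI hFn := hd.normal
  have hFc := hd.comm
  -- `H₀` has the property
  let φ : ↥H₀ →* G ⧸ F := (QuotientGroup.mk' F).comp H₀.subtype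
  have hφ : Function.Bijective φ := by
    constructor
    · intro a b hab
      have h1 : ((a : G) : G ⧸ F) = ((b : G) : G ⧸ F) := hab
      have h2 : (a : G)⁻¹ * b ∈ F := QuotientGroup.eq.1 h1
      have h3 : (a : G)⁻¹ * b ∈ F ⊓ H₀ := Subgroup.mem_inf.mpr ⟨h2, H₀.mul_mem (H₀.inv_mem a.2) b.2⟩
      rw [hd.inf, Subgroup.mem_bot] at h3
      exact Subtype.ext (inv_mul_eq_one.1 h3)
    · intro y
      obtain ⟨g, rfl⟩ := QuotientGroup.mk'_surjective F y
      have h1 : g ∈ ((H₀ ⊔ F : Subgroup G) : Set G) := by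
        rw [sup_comm, hd.sup]; exact Subgroup.mem_top g
      rw [Subgroup.mul_normal, Set.mem_mul] at h1
      obtain ⟨h, hh, f, hf, rfl⟩ := h1
      refine ⟨⟨h, hh⟩, ?_⟩
      show ((h : G) : G ⧸ F) = QuotientGroup.mk' F (h * f)
      have hf1 : QuotientGroup.mk' F f = 1 := (QuotientGroup.eq_one_iff f).2 hf
      rw [map_mul, hf1, mul_one]
      rfl
  let e : ↥H₀ ≃* G ⧸ F := MulEquiv.ofBijective φ hφ
  have hBH : BProp ↥H₀ := BProp.of_equiv e.symm (bprop_quotient _ G rfl hB hsol F)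
  have hidx : F.index = Nat.card H₀ := (Nat.card_congr e.toEquiv).symm
  intro X Y hXY
  obtain ⟨a, X₁, C, hX₁F, hCH, hXa, hCX, hcX⟩ := exists_reduce hd hidx X
  obtain ⟨b, Y₁, C₂, hY₁F, hC₂H, hYb, hC₂Y, hcY⟩ := exists_reduce hd hidx Y
  obtain ⟨hc1, hc2⟩ := coprime_split Nat.card_pos (Subgroup.card_dvd_of_le hX₁F) (Subgroup.card_dvd_of_le hY₁F)
    (Subgroup.card_dvd_of_le hCH) (Subgroup.card_dvd_of_le hC₂H) hd.cop (by rw [hcX, hcY, hXY])
  -- conjugate the complements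
  have hnorm0 : ∀ Z : Subgroup G, Z ≤ H₀ → Z ≤ H₀ ⊓ normalizer ((⊥ : Subgroup G) : Set G) := by
    intro Z hZ x hx
    refine Subgroup.mem_inf.mpr ⟨hZ hx, mem_normalizer_of_forall_conj ⊥ x ?_⟩
    intro y hy
    rw [Subgroup.mem_bot] at hy ⊢
    rw [hy]; group
  obtain ⟨h₀, hh₀, hC₂⟩ := AProp.conj_in (aprop_normalizer hB hsol hd hBH ⊥ bot_le) (hnorm0 C hCH) (hnorm0 C₂ hC₂H) hc2
  have hh₀H : h₀ ∈ H₀ := (Subgroup.mem_inf.1 hh₀).1
  set X₂ := X₁.map (MulAut.conj h₀).toMonoidHom with hX₂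
  have hX₂F : X₂ ≤ F := by
    intro x hx
    obtain ⟨t, ht, rfl⟩ := mem_conj_iff.1 hx
    exact hFn.conj_mem t (hX₁F ht) h₀
  have hC₂X₂ : ∀ c ∈ C₂, ∀ x ∈ X₂, c * x * c⁻¹ ∈ X₂ := by
    intro c hc x hx
    rw [hC₂] at hc
    obtain ⟨c₀, hc₀, rfl⟩ := mem_conj_iff.1 hc
    obtain ⟨t, ht, rfl⟩ := mem_conj_iff.1 hx
    refine mem_conj_iff.2 ⟨_, hCX c₀ hc₀ t ht, ?_⟩
    group
  have hXh : X.map (MulAut.conj (h₀ * a)).toMonoidHom = X₂ ⊔ C₂ := by
    rw [← map_conj_mul, hXa, Subgroup.map_sup, ← hC₂]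
  -- conjugate the abelian parts
  obtain ⟨g, hg⟩ := hB X₂ Y₁ (mulComm_of_forall (fun u hu v hv => hFc u (hX₂F hu) v (hX₂F hv)))
    (mulComm_of_forall (fun u hu v hv => hFc u (hY₁F hu) v (hY₁F hv))) (by
      rw [hX₂, card_conj, hc1])
  have h1 : g ∈ ((F ⊔ H₀ : Subgroup G) : Set G) := by
    rw [hd.sup]; exact Subgroup.mem_top g
  rw [Subgroup.normal_mul, Set.mem_mul] at h1
  obtain ⟨f, hf, h, hh, rfl⟩ := h1
  have hact : ∀ x ∈ F, (f * h) * x * (f * h)⁻¹ = h * x * h⁻¹ := by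
    intro x hx
    have h2 : h * x * h⁻¹ ∈ F := hFn.conj_mem x hx h
    calc (f * h) * x * (f * h)⁻¹ = f * (h * x * h⁻¹) * f⁻¹ := by group
      _ = (h * x * h⁻¹) * f * f⁻¹ := by rw [hFc f hf _ h2]
      _ = h * x * h⁻¹ := by group
  have hY₁ : Y₁ = X₂.map (MulAut.conj h).toMonoidHom := by
    rw [hg]
    ext x
    rw [mem_conj_iff, mem_conj_iff]
    constructor
    · rintro ⟨t, ht, rfl⟩
      exact ⟨t, ht, hact t (hX₂F ht)⟩
    · rintro ⟨t, ht, rfl⟩
      exact ⟨t, ht, (hact t (hX₂F ht)).symm⟩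
  set C₃ := C₂.map (MulAut.conj h).toMonoidHom with hC₃
  have hC₃Y : ∀ c ∈ C₃, ∀ y ∈ Y₁, c * y * c⁻¹ ∈ Y₁ := by
    intro c hc y hy
    rw [hY₁] at hy ⊢
    obtain ⟨c₀, hc₀, rfl⟩ := mem_conj_iff.1 hc
    obtain ⟨t, ht, rfl⟩ := mem_conj_iff.1 hy
    refine mem_conj_iff.2 ⟨_, hC₂X₂ c₀ hc₀ t ht, ?_⟩
    group
  have hC₃H : C₃ ≤ H₀ := by
    intro x hx
    obtain ⟨t, ht, rfl⟩ := mem_conj_iff.1 hx
    exact H₀.mul_mem (H₀.mul_mem hh (hC₂H ht)) (H₀.inv_mem hh)
  have hnormY : ∀ Z : Subgroup G, Z ≤ H₀ → (∀ c ∈ Z, ∀ y ∈ Y₁, c * y * c⁻¹ ∈ Y₁) →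
      Z ≤ H₀ ⊓ normalizer (Y₁ : Set G) := by
    intro Z hZ hZY x hx
    exact Subgroup.mem_inf.mpr ⟨hZ hx, mem_normalizer_of_forall_conj Y₁ x (hZY x hx)⟩
  obtain ⟨b₁, hb₁, hC₂'⟩ := AProp.conj_in (aprop_normalizer hB hsol hd hBH Y₁ hY₁F) (hnormY C₃ hC₃H hC₃Y)
    (hnormY C₂ hC₂H hC₂Y) (by rw [hC₃, card_conj])
  have hb₁Y : Y₁.map (MulAut.conj b₁).toMonoidHom = Y₁ := by
    have hb₁N := (Subgroup.mem_inf.1 hb₁).2
    apply Subgroup.eq_of_le_of_card_ge
    · intro x hx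
      obtain ⟨t, ht, rfl⟩ := mem_conj_iff.1 hx
      exact (Subgroup.mem_normalizer_iff.1 hb₁N t).1 ht
    · rw [card_conj]
  have hfinal : X.map (MulAut.conj (b₁ * (h * (h₀ * a)))).toMonoidHom = Y.map (MulAut.conj b).toMonoidHom := by
    rw [← map_conj_mul, ← map_conj_mul, hXh, Subgroup.map_sup, Subgroup.map_sup, ← hY₁, ← hC₃, ← hC₂', hb₁Y, hYb]
  refine ⟨b⁻¹ * (b₁ * (h * (h₀ * a))), ?_⟩
  rw [← map_conj_mul, hfinal, map_conj_mul]
  ext x
  rw [mem_conj_iff]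
  constructor
  · intro hx
    exact ⟨x, hx, by group⟩
  · rintro ⟨t, ht, rfl⟩
    have h5 : b⁻¹ * b * t * (b⁻¹ * b)⁻¹ = t := by group
    rw [h5]
    exact ht

end Cfsg.Agent.Lib.Coprime.BP
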