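import Mathlib

/-!
# A small lattice computation

Integer vectors on a finite set with a prescribed Gram matrix, together with two weighted cubic sums,
force a large value of the weight.
-/

set_option autoImplicit false

namespace Cfsg.Agent.Lib.Coprime.Gram333

variable {I : Type*} [Fintype I] [DecidableEq I]

theorem support_of_sum_sq_three (f : I → ℤ) (hf : ∑ i, f i ^ 2 = 3) :
    ∃ x y z : I, x ≠ y ∧ x ≠ z ∧ y ≠ z ∧ (∀ i, f i ≠ 0 ↔ i = x ∨ i = y ∨ i = z) ∧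
      (∀ i, f i ≠ 0 → f i = 1 ∨ f i = -1) := by
  have hle : ∀ i, f i ^ 2 ≤ 3 := fun i => by
    rw [← hf]
    exact Finset.single_le_sum (f := fun i => f i ^ 2) (fun j _ => sq_nonneg _) (Finset.mem_univ i)
  have hpm : ∀ i, f i = 0 ∨ f i = 1 ∨ f i = -1 := by
    intro i
    have h1 := hle i
    have h2 : f i ≤ 1 := by nlinarith
    have h3 : -1 ≤ f i := by nlinarith
    omega
  let P := Finset.univ.filter (fun i => f i ≠ 0)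
  have hsq : ∀ i, f i ^ 2 = if f i ≠ 0 then 1 else 0 := by
    intro i
    rcases hpm i with h | h | h <;> simp [h]
  have hcard : P.card = 3 := by
    have : ((P.card : ℕ) : ℤ) = 3 := by
      rw [← hf, Finset.card_filter]
      push_cast
      exact Finset.sum_congr rfl fun i _ => (hsq i).symm
    exact_mod_cast this
  obtain ⟨x, y, z, hxy, hxz, hyz, hP⟩ := Finset.card_eq_three.mp hcard
  refine ⟨x, y, z, hxy, hxz, hyz, ?_, ?_⟩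
  · intro i
    have : i ∈ P ↔ f i ≠ 0 := by simp [P]
    rw [← this, hP]
    simp
  · intro i hi
    rcases hpm i with h | h | h
    · exact absurd h hi
    · exact Or.inl h
    · exact Or.inr h

theorem sum_eq_of_support3 {R : Type*} [AddCommMonoid R] (g : I → R) {x y z : I} (hxy : x ≠ y)
    (hxz : x ≠ z) (hyz : y ≠ z) (hg : ∀ i, i ≠ x → i ≠ y → i ≠ z → g i = 0) :
    ∑ i, g i = g x + g y + g z := by
  rw [← Finset.sum_subset (Finset.subset_univ ({x, y, z} : Finset I))]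
  · rw [Finset.sum_insert (by simp [hxy, hxz]), Finset.sum_insert (by simp [hyz]), Finset.sum_singleton,
      add_assoc]
  · intro i _ hi
    simp only [Finset.mem_insert, Finset.mem_singleton, not_or] at hi
    exact hg i hi.1 hi.2.1 hi.2.2

theorem sum_eq_of_support5 {R : Type*} [AddCommMonoid R] (g : I → R) {a b c e f : I}
    (hab : a ≠ b) (hac : a ≠ c) (hae : a ≠ e) (haf : a ≠ f) (hbc : b ≠ c) (hbe : b ≠ e) (hbf : b ≠ f)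
    (hce : c ≠ e) (hcf : c ≠ f) (hef : e ≠ f)
    (hg : ∀ i, i ≠ a → i ≠ b → i ≠ c → i ≠ e → i ≠ f → g i = 0) :
    ∑ i, g i = g a + g b + g c + g e + g f := by
  rw [← Finset.sum_subset (Finset.subset_univ ({a, b, c, e, f} : Finset I))]
  · rw [Finset.sum_insert (by simp [hab, hac, hae, haf]), Finset.sum_insert (by simp [hbc, hbe, hbf]),
      Finset.sum_insert (by simp [hce, hcf]), Finset.sum_insert (by simp [hef]), Finset.sum_singleton]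
    simp only [add_assoc]
  · intro i _ hi
    simp only [Finset.mem_insert, Finset.mem_singleton, not_or] at hi
    exact hg i hi.1 hi.2.1 hi.2.2.1 hi.2.2.2.1 hi.2.2.2.2

theorem enum (W₀ W₁ W₂ W₃ W₄ : ℤ) (h1 : W₀ + W₁ + W₂ = 1) (h2 : W₀ + W₃ + W₄ = 1)
    (h3 : W₀ ^ 2 + W₁ ^ 2 + W₂ ^ 2 + W₃ ^ 2 + W₄ ^ 2 ≤ 4) :
    (W₀ = 0 ∨ W₀ = 1) ∧
      ((W₁ * (W₁ - 1) = 0 ∧ W₂ * (W₂ - 1) = 0 ∧ W₃ * (W₃ - 1) = 0 ∧ W₄ * (W₄ - 1) = 0) ∨
       (W₁ * (W₁ - 1) = 2 ∧ W₂ * (W₂ - 1) = 0 ∧ W₃ * (W₃ - 1) = 0 ∧ W₄ * (W₄ - 1) = 0) ∨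
       (W₁ * (W₁ - 1) = 0 ∧ W₂ * (W₂ - 1) = 2 ∧ W₃ * (W₃ - 1) = 0 ∧ W₄ * (W₄ - 1) = 0) ∨
       (W₁ * (W₁ - 1) = 0 ∧ W₂ * (W₂ - 1) = 0 ∧ W₃ * (W₃ - 1) = 2 ∧ W₄ * (W₄ - 1) = 0) ∨
       (W₁ * (W₁ - 1) = 0 ∧ W₂ * (W₂ - 1) = 0 ∧ W₃ * (W₃ - 1) = 0 ∧ W₄ * (W₄ - 1) = 2)) := by
  have b0 : W₀ ≤ 2 := by nlinarith [sq_nonneg W₁, sq_nonneg W₂, sq_nonneg W₃, sq_nonneg W₄]
  have b0' : -2 ≤ W₀ := by nlinarith [sq_nonneg W₁, sq_nonneg W₂, sq_nonneg W₃, sq_nonneg W₄]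
  have b1 : W₁ ≤ 2 := by nlinarith [sq_nonneg W₀, sq_nonneg W₂, sq_nonneg W₃, sq_nonneg W₄]
  have b1' : -2 ≤ W₁ := by nlinarith [sq_nonneg W₀, sq_nonneg W₂, sq_nonneg W₃, sq_nonneg W₄]
  have b3 : W₃ ≤ 2 := by nlinarith [sq_nonneg W₀, sq_nonneg W₂, sq_nonneg W₁, sq_nonneg W₄]
  have b3' : -2 ≤ W₃ := by nlinarith [sq_nonneg W₀, sq_nonneg W₂, sq_nonneg W₁, sq_nonneg W₄]
  have e2 : W₂ = 1 - W₀ - W₁ := by omega
  have e4 : W₄ = 1 - W₀ - W₃ := by omega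
  subst e2 e4
  interval_cases W₀ <;> interval_cases W₁ <;> interval_cases W₃ <;> first | (exfalso; revert h3; norm_num; done) | norm_num

/-- The numerical heart. -/
theorem arith (s₀ s₁ s₂ s₃ s₄ w₀ w₁ w₂ w₃ w₄ : ℤ)
    (hs₀ : s₀ = 1 ∨ s₀ = -1) (hs₁ : s₁ = 1 ∨ s₁ = -1) (hs₂ : s₂ = 1 ∨ s₂ = -1) (hs₃ : s₃ = 1 ∨ s₃ = -1)
    (hs₄ : s₄ = 1 ∨ s₄ = -1)
    (h1 : s₀ * w₀ + s₁ * w₁ + s₂ * w₂ = 1) (h2 : s₀ * w₀ + s₃ * w₃ + s₄ * w₄ = 1)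
    (h3 : w₀ ^ 2 + w₁ ^ 2 + w₂ ^ 2 + w₃ ^ 2 + w₄ ^ 2 ≤ 4)
    (x₀ x₁ x₂ x₃ x₄ q : ℚ) (hx₀ : 0 < x₀) (hx₁ : 0 < x₁) (hx₂ : 0 < x₂) (hx₃ : 0 < x₃) (hx₄ : 0 < x₄)
    (hq : 0 < q)
    (hL : ((s₁ * w₁ * (w₁ - s₁) : ℤ) : ℚ) * x₁ + ((s₂ * w₂ * (w₂ - s₂) : ℤ) : ℚ) * x₂
        - ((s₃ * w₃ * (w₃ - s₃) : ℤ) : ℚ) * x₃ - ((s₄ * w₄ * (w₄ - s₄) : ℤ) : ℚ) * x₄ = 0)
    (hF : (((w₀ - 2 * s₀) * (2 * s₀ * w₀ + 2) : ℤ) : ℚ) * x₀ + ((s₁ * w₁ * (w₁ - s₁) : ℤ) : ℚ) * x₁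
        + ((s₂ * w₂ * (w₂ - s₂) : ℤ) : ℚ) * x₂ + ((s₃ * w₃ * (w₃ - s₃) : ℤ) : ℚ) * x₃
        + ((s₄ * w₄ * (w₄ - s₄) : ℤ) : ℚ) * x₄ = q) :
    4 * x₀ = q := by
  have key : ∀ s w : ℤ, (s = 1 ∨ s = -1) → s * w * (w - s) = s * ((s * w) * (s * w - 1)) := by
    intro s w hs
    rcases hs with rfl | rfl <;> ring
  have key0 : ∀ s w : ℤ, (s = 1 ∨ s = -1) → (w - 2 * s) * (2 * s * w + 2) = 2 * s * ((s * w - 2) * (s * w + 1)) := by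
    intro s w hs
    rcases hs with rfl | rfl <;> ring
  have hsq : ∀ s w : ℤ, (s = 1 ∨ s = -1) → (s * w) ^ 2 = w ^ 2 := by
    intro s w hs
    rcases hs with rfl | rfl <;> ring
  rw [key s₁ w₁ hs₁, key s₂ w₂ hs₂, key s₃ w₃ hs₃, key s₄ w₄ hs₄] at hL hF
  rw [key0 s₀ w₀ hs₀] at hF
  obtain ⟨hW, hcase⟩ := enum (s₀ * w₀) (s₁ * w₁) (s₂ * w₂) (s₃ * w₃) (s₄ * w₄) h1 h2 (by
    rw [hsq _ _ hs₀, hsq _ _ hs₁, hsq _ _ hs₂, hsq _ _ hs₃, hsq _ _ hs₄]; exact h3)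
  have hne : ∀ s : ℤ, (s = 1 ∨ s = -1) → ∀ x : ℚ, 0 < x → ((s * 2 : ℤ) : ℚ) * x ≠ 0 := by
    intro s hs x hx
    rcases hs with rfl | rfl <;> norm_num <;> exact hx.ne'
  have hall : (s₁ * w₁) * (s₁ * w₁ - 1) = 0 ∧ (s₂ * w₂) * (s₂ * w₂ - 1) = 0 ∧
      (s₃ * w₃) * (s₃ * w₃ - 1) = 0 ∧ (s₄ * w₄) * (s₄ * w₄ - 1) = 0 := by
    rcases hcase with h | ⟨a, b, c, e⟩ | ⟨a, b, c, e⟩ | ⟨a, b, c, e⟩ | ⟨a, b, c, e⟩
    · exact h
    · exfalso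
      rw [a, b, c, e] at hL
      apply hne s₁ hs₁ x₁ hx₁
      simpa using hL
    · exfalso
      rw [a, b, c, e] at hL
      apply hne s₂ hs₂ x₂ hx₂
      simpa using hL
    · exfalso
      rw [a, b, c, e] at hL
      apply hne s₃ hs₃ x₃ hx₃
      simpa using hL
    · exfalso
      rw [a, b, c, e] at hL
      apply hne s₄ hs₄ x₄ hx₄
      simpa using hL
  obtain ⟨a, b, c, e⟩ := hall
  rw [a, b, c, e] at hF
  have hval : (s₀ * w₀ - 2) * (s₀ * w₀ + 1) = -2 := by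
    rcases hW with h | h <;> rw [h] <;> norm_num
  rw [hval] at hF
  rcases hs₀ with rfl | rfl
  · exfalso
    norm_num at hF
    linarith
  · norm_num at hF
    linarith

/-- The core case: five characters on the support. -/
theorem core (u v w : I → ℤ) (d : I → ℕ) (hd : ∀ i, 0 < d i) (i₀ : I) (h0u : u i₀ = 0) (h0v : v i₀ = 0)
    (h0w : w i₀ = 1)
    (hww : ∑ i, w i ^ 2 = 5) (huw : ∑ i, u i * w i = 1) (hvw : ∑ i, v i * w i = 1)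
    (n : ℚ) (hn : 0 < n)
    (hL : ∑ i, (((u i - v i) * w i * (w i - u i - v i) : ℤ) : ℚ) / (d i : ℚ) = 0)
    (hF : ∑ i, (((w i - u i - v i) * (w i * (u i + v i) + 2 * u i * v i) : ℤ) : ℚ) / (d i : ℚ) = 1 / n)
    (θ₀ θ₁ θ₂ θ₃ θ₄ : I) (h01 : θ₀ ≠ θ₁) (h02 : θ₀ ≠ θ₂) (h03 : θ₀ ≠ θ₃) (h04 : θ₀ ≠ θ₄)
    (h12 : θ₁ ≠ θ₂) (h13 : θ₁ ≠ θ₃) (h14 : θ₁ ≠ θ₄) (h23 : θ₂ ≠ θ₃) (h24 : θ₂ ≠ θ₄) (h34 : θ₃ ≠ θ₄)
    (hu : ∀ i, u i ≠ 0 ↔ i = θ₀ ∨ i = θ₁ ∨ i = θ₂) (hv : ∀ i, v i ≠ 0 ↔ i = θ₀ ∨ i = θ₃ ∨ i = θ₄)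
    (hupm : ∀ i, u i ≠ 0 → u i = 1 ∨ u i = -1) (hvpm : ∀ i, v i ≠ 0 → v i = 1 ∨ v i = -1)
    (h00 : u θ₀ = v θ₀) : ∃ i, (d i : ℚ) = 4 * n := by
  have hu0 : ∀ i, i ≠ θ₀ → i ≠ θ₁ → i ≠ θ₂ → u i = 0 := by
    intro i h0 h1 h2
    by_contra h
    rcases (hu i).mp h with h' | h' | h'
    · exact h0 h'
    · exact h1 h'
    · exact h2 h'
  have hv0 : ∀ i, i ≠ θ₀ → i ≠ θ₃ → i ≠ θ₄ → v i = 0 := by
    intro i h0 h1 h2
    by_contra h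
    rcases (hv i).mp h with h' | h' | h'
    · exact h0 h'
    · exact h1 h'
    · exact h2 h'
  have hu1 : u θ₃ = 0 := hu0 _ h03.symm h13.symm h23.symm
  have hu2 : u θ₄ = 0 := hu0 _ h04.symm h14.symm h24.symm
  have hv1 : v θ₁ = 0 := hv0 _ h01.symm h13 h14
  have hv2 : v θ₂ = 0 := hv0 _ h02.symm h23 h24
  have hs₀ := hupm θ₀ ((hu θ₀).mpr (Or.inl rfl))
  have hs₁ := hupm θ₁ ((hu θ₁).mpr (Or.inr (Or.inl rfl)))
  have hs₂ := hupm θ₂ ((hu θ₂).mpr (Or.inr (Or.inr rfl)))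
  have hs₃ := hvpm θ₃ ((hv θ₃).mpr (Or.inr (Or.inl rfl)))
  have hs₄ := hvpm θ₄ ((hv θ₄).mpr (Or.inr (Or.inr rfl)))
  have h1 : u θ₀ * w θ₀ + u θ₁ * w θ₁ + u θ₂ * w θ₂ = 1 := by
    rw [← huw]
    refine (sum_eq_of_support3 (fun i => u i * w i) h01 h02 h12 ?_).symm
    intro i a b c
    simp [hu0 i a b c]
  have h2 : v θ₀ * w θ₀ + v θ₃ * w θ₃ + v θ₄ * w θ₄ = 1 := by
    rw [← hvw]
    refine (sum_eq_of_support3 (fun i => v i * w i) h03 h04 h34 ?_).symm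
    intro i a b c
    simp [hv0 i a b c]
  have hi₀ : ∀ i, (u i ≠ 0 ∨ v i ≠ 0) → i ≠ i₀ := by
    rintro i (h | h) rfl
    · exact h h0u
    · exact h h0v
  have hn0 : i₀ ≠ θ₀ := (hi₀ θ₀ (Or.inl ((hu θ₀).mpr (Or.inl rfl)))).symm
  have hn1 : i₀ ≠ θ₁ := (hi₀ θ₁ (Or.inl ((hu θ₁).mpr (Or.inr (Or.inl rfl))))).symm
  have hn2 : i₀ ≠ θ₂ := (hi₀ θ₂ (Or.inl ((hu θ₂).mpr (Or.inr (Or.inr rfl))))).symm
  have hn3 : i₀ ≠ θ₃ := (hi₀ θ₃ (Or.inr ((hv θ₃).mpr (Or.inr (Or.inl rfl))))).symm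
  have hn4 : i₀ ≠ θ₄ := (hi₀ θ₄ (Or.inr ((hv θ₄).mpr (Or.inr (Or.inr rfl))))).symm
  have h3 : w θ₀ ^ 2 + w θ₁ ^ 2 + w θ₂ ^ 2 + w θ₃ ^ 2 + w θ₄ ^ 2 ≤ 4 := by
    have hsub := Finset.sum_le_sum_of_subset_of_nonneg (f := fun i => w i ^ 2)
      (Finset.subset_univ ({i₀, θ₀, θ₁, θ₂, θ₃, θ₄} : Finset I)) (fun i _ _ => sq_nonneg _)
    rw [Finset.sum_insert (by simp [hn0, hn1, hn2, hn3, hn4]),
      Finset.sum_insert (by simp [h01, h02, h03, h04]), Finset.sum_insert (by simp [h12, h13, h14]),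
      Finset.sum_insert (by simp [h23, h24]), Finset.sum_insert (by simp [h34]), Finset.sum_singleton,
      hww, h0w] at hsub
    linarith
  have hpos : ∀ i, (0 : ℚ) < 1 / (d i : ℚ) := by
    intro i
    have : (0 : ℚ) < d i := by exact_mod_cast hd i
    positivity
  have hLsum := sum_eq_of_support5 (fun i => (((u i - v i) * w i * (w i - u i - v i) : ℤ) : ℚ) / (d i : ℚ))
    h01 h02 h03 h04 h12 h13 h14 h23 h24 h34 (by
      intro i a b c e f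
      simp [hu0 i a b c, hv0 i a e f])
  have hFsum := sum_eq_of_support5 (fun i => (((w i - u i - v i) * (w i * (u i + v i) + 2 * u i * v i) : ℤ) : ℚ) / (d i : ℚ))
    h01 h02 h03 h04 h12 h13 h14 h23 h24 h34 (by
      intro i a b c e f
      simp [hu0 i a b c, hv0 i a e f])
  rw [hL] at hLsum
  rw [hF] at hFsum
  simp only [hu1, hu2, hv1, hv2, ← h00] at hLsum hFsum
  have hq : (0 : ℚ) < 1 / n := by positivity
  have hfin := arith (u θ₀) (u θ₁) (u θ₂) (v θ₃) (v θ₄) (w θ₀) (w θ₁) (w θ₂) (w θ₃) (w θ₄) hs₀ hs₁ hs₂ hs₃ hs₄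
    h1 (by rw [← h00] at h2; exact h2) h3 (1 / (d θ₀ : ℚ)) (1 / (d θ₁ : ℚ)) (1 / (d θ₂ : ℚ)) (1 / (d θ₃ : ℚ))
    (1 / (d θ₄ : ℚ)) (1 / n) (hpos _) (hpos _) (hpos _) (hpos _) (hpos _) hq
    (by
      have e0 : ∀ a b c : ℤ, ((a - a) * b * c : ℤ) = 0 := by intro a b c; ring
      rw [e0] at hLsum
      have e1 : ∀ s w : ℤ, (((s - 0) * w * (w - s - 0) : ℤ) : ℚ) = ((s * w * (w - s) : ℤ) : ℚ) := by
        intro s w; push_cast; ring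
      have e3 : ∀ s w : ℤ, (((0 - s) * w * (w - 0 - s) : ℤ) : ℚ) = -((s * w * (w - s) : ℤ) : ℚ) := by
        intro s w; push_cast; ring
      rw [e1, e1, e3, e3] at hLsum
      push_cast at hLsum ⊢
      ring_nf at hLsum ⊢
      linarith)
    (by
      have e0 : ∀ s w : ℤ, (((w - s - s) * (w * (s + s) + 2 * s * s) : ℤ) : ℚ) = (((w - 2 * s) * (2 * s * w + 2 * (s * s)) : ℤ) : ℚ) := by
        intro s w; push_cast; ring
      have e00 : u θ₀ * u θ₀ = 1 := by rcases hs₀ with h | h <;> rw [h] <;> norm_num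
      rw [e0, e00] at hFsum
      have e1 : ∀ s w : ℤ, (((w - s - 0) * (w * (s + 0) + 2 * s * 0) : ℤ) : ℚ) = ((s * w * (w - s) : ℤ) : ℚ) := by
        intro s w; push_cast; ring
      have e3 : ∀ s w : ℤ, (((w - 0 - s) * (w * (0 + s) + 2 * 0 * s) : ℤ) : ℚ) = ((s * w * (w - s) : ℤ) : ℚ) := by
        intro s w; push_cast; ring
      rw [e1, e1, e3, e3] at hFsum
      push_cast at hFsum ⊢
      ring_nf at hFsum ⊢
      linarith)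
  refine ⟨θ₀, ?_⟩
  have hd0 : (0 : ℚ) < d θ₀ := by exact_mod_cast hd θ₀
  field_simp at hfin
  linarith

/-- Case one of the analysis: `x₁` is the only common point, and equals `y₁`. -/
theorem case_one (u v w : I → ℤ) (d : I → ℕ) (hd : ∀ i, 0 < d i) (i₀ : I) (h0u : u i₀ = 0) (h0v : v i₀ = 0)
    (h0w : w i₀ = 1)
    (hww : ∑ i, w i ^ 2 = 5) (huw : ∑ i, u i * w i = 1) (hvw : ∑ i, v i * w i = 1)
    (n : ℚ) (hn : 0 < n)
    (hL : ∑ i, (((u i - v i) * w i * (w i - u i - v i) : ℤ) : ℚ) / (d i : ℚ) = 0)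
    (hF : ∑ i, (((w i - u i - v i) * (w i * (u i + v i) + 2 * u i * v i) : ℤ) : ℚ) / (d i : ℚ) = 1 / n)
    (x₁ x₂ x₃ y₂ y₃ : I) (hx12 : x₁ ≠ x₂) (hx13 : x₁ ≠ x₃) (hx23 : x₂ ≠ x₃)
    (hy12 : x₁ ≠ y₂) (hy13 : x₁ ≠ y₃) (hy23 : y₂ ≠ y₃)
    (hu : ∀ i, u i ≠ 0 ↔ i = x₁ ∨ i = x₂ ∨ i = x₃) (hv : ∀ i, v i ≠ 0 ↔ i = x₁ ∨ i = y₂ ∨ i = y₃)
    (hupm : ∀ i, u i ≠ 0 → u i = 1 ∨ u i = -1) (hvpm : ∀ i, v i ≠ 0 → v i = 1 ∨ v i = -1)
    (h00 : u x₁ = v x₁) (hv2 : v x₂ = 0) (hv3 : v x₃ = 0) : ∃ i, (d i : ℚ) = 4 * n := by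
  have hny2 : v y₂ ≠ 0 := (hv y₂).mpr (Or.inr (Or.inl rfl))
  have hny3 : v y₃ ≠ 0 := (hv y₃).mpr (Or.inr (Or.inr rfl))
  refine core u v w d hd i₀ h0u h0v h0w hww huw hvw n hn hL hF x₁ x₂ x₃ y₂ y₃ hx12 hx13 hy12 hy13 hx23
    ?_ ?_ ?_ ?_ hy23 hu hv hupm hvpm h00
  · rintro rfl; exact hny2 hv2
  · rintro rfl; exact hny3 hv2
  · rintro rfl; exact hny2 hv3
  · rintro rfl; exact hny3 hv3

/-- Case one with `x₁` anywhere among the `y`'s. -/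
theorem case_one' (u v w : I → ℤ) (d : I → ℕ) (hd : ∀ i, 0 < d i) (i₀ : I) (h0u : u i₀ = 0) (h0v : v i₀ = 0)
    (h0w : w i₀ = 1)
    (hww : ∑ i, w i ^ 2 = 5) (huw : ∑ i, u i * w i = 1) (hvw : ∑ i, v i * w i = 1)
    (n : ℚ) (hn : 0 < n)
    (hL : ∑ i, (((u i - v i) * w i * (w i - u i - v i) : ℤ) : ℚ) / (d i : ℚ) = 0)
    (hF : ∑ i, (((w i - u i - v i) * (w i * (u i + v i) + 2 * u i * v i) : ℤ) : ℚ) / (d i : ℚ) = 1 / n)
    (x₁ x₂ x₃ y₁ y₂ y₃ : I) (hx12 : x₁ ≠ x₂) (hx13 : x₁ ≠ x₃) (hx23 : x₂ ≠ x₃)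
    (hy12 : y₁ ≠ y₂) (hy13 : y₁ ≠ y₃) (hy23 : y₂ ≠ y₃)
    (hu : ∀ i, u i ≠ 0 ↔ i = x₁ ∨ i = x₂ ∨ i = x₃) (hv : ∀ i, v i ≠ 0 ↔ i = y₁ ∨ i = y₂ ∨ i = y₃)
    (hupm : ∀ i, u i ≠ 0 → u i = 1 ∨ u i = -1) (hvpm : ∀ i, v i ≠ 0 → v i = 1 ∨ v i = -1)
    (h00 : u x₁ = v x₁) (hv2 : v x₂ = 0) (hv3 : v x₃ = 0) (hv1 : v x₁ ≠ 0) : ∃ i, (d i : ℚ) = 4 * n := by
  rcases (hv x₁).mp hv1 with rfl | rfl | rfl
  · exact case_one u v w d hd i₀ h0u h0v h0w hww huw hvw n hn hL hF x₁ x₂ x₃ y₂ y₃ hx12 hx13 hx23 hy12 hy13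
      hy23 hu hv hupm hvpm h00 hv2 hv3
  · exact case_one u v w d hd i₀ h0u h0v h0w hww huw hvw n hn hL hF x₁ x₂ x₃ y₁ y₃ hx12 hx13 hx23 hy12.symm
      hy23 hy13 hu (fun i => by rw [hv i]; tauto) hupm hvpm h00 hv2 hv3
  · exact case_one u v w d hd i₀ h0u h0v h0w hww huw hvw n hn hL hF x₁ x₂ x₃ y₁ y₂ hx12 hx13 hx23 hy13.symm
      hy23.symm hy12 hu (fun i => by rw [hv i]; tauto) hupm hvpm h00 hv2 hv3

/-- **The lattice computation.** -/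
theorem exists_degree (u v w : I → ℤ) (d : I → ℕ) (hd : ∀ i, 0 < d i) (i₀ : I) (h0u : u i₀ = 0)
    (h0v : v i₀ = 0) (h0w : w i₀ = 1)
    (huu : ∑ i, u i ^ 2 = 3) (hvv : ∑ i, v i ^ 2 = 3) (hww : ∑ i, w i ^ 2 = 5)
    (huv : ∑ i, u i * v i = 1) (huw : ∑ i, u i * w i = 1) (hvw : ∑ i, v i * w i = 1)
    (hdd : ∑ i, (d i : ℤ) * (u i - v i) = 0)
    (n : ℚ) (hn : 0 < n)
    (hL : ∑ i, (((u i - v i) * w i * (w i - u i - v i) : ℤ) : ℚ) / (d i : ℚ) = 0)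
    (hF : ∑ i, (((w i - u i - v i) * (w i * (u i + v i) + 2 * u i * v i) : ℤ) : ℚ) / (d i : ℚ) = 1 / n) :
    ∃ i, (d i : ℚ) = 4 * n := by
  obtain ⟨x₁, x₂, x₃, hx12, hx13, hx23, hxs, hxpm⟩ := support_of_sum_sq_three u huu
  obtain ⟨y₁, y₂, y₃, hy12, hy13, hy23, hys, hypm⟩ := support_of_sum_sq_three v hvv
  have hu0 : ∀ i, i ≠ x₁ → i ≠ x₂ → i ≠ x₃ → u i = 0 := by
    intro i h0 h1 h2
    by_contra h
    rcases (hxs i).mp h with h' | h' | h'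
    · exact h0 h'
    · exact h1 h'
    · exact h2 h'
  have huv3 : u x₁ * v x₁ + u x₂ * v x₂ + u x₃ * v x₃ = 1 := by
    rw [← huv]
    refine (sum_eq_of_support3 (fun i => u i * v i) hx12 hx13 hx23 ?_).symm
    intro i a b c
    simp [hu0 i a b c]
  have hu1 := hxpm x₁ ((hxs x₁).mpr (Or.inl rfl))
  have hu2 := hxpm x₂ ((hxs x₂).mpr (Or.inr (Or.inl rfl)))
  have hu3 := hxpm x₃ ((hxs x₃).mpr (Or.inr (Or.inr rfl)))
  -- the generic cases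
  have key : ∀ a b c : I, a ≠ b → a ≠ c → b ≠ c → (∀ i, u i ≠ 0 ↔ i = a ∨ i = b ∨ i = c) → u a = v a →
      v b = 0 → v c = 0 → v a ≠ 0 → ∃ i, (d i : ℚ) = 4 * n := by
    intro a b c hab hac hbc hs h0 h2 h3 h1
    exact case_one' u v w d hd i₀ h0u h0v h0w hww huw hvw n hn hL hF a b c y₁ y₂ y₃ hab hac hbc hy12 hy13 hy23
      hs hys hxpm hypm h0 h2 h3 h1
  by_cases h1 : v x₁ = 0
  · by_cases h2 : v x₂ = 0
    · refine key x₃ x₁ x₂ hx13.symm hx23.symm hx12 (fun i => by rw [hxs i]; tauto) ?_ h1 h2 ?_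
      · rw [h1, h2] at huv3
        rcases hu3 with h | h <;> rw [h] at huv3 ⊢ <;> omega
      · intro h3
        rw [h1, h2, h3] at huv3
        norm_num at huv3
    · by_cases h3 : v x₃ = 0
      · refine key x₂ x₁ x₃ hx12.symm hx23 hx13 (fun i => by rw [hxs i]; tauto) ?_ h1 h3 h2
        rw [h1, h3] at huv3
        rcases hu2 with h | h <;> rw [h] at huv3 ⊢ <;> omega
      · exfalso
        rw [h1] at huv3
        rcases hu2 with a | a <;> rcases hu3 with b | b <;> rcases hypm x₂ h2 with c | c <;>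
          rcases hypm x₃ h3 with e | e <;> rw [a, b, c, e] at huv3 <;> omega
  · by_cases h2 : v x₂ = 0
    · by_cases h3 : v x₃ = 0
      · refine key x₁ x₂ x₃ hx12 hx13 hx23 hxs ?_ h2 h3 h1
        rw [h2, h3] at huv3
        rcases hu1 with h | h <;> rw [h] at huv3 ⊢ <;> omega
      · exfalso
        rw [h2] at huv3
        rcases hu1 with a | a <;> rcases hu3 with b | b <;> rcases hypm x₁ h1 with c | c <;>
          rcases hypm x₃ h3 with e | e <;> rw [a, b, c, e] at huv3 <;> omega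
    · by_cases h3 : v x₃ = 0
      · exfalso
        rw [h3] at huv3
        rcases hu1 with a | a <;> rcases hu2 with b | b <;> rcases hypm x₁ h1 with c | c <;>
          rcases hypm x₂ h2 with e | e <;> rw [a, b, c, e] at huv3 <;> omega
      · -- all three are in the support of `v`: contradiction with the degree equation
        exfalso
        have hsub : ({x₁, x₂, x₃} : Finset I) ⊆ {y₁, y₂, y₃} := by
          intro i hi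
          simp only [Finset.mem_insert, Finset.mem_singleton] at hi ⊢
          rcases hi with rfl | rfl | rfl
          · exact (hys _).mp h1
          · exact (hys _).mp h2
          · exact (hys _).mp h3
        have hcx : ({x₁, x₂, x₃} : Finset I).card = 3 := Finset.card_eq_three.mpr ⟨x₁, x₂, x₃, hx12, hx13, hx23, rfl⟩
        have hcy : ({y₁, y₂, y₃} : Finset I).card = 3 := Finset.card_eq_three.mpr ⟨y₁, y₂, y₃, hy12, hy13, hy23, rfl⟩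
        have heq := Finset.eq_of_subset_of_card_le hsub (by rw [hcx, hcy])
        have hv0 : ∀ i, i ≠ x₁ → i ≠ x₂ → i ≠ x₃ → v i = 0 := by
          intro i a b c
          by_contra h
          have h4 : i ∈ ({y₁, y₂, y₃} : Finset I) := by
            simp only [Finset.mem_insert, Finset.mem_singleton]
            exact (hys i).mp h
          rw [← heq] at h4
          simp only [Finset.mem_insert, Finset.mem_singleton] at h4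
          rcases h4 with h4 | h4 | h4
          · exact a h4
          · exact b h4
          · exact c h4
        have hdd3 : (d x₁ : ℤ) * (u x₁ - v x₁) + (d x₂ : ℤ) * (u x₂ - v x₂) + (d x₃ : ℤ) * (u x₃ - v x₃) = 0 := by
          rw [← hdd]
          refine (sum_eq_of_support3 (fun i => (d i : ℤ) * (u i - v i)) hx12 hx13 hx23 ?_).symm
          intro i a b c
          simp [hu0 i a b c, hv0 i a b c]
        have hp1 := hd x₁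
        have hp2 := hd x₂
        have hp3 := hd x₃
        have hv1' := hypm x₁ h1
        have hv2' := hypm x₂ h2
        have hv3' := hypm x₃ h3
        rcases hu1 with a | a <;> rcases hu2 with b | b <;> rcases hu3 with c | c <;>
          rcases hv1' with e | e <;> rcases hv2' with f | f <;> rcases hv3' with g | g <;>
          rw [a, b, c, e, f, g] at huv3 hdd3 <;> norm_num at huv3 <;> norm_num at hdd3 <;> omega

end Cfsg.Agent.Lib.Coprime.Gram333
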