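import Mathlib
import Cfsg.Agent.Lib.Coprime.Gram333
import Cfsg.Agent.Lib.Char.ClassSum
import Cfsg.Agent.Lib.Char.Ind

/-!
# Three real classes of elements of order three

If the class constants between three real classes of elements of order three are those of `S₃ × S₃`
then a character of degree `|G|/9` exists, so that `|G|` is small.
-/

set_option autoImplicit false

namespace Cfsg.Agent.Lib.Coprime.Class333

open Cfsg Cfsg.Agent.Lib.Char
open scoped ComplexConjugate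

universe u

variable {G : Type u} [Group G] [Fintype G]

theorem exists_int_value_three (χ : IrrCharacter G) {t : G} (ht : t ^ 3 = 1) (ht1 : t ≠ 1)
    (hr : IsConj t t⁻¹) (d : ℕ) (hd : (χ : G → ℂ) 1 = d) :
    ∃ a : ℤ, (χ : G → ℂ) t = a ∧ (3 : ℤ) ∣ (d : ℤ) - a := by
  classical
  have ho : orderOf t = 3 := orderOf_eq_prime ht ht1
  let H : Subgroup G := Subgroup.zpowers t
  letI : Fintype H := Fintype.ofFinite H
  have hcard : Nat.card H = 3 := by
    rw [Nat.card_zpowers, ho]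
  have hchar : IsCharacter G (χ : G → ℂ) := IsIrrCharacter.isCharacter χ.2
  have hres : IsCharacter H (fun a : H => (χ : G → ℂ) a) := IsCharacter.comp hchar H.subtype
  obtain ⟨n, hn⟩ := IsCharacter.classInner_nat hres (IsIrrCharacter.isCharacter isIrrCharacter_one)
  have hcl : ∀ x ∈ H, x ≠ 1 → (χ : G → ℂ) x = (χ : G → ℂ) t := by
    intro x hx hx1
    obtain ⟨k, rfl⟩ := Subgroup.mem_zpowers_iff.mp hx
    have hk : t ^ k = 1 ∨ t ^ k = t ∨ t ^ k = t⁻¹ := by
      have h3 : (3 : ℤ) ≠ 0 := by norm_num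
      have hk' : t ^ k = t ^ (k % 3) := by
        conv_lhs => rw [← Int.mul_ediv_add_emod k 3, zpow_add, zpow_mul]
        have : t ^ (3 : ℤ) = 1 := by exact_mod_cast ht
        rw [this, one_zpow, one_mul]
      have h1 : 0 ≤ k % 3 := Int.emod_nonneg _ h3
      have h2 : k % 3 < 3 := Int.emod_lt_of_pos _ (by norm_num)
      rw [hk']
      interval_cases (k % 3)
      · left; simp
      · right; left; simp
      · right; right
        rw [eq_inv_iff_mul_eq_one, ← zpow_add_one]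
        exact_mod_cast ht
    rcases hk with h | h | h
    · exact absurd h hx1
    · rw [h]
    · rw [h]
      obtain ⟨c, hc⟩ := isConj_iff.mp hr
      rw [← hc]
      exact IsCharacter.isClassFunction hchar t c
  have hsum : (χ : G → ℂ) 1 + 2 * (χ : G → ℂ) t = 3 * n := by
    have hA0 : ((Nat.card H : ℕ) : ℂ) ≠ 0 := by rw [hcard]; norm_num
    have h1 := hn
    rw [classInner] at h1
    have h2 : (∑ a : H, (χ : G → ℂ) a * (starRingEnd ℂ) 1) = (Nat.card H : ℂ) * n := by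
      rw [← h1, ← mul_assoc, mul_inv_cancel₀ hA0, one_mul]
    simp only [map_one, mul_one] at h2
    rw [← Finset.add_sum_erase _ _ (Finset.mem_univ (1 : H))] at h2
    have h3 : ∀ a ∈ (Finset.univ : Finset H).erase 1, (χ : G → ℂ) a = (χ : G → ℂ) t := by
      intro a ha
      have ha1 : a ≠ 1 := (Finset.mem_erase.mp ha).1
      exact hcl a a.2 (fun h => ha1 (Subtype.ext h))
    rw [Finset.sum_congr rfl h3, Finset.sum_const, Finset.card_erase_of_mem (Finset.mem_univ _),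
      Finset.card_univ, nsmul_eq_mul, ← Nat.card_eq_fintype_card, hcard] at h2
    simp only [OneMemClass.coe_one] at h2
    push_cast at h2
    linear_combination h2
  have hint : IsIntegral ℤ ((χ : G → ℂ) t) := IsCharacter.isIntegral hchar t
  have hq : (χ : G → ℂ) t = (((3 * (n : ℚ) - d) / 2 : ℚ) : ℂ) := by
    push_cast
    rw [hd] at hsum
    linear_combination (1 / 2 : ℂ) * hsum
  rw [hq] at hint
  have h2 : IsIntegral ℤ ((3 * (n : ℚ) - d) / 2 : ℚ) :=
    (isIntegral_algebraMap_iff (algebraMap ℚ ℂ).injective).mp (by simpa using hint)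
  obtain ⟨k, hk⟩ := IsIntegrallyClosed.isIntegral_iff.mp h2
  have hk' : (k : ℚ) = (3 * (n : ℚ) - d) / 2 := by simpa using hk
  refine ⟨k, ?_, ?_⟩
  · rw [hq, ← hk']
    simp
  · have h3 : (2 : ℤ) * k = 3 * n - d := by
      have : (2 : ℚ) * k = 3 * n - d := by rw [hk']; ring
      exact_mod_cast this
    exact ⟨n - k, by linarith⟩

/-- `|K| |C| = |G|`. -/
theorem card_class_mul_card_centralizer (x : G) :
    Nat.card {y : G // IsConj x y} * Nat.card (Subgroup.centralizer ({x} : Set G)) = Nat.card G := by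
  classical
  letI : Fintype {y : G // IsConj x y} := Fintype.ofFinite _
  have h := sum_conj_eq x (fun _ => (1 : ℂ))
  simp only [Finset.sum_const, Finset.card_univ, nsmul_eq_mul, mul_one] at h
  rw [← Nat.card_eq_fintype_card, ← Nat.card_eq_fintype_card] at h
  have h2 : (Nat.card G : ℂ) = ((Nat.card (Subgroup.centralizer ({x} : Set G)) * Nat.card {y : G // IsConj x y} : ℕ) : ℂ) := by
    push_cast
    exact h
  have h3 : Nat.card G = Nat.card (Subgroup.centralizer ({x} : Set G)) * Nat.card {y : G // IsConj x y} := by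
    exact_mod_cast h2
  rw [h3, mul_comm]

/-- **The class constants bound.** -/
theorem three_class_bound (e₁ e₂ f : G) (n : ℕ) (hn : 0 < n) (hG : Nat.card G = 36 * n)
    (h1 : e₁ ^ 3 = 1) (h2 : e₂ ^ 3 = 1) (h3 : f ^ 3 = 1) (h1' : e₁ ≠ 1) (h2' : e₂ ≠ 1) (h3' : f ≠ 1)
    (r1 : IsConj e₁ e₁⁻¹) (r2 : IsConj e₂ e₂⁻¹) (r3 : IsConj f f⁻¹)
    (n12 : ¬ IsConj e₁ e₂) (n13 : ¬ IsConj e₁ f) (n23 : ¬ IsConj e₂ f)
    (c1 : Nat.card (Subgroup.centralizer ({e₁} : Set G)) = 18)
    (c2 : Nat.card (Subgroup.centralizer ({e₂} : Set G)) = 18)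
    (c3 : Nat.card (Subgroup.centralizer ({f} : Set G)) = 9)
    (cnt1 : Nat.card {p : G × G // IsConj e₁ p.1 ∧ IsConj e₂ p.2 ∧ p.1 * p.2 = f} = 1)
    (cnt2 : Nat.card {p : G × G // IsConj e₁ p.1 ∧ IsConj e₁ p.2 ∧ p.1 * p.2 = f} = 0)
    (cnt3 : Nat.card {p : G × G // IsConj e₂ p.1 ∧ IsConj e₂ p.2 ∧ p.1 * p.2 = f} = 0)
    (cnt4 : Nat.card {p : G × G // IsConj e₁ p.1 ∧ IsConj f p.2 ∧ p.1 * p.2 = f} = 1)
    (cnt5 : Nat.card {p : G × G // IsConj e₂ p.1 ∧ IsConj f p.2 ∧ p.1 * p.2 = f} = 1) :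
    16 * n ^ 2 ≤ 36 * n := by
  classical
  have hd : ∀ χ : IrrCharacter G, ∃ d : ℕ, 0 < d ∧ (χ : G → ℂ) 1 = d := fun χ => IsIrrCharacter.apply_one χ.2
  choose d hdpos hdv using hd
  have hA := fun χ => exists_int_value_three χ h1 h1' r1 (d χ) (hdv χ)
  have hB := fun χ => exists_int_value_three χ h2 h2' r2 (d χ) (hdv χ)
  have hC := fun χ => exists_int_value_three χ h3 h3' r3 (d χ) (hdv χ)
  choose a haval ha3 using hA
  choose b hbval hb3 using hB
  choose c hcval hc3 using hC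
  have hu : ∀ χ, ∃ u : ℤ, a χ - c χ = 3 * u := by
    intro χ
    obtain ⟨p, hp⟩ := ha3 χ
    obtain ⟨q, hq⟩ := hc3 χ
    exact ⟨q - p, by linarith⟩
  have hv : ∀ χ, ∃ v : ℤ, b χ - c χ = 3 * v := by
    intro χ
    obtain ⟨p, hp⟩ := hb3 χ
    obtain ⟨q, hq⟩ := hc3 χ
    exact ⟨q - p, by linarith⟩
  have hw : ∀ χ, ∃ w : ℤ, a χ + b χ + c χ = 3 * w := by
    intro χ
    obtain ⟨p, hp⟩ := ha3 χ
    obtain ⟨q, hq⟩ := hb3 χ
    obtain ⟨r, hr⟩ := hc3 χ
    exact ⟨(d χ : ℤ) - p - q - r, by linarith⟩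
  choose u hu using hu
  choose v hv using hv
  choose w hw using hw
  -- the principal character
  let i₀ : IrrCharacter G := ⟨fun _ => 1, isIrrCharacter_one⟩
  have hi₀a : a i₀ = 1 := by
    have := haval i₀
    have h : (1 : ℂ) = (a i₀ : ℂ) := this
    exact_mod_cast h.symm
  have hi₀b : b i₀ = 1 := by
    have := hbval i₀
    have h : (1 : ℂ) = (b i₀ : ℂ) := this
    exact_mod_cast h.symm
  have hi₀c : c i₀ = 1 := by
    have := hcval i₀
    have h : (1 : ℂ) = (c i₀ : ℂ) := this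
    exact_mod_cast h.symm
  have h0u : u i₀ = 0 := by
    have := hu i₀
    rw [hi₀a, hi₀c] at this
    omega
  have h0v : v i₀ = 0 := by
    have := hv i₀
    rw [hi₀b, hi₀c] at this
    omega
  have h0w : w i₀ = 1 := by
    have := hw i₀
    rw [hi₀a, hi₀b, hi₀c] at this
    omega
  -- orthogonality
  have orth : ∀ (g h : G) (x y : IrrCharacter G → ℤ), (∀ χ : IrrCharacter G, (χ : G → ℂ) g = x χ) → (∀ χ : IrrCharacter G, (χ : G → ℂ) h = y χ) →
      (∑ χ : IrrCharacter G, (χ : G → ℂ) g * conj ((χ : G → ℂ) h)) = ((∑ χ, x χ * y χ : ℤ) : ℂ) := by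
    intro g h x y hx hy
    push_cast
    refine Finset.sum_congr rfl fun χ _ => ?_
    rw [hx, hy]
    simp
  have Saa : ∑ χ, a χ * a χ = 18 := by
    have := sum_irr_mul_conj_of_isConj (IsConj.refl e₁)
    rw [orth e₁ e₁ a a haval haval, c1] at this
    exact_mod_cast this
  have Sbb : ∑ χ, b χ * b χ = 18 := by
    have := sum_irr_mul_conj_of_isConj (IsConj.refl e₂)
    rw [orth e₂ e₂ b b hbval hbval, c2] at this
    exact_mod_cast this
  have Scc : ∑ χ, c χ * c χ = 9 := by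
    have := sum_irr_mul_conj_of_isConj (IsConj.refl f)
    rw [orth f f c c hcval hcval, c3] at this
    exact_mod_cast this
  have Sab : ∑ χ, a χ * b χ = 0 := by
    have := sum_irr_mul_conj_of_not_isConj n12
    rw [orth e₁ e₂ a b haval hbval] at this
    exact_mod_cast this
  have Sac : ∑ χ, a χ * c χ = 0 := by
    have := sum_irr_mul_conj_of_not_isConj n13
    rw [orth e₁ f a c haval hcval] at this
    exact_mod_cast this
  have Sbc : ∑ χ, b χ * c χ = 0 := by
    have := sum_irr_mul_conj_of_not_isConj n23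
    rw [orth e₂ f b c hbval hcval] at this
    exact_mod_cast this
  have deg : ∀ (g : G) (x : IrrCharacter G → ℤ), g ≠ 1 → (∀ χ : IrrCharacter G, (χ : G → ℂ) g = x χ) →
      ∑ χ, (d χ : ℤ) * x χ = 0 := by
    intro g x hg hx
    have := sum_irr_degree_mul_apply g
    rw [if_neg hg] at this
    have h4 : (∑ χ : IrrCharacter G, (χ : G → ℂ) 1 * (χ : G → ℂ) g) = ((∑ χ, (d χ : ℤ) * x χ : ℤ) : ℂ) := by
      push_cast
      refine Finset.sum_congr rfl fun χ _ => ?_
      rw [hdv, hx]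
    rw [h4] at this
    exact_mod_cast this
  have Sda := deg e₁ a h1' haval
  have Sdb := deg e₂ b h2' hbval
  have huu : ∑ χ, u χ ^ 2 = 3 := by
    have h5 : ∑ χ, 9 * u χ ^ 2 = ∑ χ, (a χ * a χ - 2 * (a χ * c χ) + c χ * c χ) :=
      Finset.sum_congr rfl fun χ _ => by linear_combination (-(a χ - c χ + 3 * u χ)) * hu χ
    rw [Finset.sum_add_distrib, Finset.sum_sub_distrib, ← Finset.mul_sum, ← Finset.mul_sum, Saa, Sac, Scc] at h5
    linarith
  have hvv : ∑ χ, v χ ^ 2 = 3 := by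
    have h5 : ∑ χ, 9 * v χ ^ 2 = ∑ χ, (b χ * b χ - 2 * (b χ * c χ) + c χ * c χ) :=
      Finset.sum_congr rfl fun χ _ => by linear_combination (-(b χ - c χ + 3 * v χ)) * hv χ
    rw [Finset.sum_add_distrib, Finset.sum_sub_distrib, ← Finset.mul_sum, ← Finset.mul_sum, Sbb, Sbc, Scc] at h5
    linarith
  have hww : ∑ χ, w χ ^ 2 = 5 := by
    have h5 : ∑ χ, 9 * w χ ^ 2 = ∑ χ, (a χ * a χ + b χ * b χ + c χ * c χ + 2 * (a χ * b χ) + 2 * (a χ * c χ) + 2 * (b χ * c χ)) :=
      Finset.sum_congr rfl fun χ _ => by linear_combination (-(a χ + b χ + c χ + 3 * w χ)) * hw χ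
    simp only [Finset.sum_add_distrib, ← Finset.mul_sum] at h5
    rw [Saa, Sbb, Scc, Sab, Sac, Sbc] at h5
    linarith
  have huv : ∑ χ, u χ * v χ = 1 := by
    have h5 : ∑ χ, 9 * (u χ * v χ) = ∑ χ, (a χ * b χ - a χ * c χ - b χ * c χ + c χ * c χ) :=
      Finset.sum_congr rfl fun χ _ => by
        have e1 := hu χ
        have e2 := hv χ
        linear_combination (-(b χ - c χ)) * e1 - 3 * u χ * e2
    simp only [Finset.sum_add_distrib, Finset.sum_sub_distrib, ← Finset.mul_sum] at h5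
    rw [Sab, Sac, Sbc, Scc] at h5
    linarith
  have huw : ∑ χ, u χ * w χ = 1 := by
    have h5 : ∑ χ, 9 * (u χ * w χ) = ∑ χ, (a χ * a χ + a χ * b χ - b χ * c χ - c χ * c χ) :=
      Finset.sum_congr rfl fun χ _ => by
        have e1 := hu χ
        have e2 := hw χ
        linear_combination (-(a χ + b χ + c χ)) * e1 - 3 * u χ * e2
    simp only [Finset.sum_add_distrib, Finset.sum_sub_distrib, ← Finset.mul_sum] at h5
    rw [Saa, Sab, Sbc, Scc] at h5
    linarith
  have hvw : ∑ χ, v χ * w χ = 1 := by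
    have h5 : ∑ χ, 9 * (v χ * w χ) = ∑ χ, (a χ * b χ + b χ * b χ - a χ * c χ - c χ * c χ) :=
      Finset.sum_congr rfl fun χ _ => by
        have e1 := hv χ
        have e2 := hw χ
        linear_combination (-(a χ + b χ + c χ)) * e1 - 3 * v χ * e2
    simp only [Finset.sum_add_distrib, Finset.sum_sub_distrib, ← Finset.mul_sum] at h5
    rw [Sab, Sbb, Sac, Scc] at h5
    linarith
  have hdd : ∑ χ, (d χ : ℤ) * (u χ - v χ) = 0 := by
    have h5 : ∑ χ, 3 * ((d χ : ℤ) * (u χ - v χ)) = ∑ χ, ((d χ : ℤ) * a χ - (d χ : ℤ) * b χ) :=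
      Finset.sum_congr rfl fun χ _ => by
        have e1 := hu χ
        have e2 := hv χ
        linear_combination (-(d χ : ℤ)) * e1 + (d χ : ℤ) * e2
    rw [Finset.sum_sub_distrib, ← Finset.mul_sum, Sda, Sdb] at h5
    linarith
  -- class sizes
  have hn0 : (n : ℚ) ≠ 0 := by exact_mod_cast hn.ne'
  have hnC : (n : ℂ) ≠ 0 := by exact_mod_cast hn.ne'
  have K1 : Nat.card {y : G // IsConj e₁ y} = 2 * n := by
    have := card_class_mul_card_centralizer e₁
    rw [c1, hG] at this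
    omega
  have K2 : Nat.card {y : G // IsConj e₂ y} = 2 * n := by
    have := card_class_mul_card_centralizer e₂
    rw [c2, hG] at this
    omega
  have K3 : Nat.card {y : G // IsConj f y} = 4 * n := by
    have := card_class_mul_card_centralizer f
    rw [c3, hG] at this
    omega
  letI : Fintype {y : G // IsConj e₁ y} := Fintype.ofFinite _
  letI : Fintype {y : G // IsConj e₂ y} := Fintype.ofFinite _
  letI : Fintype {y : G // IsConj f y} := Fintype.ofFinite _
  have frob : ∀ (p q : G) (x y : IrrCharacter G → ℤ), (∀ χ : IrrCharacter G, (χ : G → ℂ) p = x χ) → (∀ χ : IrrCharacter G, (χ : G → ℂ) q = y χ) →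
      (∑ χ : IrrCharacter G, (χ : G → ℂ) p * (χ : G → ℂ) q * conj ((χ : G → ℂ) f) / (χ : G → ℂ) 1) =
        ((∑ χ, ((x χ * y χ * c χ : ℤ) : ℚ) / (d χ : ℚ) : ℚ) : ℂ) := by
    intro p q x y hx hy
    push_cast
    refine Finset.sum_congr rfl fun χ _ => ?_
    rw [hx, hy, hcval, hdv]
    simp
  have hGC : ((Nat.card G : ℕ) : ℂ) = 36 * n := by rw [hG]; push_cast; ring
  -- the five sums
  have T3 : ∑ χ, ((a χ * b χ * c χ : ℤ) : ℚ) / (d χ : ℚ) = 9 / n := by
    have := card_class_product e₁ e₂ f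
    rw [cnt1, K1, K2, hGC, frob e₁ e₂ a b haval hbval] at this
    generalize (∑ χ, ((a χ * b χ * c χ : ℤ) : ℚ) / (d χ : ℚ)) = S at this ⊢
    have h6 : (S : ℂ) = ((9 / n : ℚ) : ℂ) := by
      push_cast at this ⊢
      field_simp at this ⊢
      linear_combination (-1 / 4 : ℂ) * this
    exact_mod_cast h6
  have T4 : ∑ χ, ((a χ * c χ * c χ : ℤ) : ℚ) / (d χ : ℚ) = 9 / (2 * n) := by
    have := card_class_product e₁ f f
    rw [cnt4, K1, K3, hGC, frob e₁ f a c haval hcval] at this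
    generalize (∑ χ, ((a χ * c χ * c χ : ℤ) : ℚ) / (d χ : ℚ)) = S at this ⊢
    have h6 : (S : ℂ) = ((9 / (2 * n) : ℚ) : ℂ) := by
      push_cast at this ⊢
      field_simp at this ⊢
      linear_combination (-1 / 4 : ℂ) * this
    exact_mod_cast h6
  have T5 : ∑ χ, ((b χ * c χ * c χ : ℤ) : ℚ) / (d χ : ℚ) = 9 / (2 * n) := by
    have := card_class_product e₂ f f
    rw [cnt5, K2, K3, hGC, frob e₂ f b c hbval hcval] at this
    generalize (∑ χ, ((b χ * c χ * c χ : ℤ) : ℚ) / (d χ : ℚ)) = S at this ⊢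
    have h6 : (S : ℂ) = ((9 / (2 * n) : ℚ) : ℂ) := by
      push_cast at this ⊢
      field_simp at this ⊢
      linear_combination (-1 / 4 : ℂ) * this
    exact_mod_cast h6
  have T1 : ∑ χ, ((a χ * a χ * c χ : ℤ) : ℚ) / (d χ : ℚ) = 0 := by
    have := card_class_product e₁ e₁ f
    rw [cnt2, K1, hGC, frob e₁ e₁ a a haval haval] at this
    generalize (∑ χ, ((a χ * a χ * c χ : ℤ) : ℚ) / (d χ : ℚ)) = S at this ⊢
    have h6 : (S : ℂ) = ((0 : ℚ) : ℂ) := by
      push_cast at this ⊢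
      field_simp at this
      simpa [hnC] using this.symm
    exact_mod_cast h6
  have T2 : ∑ χ, ((b χ * b χ * c χ : ℤ) : ℚ) / (d χ : ℚ) = 0 := by
    have := card_class_product e₂ e₂ f
    rw [cnt3, K2, hGC, frob e₂ e₂ b b hbval hbval] at this
    generalize (∑ χ, ((b χ * b χ * c χ : ℤ) : ℚ) / (d χ : ℚ)) = S at this ⊢
    have h6 : (S : ℂ) = ((0 : ℚ) : ℂ) := by
      push_cast at this ⊢
      field_simp at this
      simpa [hnC] using this.symm
    exact_mod_cast h6
  -- substitution identities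
  have ec : ∀ χ, c χ = w χ - u χ - v χ := by
    intro χ
    have e1 := hu χ
    have e2 := hv χ
    have e3 := hw χ
    omega
  have ea : ∀ χ, a χ = w χ + 2 * u χ - v χ := by
    intro χ
    have e1 := hu χ
    have e2 := hv χ
    have e3 := hw χ
    omega
  have eb : ∀ χ, b χ = w χ - u χ + 2 * v χ := by
    intro χ
    have e1 := hu χ
    have e2 := hv χ
    have e3 := hw χ
    omega
  have hL : ∑ χ, (((u χ - v χ) * w χ * (w χ - u χ - v χ) : ℤ) : ℚ) / (d χ : ℚ) = 0 := by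
    have h7 : ∀ χ, (((u χ - v χ) * w χ * (w χ - u χ - v χ) : ℤ) : ℚ) / (d χ : ℚ) =
        (1 / 9) * (((a χ * a χ * c χ : ℤ) : ℚ) / (d χ : ℚ) - ((b χ * b χ * c χ : ℤ) : ℚ) / (d χ : ℚ)
          + ((a χ * c χ * c χ : ℤ) : ℚ) / (d χ : ℚ) - ((b χ * c χ * c χ : ℤ) : ℚ) / (d χ : ℚ)) := by
      intro χ
      rw [ea χ, eb χ, ec χ]
      push_cast
      ring
    rw [Finset.sum_congr rfl fun χ _ => h7 χ, ← Finset.mul_sum, Finset.sum_sub_distrib,
      Finset.sum_add_distrib, Finset.sum_sub_distrib, T1, T2, T4, T5]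
    ring
  have hF : ∑ χ, (((w χ - u χ - v χ) * (w χ * (u χ + v χ) + 2 * u χ * v χ) : ℤ) : ℚ) / (d χ : ℚ) = 1 / (n : ℚ) := by
    have h7 : ∀ χ, (((w χ - u χ - v χ) * (w χ * (u χ + v χ) + 2 * u χ * v χ) : ℤ) : ℚ) / (d χ : ℚ) =
        (1 / 9) * (((a χ * a χ * c χ : ℤ) : ℚ) / (d χ : ℚ) + ((b χ * b χ * c χ : ℤ) : ℚ) / (d χ : ℚ)
          + 4 * (((a χ * b χ * c χ : ℤ) : ℚ) / (d χ : ℚ)) - 3 * (((a χ * c χ * c χ : ℤ) : ℚ) / (d χ : ℚ))
          - 3 * (((b χ * c χ * c χ : ℤ) : ℚ) / (d χ : ℚ))) := by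
      intro χ
      rw [ea χ, eb χ, ec χ]
      push_cast
      ring
    rw [Finset.sum_congr rfl fun χ _ => h7 χ, ← Finset.mul_sum]
    simp only [Finset.sum_sub_distrib, Finset.sum_add_distrib, ← Finset.mul_sum]
    rw [T1, T2, T3, T4, T5]
    field_simp
    norm_num
  obtain ⟨χ₀, hχ₀⟩ := Gram333.exists_degree u v w d hdpos i₀ h0u h0v h0w huu hvv hww huv huw hvw hdd (n : ℚ)
    (by exact_mod_cast hn) hL hF
  have hχ₀' : d χ₀ = 4 * n := by exact_mod_cast hχ₀
  have hsq : ∑ χ, (d χ) ^ 2 = 36 * n := by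
    have := sum_irr_degree_sq (G := G)
    rw [hG] at this
    have h8 : (∑ χ : IrrCharacter G, (χ : G → ℂ) 1 ^ 2) = ((∑ χ, (d χ) ^ 2 : ℕ) : ℂ) := by
      push_cast
      exact Finset.sum_congr rfl fun χ _ => by rw [hdv]
    rw [h8] at this
    exact_mod_cast this
  have hle := Finset.single_le_sum (f := fun χ => (d χ) ^ 2) (fun _ _ => Nat.zero_le _) (Finset.mem_univ χ₀)
  simp only [hχ₀', hsq] at hle
  nlinarith

end Cfsg.Agent.Lib.Coprime.Class333
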