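import Cfsg.Agent.Lib.FT.BG3h

/-!
Hall-Higman: the dimension of the commutant of a nilpotent operator, fixed points of free modules in any characteristic,
and the count for `x` (of order possibly divisible by the characteristic) acting on an extraspecial-type group.
-/

set_option autoImplicit false
set_option linter.unusedSectionVars false
set_option linter.style.haveILetI false

universe u

namespace Cfsg.Agent.Lib.Coprime.HHB

open Module Subgroup Cfsg Cfsg.Agent.Lib.FT
open scoped commutatorElement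

section Free

variable {K S E : Type*} [Field K] [AddCommGroup S] [Module K S] [FiniteDimensional K S] [Group E] [Finite E]

/-- The fixed points of a free module, in any characteristic. -/
theorem finrank_fixSp_le_of_free (τ : E →* End K S) (T : Submodule K S)
    (hind : iSupIndep (fun e => T.map (τ e))) (htop : ⨆ e, T.map (τ e) = ⊤) :
    finrank K (fixSp τ) ≤ finrank K T := by
  classical
  letI := Fintype.ofFinite E
  have hint := DirectSum.isInternal_submodule_of_iSupIndep_of_iSup_eq_top hind htop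
  let A : E → Submodule K S := fun e => T.map (τ e)
  let dec : (DirectSum E fun e => ↥(A e)) ≃ₗ[K] S := LinearEquiv.ofBijective (DirectSum.coeLinearMap A) hint
  let comp : E → S →ₗ[K] S := fun e =>
    (A e).subtype ∘ₗ (DirectSum.component K E (fun e => ↥(A e)) e) ∘ₗ dec.symm.toLinearMap
  have hdec : ∀ e (v : ↥(A e)), dec.symm (v : S) = DirectSum.of (fun e => ↥(A e)) e v := by
    intro e v
    rw [LinearEquiv.symm_apply_eq]
    change _ = DirectSum.coeLinearMap A _
    rw [DirectSum.coeLinearMap_of]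
  have hself : ∀ e, ∀ v ∈ A e, comp e v = v := by
    intro e v hv
    have h1 := hdec e ⟨v, hv⟩
    change ((DirectSum.component K E (fun e => ↥(A e)) e (dec.symm v) : ↥(A e)) : S) = v
    change dec.symm v = _ at h1
    rw [h1, ← DirectSum.lof_eq_of K, DirectSum.component.of]
    rw [dif_pos rfl]
  have hne : ∀ e e', e ≠ e' → ∀ v ∈ A e', comp e v = 0 := by
    intro e e' hee v hv
    have h1 := hdec e' ⟨v, hv⟩
    change ((DirectSum.component K E (fun e => ↥(A e)) e (dec.symm v) : ↥(A e)) : S) = 0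
    change dec.symm v = _ at h1
    rw [h1, ← DirectSum.lof_eq_of K, DirectSum.component.of]
    rw [dif_neg (Ne.symm hee)]
    rfl
  have hsum : ∀ v : S, ∑ e, comp e v = v := by
    intro v
    have hv : v ∈ ⨆ e, A e := by
      rw [htop]
      trivial
    induction hv using Submodule.iSup_induction' with
    | mem e v hv =>
      rw [Finset.sum_eq_single e (fun e' _ h => hne e' e h v hv) (fun h => absurd (Finset.mem_univ e) h), hself e v hv]
    | zero => simp
    | add a b _ _ ha hb =>
      simp only [map_add, Finset.sum_add_distrib, ha, hb]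
  have hτ : ∀ (e' e : E) (v : S), comp (e' * e) (τ e' v) = τ e' (comp e v) := by
    intro e' e v
    have hv : v ∈ ⨆ e, A e := by
      rw [htop]
      trivial
    induction hv using Submodule.iSup_induction' with
    | mem e₁ v hv =>
      have hm : τ e' v ∈ A (e' * e₁) := by
        obtain ⟨t, ht, rfl⟩ := hv
        refine ⟨t, ht, ?_⟩
        rw [map_mul, Module.End.mul_apply]
      by_cases he : e = e₁
      · subst he
        rw [hself _ _ hm, hself _ _ hv]
      · rw [hne _ _ (fun h => he (mul_left_cancel h)) _ hm, hne _ _ he _ hv, map_zero]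
    | zero => simp
    | add a b _ _ ha hb =>
      simp only [map_add, ha, hb]
  -- the projection onto `T`
  let f : ↥(fixSp τ) →ₗ[K] ↥(A 1) :=
    (((DirectSum.component K E (fun e => ↥(A e)) 1) ∘ₗ dec.symm.toLinearMap).domRestrict (fixSp τ))
  have hf : ∀ v : ↥(fixSp τ), ((f v : ↥(A 1)) : S) = comp 1 v := fun _ => rfl
  have hinj : Function.Injective f := by
    rw [← LinearMap.ker_eq_bot, LinearMap.ker_eq_bot']
    intro v hv
    have h1 : comp 1 (v : S) = 0 := by
      rw [← hf, hv]
      rfl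
    have h2 : ∀ e, comp e (v : S) = 0 := by
      intro e
      have h3 := hτ e 1 v
      rw [mul_one, h1, map_zero, v.2 e] at h3
      exact h3
    apply Subtype.ext
    rw [← hsum v]
    simp [h2]
  have h1 := LinearMap.finrank_le_finrank_of_injective hinj
  have h2 : finrank K ↥(A 1) = finrank K T := finrank_map_tau τ T 1
  rw [h2] at h1
  exact h1

end Free

section Bound

variable {K V F : Type*} [Field K] [IsAlgClosed K] [AddCommGroup V] [Module K V] [FiniteDimensional K V] [Group F]
  [Finite F] {ρ : F →* End K V}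

/-- The bound on the fixed points of `E`, where `E` need not have order prime to the characteristic. -/
theorem fx_bound (U E : Subgroup F) (hUc : ∀ a ∈ U, ∀ b ∈ U, a * b = b * a)
    (hEU : ∀ e ∈ E, ∀ n ∈ U, e * n * e⁻¹ ∈ U) (hfpf : ∀ e ∈ E, e ≠ 1 → ∀ n ∈ U, e * n = n * e → n = 1)
    (hK : (Nat.card U : K) ≠ 0) :
    Nat.card E * finrank K (fx ρ E) ≤ finrank K V + (Nat.card E - 1) * finrank K (fx ρ U) := by
  classical
  set p := avg ρ U with hp
  have hpE : ∀ e ∈ E, ∀ v, ρ e (p v) = p (ρ e v) := by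
    intro e he v
    refine avg_comm U (hEU e he) ?_ v
    intro y hy
    have := hEU _ (E.inv_mem he) y hy
    simpa using this
  let S : Submodule K V := LinearMap.ker p
  have hS1 : ∀ n ∈ U, ∀ v ∈ S, ρ n v ∈ S := by
    rintro n hn1 v hv2
    change p (ρ n v) = 0
    rw [hp, avg_mul_of_mem U hn1]
    exact hv2
  have hSE : ∀ e ∈ E, ∀ v ∈ S, ρ e v ∈ S := by
    rintro e he v hv2
    change p (ρ e v) = 0
    rw [← hpE e he]
    have : p v = 0 := hv2
    rw [this, map_zero]
  have h1 := finrank_split p ⊤ (fx ρ U) le_top (fun x _ => avg_mem_fx U x) (fun x hx => avg_of_mem U hK hx)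
  have h2 := finrank_split p (fx ρ E) (fx ρ U ⊓ fx ρ E) inf_le_right
    (fun x hx => ⟨avg_mem_fx U x, fun e he => by rw [hpE e he, hx e he]⟩)
    (fun x hx => avg_of_mem U hK hx.1)
  let σ := resRep (ρ := ρ) U S hS1
  let τ := resRep (ρ := ρ) E S hSE
  have hcomm : ∀ n n', σ n * σ n' = σ n' * σ n := by
    intro n n'
    ext v
    simp only [σ, Module.End.mul_apply, resRep_apply]
    rw [← Module.End.mul_apply, ← Module.End.mul_apply, ← map_mul, ← map_mul, hUc n n.2 n' n'.2]
  have hcompat : ∀ e n, τ e * σ n = σ (conjOn E U hEU e n) * τ e := by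
    intro e n
    ext v
    simp only [σ, τ, Module.End.mul_apply, resRep_apply, conjOn_apply]
    rw [← Module.End.mul_apply, ← Module.End.mul_apply, ← map_mul, ← map_mul]
    congr 2
    group
  have hfpf' : ∀ e, e ≠ 1 → ∀ n, conjOn E U hEU e n = n → n = 1 := by
    intro e he n hn'
    have h3 : (e : F) * n * (e : F)⁻¹ = n := congrArg Subtype.val hn'
    have h3' : (e : F) * n = n * e := by
      calc (e : F) * n = ((e : F) * n * (e : F)⁻¹) * e := by group
        _ = n * e := by rw [h3]
    have h4 := hfpf e e.2 (fun h => he (Subtype.ext h)) n n.2 h3'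
    exact Subtype.ext h4
  have hfix : ∀ v : ↥S, (∀ n, σ n v = v) → v = 0 := by
    intro v hv
    have h3 : (v : V) ∈ fx ρ U := fun n hn1 => congrArg Subtype.val (hv ⟨n, hn1⟩)
    have h4 := avg_of_mem U hK h3
    have h5 : p (v : V) = 0 := v.2
    apply Subtype.ext
    rw [← h4]
    exact h5
  obtain ⟨T, hind, htop, -⟩ := exists_free_block σ τ (conjOn E U hEU) hcomm hcompat hfpf' hK hfix
  have h3 := finrank_of_free τ T hind htop
  have h4 := finrank_fixSp_le_of_free τ T hind htop
  have h5 : (fixSp τ).map S.subtype = fx ρ E ⊓ LinearMap.ker p := by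
    ext x
    constructor
    · rintro ⟨v, hv, rfl⟩
      exact ⟨fun e he => congrArg Subtype.val (hv ⟨e, he⟩), v.2⟩
    · rintro ⟨h7, h8⟩
      refine ⟨⟨x, h8⟩, ?_, rfl⟩
      intro e
      exact Subtype.ext (h7 e e.2)
  have h6 : finrank K ↥(fx ρ E ⊓ LinearMap.ker p) ≤ finrank K T := by
    rw [← h5, Submodule.finrank_map_subtype_eq]
    exact h4
  have h7 : finrank K ↥(⊤ ⊓ LinearMap.ker p) = finrank K ↥S := by
    rw [top_inf_eq]
  rw [h7, h3, finrank_top] at h1
  have h8 : finrank K ↥(fx ρ U ⊓ fx ρ E) ≤ finrank K (fx ρ U) := Submodule.finrank_mono inf_le_left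
  obtain ⟨n, hn⟩ : ∃ n, Nat.card E = n + 1 := ⟨Nat.card E - 1, by have := Nat.card_pos (α := E); omega⟩
  rw [hn] at h1 ⊢
  simp only [Nat.add_sub_cancel]
  rw [h2, h1]
  nlinarith [Nat.mul_le_mul_left (n + 1) h6, Nat.mul_le_mul_left (n + 1) h8]

end Bound

section Commutant

variable {K : Type*} [Field K]

/-- The commutant of a nilpotent operator is large: `dim V ^ 2 ≤ r * dim Z(N)` when `N ^ r = 0`. -/
theorem finrank_sq_le_commSub (r : ℕ) :
    ∀ (V : Type u) [AddCommGroup V] [Module K V] [FiniteDimensional K V] (N : End K V), N ^ r = 0 →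
      finrank K V ^ 2 ≤ r * finrank K (commSub N) := by
  induction r with
  | zero =>
    intro V _ _ _ N hN
    have h0 : Subsingleton V := by
      constructor
      intro a b
      have h1 : ∀ v : V, v = 0 := by
        intro v
        rw [pow_zero] at hN
        have := congrArg (fun f : End K V => f v) hN
        simpa using this
      rw [h1 a, h1 b]
    simp [finrank_zero_of_subsingleton]
  | succ r ih =>
    intro V _ _ _ N hN
    set V' : Submodule K V := LinearMap.range N with hV'
    have hinv : ∀ v ∈ V', N v ∈ V' := fun v _ => LinearMap.mem_range_self N v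
    let N' : End K ↥V' := N.restrict hinv
    have hN'v : ∀ v : ↥V', ((N' v : ↥V') : V) = N v := fun _ => rfl
    have hpow : ∀ (k : ℕ) (v : ↥V'), (((N' ^ k) v : ↥V') : V) = (N ^ k) v := by
      intro k
      induction k with
      | zero => intro v; simp
      | succ k ihk =>
        intro v
        rw [pow_succ', pow_succ', Module.End.mul_apply, Module.End.mul_apply, hN'v, ihk]
    have hN' : N' ^ r = 0 := by
      apply LinearMap.ext
      rintro ⟨_, u, rfl⟩
      apply Subtype.ext
      rw [hpow, LinearMap.zero_apply, Submodule.coe_zero]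
      change (N ^ r) (N u) = 0
      rw [← Module.End.mul_apply, ← pow_succ, hN]
      rfl
    have h1 := ih ↥V' N' hN'
    have hrn := LinearMap.finrank_range_add_finrank_ker N
    obtain ⟨C, hC⟩ := Submodule.exists_isCompl V'
    have hCdim : finrank K ↥V' + finrank K ↥C = finrank K V := Submodule.finrank_add_eq_of_isCompl hC
    -- restriction
    have hres : ∀ f : ↥(commSub N), ∀ v ∈ V', (f : End K V) v ∈ V' := by
      rintro f _ ⟨u, rfl⟩
      have h2 : (f : End K V) * N = N * f := f.2
      refine ⟨(f : End K V) u, ?_⟩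
      have h3 := congrArg (fun g : End K V => g u) h2
      exact h3.symm
    let res : ↥(commSub N) →ₗ[K] End K ↥V' :=
      { toFun := fun f => (f : End K V).restrict (hres f)
        map_add' := fun a b => by
          ext v
          rfl
        map_smul' := fun c a => by
          ext v
          rfl }
    have hresv : ∀ (f : ↥(commSub N)) (v : ↥V'), ((res f v : ↥V') : V) = (f : End K V) v := fun _ _ => rfl
    -- surjectivity onto the commutant of `N'`
    have hsurj : commSub N' ≤ LinearMap.range res := by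
      intro h hh
      have hh' : h * N' = N' * h := hh
      obtain ⟨σ, hσ⟩ := (N.rangeRestrict).exists_rightInverse_of_surjective (LinearMap.range_rangeRestrict N)
      have hσv : ∀ v : ↥V', N (σ v) = v := by
        intro v
        have := congrArg (fun g : ↥V' →ₗ[K] ↥V' => ((g v : ↥V') : V)) hσ
        exact this
      let f : End K V := LinearMap.ofIsCompl hC (V'.subtype ∘ₗ h) (σ ∘ₗ h ∘ₗ N.rangeRestrict ∘ₗ C.subtype)
      have hf1 : ∀ a : ↥V', f a = h a := fun a => LinearMap.ofIsCompl_left_apply hC a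
      have hf2 : ∀ c : ↥C, f c = σ (h (N.rangeRestrict c)) := fun c => LinearMap.ofIsCompl_right_apply hC c
      have hfc : f * N = N * f := by
        apply LinearMap.ext
        intro v
        have hv : v ∈ V' ⊔ C := by
          rw [hC.sup_eq_top]
          trivial
        obtain ⟨a, ha, c, hc, rfl⟩ := Submodule.mem_sup.mp hv
        simp only [Module.End.mul_apply, map_add]
        have e1 : f (N a) = N (f a) := by
          have h2 := hf1 ⟨a, ha⟩
          have h3 := hf1 (N' ⟨a, ha⟩)
          have h4 := congrArg (fun g : End K ↥V' => ((g ⟨a, ha⟩ : ↥V') : V)) hh'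
          change f (N a) = _ at h3
          change f a = _ at h2
          rw [h2, h3]
          exact h4
        have e2 : f (N c) = N (f c) := by
          have h2 := hf2 ⟨c, hc⟩
          change f c = _ at h2
          rw [h2, hσv]
          have h3 := hf1 (N.rangeRestrict c)
          exact h3
        rw [e1, e2]
      refine ⟨⟨f, hfc⟩, ?_⟩
      apply LinearMap.ext
      intro v
      apply Subtype.ext
      rw [hresv]
      exact hf1 v
    -- the kernel
    let proj : V →ₗ[K] ↥C := Submodule.projectionOnto C V' hC.symm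
    have hproj1 : ∀ a ∈ V', proj a = 0 := by
      intro a ha
      exact Submodule.projectionOnto_apply_right hC.symm ⟨a, ha⟩
    have hproj2 : ∀ c : ↥C, proj c = c := fun c => Submodule.projectionOnto_apply_left hC.symm c
    let G : (↥C →ₗ[K] ↥(LinearMap.ker N)) →ₗ[K] ↥(LinearMap.ker res) :=
      { toFun := fun ψ => ⟨⟨(LinearMap.ker N).subtype ∘ₗ ψ ∘ₗ proj, by
            change _ * N = N * _
            apply LinearMap.ext
            intro v
            simp only [Module.End.mul_apply, LinearMap.comp_apply, Submodule.subtype_apply]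
            rw [hproj1 _ (LinearMap.mem_range_self N v), map_zero, Submodule.coe_zero]
            exact ((ψ (proj v)).2).symm⟩, by
            rw [LinearMap.mem_ker]
            apply LinearMap.ext
            intro v
            apply Subtype.ext
            rw [hresv]
            change ((ψ (proj v) : ↥(LinearMap.ker N)) : V) = 0
            rw [hproj1 _ v.2, map_zero, Submodule.coe_zero]⟩
        map_add' := fun a b => by
          apply Subtype.ext
          apply Subtype.ext
          rfl
        map_smul' := fun c a => by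
          apply Subtype.ext
          apply Subtype.ext
          rfl }
    have hG : Function.Injective G := by
      refine (injective_iff_map_eq_zero G).mpr ?_
      intro ψ hψ
      apply LinearMap.ext
      intro c
      apply Subtype.ext
      have h2 : (((G ψ : ↥(LinearMap.ker res)) : ↥(commSub N)) : End K V) c = 0 := by
        rw [hψ]
        rfl
      have h3 : ((ψ (proj c) : ↥(LinearMap.ker N)) : V) = 0 := h2
      rw [hproj2] at h3
      exact h3
    have h2 := LinearMap.finrank_le_finrank_of_injective hG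
    rw [Module.finrank_linearMap] at h2
    have h3 := LinearMap.finrank_range_add_finrank_ker res
    have h4 : finrank K (commSub N') ≤ finrank K (LinearMap.range res) := Submodule.finrank_mono hsurj
    -- numeric
    set E := finrank K ↥V' with hE
    set l := finrank K ↥(LinearMap.ker N) with hl
    set A := finrank K ↥(commSub N') with hA
    set Z := finrank K ↥(commSub N) with hZ
    have hCl : finrank K ↥C = l := by omega
    rw [hCl] at h2
    have hAZ : A + l * l ≤ Z := by omega
    have hD : finrank K V = E + l := by omega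
    rw [hD]
    rcases Nat.eq_zero_or_pos r with rfl | hr
    · have hE0 : E = 0 := by
        by_contra h
        have h6 : 0 < E ^ 2 := by positivity
        simp only [zero_mul] at h1
        omega
      rw [hE0]
      nlinarith
    · have h5 : r * (E + l) ^ 2 ≤ r * ((r + 1) * Z) := by
        have h6 : ((r : ℤ) * (E + l) ^ 2) ≤ r * ((r + 1) * Z) := by
          have h7 : ((E : ℤ)) ^ 2 ≤ r * A := by exact_mod_cast h1
          have h8 : ((A : ℤ)) + l * l ≤ Z := by exact_mod_cast hAZ
          have hr0 : (0 : ℤ) ≤ r := Int.natCast_nonneg _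
          have h9 : (r : ℤ) * ((r + 1) * (A + l * l)) ≤ r * ((r + 1) * Z) :=
            mul_le_mul_of_nonneg_left (mul_le_mul_of_nonneg_left h8 (by positivity)) hr0
          nlinarith [sq_nonneg ((E : ℤ) - r * l)]
        exact_mod_cast h6
      exact Nat.le_of_mul_le_mul_left h5 hr

end Commutant

section Count

variable {K W F : Type*} [Field K] [AddCommGroup W] [Module K W] [Group F]

/-- The hypotheses of the count. -/
structure CLData (ρ : F →* End K W) (Q Z : Subgroup F) (x : F) : Prop where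
  hKQ : (Nat.card Q : K) ≠ 0
  hZQ : Z ≤ Q
  hZs : ∀ z ∈ Z, ∃ c : K, ρ z = c • 1
  hcomm : ∀ a ∈ Q, ∀ b ∈ Q, ⁅a, b⁆ ∈ Z
  hnd : ∀ a ∈ Q, (∀ b ∈ Q, ρ ⁅a, b⁆ = 1) → a ∈ Z
  hxQ : ∀ a ∈ Q, x * a * x⁻¹ ∈ Q
  hfpf : ∀ k : ℕ, x ^ k ≠ 1 → ∀ a ∈ Q, x ^ k * a * (x ^ k)⁻¹ * a⁻¹ ∈ Z → a ∈ Z
  hne : ∃ a ∈ Q, a ∉ Z

variable {ρ : F →* End K W} {Q Z : Subgroup F} {x : F}

theorem CLData.mem_of_conj (h : CLData ρ Q Z x) {g : F} (hg : g ∈ Q) (hσ : conjRep ρ g = 1) : g ∈ Z := by
  apply h.hnd g hg
  intro b _
  have h1 : ρ g * ρ b * ρ g⁻¹ = ρ b := by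
    have := congrArg (fun φ : End K (End K W) => φ (ρ b)) hσ
    exact this
  rw [commutatorElement_def, map_mul, map_mul, map_mul, h1, rho_mul_inv]

theorem CLData.conj_eq_one (h : CLData ρ Q Z x) {z : F} (hz : z ∈ Z) : conjRep ρ z = 1 := by
  obtain ⟨c, hc⟩ := h.hZs z hz
  exact conj_of_scalar hc

theorem CLData.pow_norm_Q (h : CLData ρ Q Z x) (n : ℕ) {a : F} (ha : a ∈ Q) : x ^ n * a * (x ^ n)⁻¹ ∈ Q := by
  induction n with
  | zero => simpa using ha
  | succ n ih =>
    have := h.hxQ _ ih
    convert this using 1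
    group

variable [FiniteDimensional K W] [IsAlgClosed K] [Finite F]

/-- **The count**, where the order of `x` may be divisible by the characteristic. -/
theorem cl_count [Nontrivial W] (h : CLData ρ Q Z x) :
    ∃ c₁ : ℕ, 1 ≤ c₁ ∧ Z.relIndex Q * c₁ ≤ finrank K W ^ 2 ∧
      orderOf x * finrank K (commSub (ρ x)) ≤ finrank K W ^ 2 + (orderOf x - 1) * c₁ := by
  classical
  set σ := conjRep ρ with hσ
  set N := σ.ker with hN
  haveI hNn : N.Normal := MonoidHom.normal_ker σ
  let π := QuotientGroup.mk' N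
  let σ₂ : (F ⧸ N) →* End K (End K W) := QuotientGroup.lift N σ (fun g hg => hg)
  have hσ₂ : ∀ g, σ₂ (π g) = σ g := fun g => rfl
  set U : Subgroup (F ⧸ N) := Q.map π with hU
  set y : F ⧸ N := π x with hy
  set E : Subgroup (F ⧸ N) := Subgroup.zpowers y with hE
  have hπ1 : ∀ g, π g = 1 ↔ σ g = 1 := by
    intro g
    rw [QuotientGroup.mk'_apply, QuotientGroup.eq_one_iff, hN, MonoidHom.mem_ker]
  -- elements of `E` and `U`
  have hEel : ∀ e ∈ E, ∃ n : ℕ, e = π (x ^ n) := by
    intro e he
    obtain ⟨n, rfl⟩ := exists_pow_of_mem_zpowers he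
    exact ⟨n, by rw [map_pow]⟩
  have hUc : ∀ a ∈ U, ∀ b ∈ U, a * b = b * a := by
    rintro _ ⟨a, ha, rfl⟩ _ ⟨b, hb, rfl⟩
    have h1 : π ⁅a, b⁆ = 1 := (hπ1 _).2 (h.conj_eq_one (h.hcomm a ha b hb))
    rw [map_commutatorElement, commutatorElement_eq_one_iff_mul_comm] at h1
    exact h1
  have hEU : ∀ e ∈ E, ∀ n ∈ U, e * n * e⁻¹ ∈ U := by
    intro e he n hn
    obtain ⟨k, rfl⟩ := hEel e he
    obtain ⟨a, ha, rfl⟩ := hn
    refine ⟨_, h.pow_norm_Q k ha, ?_⟩
    simp [π]
  have hπx : ∀ k : ℕ, π (x ^ k) = 1 → x ^ k = 1 := by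
    intro k hk
    by_contra hne
    obtain ⟨a, ha, hna⟩ := h.hne
    apply hna
    apply h.hfpf k hne a ha
    apply h.mem_of_conj (Q.mul_mem (h.pow_norm_Q k ha) (Q.inv_mem ha))
    rw [← hπ1]
    simp only [map_mul, map_inv]
    rw [hk]
    group
  have hfpf : ∀ e ∈ E, e ≠ 1 → ∀ n ∈ U, e * n = n * e → n = 1 := by
    intro e he hne n hn hc
    obtain ⟨k, rfl⟩ := hEel e he
    obtain ⟨a, ha, rfl⟩ := hn
    have hk : x ^ k ≠ 1 := by
      intro h0
      apply hne
      rw [h0, map_one]
    have h1 : π (x ^ k * a * (x ^ k)⁻¹ * a⁻¹) = 1 := by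
      simp only [map_mul, map_inv]
      rw [hc]
      group
    have h2 : x ^ k * a * (x ^ k)⁻¹ * a⁻¹ ∈ Z := h.mem_of_conj
      (Q.mul_mem (h.pow_norm_Q k ha) (Q.inv_mem ha)) ((hπ1 _).1 h1)
    have h3 := h.hfpf k hk a ha h2
    exact (hπ1 _).2 (h.conj_eq_one h3)
  have hKU : (Nat.card U : K) ≠ 0 := by
    intro h0
    apply h.hKQ
    obtain ⟨k, hk⟩ : Nat.card U ∣ Nat.card Q := Q.card_map_dvd π
    rw [hk, Nat.cast_mul, h0, zero_mul]
  have hcardE : Nat.card E = orderOf x := by
    rw [hE, Nat.card_zpowers]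
    apply le_antisymm
    · exact Nat.le_of_dvd (orderOf_pos x) (orderOf_dvd_of_pow_eq_one (by rw [hy, ← map_pow, pow_orderOf_eq_one, map_one]))
    · refine Nat.le_of_dvd (orderOf_pos y) (orderOf_dvd_of_pow_eq_one (hπx _ ?_))
      rw [map_pow]
      exact pow_orderOf_eq_one y
  have hform := fx_bound (ρ := σ₂) U E hUc hEU hfpf hKU
  rw [hcardE] at hform
  set w := finrank K W with hw
  have hfinA : finrank K (End K W) = w ^ 2 := by
    rw [sq, hw]
    exact Module.finrank_linearMap K K W W
  rw [hfinA] at hform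
  set c₁ := finrank K (fx σ₂ U) with hc₁
  have hcomm2 : commSub (ρ x) ≤ fx σ₂ E := by
    intro f hf e he
    obtain ⟨k, rfl⟩ := hEel e he
    rw [hσ₂]
    have h1 : ∀ n : ℕ, ρ (x ^ n) * f = f * ρ (x ^ n) := by
      intro n
      induction n with
      | zero => simp
      | succ n ih =>
        have hf' : f * ρ x = ρ x * f := hf
        rw [pow_succ, map_mul, mul_assoc, ← hf', ← mul_assoc, ih, mul_assoc]
    rw [hσ, conjRep_apply, h1, mul_assoc, ← map_mul, mul_inv_cancel, map_one, mul_one]
  have hle2 : finrank K (commSub (ρ x)) ≤ finrank K (fx σ₂ E) := Submodule.finrank_mono hcomm2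
  refine ⟨c₁, ?_, ?_, ?_⟩
  · rw [Nat.succ_le_iff, Module.finrank_pos_iff_exists_ne_zero]
    refine ⟨⟨1, ?_⟩, ?_⟩
    · intro n hn
      obtain ⟨a, _, rfl⟩ := hn
      rw [hσ₂, hσ, conjRep_apply, mul_one, rho_mul_inv]
    · intro h0
      have h1 : (1 : End K W) = 0 := congrArg Subtype.val h0
      exact one_ne_zero h1
  · -- distinct cosets
    let Q₀ := ↥Q
    let Z₀ : Subgroup Q₀ := Z.subgroupOf Q
    haveI hZ₀n : Z₀.Normal := by
      constructor
      intro z hz g
      rw [Subgroup.mem_subgroupOf] at hz ⊢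
      have h1 : (g : F) * z * (g : F)⁻¹ = ⁅(g : F), (z : F)⁆ * z := by
        rw [commutatorElement_def]
        group
      show (g : F) * z * (g : F)⁻¹ ∈ Z
      rw [h1]
      exact Z.mul_mem (h.hcomm g g.2 z (h.hZQ hz)) hz
    letI : Fintype (Q₀ ⧸ Z₀) := Fintype.ofFinite _
    let τ : Q₀ ⧸ Z₀ → Q₀ := Quotient.out
    have hτ : ∀ u : Q₀ ⧸ Z₀, (QuotientGroup.mk (τ u) : Q₀ ⧸ Z₀) = u := fun u => Quotient.out_eq' u
    let σ' : Q₀ →* End K (End K W) := σ.comp Q.subtype
    have hcommσ : ∀ a b : Q₀, σ' a * σ' b = σ' b * σ' a := by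
      intro a b
      have h1 : (a : F) * b = ⁅(a : F), (b : F)⁆ * ((b : F) * a) := by
        rw [commutatorElement_def]
        group
      show σ (a : F) * σ (b : F) = σ (b : F) * σ (a : F)
      rw [← map_mul, h1, map_mul, h.conj_eq_one (h.hcomm a a.2 b b.2), one_mul, map_mul]
    have hind := (simEig_indep σ' hcommσ h.hKQ).1
    have hex : ∀ (u : Q₀ ⧸ Z₀) (g : Q₀), ∃ c : K, ρ ⁅(g : F), ((τ u : Q₀) : F)⁆ = c • 1 := fun u g =>
      h.hZs _ (h.hcomm g g.2 (τ u) (τ u).2)
    choose χ hχ using hex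
    have hχinj : Function.Injective χ := by
      intro u u' huu
      set c : Q₀ := (τ u)⁻¹ * τ u' with hc
      have hcmem : (c : F) ∈ Z := by
        apply h.hnd c c.2
        intro b hb
        have hτu' : ((τ u' : Q₀) : F) = (τ u : Q₀) * (c : F) := by
          have h0 : τ u' = τ u * c := by
            rw [hc, mul_inv_cancel_left]
          exact congrArg Subtype.val h0
        have hcent : ρ ⁅b, ((τ u : Q₀) : F) * (c : F)⁆ = ρ ⁅b, ((τ u : Q₀) : F)⁆ * ρ ⁅b, (c : F)⁆ := by
          set t : F := ((τ u : Q₀) : F) with ht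
          have e1 : ⁅b, t * (c : F)⁆ = ⁅b, t⁆ * (t * ⁅b, (c : F)⁆ * t⁻¹) := by
            simp only [commutatorElement_def]
            group
          obtain ⟨c₀, hc₀⟩ := h.hZs _ (h.hcomm b hb c c.2)
          have e2 : ρ (t * ⁅b, (c : F)⁆ * t⁻¹) = ρ ⁅b, (c : F)⁆ := by
            rw [map_mul, map_mul, hc₀, mul_smul_comm, mul_one, smul_mul_assoc, rho_mul_inv]
          rw [e1, map_mul, e2]
        have h3 := hχ u' ⟨b, hb⟩
        have h4 := hχ u ⟨b, hb⟩
        rw [← huu] at h3
        have h5 : ρ ⁅b, ((τ u : Q₀) : F)⁆ * ρ ⁅b, (c : F)⁆ = ρ ⁅b, ((τ u : Q₀) : F)⁆ := by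
          rw [← hcent, ← hτu']
          exact h3.trans h4.symm
        have h6 : ρ ⁅b, (c : F)⁆ = 1 := by
          calc ρ ⁅b, (c : F)⁆ = ρ (⁅b, ((τ u : Q₀) : F)⁆⁻¹) * (ρ ⁅b, ((τ u : Q₀) : F)⁆ * ρ ⁅b, (c : F)⁆) := by
                rw [← mul_assoc, rho_inv_mul, one_mul]
            _ = 1 := by rw [h5, rho_inv_mul]
        have h8 : ⁅(c : F), b⁆ = ⁅b, (c : F)⁆⁻¹ := (commutatorElement_inv _ _).symm
        rw [h8]
        have h9 := rho_mul_inv ρ ⁅b, (c : F)⁆
        rwa [h6, one_mul] at h9
      have hcmem' : c ∈ Z₀ := Subgroup.mem_subgroupOf.2 hcmem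
      rw [← hτ u, ← hτ u']
      exact QuotientGroup.eq.2 hcmem'
    let B : Q₀ ⧸ Z₀ → Submodule K (End K W) := fun u =>
      (fx σ₂ U).map (LinearMap.mulLeft K (ρ ((τ u : Q₀) : F)))
    have hB : B ≤ fun u => simEig σ' (χ u) := by
      intro u
      rintro _ ⟨f, hf, rfl⟩
      rw [mem_simEig]
      intro g
      have hgU : π (g : F) ∈ U := ⟨g, g.2, rfl⟩
      have hf2 : ρ (g : F) * f * ρ (g : F)⁻¹ = f := hf _ hgU
      set t : F := ((τ u : Q₀) : F) with ht
      have h1 : (g : F) * t * (g : F)⁻¹ = ⁅(g : F), t⁆ * t := by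
        rw [commutatorElement_def]
        group
      show ρ (g : F) * (ρ t * f) * ρ (g : F)⁻¹ = χ u g • (ρ t * f)
      calc ρ (g : F) * (ρ t * f) * ρ (g : F)⁻¹
          = (ρ (g : F) * ρ t * ρ (g : F)⁻¹) * (ρ (g : F) * f * ρ (g : F)⁻¹) := by
            simp only [mul_assoc]
            rw [← mul_assoc (ρ (g : F)⁻¹) (ρ (g : F)), rho_inv_mul, one_mul]
        _ = ρ (⁅(g : F), t⁆ * t) * f := by
            rw [hf2, ← h1, map_mul, map_mul]
        _ = χ u g • (ρ t * f) := by
            rw [map_mul, hχ u g, smul_mul_assoc, one_mul, smul_mul_assoc]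
    have hfinB : ∀ u, finrank K (B u) = c₁ := by
      intro u
      apply (LinearEquiv.finrank_eq (Submodule.equivMapOfInjective _ _ _)).symm
      intro a b hab
      have h1 : ρ ((τ u : Q₀) : F) * a = ρ ((τ u : Q₀) : F) * b := hab
      calc a = ρ ((τ u : Q₀) : F)⁻¹ * (ρ ((τ u : Q₀) : F) * a) := by rw [← mul_assoc, rho_inv_mul, one_mul]
        _ = b := by rw [h1, ← mul_assoc, rho_inv_mul, one_mul]
    have hsum := sum_finrank_le_of_indep B ((hind.comp hχinj).mono hB)
    simp only [hfinB, Finset.sum_const, Finset.card_univ, smul_eq_mul] at hsum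
    rw [hfinA] at hsum
    have hidx : Z.relIndex Q = Fintype.card (Q₀ ⧸ Z₀) := by
      rw [Subgroup.relIndex, Subgroup.index, Nat.card_eq_fintype_card]
    rw [hidx]
    exact hsum
  · exact (Nat.mul_le_mul_left _ hle2).trans hform

/-- The commutant of `f - 1` is the commutant of `f`. -/
theorem commSub_sub_one (f : End K W) : commSub (f - 1) = commSub f := by
  ext g
  simp only [mem_commSub, mul_sub, sub_mul, mul_one, one_mul, sub_left_inj]

/-- **The numerical conclusion**: if `(ρ x - 1) ^ r = 0`, then `(n - r) * |Q : Z| ≤ r * (n - 1)`. -/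
theorem cl_numeric [Nontrivial W] (h : CLData ρ Q Z x) {r : ℕ} (hr : (ρ x - 1) ^ r = 0) :
    (orderOf x - r) * Z.relIndex Q ≤ r * (orderOf x - 1) := by
  obtain ⟨c₁, hc₁, hidx, hcount⟩ := cl_count h
  have hJ := finrank_sq_le_commSub (K := K) r W (ρ x - 1) hr
  rw [commSub_sub_one] at hJ
  set n := orderOf x with hn
  have hn0 : 0 < n := orderOf_pos x
  set w := finrank K W with hw
  set C := finrank K (commSub (ρ x)) with hC
  set I := Z.relIndex Q with hI
  rcases le_or_gt n r with hle | hlt
  · rw [Nat.sub_eq_zero_of_le hle, zero_mul]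
    exact Nat.zero_le _
  obtain ⟨n', hn'⟩ : ∃ n', n = n' + 1 := ⟨n - 1, by omega⟩
  rw [hn'] at hcount hlt ⊢
  simp only [Nat.add_sub_cancel] at hcount ⊢
  obtain ⟨s, hs⟩ : ∃ s, n' + 1 = r + s := ⟨n' + 1 - r, by omega⟩
  have hs' : n' + 1 - r = s := by omega
  rw [hs']
  -- `(n - r) w² ≤ r (n - 1) c₁`
  have h1 : (n' + 1) * w ^ 2 ≤ r * (w ^ 2 + n' * c₁) := by
    calc (n' + 1) * w ^ 2 ≤ (n' + 1) * (r * C) := Nat.mul_le_mul_left _ hJ
      _ = r * ((n' + 1) * C) := by ring
      _ ≤ r * (w ^ 2 + n' * c₁) := Nat.mul_le_mul_left _ hcount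
  have h2 : s * w ^ 2 ≤ r * n' * c₁ := by
    rw [hs] at h1
    nlinarith
  have h3 : s * (I * c₁) ≤ r * n' * c₁ := (Nat.mul_le_mul_left _ hidx).trans h2
  have h4 : (s * I) * c₁ ≤ (r * n') * c₁ := by
    rw [mul_assoc]
    exact h3
  exact Nat.le_of_mul_le_mul_right h4 hc₁

end Count

end Cfsg.Agent.Lib.Coprime.HHB
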