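import Cfsg.Agent.Lib.FT.BG3h

/-!
A representation in which an element `x` of prime order `r` has no fixed vectors: `x` centralizes
every `x`-invariant `q`-subgroup (modulo the kernel), apart from the exceptional case `q = 2`, `r = 2 ^ n + 1`.
-/

set_option autoImplicit false
set_option linter.unusedSectionVars false
set_option linter.style.haveILetI false

namespace Cfsg.Agent.Lib.Coprime.HHFix

open Module Subgroup Cfsg TensorProduct Cfsg.Agent.Lib.FT
open scoped commutatorElement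

section AC

variable {K V F : Type*} [Field K] [IsAlgClosed K] [AddCommGroup V] [Module K V] [FiniteDimensional K V] [Group F]
  [Finite F]

/-- The abelian case: `x` without fixed vectors acts trivially on the characters of `Q`. -/
theorem ab_case (ρ : F →* End K V) (Q : Subgroup F) (hQc : ∀ a ∈ Q, ∀ b ∈ Q, a * b = b * a)
    (x : F) (hxQ : x ∈ normalizer (Q : Set F)) (hK : (Nat.card Q : K) ≠ 0) {r : ℕ} (hr : r.Prime) (hxr : x ^ r = 1)
    (hfix : ∀ v : V, ρ x v = v → v = 0) : ∀ a ∈ Q, ρ (x * a * x⁻¹) = ρ a := by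
  classical
  set E : Subgroup F := normalizer (Q : Set F) with hE
  let x' : ↥E := ⟨x, hxQ⟩
  have hcomm' : ∀ n n', (ρ.comp Q.subtype) n * (ρ.comp Q.subtype) n' = (ρ.comp Q.subtype) n' * (ρ.comp Q.subtype) n := by
    intro n n'
    rw [← map_mul, ← map_mul]
    congr 1
    exact Subtype.ext (hQc n n.2 n' n'.2)
  obtain ⟨hind, -⟩ := simEig_indep (ρ.comp Q.subtype) hcomm' hK
  have hxr' : x' ^ r = 1 := Subtype.ext hxr
  have hcompat := nConj_compat (K := K) (V := V) ρ Q
  have hfixed : ∀ χ : ↥Q → K, simEig (ρ.comp Q.subtype) χ ≠ ⊥ → twist (nConj Q) x' χ = χ := by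
    intro χ hχ
    by_contra hne
    obtain ⟨v, hv, hv0⟩ := Submodule.exists_mem_ne_zero_of_ne_bot hχ
    have h1 := norm_fixed (τ := ρ.comp E.subtype) hxr' v
    rw [Module.End.mem_eigenspace_iff, one_smul] at h1
    have h2 := hfix _ h1
    exact hv0 (fix_key hind hcompat hr hxr' hne hv (Submodule.zero_mem _) h2)
  intro a ha
  refine rho_conj_eq ρ Q hQc hK x' (fun χ hχ => ?_) ⟨a, ha⟩
  have h1 := hfixed χ hχ
  have h2 := congrArg (twist (nConj Q) x'⁻¹) h1
  rw [← twist_mul, inv_mul_cancel, twist_one] at h2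
  exact h2.symm

end AC

section Radical

variable {F S : Type*} [Group F] {K : Type*} [Field K] [AddCommGroup S] [Module K S]

/-- The radical of the commutator form on a submodule. -/
theorem exists_radical (f : F →* End K S) (W : Submodule K S) (Q D : Subgroup F)
    (hDc : ∀ d ∈ D, ∀ a ∈ Q, d * a = a * d) (hcomm : ∀ a ∈ Q, ∀ b ∈ Q, ⁅a, b⁆ ∈ D) :
    ∃ R : Subgroup F, ∀ a, a ∈ R ↔ a ∈ Q ∧ ∀ b ∈ Q, ∀ w ∈ W, f ⁅a, b⁆ w = w := by
  refine ⟨{ carrier := {a | a ∈ Q ∧ ∀ b ∈ Q, ∀ w ∈ W, f ⁅a, b⁆ w = w}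
            mul_mem' := ?_
            one_mem' := ?_
            inv_mem' := ?_ }, fun a => Iff.rfl⟩
  · rintro a a' ⟨ha, h1⟩ ⟨ha', h2⟩
    refine ⟨mul_mem ha ha', fun b hb w hw => ?_⟩
    have h3 : ⁅a * a', b⁆ = ⁅a', b⁆ * ⁅a, b⁆ := by
      have h4 : a * ⁅a', b⁆ * a⁻¹ = ⁅a', b⁆ := by
        rw [← hDc _ (hcomm a' ha' b hb) a ha]
        group
      calc ⁅a * a', b⁆ = (a * ⁅a', b⁆ * a⁻¹) * ⁅a, b⁆ := by
            simp only [commutatorElement_def]
            group
        _ = ⁅a', b⁆ * ⁅a, b⁆ := by rw [h4]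
    rw [h3, map_mul, Module.End.mul_apply, h1 b hb w hw, h2 b hb w hw]
  · refine ⟨one_mem _, fun b _ w _ => ?_⟩
    rw [commutatorElement_one_left, map_one, Module.End.one_apply]
  · rintro a ⟨ha, h1⟩
    refine ⟨inv_mem ha, fun b hb w hw => ?_⟩
    have h3 : ⁅a⁻¹, b⁆ = ⁅a, b⁆⁻¹ := by
      have h4 : a⁻¹ * ⁅b, a⁆ * a = ⁅b, a⁆ := by
        have h5 : ⁅b, a⁆ ∈ D := hcomm b hb a ha
        rw [← hDc _ h5 a⁻¹ (inv_mem ha)]
        group
      calc ⁅a⁻¹, b⁆ = a⁻¹ * ⁅b, a⁆ * a := by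
            simp only [commutatorElement_def]
            group
        _ = ⁅b, a⁆ := h4
        _ = ⁅a, b⁆⁻¹ := by rw [commutatorElement_inv]
    rw [h3]
    conv_lhs => rw [← h1 b hb w hw]
    rw [← Module.End.mul_apply, ← map_mul, inv_mul_cancel, map_one, Module.End.one_apply]

end Radical

section Main

variable {F : Type*} [Group F] [Finite F] {p q r : ℕ} [hpf : Fact p.Prime] [hqf : Fact q.Prime] {M : Type*}
  [AddCommGroup M] [Module (ZMod p) M] [FiniteDimensional (ZMod p) M]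

/-- A faithful representation in which `x` has no fixed vectors. -/
theorem centralizes_of_fix (ρ : F →* End (ZMod p) M) (hρ : Function.Injective ρ) (hr : r.Prime) (hqp : q ≠ p)
    (hrp : r ≠ p) (hqr : q ≠ r) (Q₀ : Subgroup F) (x : F) (hqQ : IsPGroup q Q₀) (hxr : x ^ r = 1)
    (hxQ : x ∈ normalizer (Q₀ : Set F)) (hfix : fx ρ (zpowers x) = ⊥)
    (hexc : q = 2 → (∃ n : ℕ, r = 2 ^ n + 1) → ∀ a ∈ Q₀, ∀ b ∈ Q₀, a * b = b * a) :
    ∀ a ∈ Q₀, x * a = a * x := by
  classical
  haveI : Fact r.Prime := ⟨hr⟩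
  have hp_q : ¬ p ∣ q := fun hd => hqp ((Nat.prime_dvd_prime_iff_eq hpf.out hqf.out).mp hd).symm
  have hp_r : ¬ p ∣ r := fun hd => hrp ((Nat.prime_dvd_prime_iff_eq hpf.out hr).mp hd).symm
  have hzpcard : Nat.card (zpowers x) ∣ r := by
    rw [Nat.card_zpowers]
    exact orderOf_dvd_of_pow_eq_one hxr
  obtain ⟨kQ, hkQ⟩ := IsPGroup.iff_card.mp hqQ
  set Y : Subgroup F := zpowers x with hY
  have hxY : x ∈ Y := mem_zpowers x
  have hYn : Y ≤ normalizer (Y : Set F) := Subgroup.le_normalizer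
  have hYQ : Y ≤ normalizer (Q₀ : Set F) := Subgroup.zpowers_le.mpr hxQ
  have hcop : Nat.Coprime (Nat.card Y) (Nat.card Q₀) := by
    rw [hkQ]
    refine Nat.Coprime.pow_right _ (Nat.Coprime.coprime_dvd_left hzpcard ?_)
    exact (Nat.coprime_primes hr hqf.out).mpr hqr.symm
  by_contra hcon
  have hne : ¬ Y ≤ centralizer (Q₀ : Set F) := by
    intro hle
    apply hcon
    intro a ha
    exact (Subgroup.mem_centralizer_iff.mp (hle hxY) a ha).symm
  obtain ⟨Q, hQQ₀, hM⟩ := exists_minNC hqQ le_rfl hYn hYQ hcop hne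
  have hfixK : fx (rhoC ρ) (zpowers x) = ⊥ := by
    rw [← Submodule.finrank_eq_zero, finrank_fx_baseChange (KK p) ρ (zpowers x), hfix, finrank_bot]
    rw [Ne, ZMod.natCast_eq_zero_iff]
    exact fun hd => hp_r (hd.trans hzpcard)
  have hfixv : ∀ v, rhoC ρ x v = v → v = 0 := by
    intro v hv
    have h3 : v ∈ fx (rhoC ρ) (zpowers x) := mem_fx_zpowers (rhoC ρ) hv
    rw [hfixK, Submodule.mem_bot] at h3
    exact h3
  have hxQn : x ∈ normalizer (Q : Set F) := hM.hQn hxY
  have hxQ' : ∀ a ∈ Q, x * a * x⁻¹ ∈ Q := fun a ha => (Subgroup.mem_normalizer_iff.mp hxQn a).mp ha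
  by_cases hab : ∀ a ∈ Q, ∀ b ∈ Q, a * b = b * a
  · -- the abelian case
    obtain ⟨kQ', hkQ'⟩ := IsPGroup.iff_card.mp hM.hq
    have h1 := ab_case (rhoC ρ) Q hab x hxQn (cast_ne_KK (by
      rw [hkQ']
      exact fun hd => hp_q (hpf.out.dvd_of_dvd_pow hd))) hr hxr hfixv
    apply hM.hne
    rw [hY, Subgroup.zpowers_le, Subgroup.mem_centralizer_iff]
    intro a ha
    have h2 : (ρ (x * a * x⁻¹)).baseChange (KK p) = (ρ a).baseChange (KK p) := h1 a ha
    have h3 : (ρ (x * a * x⁻¹ * a⁻¹)).baseChange (KK p) = 1 := by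
      change rhoC ρ (x * a * x⁻¹ * a⁻¹) = 1
      rw [map_mul, h1 a ha, ← map_mul, mul_inv_cancel, map_one]
    have h4 := hρ ((eq_one_of_baseChange (KK p) _ h3).trans (map_one ρ).symm)
    have h5 : x * a = (x * a * x⁻¹ * a⁻¹) * (a * x) := by group
    rw [h5, h4, one_mul]
  · -- the nonabelian case
    set D : Subgroup F := MinNC.D Q Y with hD
    have hDeq : D = ⁅Q, Q⁆ := hM.D_eq
    have hDc : ∀ d ∈ D, ∀ a ∈ Q, d * a = a * d := fun d hd a ha => hM.D_comm hd ha
    have hDQ : D ≤ Q := inf_le_left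
    have hDne : ¬ (∀ z ∈ D, z = 1) := by
      intro hall
      apply hab
      intro a ha b hb
      have h1 := hall _ (hM.comm_mem ha hb)
      exact commutatorElement_eq_one_iff_mul_comm.mp h1
    have hnD : ¬ p ∣ Nat.card ↥D := by
      obtain ⟨kD, hkD⟩ := IsPGroup.iff_card.mp (hM.hq.to_le hDQ)
      rw [hkD]
      exact fun hd => hp_q (hpf.out.dvd_of_dvd_pow hd)
    let σ : ↥D →* End (KK p) (KK p ⊗[ZMod p] M) := (rhoC ρ).comp D.subtype
    have hσ : ∀ z : ↥D, σ z = rhoC ρ z := fun _ => rfl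
    have hcommσ : ∀ n n', σ n * σ n' = σ n' * σ n := by
      intro n n'
      rw [← map_mul, ← map_mul]
      congr 1
      exact Subtype.ext (hDc n n.2 n' (hDQ n'.2))
    obtain ⟨-, htop⟩ := simEig_indep σ hcommσ (cast_ne_KK hnD)
    obtain ⟨χ, hχ0, z₀, hz₀⟩ : ∃ χ : ↥D → KK p, simEig σ χ ≠ ⊥ ∧ ∃ z, χ z ≠ 1 := by
      by_contra hcon2
      push Not at hcon2
      have hall : ∀ z : ↥D, σ z = 1 := by
        intro z
        have h1 : (⊤ : Submodule (KK p) (KK p ⊗[ZMod p] M)) ≤ LinearMap.ker (σ z - 1) := by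
          rw [← htop]
          refine iSup_le fun χ => ?_
          by_cases h0 : simEig σ χ = ⊥
          · rw [h0]
            exact bot_le
          · intro w hw
            have h2 := hcon2 χ h0 z
            have h3 : σ z w = χ z • w := mem_simEig.mp hw z
            rw [LinearMap.mem_ker, LinearMap.sub_apply, h3, h2, one_smul, Module.End.one_apply, sub_self]
        apply LinearMap.ext
        intro w
        have h2 := h1 (Submodule.mem_top (x := w))
        rw [LinearMap.mem_ker, LinearMap.sub_apply, Module.End.one_apply, sub_eq_zero] at h2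
        exact h2
      apply hDne
      intro z hz
      have h1 := eq_one_of_baseChange (KK p) _ (hall ⟨z, hz⟩)
      exact hρ (h1.trans (map_one ρ).symm)
    set W := simEig σ χ with hW
    have hxD : ∀ z ∈ D, x * z * x⁻¹ = z := by
      intro z hz
      have h1 := Subgroup.mem_centralizer_iff.mp hz.2 x hxY
      rw [h1]
      group
    have hleC : Q ⊔ zpowers x ≤ centralizer (D : Set F) := by
      refine sup_le ?_ ?_
      · intro a ha
        rw [Subgroup.mem_centralizer_iff]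
        intro b hb
        exact hDc b hb a ha
      · rw [Subgroup.zpowers_le, Subgroup.mem_centralizer_iff]
        intro b hb
        calc b * x = (x * b * x⁻¹) * x := by rw [hxD b hb]
          _ = x * b := by group
    have hCinv : ∀ g ∈ centralizer (D : Set F), ∀ w ∈ W, rhoC ρ g w ∈ W := by
      intro g hg w hw
      rw [hW, mem_simEig]
      intro z
      have h1 := mem_simEig.mp hw z
      rw [hσ, ← Module.End.mul_apply, ← map_mul, (Subgroup.mem_centralizer_iff.mp hg z z.2), map_mul, Module.End.mul_apply,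
        ← hσ, h1, map_smul]
    have hK : (Nat.card ↥(Q ⊔ zpowers x) : KK p) ≠ 0 := by
      apply cast_ne_KK
      intro hd
      have h1 := card_sup_dvd_of_le_normalizer Q (zpowers x) (Subgroup.zpowers_le.mpr hxQn)
      obtain ⟨kQ', hkQ'⟩ := IsPGroup.iff_card.mp hM.hq
      rw [hkQ'] at h1
      rcases (Nat.Prime.dvd_mul hpf.out).mp (hd.trans h1) with h2 | h2
      · exact hp_q (hpf.out.dvd_of_dvd_pow h2)
      · exact hp_r (h2.trans hzpcard)
    obtain ⟨R, hR⟩ := exists_radical (rhoC ρ) W Q D hDc (fun a ha b hb => hM.comm_mem ha hb)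
    have hRQ : R ≤ Q := fun a ha => ((hR a).mp ha).1
    have hRn : Y ≤ normalizer (R : Set F) := by
      rw [hY, Subgroup.zpowers_le]
      apply Cfsg.Agent.Lib.Coprime.mem_normalizer_of_conj_le
      intro a ha
      obtain ⟨ha1, ha2⟩ := (hR a).mp ha
      refine (hR _).mpr ⟨hxQ' a ha1, fun b hb w hw => ?_⟩
      have hb' : x⁻¹ * b * x ∈ Q := by
        have := (Subgroup.mem_normalizer_iff.mp (inv_mem hxQn) b).mp hb
        simpa using this
      have h1 : ⁅x * a * x⁻¹, b⁆ = ⁅a, x⁻¹ * b * x⁆ := by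
        rw [← hxD _ (hM.comm_mem ha1 hb')]
        simp only [commutatorElement_def]
        group
      rw [h1]
      exact ha2 _ hb' w hw
    have hRne : R ≠ Q := by
      intro hRQ'
      -- the stabilizer of `W` pointwise contains `[Q, Q]`
      let T : Subgroup F :=
        { carrier := {g | ∀ w ∈ W, rhoC ρ g w = w}
          mul_mem' := fun {g h} hg hh w hw => by
            rw [map_mul, Module.End.mul_apply, hh w hw, hg w hw]
          one_mem' := fun w _ => by rw [map_one, Module.End.one_apply]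
          inv_mem' := fun {g} hg w hw => by
            conv_lhs => rw [← hg w hw]
            rw [← Module.End.mul_apply, ← map_mul, inv_mul_cancel, map_one, Module.End.one_apply] }
      have hle : ⁅Q, Q⁆ ≤ T := by
        rw [Subgroup.commutator_le]
        intro a ha b hb w hw
        have ha' : a ∈ R := hRQ' ▸ ha
        exact ((hR a).mp ha').2 b hb w hw
      obtain ⟨w₀, hw₀, hw₀0⟩ := Submodule.exists_mem_ne_zero_of_ne_bot hχ0
      have hz₀T : (z₀ : F) ∈ T := hle (hDeq ▸ z₀.2)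
      have h1 : rhoC ρ z₀ w₀ = w₀ := hz₀T w₀ hw₀
      have h2 : rhoC ρ z₀ w₀ = χ z₀ • w₀ := mem_simEig.mp hw₀ z₀
      rw [h1] at h2
      have h3 : (1 : KK p) • w₀ = χ z₀ • w₀ := by rw [one_smul]; exact h2
      exact hz₀ (smul_left_injective (KK p) hw₀0 h3).symm
    obtain ⟨m, hm0, hrm, -⟩ := t2_eigen_nofix (rhoC ρ) hr Q D x W hχ0 hK (fun g hg w hw => hCinv g (hleC hg) w hw)
      (fun z hz => ⟨χ ⟨z, hz⟩, fun w hw => mem_simEig.mp hw ⟨z, hz⟩⟩) hxr hDQ hDc (fun a ha b hb => hM.comm_mem ha hb)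
      (fun a ha => hM.pow_mem_D ha) (fun a ha hab' => hM.le_D hRQ hRn hRne ((hR a).mpr ⟨ha, hab'⟩)) hxQ' hxD
      (fun a ha hc => hM.fpf ha (by
        intro s hs
        have hpowD : ∀ n : ℕ, x ^ n * a * (x ^ n)⁻¹ * a⁻¹ ∈ D := by
          intro n
          induction n with
          | zero => simp [one_mem]
          | succ n ih =>
            have h1 : x ^ (n + 1) * a * (x ^ (n + 1))⁻¹ * a⁻¹ =
                x * (x ^ n * a * (x ^ n)⁻¹ * a⁻¹) * x⁻¹ * (x * a * x⁻¹ * a⁻¹) := by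
              rw [pow_succ']
              group
            rw [h1, hxD _ ih]
            exact mul_mem ih hc
        obtain ⟨n, rfl⟩ := exists_pow_of_mem_zpowers hs
        have h2 : a * x ^ n * a⁻¹ * (x ^ n)⁻¹ = (x ^ n * a * (x ^ n)⁻¹ * a⁻¹)⁻¹ := by group
        rw [h2]
        exact inv_mem (hpowD n)))
      hM.exists_not_mem_D (fun w _ hw => hfixv w hw)
    -- the exceptional case
    have hgt : 2 ≤ q ^ m := by
      calc 2 ≤ q := hqf.out.two_le
        _ = q ^ 1 := (pow_one q).symm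
        _ ≤ q ^ m := Nat.pow_le_pow_right hqf.out.pos (by omega)
    have hr2 : r ≠ 2 := by omega
    have hrodd : Odd r := hr.odd_of_ne_two hr2
    have hqeven : Even (q ^ m) := by
      rw [hrm] at hrodd
      by_contra h
      rw [Nat.not_even_iff_odd] at h
      exact (Nat.not_even_iff_odd.mpr hrodd) (h.add_odd odd_one)
    have hq2 : q = 2 := by
      have h2 : Even q := (Nat.even_pow.mp hqeven).1
      have h1 : 2 ∣ q := even_iff_two_dvd.mp h2
      exact ((Nat.prime_dvd_prime_iff_eq Nat.prime_two hqf.out).mp h1).symm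
    subst hq2
    apply hab
    intro a ha b hb
    exact hexc rfl ⟨m, hrm⟩ a (hQQ₀ ha) b (hQQ₀ hb)

theorem comm_of_fix_aux {Fb : Type*} [Group Fb] [Finite Fb] (π : F →* Fb) (ρb : Fb →* End (ZMod p) M)
    (hρb : Function.Injective ρb) (ρ : F →* End (ZMod p) M) (hcomp : ∀ g : F, ρb (π g) = ρ g) (hr : r.Prime) (hqp : q ≠ p)
    (hrp : r ≠ p) (hqr : q ≠ r) (Q₀ : Subgroup F) (x : F) (hqQ : IsPGroup q Q₀) (hxr : x ^ r = 1)
    (hxQ : x ∈ normalizer (Q₀ : Set F)) (hfix : fx ρ (zpowers x) = ⊥)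
    (hexc : q = 2 → (∃ n : ℕ, r = 2 ^ n + 1) → False) :
    ∀ a ∈ Q₀, ρ (x * a * x⁻¹) = ρ a := by
  have hQb : IsPGroup q ↥(Q₀.map π) := hqQ.map π
  have hxb : π x ∈ normalizer ((Q₀.map π : Subgroup Fb) : Set Fb) := by
    apply Cfsg.Agent.Lib.Coprime.mem_normalizer_of_conj_le
    rintro _ ⟨a, ha, rfl⟩
    refine ⟨x * a * x⁻¹, (Subgroup.mem_normalizer_iff.mp hxQ a).mp ha, ?_⟩
    simp only [map_mul, map_inv]
  have hfb : fx ρb (zpowers (π x)) = ⊥ := by
    rw [eq_bot_iff]
    intro v hv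
    have h2 : ρb (π x) v = v := hv _ (mem_zpowers _)
    rw [hcomp] at h2
    have h3 : v ∈ fx ρ (zpowers x) := mem_fx_zpowers ρ h2
    rw [hfix] at h3
    exact h3
  have h1 := centralizes_of_fix ρb hρb hr hqp hrp hqr (Q₀.map π) (π x) hQb (by rw [← map_pow, hxr, map_one])
    hxb hfb (fun h3 h4 => (hexc h3 h4).elim)
  intro a ha
  have h2 := h1 (π a) ⟨a, ha, rfl⟩
  have h3 : ρb (π x * π a * (π x)⁻¹) = ρb (π a) := by
    rw [h2]
    congr 1
    group
  rw [← map_inv, ← map_mul, ← map_mul, hcomp, hcomp] at h3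
  exact h3

/-- The general form: `x` commutes with the `q`-subgroup modulo the kernel. -/
theorem comm_of_fix (ρ : F →* End (ZMod p) M) (hr : r.Prime) (hqp : q ≠ p)
    (hrp : r ≠ p) (hqr : q ≠ r) (Q₀ : Subgroup F) (x : F) (hqQ : IsPGroup q Q₀) (hxr : x ^ r = 1)
    (hxQ : x ∈ normalizer (Q₀ : Set F)) (hfix : fx ρ (zpowers x) = ⊥)
    (hexc : q = 2 → (∃ n : ℕ, r = 2 ^ n + 1) → False) :
    ∀ a ∈ Q₀, ρ (x * a * x⁻¹) = ρ a :=
  comm_of_fix_aux (QuotientGroup.mk' ρ.ker) (QuotientGroup.lift ρ.ker ρ (fun _ hx => hx)) (by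
      intro a b
      induction a using QuotientGroup.induction_on with
      | H a =>
        induction b using QuotientGroup.induction_on with
        | H b =>
          intro h
          have h1 : ρ a = ρ b := h
          refine QuotientGroup.eq.mpr ?_
          rw [MonoidHom.mem_ker, map_mul, ← h1, ← map_mul, inv_mul_cancel, map_one]) ρ
    (fun _ => rfl) hr hqp hrp hqr Q₀ x hqQ hxr hxQ hfix hexc

/-- The form with automorphisms of a commutative group `A` of exponent `p`. -/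
theorem centralizes_of_fix_aut_aux {A : Type*} [CommGroup A] [Finite A] [Module (ZMod p) (Additive A)] (α : F →* MulAut A)
    (hα : Function.Injective α) (hr : r.Prime) (hqp : q ≠ p)
    (hrp : r ≠ p) (hqr : q ≠ r) (Q₀ : Subgroup F) (x : F) (hqQ : IsPGroup q Q₀) (hxr : x ^ r = 1)
    (hxQ : x ∈ normalizer (Q₀ : Set F)) (hfix : ∀ a : A, α x a = a → a = 1)
    (hexc : q = 2 → (∃ n : ℕ, r = 2 ^ n + 1) → ∀ a ∈ Q₀, ∀ b ∈ Q₀, a * b = b * a) :
    ∀ a ∈ Q₀, x * a = a * x := by
  classical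
  haveI hFinA : Finite (Additive A) := inferInstanceAs (Finite A)
  haveI hFD : FiniteDimensional (ZMod p) (Additive A) := Module.Finite.of_finite
  let f : F → End (ZMod p) (Additive A) := fun g =>
    (MulEquiv.toAdditive (α g) : Additive A ≃+ Additive A).toAddMonoidHom.toZModLinearMap p
  have hf : ∀ (g : F) (a : Additive A), f g a = Additive.ofMul (α g (Additive.toMul a)) := fun _ _ => rfl
  let ρ : F →* End (ZMod p) (Additive A) :=
    { toFun := f
      map_one' := LinearMap.ext fun x => by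
        rw [hf, Module.End.one_apply]
        simp
      map_mul' := fun a b => LinearMap.ext fun x => by
        rw [Module.End.mul_apply, hf, hf, hf]
        simp }
  have hρ : ∀ (g : F) (a : A), ρ g (Additive.ofMul a) = Additive.ofMul (α g a) := fun _ _ => rfl
  refine centralizes_of_fix ρ ?_ hr hqp hrp hqr Q₀ x hqQ hxr hxQ ?_ hexc
  · intro a b hab
    apply hα
    ext c
    have h3 : ρ a (Additive.ofMul c) = ρ b (Additive.ofMul c) := by rw [hab]
    rw [hρ, hρ] at h3
    exact Additive.ofMul.injective h3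
  · rw [eq_bot_iff]
    intro v hv
    have h1 := hv x (mem_zpowers x)
    have h2 : α x (Additive.toMul v) = Additive.toMul v := Additive.ofMul.injective h1
    have h3 := hfix _ h2
    exact (Submodule.mem_bot _).mpr (Additive.toMul.injective h3)

theorem centralizes_of_fix_aut {A : Type*} [Group A] [Finite A] (hAc : ∀ a b : A, a * b = b * a) (hAe : ∀ a : A, a ^ p = 1)
    (α : F →* MulAut A)
    (hα : Function.Injective α) (hr : r.Prime) (hqp : q ≠ p)
    (hrp : r ≠ p) (hqr : q ≠ r) (Q₀ : Subgroup F) (x : F) (hqQ : IsPGroup q Q₀) (hxr : x ^ r = 1)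
    (hxQ : x ∈ normalizer (Q₀ : Set F)) (hfix : ∀ a : A, α x a = a → a = 1)
    (hexc : q = 2 → (∃ n : ℕ, r = 2 ^ n + 1) → ∀ a ∈ Q₀, ∀ b ∈ Q₀, a * b = b * a) :
    ∀ a ∈ Q₀, x * a = a * x := by
  letI : CommGroup A := { (inferInstance : Group A) with mul_comm := hAc }
  letI : Module (ZMod p) (Additive A) := AddCommGroup.zmodModule (n := p) (fun x => by
    change Additive.ofMul ((Additive.toMul x) ^ p) = 0
    rw [hAe]
    rfl)
  exact centralizes_of_fix_aut_aux α hα hr hqp hrp hqr Q₀ x hqQ hxr hxQ hfix hexc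

end Main

end Cfsg.Agent.Lib.Coprime.HHFix
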