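import Cfsg.Agent.Lib.Coprime.HHB
import Cfsg.Agent.Lib.Coprime.HHFix

/-!
Hall-Higman Theorem B for an element of prime order `p` acting on an `F_p`-module.
-/

set_option autoImplicit false
set_option linter.unusedSectionVars false
set_option linter.style.haveILetI false

namespace Cfsg.Agent.Lib.Coprime.HHB

open Module Subgroup Cfsg Cfsg.Agent.Lib.FT TensorProduct Cfsg.Agent.Lib.Coprime.HHFix
open scoped commutatorElement

section Identity

/-- In characteristic `p`, `(a - 1) ^ (p - 1) = 1 + a + ... + a ^ (p - 1)`. -/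
theorem sub_one_pow_eq_geom (p : ℕ) [hp : Fact p.Prime] {A : Type*} [Ring A] [Algebra (ZMod p) A] (a : A) :
    (a - 1) ^ (p - 1) = ∑ i ∈ Finset.range p, a ^ i := by
  have h1 : ((Polynomial.X : Polynomial (ZMod p)) - 1) ^ (p - 1) = ∑ i ∈ Finset.range p, (Polynomial.X : Polynomial (ZMod p)) ^ i := by
    have hne : (Polynomial.X : Polynomial (ZMod p)) - 1 ≠ 0 := by
      have := Polynomial.X_sub_C_ne_zero (1 : ZMod p)
      simpa using this
    apply mul_left_cancel₀ hne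
    rw [← pow_succ', Nat.sub_add_cancel hp.out.one_lt.le, mul_geom_sum, sub_pow_char, one_pow]
  have h2 := congrArg (Polynomial.aeval a) h1
  simpa [map_sum, map_pow] using h2

end Identity

section AC

variable {K V F : Type*} [Field K] [IsAlgClosed K] [AddCommGroup V] [Module K V] [FiniteDimensional K V] [Group F]
  [Finite F]

/-- The abelian case: if the norm of `x` vanishes, then `x` acts trivially on the characters of `Q`. -/
theorem ab_case_norm (ρ : F →* End K V) (Q : Subgroup F) (hQc : ∀ a ∈ Q, ∀ b ∈ Q, a * b = b * a)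
    (x : F) (hxQ : x ∈ normalizer (Q : Set F)) (hK : (Nat.card Q : K) ≠ 0) {r : ℕ} (hr : r.Prime) (hxr : x ^ r = 1)
    (hnorm : ∀ v : V, (∑ i ∈ Finset.range r, (ρ x) ^ i) v = 0) : ∀ a ∈ Q, ρ (x * a * x⁻¹) = ρ a := by
  classical
  set E : Subgroup F := normalizer (Q : Set F) with hE
  let x' : ↥E := ⟨x, hxQ⟩
  have hcomm' : ∀ n n', (ρ.comp Q.subtype) n * (ρ.comp Q.subtype) n' = (ρ.comp Q.subtype) n' * (ρ.comp Q.subtype) n := by
    intro n n'
    rw [← map_mul, ← map_mul]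
    congr 1
    exact Subtype.ext (hQc n n.2 n' n'.2)
  obtain ⟨hind, -⟩ := simEig_indep (ρ.comp Q.subtype) hcomm' hK
  have hxr' : x' ^ r = 1 := Subtype.ext hxr
  have hcompat := nConj_compat (K := K) (V := V) ρ Q
  have hfixed : ∀ χ : ↥Q → K, simEig (ρ.comp Q.subtype) χ ≠ ⊥ → twist (nConj Q) x' χ = χ := by
    intro χ hχ
    by_contra hne
    obtain ⟨v, hv, hv0⟩ := Submodule.exists_mem_ne_zero_of_ne_bot hχ
    exact hv0 (fix_key hind hcompat hr hxr' hne hv (Submodule.zero_mem _) (hnorm v))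
  intro a ha
  refine rho_conj_eq ρ Q hQc hK x' (fun χ hχ => ?_) ⟨a, ha⟩
  have h1 := hfixed χ hχ
  have h2 := congrArg (twist (nConj Q) x'⁻¹) h1
  rw [← twist_mul, inv_mul_cancel, twist_one] at h2
  exact h2.symm

end AC

section Eigen

variable {F : Type*} [Group F] [Finite F]
variable {K VK : Type*} [Field K] [IsAlgClosed K] [AddCommGroup VK] [Module K VK] [FiniteDimensional K VK]

/-- The count on an invariant subspace `W`. -/
theorem eigen_cl (ρ : F →* End K VK) (Q Z : Subgroup F) (x : F) (W : Submodule K VK) (hW0 : W ≠ ⊥)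
    (hKQ : (Nat.card Q : K) ≠ 0)
    (hWinv : ∀ y ∈ Q ⊔ zpowers x, ∀ w ∈ W, ρ y w ∈ W)
    (hZs : ∀ z ∈ Z, ∃ c : K, ∀ w ∈ W, ρ z w = c • w)
    (hZQ : Z ≤ Q)
    (hcomm : ∀ a ∈ Q, ∀ b ∈ Q, ⁅a, b⁆ ∈ Z)
    (hnd : ∀ a ∈ Q, (∀ b ∈ Q, ∀ w ∈ W, ρ ⁅a, b⁆ w = w) → a ∈ Z)
    (hxQ : ∀ a ∈ Q, x * a * x⁻¹ ∈ Q)
    (hfpf : ∀ k : ℕ, x ^ k ≠ 1 → ∀ a ∈ Q, x ^ k * a * (x ^ k)⁻¹ * a⁻¹ ∈ Z → a ∈ Z) (hne : ∃ a ∈ Q, a ∉ Z)
    {r : ℕ} (hN : ∀ w ∈ W, ((ρ x - 1) ^ r) w = 0) :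
    (orderOf x - r) * Z.relIndex Q ≤ r * (orderOf x - 1) := by
  classical
  haveI : Nontrivial ↥W := Submodule.nontrivial_iff_ne_bot.mpr hW0
  set Y₀ : Subgroup F := Q ⊔ zpowers x with hY₀
  have hQY : Q ≤ Y₀ := le_sup_left
  have hZY : Z ≤ Y₀ := hZQ.trans hQY
  have hxY : x ∈ Y₀ := (le_sup_right : zpowers x ≤ Y₀) (mem_zpowers x)
  let ρ₁ : ↥Y₀ →* End K ↥W := resRep (ρ := ρ) Y₀ W hWinv
  let Q₁ : Subgroup ↥Y₀ := Q.subgroupOf Y₀
  let Z₁ : Subgroup ↥Y₀ := Z.subgroupOf Y₀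
  let x₁ : ↥Y₀ := ⟨x, hxY⟩
  have hρ₁ : ∀ (y : ↥Y₀) (w : ↥W), ((ρ₁ y w : ↥W) : VK) = ρ y w := fun _ _ => rfl
  have hZs₁ : ∀ z ∈ Z₁, ∃ c : K, ρ₁ z = c • 1 := by
    intro z hz
    obtain ⟨c, hc⟩ := hZs z (Subgroup.mem_subgroupOf.mp hz)
    refine ⟨c, ?_⟩
    ext w
    rw [hρ₁, hc w w.2]
    rfl
  have hZQ₁ : Z₁ ≤ Q₁ := fun z hz => Subgroup.mem_subgroupOf.mpr (hZQ (Subgroup.mem_subgroupOf.mp hz))
  have hcomm₁ : ∀ a ∈ Q₁, ∀ b ∈ Q₁, ⁅a, b⁆ ∈ Z₁ := fun a ha b hb =>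
    Subgroup.mem_subgroupOf.mpr (hcomm a (Subgroup.mem_subgroupOf.mp ha) b (Subgroup.mem_subgroupOf.mp hb))
  have hnd₁ : ∀ a ∈ Q₁, (∀ b ∈ Q₁, ρ₁ ⁅a, b⁆ = 1) → a ∈ Z₁ := by
    intro a ha hab
    refine Subgroup.mem_subgroupOf.mpr (hnd a (Subgroup.mem_subgroupOf.mp ha) ?_)
    intro b hb w hw
    have h1 := hab ⟨b, hQY hb⟩ (Subgroup.mem_subgroupOf.mpr hb)
    have h2 := congrArg (fun f : End K ↥W => ((f ⟨w, hw⟩ : ↥W) : VK)) h1
    exact h2
  have hcardQ : Nat.card Q₁ = Nat.card Q := Nat.card_congr (Subgroup.subgroupOfEquivOfLe hQY).toEquiv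
  have hT : CLData ρ₁ Q₁ Z₁ x₁ :=
    { hKQ := by rw [hcardQ]; exact hKQ
      hZQ := hZQ₁
      hZs := hZs₁
      hcomm := hcomm₁
      hnd := hnd₁
      hxQ := fun a ha => Subgroup.mem_subgroupOf.mpr (hxQ a (Subgroup.mem_subgroupOf.mp ha))
      hfpf := fun k hk a ha h => Subgroup.mem_subgroupOf.mpr (hfpf k (fun h0 => hk (Subtype.ext h0)) a
        (Subgroup.mem_subgroupOf.mp ha) (Subgroup.mem_subgroupOf.mp h))
      hne := by
        obtain ⟨a, ha, ha2⟩ := hne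
        exact ⟨⟨a, hQY ha⟩, Subgroup.mem_subgroupOf.mpr ha, fun h => ha2 (Subgroup.mem_subgroupOf.mp h)⟩ }
  have hidx : Z₁.relIndex Q₁ = Z.relIndex Q := Subgroup.relIndex_subgroupOf hQY
  have hord : orderOf x₁ = orderOf x := Subgroup.orderOf_mk x hxY
  have hpw : ∀ (k : ℕ) (w : ↥W), ((((ρ₁ x₁ - 1) ^ k) w : ↥W) : VK) = ((ρ x - 1) ^ k) w := by
    intro k
    induction k with
    | zero => intro w; simp
    | succ k ih =>
      intro w
      rw [pow_succ, pow_succ, Module.End.mul_apply, Module.End.mul_apply, ih]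
      rfl
  have hN₁ : (ρ₁ x₁ - 1) ^ r = 0 := by
    apply LinearMap.ext
    intro w
    apply Subtype.ext
    rw [hpw, hN w w.2]
    rfl
  have h := cl_numeric hT hN₁
  rwa [hidx, hord] at h

/-- The index is a square. -/
theorem eigen_square {q : ℕ} [hqf : Fact q.Prime] (ρ : F →* End K VK) (Q Z : Subgroup F) (W : Submodule K VK) (hW0 : W ≠ ⊥)
    (hWinv : ∀ y ∈ Q, ∀ w ∈ W, ρ y w ∈ W)
    (hZs : ∀ z ∈ Z, ∃ c : K, ∀ w ∈ W, ρ z w = c • w)
    (hZQ : Z ≤ Q) (hZc : ∀ z ∈ Z, ∀ a ∈ Q, z * a = a * z)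
    (hcomm : ∀ a ∈ Q, ∀ b ∈ Q, ⁅a, b⁆ ∈ Z)
    (hnd : ∀ a ∈ Q, (∀ b ∈ Q, ∀ w ∈ W, ρ ⁅a, b⁆ w = w) → a ∈ Z) (hpow : ∀ a ∈ Q, a ^ q ∈ Z) :
    ∃ m : ℕ, Z.relIndex Q = q ^ (2 * m) := by
  classical
  haveI : Nontrivial ↥W := Submodule.nontrivial_iff_ne_bot.mpr hW0
  let ρ₁ : ↥Q →* End K ↥W := resRep (ρ := ρ) Q W hWinv
  let Q₁ : Subgroup ↥Q := ⊤
  let Z₁ : Subgroup ↥Q := Z.subgroupOf Q
  have hρ₁ : ∀ (y : ↥Q) (w : ↥W), ((ρ₁ y w : ↥W) : VK) = ρ y w := fun _ _ => rfl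
  have hZs₁ : ∀ z ∈ Z₁, ∃ c : K, ρ₁ z = c • 1 := by
    intro z hz
    obtain ⟨c, hc⟩ := hZs z (Subgroup.mem_subgroupOf.mp hz)
    refine ⟨c, ?_⟩
    ext w
    rw [hρ₁, hc w w.2]
    rfl
  have hZQ₁ : Z₁ ≤ Q₁ := le_top
  have hZc₁ : ∀ z ∈ Z₁, ∀ a ∈ Q₁, z * a = a * z := fun z hz a _ =>
    Subtype.ext (hZc z (Subgroup.mem_subgroupOf.mp hz) a a.2)
  have hcomm₁ : ∀ a ∈ Q₁, ∀ b ∈ Q₁, ⁅a, b⁆ ∈ Z₁ := fun a _ b _ =>
    Subgroup.mem_subgroupOf.mpr (hcomm a a.2 b b.2)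
  have hnd₁ : ∀ a ∈ Q₁, (∀ b ∈ Q₁, ρ₁ ⁅a, b⁆ = 1) → a ∈ Z₁ := by
    intro a _ hab
    refine Subgroup.mem_subgroupOf.mpr (hnd a a.2 ?_)
    intro b hb w hw
    have h1 := hab ⟨b, hb⟩ (Subgroup.mem_top _)
    have h2 := congrArg (fun f : End K ↥W => ((f ⟨w, hw⟩ : ↥W) : VK)) h1
    exact h2
  have hpow₁ : ∀ a ∈ Q₁, a ^ q ∈ Z₁ := fun a _ => Subgroup.mem_subgroupOf.mpr (hpow a a.2)
  obtain ⟨m, hm⟩ := card_square hZs₁ (Nat.card Q₁) Q₁ rfl hZQ₁ hZc₁ hcomm₁ hnd₁ hpow₁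
  refine ⟨m, ?_⟩
  have hidx : Z₁.relIndex Q₁ = Z.relIndex Q := by
    rw [Subgroup.relIndex_top_right]
    rfl
  rw [← hidx, hm]

end Eigen

section Numeric

/-- The numerical core of the conclusion. -/
theorem numeric_main {p r D : ℕ} (hp : p.Prime) (hr : r < p) (h : (p - r) * D ^ 2 ≤ r * (p - 1))
    (hmod : D ^ 2 ≡ 1 [MOD p]) (hD : 1 < D) : p = D + 1 ∧ r + 1 = p := by
  obtain ⟨s, rfl⟩ : ∃ s, p = r + 1 + s := ⟨p - r - 1, by omega⟩
  have h1 : r + 1 + s - r = s + 1 := by omega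
  have h2 : r + 1 + s - 1 = r + s := by omega
  rw [h1, h2] at h
  have hDle : D ≤ r + s := by
    by_contra hc
    push Not at hc
    have h3 : (r + s + 1) ^ 2 ≤ D ^ 2 := Nat.pow_le_pow_left hc 2
    nlinarith
  have hdvd : r + 1 + s ∣ (D - 1) * (D + 1) := by
    have h3 : (D - 1) * (D + 1) = D ^ 2 - 1 := by
      obtain ⟨d, rfl⟩ : ∃ d, D = d + 1 := ⟨D - 1, by omega⟩
      simp only [Nat.add_sub_cancel]
      have : (d + 1) ^ 2 = d * (d + 1 + 1) + 1 := by ring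
      omega
    rw [h3]
    exact (Nat.modEq_iff_dvd' (Nat.one_le_pow _ _ (by omega))).mp hmod.symm
  have hD1 : D + 1 = r + 1 + s := by
    rcases (Nat.Prime.dvd_mul hp).mp hdvd with h3 | h3
    · have := Nat.le_of_dvd (by omega) h3
      omega
    · have := Nat.le_of_dvd (by omega) h3
      omega
  refine ⟨by omega, ?_⟩
  -- `s = 0`
  have hDe : D = r + s := by omega
  rw [hDe] at h
  have hpos : 0 < r + s := by omega
  have h3 : (s + 1) * (r + s) ≤ r := by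
    have h4 : ((s + 1) * (r + s)) * (r + s) ≤ r * (r + s) := by
      calc ((s + 1) * (r + s)) * (r + s) = (s + 1) * (r + s) ^ 2 := by ring
        _ ≤ r * (r + s) := h
    exact Nat.le_of_mul_le_mul_right h4 hpos
  by_cases hs : s = 0
  · omega
  · exfalso
    nlinarith [Nat.pos_of_ne_zero hs]

end Numeric

section Main

variable {F : Type*} [Group F] [Finite F] {p q : ℕ} [hpf : Fact p.Prime] [hqf : Fact q.Prime] {M : Type*}
  [AddCommGroup M] [Module (ZMod p) M] [FiniteDimensional (ZMod p) M]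

theorem rhoC_sub_one_pow (ρ : F →* End (ZMod p) M) (x : F) {r : ℕ} (hN : (ρ x - 1) ^ r = 0) :
    (rhoC ρ x - 1) ^ r = 0 := by
  have h1 : rhoC ρ x - 1 = Module.End.baseChangeHom (ZMod p) (KK p) M (ρ x - 1) := by
    rw [map_sub, map_one]
    rfl
  rw [h1, ← map_pow, hN, map_zero]

theorem rhoC_norm (ρ : F →* End (ZMod p) M) (x : F) {r : ℕ} (hrp : r ≤ p - 1) (hN : (ρ x - 1) ^ r = 0) :
    ∀ v, (∑ i ∈ Finset.range p, (rhoC ρ x) ^ i) v = 0 := by
  have h0 : (ρ x - 1) ^ (p - 1) = 0 := pow_eq_zero_of_le hrp hN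
  rw [sub_one_pow_eq_geom p] at h0
  have h1 : ∑ i ∈ Finset.range p, (rhoC ρ x) ^ i = Module.End.baseChangeHom (ZMod p) (KK p) M (∑ i ∈ Finset.range p, (ρ x) ^ i) := by
    rw [map_sum]
    refine Finset.sum_congr rfl fun i _ => ?_
    rw [map_pow]
    rfl
  intro v
  rw [h1, h0, map_zero]
  rfl

/-- **Hall-Higman, Theorem B for an element of order `p`**: a `p`-element `x` with `(x - 1) ^ r = 0`, `r < p`,
in a faithful representation over `F_p`, centralizes every `x`-invariant `q`-subgroup, unless `p = q ^ m + 1` and `r = p - 1`. -/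
theorem centralizes_of_nilp (ρ : F →* End (ZMod p) M) (hρ : Function.Injective ρ) (hqp : q ≠ p)
    (Q₀ : Subgroup F) (x : F) (hqQ : IsPGroup q Q₀) (hxr : x ^ p = 1)
    (hxQ : x ∈ normalizer (Q₀ : Set F)) {r : ℕ} (hrp : r < p) (hN : (ρ x - 1) ^ r = 0)
    (hexc : (∃ m : ℕ, m ≠ 0 ∧ p = q ^ m + 1) → r + 1 = p → ∀ a ∈ Q₀, ∀ b ∈ Q₀, a * b = b * a) :
    ∀ a ∈ Q₀, x * a = a * x := by
  classical
  have hr := hpf.out
  have hp_q : ¬ p ∣ q := fun hd => hqp ((Nat.prime_dvd_prime_iff_eq hpf.out hqf.out).mp hd).symm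
  have hzpcard : Nat.card (zpowers x) ∣ p := by
    rw [Nat.card_zpowers]
    exact orderOf_dvd_of_pow_eq_one hxr
  obtain ⟨kQ, hkQ⟩ := IsPGroup.iff_card.mp hqQ
  set Y : Subgroup F := zpowers x with hY
  have hxY : x ∈ Y := mem_zpowers x
  have hYn : Y ≤ normalizer (Y : Set F) := Subgroup.le_normalizer
  have hYQ : Y ≤ normalizer (Q₀ : Set F) := Subgroup.zpowers_le.mpr hxQ
  have hcop : Nat.Coprime (Nat.card Y) (Nat.card Q₀) := by
    rw [hkQ]
    refine Nat.Coprime.pow_right _ (Nat.Coprime.coprime_dvd_left hzpcard ?_)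
    exact (Nat.coprime_primes hr hqf.out).mpr hqp.symm
  by_contra hcon
  have hne : ¬ Y ≤ centralizer (Q₀ : Set F) := by
    intro hle
    apply hcon
    intro a ha
    exact (Subgroup.mem_centralizer_iff.mp (hle hxY) a ha).symm
  obtain ⟨Q, hQQ₀, hM⟩ := exists_minNC hqQ le_rfl hYn hYQ hcop hne
  have hxQn : x ∈ normalizer (Q : Set F) := hM.hQn hxY
  have hxQ' : ∀ a ∈ Q, x * a * x⁻¹ ∈ Q := fun a ha => (Subgroup.mem_normalizer_iff.mp hxQn a).mp ha
  have hNC : (rhoC ρ x - 1) ^ r = 0 := rhoC_sub_one_pow ρ x hN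
  by_cases hab : ∀ a ∈ Q, ∀ b ∈ Q, a * b = b * a
  · -- the abelian case
    obtain ⟨kQ', hkQ'⟩ := IsPGroup.iff_card.mp hM.hq
    have h1 := ab_case_norm (rhoC ρ) Q hab x hxQn (cast_ne_KK (by
      rw [hkQ']
      exact fun hd => hp_q (hpf.out.dvd_of_dvd_pow hd))) hr hxr (rhoC_norm ρ x (by omega) hN)
    apply hM.hne
    rw [hY, Subgroup.zpowers_le, Subgroup.mem_centralizer_iff]
    intro a ha
    have h3 : (ρ (x * a * x⁻¹ * a⁻¹)).baseChange (KK p) = 1 := by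
      change rhoC ρ (x * a * x⁻¹ * a⁻¹) = 1
      rw [map_mul, h1 a ha, ← map_mul, mul_inv_cancel, map_one]
    have h4 := hρ ((eq_one_of_baseChange (KK p) _ h3).trans (map_one ρ).symm)
    have h5 : x * a = (x * a * x⁻¹ * a⁻¹) * (a * x) := by group
    rw [h5, h4, one_mul]
  · -- the nonabelian case
    set D : Subgroup F := MinNC.D Q Y with hD
    have hDeq : D = ⁅Q, Q⁆ := hM.D_eq
    have hDc : ∀ d ∈ D, ∀ a ∈ Q, d * a = a * d := fun d hd a ha => hM.D_comm hd ha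
    have hDQ : D ≤ Q := inf_le_left
    have hDne : ¬ (∀ z ∈ D, z = 1) := by
      intro hall
      apply hab
      intro a ha b hb
      have h1 := hall _ (hM.comm_mem ha hb)
      exact commutatorElement_eq_one_iff_mul_comm.mp h1
    have hnD : ¬ p ∣ Nat.card ↥D := by
      obtain ⟨kD, hkD⟩ := IsPGroup.iff_card.mp (hM.hq.to_le hDQ)
      rw [hkD]
      exact fun hd => hp_q (hpf.out.dvd_of_dvd_pow hd)
    let σ : ↥D →* End (KK p) (KK p ⊗[ZMod p] M) := (rhoC ρ).comp D.subtype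
    have hσ : ∀ z : ↥D, σ z = rhoC ρ z := fun _ => rfl
    have hcommσ : ∀ n n', σ n * σ n' = σ n' * σ n := by
      intro n n'
      rw [← map_mul, ← map_mul]
      congr 1
      exact Subtype.ext (hDc n n.2 n' (hDQ n'.2))
    obtain ⟨-, htop⟩ := simEig_indep σ hcommσ (cast_ne_KK hnD)
    obtain ⟨χ, hχ0, z₀, hz₀⟩ : ∃ χ : ↥D → KK p, simEig σ χ ≠ ⊥ ∧ ∃ z, χ z ≠ 1 := by
      by_contra hcon2
      push Not at hcon2
      have hall : ∀ z : ↥D, σ z = 1 := by
        intro z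
        have h1 : (⊤ : Submodule (KK p) (KK p ⊗[ZMod p] M)) ≤ LinearMap.ker (σ z - 1) := by
          rw [← htop]
          refine iSup_le fun χ => ?_
          by_cases h0 : simEig σ χ = ⊥
          · rw [h0]
            exact bot_le
          · intro w hw
            have h2 := hcon2 χ h0 z
            have h3 : σ z w = χ z • w := mem_simEig.mp hw z
            rw [LinearMap.mem_ker, LinearMap.sub_apply, h3, h2, one_smul, Module.End.one_apply, sub_self]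
        apply LinearMap.ext
        intro w
        have h2 := h1 (Submodule.mem_top (x := w))
        rw [LinearMap.mem_ker, LinearMap.sub_apply, Module.End.one_apply, sub_eq_zero] at h2
        exact h2
      apply hDne
      intro z hz
      have h1 := eq_one_of_baseChange (KK p) _ (hall ⟨z, hz⟩)
      exact hρ (h1.trans (map_one ρ).symm)
    set W := simEig σ χ with hW
    have hxD : ∀ z ∈ D, x * z * x⁻¹ = z := by
      intro z hz
      have h1 := Subgroup.mem_centralizer_iff.mp hz.2 x hxY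
      rw [h1]
      group
    have hleC : Q ⊔ zpowers x ≤ centralizer (D : Set F) := by
      refine sup_le ?_ ?_
      · intro a ha
        rw [Subgroup.mem_centralizer_iff]
        intro b hb
        exact hDc b hb a ha
      · rw [Subgroup.zpowers_le, Subgroup.mem_centralizer_iff]
        intro b hb
        calc b * x = (x * b * x⁻¹) * x := by rw [hxD b hb]
          _ = x * b := by group
    have hCinv : ∀ g ∈ centralizer (D : Set F), ∀ w ∈ W, rhoC ρ g w ∈ W := by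
      intro g hg w hw
      rw [hW, mem_simEig]
      intro z
      have h1 := mem_simEig.mp hw z
      rw [hσ, ← Module.End.mul_apply, ← map_mul, (Subgroup.mem_centralizer_iff.mp hg z z.2), map_mul, Module.End.mul_apply,
        ← hσ, h1, map_smul]
    obtain ⟨R, hR⟩ := exists_radical (rhoC ρ) W Q D hDc (fun a ha b hb => hM.comm_mem ha hb)
    have hRQ : R ≤ Q := fun a ha => ((hR a).mp ha).1
    have hRn : Y ≤ normalizer (R : Set F) := by
      rw [hY, Subgroup.zpowers_le]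
      apply Cfsg.Agent.Lib.Coprime.mem_normalizer_of_conj_le
      intro a ha
      obtain ⟨ha1, ha2⟩ := (hR a).mp ha
      refine (hR _).mpr ⟨hxQ' a ha1, fun b hb w hw => ?_⟩
      have hb' : x⁻¹ * b * x ∈ Q := by
        have := (Subgroup.mem_normalizer_iff.mp (inv_mem hxQn) b).mp hb
        simpa using this
      have h1 : ⁅x * a * x⁻¹, b⁆ = ⁅a, x⁻¹ * b * x⁆ := by
        rw [← hxD _ (hM.comm_mem ha1 hb')]
        simp only [commutatorElement_def]
        group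
      rw [h1]
      exact ha2 _ hb' w hw
    have hRne : R ≠ Q := by
      intro hRQ'
      -- the stabilizer of `W` pointwise contains `[Q, Q]`
      let T : Subgroup F :=
        { carrier := {g | ∀ w ∈ W, rhoC ρ g w = w}
          mul_mem' := fun {g h} hg hh w hw => by
            rw [map_mul, Module.End.mul_apply, hh w hw, hg w hw]
          one_mem' := fun w _ => by rw [map_one, Module.End.one_apply]
          inv_mem' := fun {g} hg w hw => by
            conv_lhs => rw [← hg w hw]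
            rw [← Module.End.mul_apply, ← map_mul, inv_mul_cancel, map_one, Module.End.one_apply] }
      have hle : ⁅Q, Q⁆ ≤ T := by
        rw [Subgroup.commutator_le]
        intro a ha b hb w hw
        have ha' : a ∈ R := hRQ' ▸ ha
        exact ((hR a).mp ha').2 b hb w hw
      obtain ⟨w₀, hw₀, hw₀0⟩ := Submodule.exists_mem_ne_zero_of_ne_bot hχ0
      have hz₀T : (z₀ : F) ∈ T := hle (hDeq ▸ z₀.2)
      have h1 : rhoC ρ z₀ w₀ = w₀ := hz₀T w₀ hw₀
      have h2 : rhoC ρ z₀ w₀ = χ z₀ • w₀ := mem_simEig.mp hw₀ z₀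
      rw [h1] at h2
      have h3 : (1 : KK p) • w₀ = χ z₀ • w₀ := by rw [one_smul]; exact h2
      exact hz₀ (smul_left_injective (KK p) hw₀0 h3).symm
    have hfpfD : ∀ a ∈ Q, x * a * x⁻¹ * a⁻¹ ∈ D → a ∈ D := fun a ha hc => hM.fpf ha (by
        intro s hs
        have hpowD : ∀ n : ℕ, x ^ n * a * (x ^ n)⁻¹ * a⁻¹ ∈ D := by
          intro n
          induction n with
          | zero => simp [one_mem]
          | succ n ih =>
            have h1 : x ^ (n + 1) * a * (x ^ (n + 1))⁻¹ * a⁻¹ =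
                x * (x ^ n * a * (x ^ n)⁻¹ * a⁻¹) * x⁻¹ * (x * a * x⁻¹ * a⁻¹) := by
              rw [pow_succ']
              group
            rw [h1, hxD _ ih]
            exact mul_mem ih hc
        obtain ⟨n, rfl⟩ := exists_pow_of_mem_zpowers hs
        have h2 : a * x ^ n * a⁻¹ * (x ^ n)⁻¹ = (x ^ n * a * (x ^ n)⁻¹ * a⁻¹)⁻¹ := by group
        rw [h2]
        exact inv_mem (hpowD n))
    have hfpfk : ∀ k : ℕ, x ^ k ≠ 1 → ∀ a ∈ Q, x ^ k * a * (x ^ k)⁻¹ * a⁻¹ ∈ D → a ∈ D := by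
      intro k hk a ha hc
      have hnd : ¬ p ∣ k := by
        rintro ⟨j, rfl⟩
        apply hk
        rw [pow_mul, hxr, one_pow]
      have hcop' : Nat.Coprime k p := ((Nat.Prime.coprime_iff_not_dvd hr).2 hnd).symm
      obtain ⟨m, -, hm⟩ := Nat.exists_mul_mod_eq_one_of_coprime hcop' hr.one_lt
      apply hfpfD a ha
      have hxkD : ∀ z ∈ D, x ^ k * z * (x ^ k)⁻¹ = z := by
        intro z hz
        have h1 : ∀ j : ℕ, x ^ j * z * (x ^ j)⁻¹ = z := by
          intro j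
          induction j with
          | zero => simp
          | succ j ih =>
            have h2 : x ^ (j + 1) * z * (x ^ (j + 1))⁻¹ = x * (x ^ j * z * (x ^ j)⁻¹) * x⁻¹ := by
              rw [pow_succ']
              group
            rw [h2, ih, hxD z hz]
        exact h1 k
      have hit : ∀ j : ℕ, (x ^ k) ^ j * a * ((x ^ k) ^ j)⁻¹ * a⁻¹ ∈ D := by
        intro j
        induction j with
        | zero => simp [one_mem]
        | succ j ih =>
          have h1 : (x ^ k) ^ (j + 1) * a * ((x ^ k) ^ (j + 1))⁻¹ * a⁻¹ =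
              x ^ k * ((x ^ k) ^ j * a * ((x ^ k) ^ j)⁻¹ * a⁻¹) * (x ^ k)⁻¹ * (x ^ k * a * (x ^ k)⁻¹ * a⁻¹) := by
            rw [pow_succ']
            group
          rw [h1, hxkD _ ih]
          exact mul_mem ih hc
      have h1 := hit m
      rw [← pow_mul] at h1
      have h2 : x ^ (k * m) = x := by
        rw [pow_eq_pow_mod (k * m) hxr, hm, pow_one]
      rwa [h2] at h1
    obtain ⟨a₀, ha₀, ha₀D⟩ := hM.exists_not_mem_D
    have hx1 : x ≠ 1 := by
      rintro rfl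
      apply ha₀D
      apply hfpfD a₀ ha₀
      simp [D.one_mem]
    have hord : orderOf x = p := orderOf_eq_prime hxr hx1
    have hKQ : (Nat.card Q : KK p) ≠ 0 := by
      apply cast_ne_KK
      obtain ⟨kQ', hkQ'⟩ := IsPGroup.iff_card.mp hM.hq
      rw [hkQ']
      exact fun hd => hp_q (hpf.out.dvd_of_dvd_pow hd)
    have hnum := eigen_cl (rhoC ρ) Q D x W hχ0 hKQ (fun g hg w hw => hCinv g (hleC hg) w hw)
      (fun z hz => ⟨χ ⟨z, hz⟩, fun w hw => mem_simEig.mp hw ⟨z, hz⟩⟩) hDQ (fun a ha b hb => hM.comm_mem ha hb)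
      (fun a ha hab' => hM.le_D hRQ hRn hRne ((hR a).mpr ⟨ha, hab'⟩)) hxQ' hfpfk hM.exists_not_mem_D
      (r := r) (fun w _ => by rw [hNC]; rfl)
    rw [hord] at hnum
    -- the square
    obtain ⟨m, hm⟩ := eigen_square (q := q) (rhoC ρ) Q D W hχ0 (fun g hg w hw => hCinv g (hleC (le_sup_left (a := Q) hg)) w hw)
      (fun z hz => ⟨χ ⟨z, hz⟩, fun w hw => mem_simEig.mp hw ⟨z, hz⟩⟩) hDQ hDc (fun a ha b hb => hM.comm_mem ha hb)
      (fun a ha hab' => hM.le_D hRQ hRn hRne ((hR a).mpr ⟨ha, hab'⟩)) (fun a ha => hM.pow_mem_D ha)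
    have hmod := relIndex_modEq_one (Q := Q) (Z := D) (x := x) (r := p) hxr hDQ hDc hxQ'
      (fun z hz => by rw [hxD z hz]; exact hz) hfpfD
    have hD2 : D.relIndex Q = (q ^ m) ^ 2 := by
      rw [hm]
      ring
    rw [hD2] at hnum hmod
    have hm0 : m ≠ 0 := by
      rintro rfl
      simp only [pow_zero, one_pow] at hD2
      exact ha₀D (Subgroup.relIndex_eq_one.mp hD2 ha₀)
    have hgt : 1 < q ^ m := Nat.one_lt_pow hm0 (hqf.out.one_lt)
    obtain ⟨h1, h2⟩ := numeric_main hr hrp hnum hmod hgt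
    apply hab
    intro a ha b hb
    exact hexc ⟨m, hm0, h1⟩ h2 a (hQQ₀ ha) b (hQQ₀ hb)

end Main

end Cfsg.Agent.Lib.Coprime.HHB
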