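import Cfsg.Agent.Lib.Coprime.HHB2

/-!
Hall-Higman Theorem B (order `p`), modulo the kernel, and for automorphisms of an elementary abelian group.
-/

set_option autoImplicit false
set_option linter.unusedSectionVars false
set_option linter.style.haveILetI false

namespace Cfsg.Agent.Lib.Coprime.HHB

open Module Subgroup Cfsg Cfsg.Agent.Lib.FT TensorProduct Cfsg.Agent.Lib.Coprime.HHFix
open scoped commutatorElement

section Main

variable {F : Type*} [Group F] [Finite F] {p q : ℕ} [hpf : Fact p.Prime] [hqf : Fact q.Prime] {M : Type*}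
  [AddCommGroup M] [Module (ZMod p) M] [FiniteDimensional (ZMod p) M]

theorem comm_of_nilp_aux {Fb : Type*} [Group Fb] [Finite Fb] (π : F →* Fb) (ρb : Fb →* End (ZMod p) M)
    (hρb : Function.Injective ρb) (ρ : F →* End (ZMod p) M) (hcomp : ∀ g : F, ρb (π g) = ρ g) (hqp : q ≠ p)
    (Q₀ : Subgroup F) (x : F) (hqQ : IsPGroup q Q₀) (hxp : ρ (x ^ p) = 1)
    (hxQ : x ∈ normalizer (Q₀ : Set F)) {r : ℕ} (hrp : r < p) (hN : (ρ x - 1) ^ r = 0)
    (hexc : (∃ m : ℕ, m ≠ 0 ∧ p = q ^ m + 1) → r + 1 = p → False) :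
    ∀ a ∈ Q₀, ρ (x * a * x⁻¹) = ρ a := by
  have hQb : IsPGroup q ↥(Q₀.map π) := hqQ.map π
  have hxb : π x ∈ normalizer ((Q₀.map π : Subgroup Fb) : Set Fb) := by
    apply Cfsg.Agent.Lib.Coprime.mem_normalizer_of_conj_le
    rintro _ ⟨a, ha, rfl⟩
    refine ⟨x * a * x⁻¹, (Subgroup.mem_normalizer_iff.mp hxQ a).mp ha, ?_⟩
    simp only [map_mul, map_inv]
  have hxpb : π x ^ p = 1 := by
    apply hρb
    rw [map_one, ← map_pow, hcomp, hxp]
  have h1 := centralizes_of_nilp ρb hρb hqp (Q₀.map π) (π x) hQb hxpb hxb hrp (by rw [hcomp]; exact hN)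
    (fun h3 h4 => (hexc h3 h4).elim)
  intro a ha
  have h2 := h1 (π a) ⟨a, ha, rfl⟩
  have h3 : ρb (π x * π a * (π x)⁻¹) = ρb (π a) := by
    rw [h2]
    congr 1
    group
  rw [← map_inv, ← map_mul, ← map_mul, hcomp, hcomp] at h3
  exact h3

/-- **Theorem B for order `p`**, modulo the kernel. -/
theorem comm_of_nilp (ρ : F →* End (ZMod p) M) (hqp : q ≠ p)
    (Q₀ : Subgroup F) (x : F) (hqQ : IsPGroup q Q₀) (hxp : ρ (x ^ p) = 1)
    (hxQ : x ∈ normalizer (Q₀ : Set F)) {r : ℕ} (hrp : r < p) (hN : (ρ x - 1) ^ r = 0)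
    (hexc : (∃ m : ℕ, m ≠ 0 ∧ p = q ^ m + 1) → r + 1 = p → False) :
    ∀ a ∈ Q₀, ρ (x * a * x⁻¹) = ρ a :=
  comm_of_nilp_aux (QuotientGroup.mk' ρ.ker) (QuotientGroup.lift ρ.ker ρ (fun _ hx => hx)) (by
      intro a b
      induction a using QuotientGroup.induction_on with
      | H a =>
        induction b using QuotientGroup.induction_on with
        | H b =>
          intro h
          have h1 : ρ a = ρ b := h
          refine QuotientGroup.eq.mpr ?_
          rw [MonoidHom.mem_ker, map_mul, ← h1, ← map_mul, inv_mul_cancel, map_one]) ρ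
    (fun _ => rfl) hqp Q₀ x hqQ hxp hxQ hrp hN hexc

end Main

section Abstract

variable {p : ℕ} [hpf : Fact p.Prime] {A : Type*} [CommGroup A] [Module (ZMod p) (Additive A)]

/-- The linear operator attached to an endomorphism. -/
def linOf (p : ℕ) [Fact p.Prime] [Module (ZMod p) (Additive A)] (φ : A →* A) : End (ZMod p) (Additive A) :=
  (MonoidHom.toAdditive φ).toZModLinearMap p

/-- The operator `a ↦ φ a * a⁻¹`. -/
def dlt (φ : A → A) (a : A) : A := φ a * a⁻¹

@[simp] theorem linOf_apply (φ : A →* A) (a : A) : linOf p φ (Additive.ofMul a) = Additive.ofMul (φ a) := rfl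

theorem linOf_sub_one (φ : A →* A) (a : A) :
    (linOf p φ - 1) (Additive.ofMul a) = Additive.ofMul (dlt φ a) := by
  rw [LinearMap.sub_apply, linOf_apply, Module.End.one_apply, dlt, ofMul_mul, ofMul_inv, sub_eq_add_neg]

theorem linOf_pow (φ : A →* A) (i : ℕ) (a : A) :
    ((linOf p φ - 1) ^ i) (Additive.ofMul a) = Additive.ofMul ((dlt φ)^[i] a) := by
  induction i generalizing a with
  | zero => simp
  | succ i ih =>
    rw [pow_succ, Module.End.mul_apply, linOf_sub_one, ih, Function.iterate_succ_apply]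

theorem linOf_mul (φ ψ : A →* A) : linOf p (φ.comp ψ) = linOf p φ * linOf p ψ := rfl

theorem linOf_iter (φ : A →* A) (i : ℕ) (a : A) :
    ((linOf p φ) ^ i) (Additive.ofMul a) = Additive.ofMul (φ^[i] a) := by
  induction i generalizing a with
  | zero => simp
  | succ i ih =>
    rw [pow_succ, Module.End.mul_apply, linOf_apply, ih, Function.iterate_succ_apply]

/-- The norm is the `(p - 1)`-st iterate of `dlt`. -/
theorem prod_iter_eq_dlt (φ : A →* A) (a : A) :
    ∏ i ∈ Finset.range p, φ^[i] a = (dlt φ)^[p - 1] a := by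
  have h1 := sub_one_pow_eq_geom p (linOf p φ)
  have h2 := congrArg (fun f : End (ZMod p) (Additive A) => f (Additive.ofMul a)) h1
  simp only [LinearMap.sum_apply] at h2
  rw [linOf_pow] at h2
  simp only [linOf_iter] at h2
  rw [← ofMul_prod] at h2
  exact (Additive.ofMul.injective h2).symm

theorem dlt_mul (φ : A →* A) (a b : A) : dlt φ (a * b) = dlt φ a * dlt φ b := by
  simp only [dlt, map_mul, mul_inv]
  exact mul_mul_mul_comm _ _ _ _

/-- The iterates of `dlt` are multiplicative. -/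
theorem dlt_iter_mul (φ : A →* A) (i : ℕ) (a b : A) : (dlt φ)^[i] (a * b) = (dlt φ)^[i] a * (dlt φ)^[i] b := by
  induction i generalizing a b with
  | zero => rfl
  | succ i ih => rw [Function.iterate_succ_apply, Function.iterate_succ_apply, Function.iterate_succ_apply, dlt_mul, ih]

theorem dlt_iter_one (φ : A →* A) (i : ℕ) : (dlt φ)^[i] (1 : A) = 1 := by
  induction i with
  | zero => rfl
  | succ i ih =>
    rw [Function.iterate_succ_apply]
    have h : dlt φ 1 = 1 := by simp [dlt]
    rw [h, ih]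

theorem dlt_iter_pow (φ : A →* A) (i n : ℕ) (a : A) : (dlt φ)^[i] (a ^ n) = ((dlt φ)^[i] a) ^ n := by
  induction n with
  | zero => simp [dlt_iter_one]
  | succ n ih => rw [pow_succ, pow_succ, dlt_iter_mul, ih]

theorem dlt_iter_inv (φ : A →* A) (i : ℕ) (a : A) : (dlt φ)^[i] a⁻¹ = ((dlt φ)^[i] a)⁻¹ := by
  have h1 := dlt_iter_mul φ i a⁻¹ a
  rw [inv_mul_cancel, dlt_iter_one] at h1
  exact (eq_inv_of_mul_eq_one_left h1.symm)

end Abstract

section Aut

variable {F : Type*} [Group F] [Finite F] {p q : ℕ} [hpf : Fact p.Prime] [hqf : Fact q.Prime]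

theorem comm_of_nilp_aut_aux {A : Type*} [CommGroup A] [Finite A] [Module (ZMod p) (Additive A)] (α : F →* MulAut A)
    (hqp : q ≠ p) (Q₀ : Subgroup F) (x : F) (hqQ : IsPGroup q Q₀) (hxp : α (x ^ p) = 1)
    (hxQ : x ∈ normalizer (Q₀ : Set F)) {r : ℕ} (hrp : r < p) (hN : ∀ a : A, (dlt (α x))^[r] a = 1)
    (hexc : (∃ m : ℕ, m ≠ 0 ∧ p = q ^ m + 1) → r + 1 = p → False) :
    ∀ a ∈ Q₀, α (x * a * x⁻¹) = α a := by
  classical
  haveI hFinA : Finite (Additive A) := inferInstanceAs (Finite A)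
  haveI hFD : FiniteDimensional (ZMod p) (Additive A) := Module.Finite.of_finite
  let f : F → End (ZMod p) (Additive A) := fun g => linOf p (α g).toMonoidHom
  have hf : ∀ (g : F) (a : Additive A), f g a = Additive.ofMul (α g (Additive.toMul a)) := fun _ _ => rfl
  let ρ : F →* End (ZMod p) (Additive A) :=
    { toFun := f
      map_one' := LinearMap.ext fun x => by
        rw [hf, Module.End.one_apply]
        simp
      map_mul' := fun a b => LinearMap.ext fun x => by
        rw [Module.End.mul_apply, hf, hf, hf]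
        simp }
  have hρ : ∀ (g : F) (a : A), ρ g (Additive.ofMul a) = Additive.ofMul (α g a) := fun _ _ => rfl
  have hρα : ∀ g g' : F, ρ g = ρ g' → α g = α g' := by
    intro g g' h
    ext c
    have h3 : ρ g (Additive.ofMul c) = ρ g' (Additive.ofMul c) := by rw [h]
    rw [hρ, hρ] at h3
    exact Additive.ofMul.injective h3
  have h1 := comm_of_nilp ρ hqp Q₀ x hqQ (q := q) (by
      apply LinearMap.ext
      intro a
      rw [Module.End.one_apply]
      have := hρ (x ^ p) (Additive.toMul a)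
      rw [hxp] at this
      exact this) hxQ hrp (by
      apply LinearMap.ext
      intro a
      have h2 := linOf_pow (p := p) (α x).toMonoidHom r (Additive.toMul a)
      have h3 := hN (Additive.toMul a)
      change ((dlt (α x).toMonoidHom)^[r] (Additive.toMul a)) = 1 at h3
      rw [h3, ofMul_one] at h2
      exact h2) hexc
  intro a ha
  exact hρα _ _ (h1 a ha)

/-- **Theorem B for order `p`**, for automorphisms of an elementary abelian group. -/
theorem comm_of_nilp_aut {A : Type*} [Group A] [Finite A] (hAc : ∀ a b : A, a * b = b * a) (hAe : ∀ a : A, a ^ p = 1)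
    (α : F →* MulAut A) (hqp : q ≠ p) (Q₀ : Subgroup F) (x : F) (hqQ : IsPGroup q Q₀) (hxp : α (x ^ p) = 1)
    (hxQ : x ∈ normalizer (Q₀ : Set F)) {r : ℕ} (hrp : r < p)
    (hN : ∀ a : A, (fun b => α x b * b⁻¹)^[r] a = 1)
    (hexc : (∃ m : ℕ, m ≠ 0 ∧ p = q ^ m + 1) → r + 1 = p → False) :
    ∀ a ∈ Q₀, α (x * a * x⁻¹) = α a := by
  letI : CommGroup A := { (inferInstance : Group A) with mul_comm := hAc }
  letI : Module (ZMod p) (Additive A) := AddCommGroup.zmodModule (n := p) (fun x => by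
    change Additive.ofMul ((Additive.toMul x) ^ p) = 0
    rw [hAe]
    rfl)
  exact comm_of_nilp_aut_aux α hqp Q₀ x hqQ hxp hxQ hrp hN hexc

end Aut

end Cfsg.Agent.Lib.Coprime.HHB
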