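import Cfsg.Agent.Lib.Coprime.HHB3
import Cfsg.Agent.Lib.Coprime.PLen
import Cfsg.Agent.Lib.OddLocal.CoprimeFix
import Cfsg.Agent.Lib.Basic.Frattini

/-!
The tower argument of Hall-Higman for the derived length.
-/

set_option autoImplicit false
set_option linter.unusedSectionVars false
set_option linter.style.haveILetI false

namespace Cfsg.Agent.Lib.Coprime.HHB

open Module Subgroup Cfsg Cfsg.Agent.Lib.FT TensorProduct Cfsg.Agent.Lib.Coprime.HHFix Cfsg.Agent.Lib.Coprime.PLen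
open scoped commutatorElement

section Count

variable {G : Type*} [Group G] [Finite G]

/-- A fixed-point-free automorphism of prime order `r` on a quotient: the index is `1 mod r`. -/
theorem relIndex_modEq_one' {Q Z : Subgroup G} {x : G} {r : ℕ} [hr : Fact r.Prime] (hxr : x ^ r = 1)
    (hZQ : Z ≤ Q) (hZn : ∀ z ∈ Z, ∀ a ∈ Q, a * z * a⁻¹ ∈ Z) (hxQ : ∀ a ∈ Q, x * a * x⁻¹ ∈ Q)
    (hxZ : ∀ z ∈ Z, x * z * x⁻¹ ∈ Z) (hfpf : ∀ a ∈ Q, x * a * x⁻¹ * a⁻¹ ∈ Z → a ∈ Z) :
    Z.relIndex Q ≡ 1 [MOD r] := by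
  classical
  let Z' : Subgroup ↥Q := Z.subgroupOf Q
  haveI hn : Z'.Normal := by
    constructor
    intro n hn g
    rw [Subgroup.mem_subgroupOf] at hn ⊢
    exact hZn n hn g g.2
  let τ : ↥Q →* ↥Q :=
    { toFun := fun a => ⟨x * a * x⁻¹, hxQ a a.2⟩
      map_one' := Subtype.ext (by simp)
      map_mul' := fun a b => Subtype.ext (by
        change x * ((a : G) * b) * x⁻¹ = (x * a * x⁻¹) * (x * b * x⁻¹)
        group) }
  have hτ : Z' ≤ Z'.comap τ := by
    intro z hz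
    rw [Subgroup.mem_comap, Subgroup.mem_subgroupOf]
    exact hxZ z (Subgroup.mem_subgroupOf.mp hz)
  let f : ↥Q ⧸ Z' →* ↥Q ⧸ Z' := QuotientGroup.map Z' Z' τ hτ
  let g : Function.End (↥Q ⧸ Z') := fun y => f y
  have hg : ∀ (n : ℕ) (a : ↥Q), ∃ b : ↥Q, (g ^ n) (a : ↥Q ⧸ Z') = (b : ↥Q ⧸ Z') ∧ (b : G) = x ^ n * a * (x ^ n)⁻¹ := by
    intro n a
    induction n with
    | zero =>
      exact ⟨a, rfl, by simp⟩
    | succ n ih =>
      obtain ⟨b, hb, hb2⟩ := ih
      refine ⟨τ b, ?_, ?_⟩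
      · rw [pow_succ']
        change g ((g ^ n) (a : ↥Q ⧸ Z')) = _
        rw [hb]
        rfl
      · change x * b * x⁻¹ = _
        rw [hb2]
        group
  have hgr : g ^ r ^ 1 = 1 := by
    rw [pow_one]
    funext y
    induction y using QuotientGroup.induction_on with
    | H a =>
      obtain ⟨b, hb, hb2⟩ := hg r a
      rw [hb]
      have : b = a := by
        apply Subtype.ext
        rw [hb2, hxr]
        simp
      rw [this]
      rfl
  letI : Fintype (↥Q ⧸ Z') := Fintype.ofFinite _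
  have hfix : ∀ (inst : Fintype (Function.fixedPoints g)), @Fintype.card _ inst = 1 := by
    intro inst
    rw [Fintype.card_eq_one_iff]
    refine ⟨⟨1, (map_one f : g 1 = 1)⟩, ?_⟩
    rintro ⟨y, hy⟩
    apply Subtype.ext
    induction y using QuotientGroup.induction_on with
    | H a =>
      have h0 : Function.IsFixedPt g (a : ↥Q ⧸ Z') := hy
      have h1 : ((τ a : ↥Q) : ↥Q ⧸ Z') = (a : ↥Q ⧸ Z') := h0
      have h2 := QuotientGroup.eq.mp h1.symm
      rw [Subgroup.mem_subgroupOf] at h2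
      have h3 : (a : G)⁻¹ * (x * a * x⁻¹) ∈ Z := h2
      have h4 : x * a * x⁻¹ * (a : G)⁻¹ ∈ Z := by
        have h5 : x * a * x⁻¹ * (a : G)⁻¹ = a * ((a : G)⁻¹ * (x * a * x⁻¹)) * (a : G)⁻¹ := by group
        rw [h5]
        exact hZn _ h3 a a.2
      have h6 := hfpf a a.2 h4
      exact (QuotientGroup.eq_one_iff a).mpr (Subgroup.mem_subgroupOf.mpr h6)
  have hm := Equiv.Perm.card_fixedPoints_modEq (f := g) (p := r) (n := 1) hgr
  rw [hfix] at hm
  have hc : Z.relIndex Q = Fintype.card (↥Q ⧸ Z') := by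
    rw [Subgroup.relIndex, Subgroup.index, Nat.card_eq_fintype_card]
  rw [hc]
  exact hm

end Count

section Generic

variable {K S N E : Type*} [Field K] [IsAlgClosed K] [AddCommGroup S] [Module K S] [FiniteDimensional K S]
  [Group N] [Finite N] [Group E]

/-- The abelian case, in generic form. -/
theorem ab_generic (σ : N →* End K S) (τ : E →* End K S) (θ : E →* MulAut N)
    (hcomm : ∀ n n', σ n * σ n' = σ n' * σ n) (hcompat : ∀ e n, τ e * σ n = σ (θ e n) * τ e)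
    (hK : (Nat.card N : K) ≠ 0) {x : E} {r : ℕ} (hr : r.Prime) (hxr : x ^ r = 1)
    (hnorm : ∀ v : S, (∑ i ∈ Finset.range r, (τ x) ^ i) v = 0) (n : N) : σ (θ x n) = σ n := by
  obtain ⟨hind, htop⟩ := simEig_indep σ hcomm hK
  have hfixed : ∀ χ : N → K, simEig σ χ ≠ ⊥ → twist θ x χ = χ := by
    intro χ hχ
    by_contra hne
    obtain ⟨v, hv, hv0⟩ := Submodule.exists_mem_ne_zero_of_ne_bot hχ
    exact hv0 (fix_key hind hcompat hr hxr hne hv (Submodule.zero_mem _) (hnorm v))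
  refine eq_of_forall_simEig htop ?_
  intro χ hχ v hv
  rw [mem_simEig] at hv
  rw [hv, hv]
  have h1 := congrFun (hfixed χ hχ) (θ x n)
  rw [twist_apply] at h1
  have h2 : θ x⁻¹ (θ x n) = n := by
    rw [← MulAut.mul_apply, ← map_mul, inv_mul_cancel, map_one]
    rfl
  rw [h2] at h1
  rw [h1]

end Generic

section Tower

variable {F K V : Type*} [Group F] [Finite F] [Field K] [AddCommGroup V] [Module K V]

/-- The operator `(ρ x_{i+n-1} - 1) ⋯ (ρ x_i - 1)`. -/
def bOp (ρ : F →* End K V) (x : ℕ → F) : ℕ → ℕ → End K V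
  | 0, _ => 1
  | n + 1, i => bOp ρ x n (i + 1) * (ρ (x i) - 1)

theorem exists_outside {p : ℕ} [Fact p.Prime] (S T : Subgroup F) (hS : IsPGroup p S) (hne : ¬ S ≤ T) :
    ∃ x ∈ S, ∀ g ∈ ⁅S, S⁆, g * x ∉ T := by
  classical
  let T' : Subgroup ↥S := T.subgroupOf S
  have hT' : T' ≠ ⊤ := by
    intro h
    apply hne
    intro y hy
    have : (⟨y, hy⟩ : ↥S) ∈ T' := by rw [h]; exact mem_top _
    exact Subgroup.mem_subgroupOf.mp this
  obtain ⟨M, hM, hTM⟩ := Cfsg.Agent.Lib.Basic.exists_isCoatom_ge hT'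
  haveI := hS.isNilpotent
  have hcomm := Cfsg.Agent.Lib.Basic.commutator_le_of_isCoatom_of_isNilpotent hM
  obtain ⟨x, hx⟩ : ∃ x, x ∉ M := by
    by_contra hcon
    push Not at hcon
    exact hM.1 (eq_top_iff.mpr fun y _ => hcon y)
  refine ⟨x, x.2, ?_⟩
  intro g hg hgx
  have hgS : g ∈ S := by
    have h1 : ⁅S, S⁆ ≤ S := Subgroup.commutator_le.mpr fun a ha b hb => by
      rw [commutatorElement_def]
      exact mul_mem (mul_mem (mul_mem ha hb) (inv_mem ha)) (inv_mem hb)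
    exact h1 hg
  have hgM : (⟨g, hgS⟩ : ↥S) ∈ M := by
    have h1 : ⁅S, S⁆ ≤ (M.map S.subtype) := by
      rw [Subgroup.commutator_le]
      intro a ha b hb
      refine ⟨⁅(⟨a, ha⟩ : ↥S), (⟨b, hb⟩ : ↥S)⁆, hcomm (Subgroup.commutator_mem_commutator (mem_top _) (mem_top _)), rfl⟩
    obtain ⟨g', hg', hgg⟩ := h1 hg
    have : g' = ⟨g, hgS⟩ := Subtype.ext hgg
    rwa [this] at hg'
  have h2 : (⟨g, hgS⟩ : ↥S) * x ∈ M := hTM (Subgroup.mem_subgroupOf.mpr hgx)
  exact hx ((M.mul_mem_cancel_left hgM).mp h2)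

/-- **The tower**. -/
theorem tower {p : ℕ} [Fact p.Prime] (ρ : F →* End K V) (Y T : Subgroup F) (hY : IsPGroup p Y) (N : ℕ)
    (hN : ¬ D Y N ≤ T) :
    ∃ x : ℕ → F, (∀ i, x i ∈ D Y i) ∧ ∀ n i, i + n ≤ N + 1 → ∃ ε : K, ε ≠ 0 ∧
      ∃ A ∈ Submodule.span K (ρ '' {g | g ∈ D Y i ∧ g ∉ T}), bOp ρ x n i = ε • 1 + A := by
  classical
  have hanti : ∀ i k, D Y (i + k) ≤ D Y i := by
    intro i k
    rw [← D_add]
    exact D_le _ _
  have hex : ∀ i, ∃ x ∈ D Y i, i ≤ N → ∀ g ∈ D Y (i + 1), g * x ∉ T := by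
    intro i
    by_cases hi : i ≤ N
    · have hne : ¬ D Y i ≤ T := by
        intro h
        apply hN
        obtain ⟨k, rfl⟩ := Nat.exists_eq_add_of_le hi
        exact (hanti i k).trans h
      obtain ⟨x, hx, hx2⟩ := exists_outside (D Y i) T (hY.to_le (D_le _ _)) hne
      exact ⟨x, hx, fun _ g hg => hx2 g hg⟩
    · exact ⟨1, one_mem _, fun h => absurd h hi⟩
  choose x hx hx2 using hex
  refine ⟨x, hx, ?_⟩
  intro n
  induction n with
  | zero =>
    intro i _
    refine ⟨1, one_ne_zero, 0, Submodule.zero_mem _, ?_⟩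
    simp [bOp]
  | succ n ih =>
    intro i hi
    obtain ⟨ε, hε, A, hA, hb⟩ := ih (i + 1) (by omega)
    have hiN : i ≤ N := by omega
    have hxT := hx2 i hiN
    set sp : Submodule K (End K V) := Submodule.span K (ρ '' {g | g ∈ D Y i ∧ g ∉ T}) with hsp
    have hx₀ : ρ (x i) ∈ sp := by
      apply Submodule.subset_span
      refine ⟨x i, ⟨hx i, ?_⟩, rfl⟩
      have := hxT 1 (one_mem _)
      rwa [one_mul] at this
    have hmul : A * ρ (x i) ∈ sp := by
      have h1 : (Submodule.span K (ρ '' {g | g ∈ D Y (i + 1) ∧ g ∉ T})).map (LinearMap.mulRight K (ρ (x i))) ≤ sp := by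
        rw [Submodule.map_span, Submodule.span_le]
        rintro _ ⟨_, ⟨g, ⟨hg1, hg2⟩, rfl⟩, rfl⟩
        apply Submodule.subset_span
        refine ⟨g * x i, ⟨mul_mem (hanti i 1 hg1) (hx i), hxT g hg1⟩, ?_⟩
        rw [map_mul]
        rfl
      exact h1 ⟨A, hA, rfl⟩
    have hA' : A ∈ sp := by
      have h1 : Submodule.span K (ρ '' {g | g ∈ D Y (i + 1) ∧ g ∉ T}) ≤ sp := by
        apply Submodule.span_mono
        apply Set.image_mono
        rintro g ⟨hg1, hg2⟩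
        exact ⟨hanti i 1 hg1, hg2⟩
      exact h1 hA
    refine ⟨-ε, neg_ne_zero.mpr hε, ε • ρ (x i) + A * ρ (x i) - A, ?_, ?_⟩
    · exact sp.sub_mem (sp.add_mem (sp.smul_mem _ hx₀) hmul) hA'
    · change bOp ρ x n (i + 1) * (ρ (x i) - 1) = _
      rw [hb]
      simp only [add_mul, mul_sub, smul_mul_assoc, one_mul, mul_one, neg_smul]
      abel

end Tower

section Coset

variable {F : Type*} [Group F] [Finite F]

/-- A `3`-group acting on the four cosets: the commutators act trivially. -/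
theorem coset_comm (B Q R : Subgroup F) (hB : IsPGroup 3 B) (hBQ : ∀ g ∈ B, ∀ b ∈ Q, g * b * g⁻¹ ∈ Q)
    (hBR : ∀ g ∈ B, ∀ r ∈ R, g * r * g⁻¹ ∈ R) (hI : R.relIndex Q = 4)
    (hRn : ∀ r ∈ R, ∀ b ∈ Q, b * r * b⁻¹ ∈ R) {a : F} (ha : a ∈ ⁅B, B⁆) {b : F} (hb : b ∈ Q) : a * b * a⁻¹ * b⁻¹ ∈ R := by
  classical
  haveI : Fact (Nat.Prime 3) := ⟨Nat.prime_three⟩
  let R' : Subgroup ↥Q := R.subgroupOf Q
  haveI hR' : R'.Normal := by
    constructor
    intro n hn g
    rw [Subgroup.mem_subgroupOf] at hn ⊢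
    exact hRn n hn g g.2
  let θ : ↥B →* MulAut ↥Q := conjOn B Q hBQ
  have hθ : ∀ (g : ↥B) (y : ↥Q), ((θ g y : ↥Q) : F) = g * y * (g : F)⁻¹ := fun _ _ => rfl
  have hle : ∀ g : ↥B, R' ≤ R'.comap (θ g).toMonoidHom := by
    intro g r hr
    rw [Subgroup.mem_comap, Subgroup.mem_subgroupOf]
    exact hBR g g.2 r (Subgroup.mem_subgroupOf.mp hr)
  let X := ↥Q ⧸ R'
  let φ₀ : ↥B →* Function.End X :=
    { toFun := fun g y => QuotientGroup.map R' R' (θ g).toMonoidHom (hle g) y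
      map_one' := by
        funext y
        induction y using QuotientGroup.induction_on with
        | H y =>
          change ((θ 1 y : ↥Q) : X) = y
          rw [map_one]
          rfl
      map_mul' := fun g h => by
        funext y
        induction y using QuotientGroup.induction_on with
        | H y =>
          change ((θ (g * h) y : ↥Q) : X) = ((θ g (θ h y) : ↥Q) : X)
          rw [map_mul]
          rfl }
  have hφ₀ : ∀ (g : ↥B) (y : ↥Q), φ₀ g (y : X) = ((θ g y : ↥Q) : X) := fun _ _ => rfl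
  let φ : ↥B →* Equiv.Perm X := φ₀.toHomPerm
  have hφ : ∀ (g : ↥B) (y : X), φ g y = φ₀ g y := fun _ _ => rfl
  have hcard : Nat.card X = 4 := hI
  have hFin : Finite X := inferInstance
  letI : Fintype X := Fintype.ofFinite X
  have hperm : Nat.card (Equiv.Perm X) = 24 := by
    rw [Nat.card_eq_fintype_card, Fintype.card_perm, ← Nat.card_eq_fintype_card, hcard]
    rfl
  have hRp : IsPGroup 3 φ.range := hB.of_surjective φ.rangeRestrict φ.rangeRestrict_surjective
  have hdvd : Nat.card φ.range ∣ 24 := hperm ▸ Subgroup.card_subgroup_dvd_card _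
  obtain ⟨k, hk⟩ := IsPGroup.iff_card.mp hRp
  have hk1 : k ≤ 1 := by
    by_contra h
    have h2 : 3 ^ 2 ∣ 3 ^ k := pow_dvd_pow 3 (by omega)
    rw [hk] at hdvd
    have := h2.trans hdvd
    omega
  have hcomm : ∀ u v : φ.range, u * v = v * u := by
    interval_cases k
    · have h1 : Subsingleton φ.range := by
        apply (Nat.card_eq_one_iff_unique.mp (by simpa using hk)).1
      intro u v
      exact Subsingleton.elim _ _
    · haveI : IsCyclic φ.range := isCyclic_of_prime_card (p := 3) (by simpa using hk)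
      exact fun u v => (IsCyclic.commGroup (α := φ.range)).mul_comm u v
  have hker : ∀ g h : ↥B, φ ⁅g, h⁆ = 1 := by
    intro g h
    rw [map_commutatorElement, commutatorElement_eq_one_iff_mul_comm]
    have := hcomm ⟨φ g, g, rfl⟩ ⟨φ h, h, rfl⟩
    exact congrArg Subtype.val this
  have hle2 : ⁅B, B⁆ ≤ φ.ker.map B.subtype := by
    rw [Subgroup.commutator_le]
    intro g hg h hh
    exact ⟨⁅(⟨g, hg⟩ : ↥B), (⟨h, hh⟩ : ↥B)⁆, hker _ _, rfl⟩
  obtain ⟨a', ha', rfl⟩ := hle2 ha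
  have h1 : φ a' = 1 := ha'
  have h2 : φ a' ((⟨b, hb⟩ : ↥Q) : X) = ((⟨b, hb⟩ : ↥Q) : X) := by
    rw [h1]
    rfl
  rw [hφ, hφ₀] at h2
  have h3 := QuotientGroup.eq.mp h2.symm
  rw [Subgroup.mem_subgroupOf] at h3
  have h4 : b⁻¹ * ((a' : F) * b * (a' : F)⁻¹) ∈ R := h3
  have h5 := hRn _ h4 b hb
  have h6 : b * (b⁻¹ * ((a' : F) * b * (a' : F)⁻¹)) * b⁻¹ = (a' : F) * b * (a' : F)⁻¹ * b⁻¹ := by group
  rw [h6] at h5
  exact h5

end Coset

end Cfsg.Agent.Lib.Coprime.HHB
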