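import Cfsg.Agent.Lib.Coprime.HHB4

/-!
The main representation-theoretic statement behind Hall-Higman's bound by the derived length.
-/

set_option autoImplicit false
set_option linter.unusedSectionVars false
set_option linter.style.haveILetI false

namespace Cfsg.Agent.Lib.Coprime.HHB

open Module Subgroup Cfsg Cfsg.Agent.Lib.FT TensorProduct Cfsg.Agent.Lib.Coprime.HHFix Cfsg.Agent.Lib.Coprime.PLen
open scoped commutatorElement

section Main

variable {F : Type*} [Group F] [Finite F] {p q : ℕ} [hpf : Fact p.Prime] [hqf : Fact q.Prime] {M : Type*}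
  [AddCommGroup M] [Module (ZMod p) M] [FiniteDimensional (ZMod p) M]

theorem bOp_baseChange (ρ : F →* End (ZMod p) M) (x : ℕ → F) (n i : ℕ) :
    bOp (rhoC ρ) x n i = Module.End.baseChangeHom (ZMod p) (KK p) M (bOp ρ x n i) := by
  induction n generalizing i with
  | zero => simp [bOp]
  | succ n ih =>
    simp only [bOp]
    rw [ih, map_mul, map_sub, map_one]
    rfl

/-- The numerics. -/
theorem numeric_three {p I : ℕ} (hp : p.Prime) (hp2 : p ≠ 2) (h : (p - 2) * I ≤ 2 * (p - 1)) (hmod : I ≡ 1 [MOD p])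
    (hI : I ≠ 1) (hI0 : I ≠ 0) : p = 3 ∧ I = 4 := by
  have hp3 : 3 ≤ p := by
    have := hp.two_le
    omega
  have hdvd : p ∣ I - 1 := (Nat.modEq_iff_dvd' (by omega)).mp hmod.symm
  have hle : p + 1 ≤ I := by
    have := Nat.le_of_dvd (by omega) hdvd
    omega
  obtain ⟨s, rfl⟩ : ∃ s, p = s + 3 := ⟨p - 3, by omega⟩
  have e1 : s + 3 - 2 = s + 1 := by omega
  have e2 : s + 3 - 1 = s + 2 := by omega
  rw [e1, e2] at h
  have hs : s = 0 := by
    by_contra hs0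
    have hs1 : 1 ≤ s := Nat.one_le_iff_ne_zero.mpr hs0
    nlinarith
  subst hs
  refine ⟨rfl, ?_⟩
  simp only [zero_add, one_mul] at h hle
  omega

/-- **The main statement**: `a` central in the `p`-group `Y`, lying in the `(j + 1)`-st derived group, with all the
vanishing conditions coming from an action on a section of `O_p(G)`, centralizes every `Y`-invariant `q`-subgroup. -/
theorem thmD (hp2 : p ≠ 2) (ρ : F →* End (ZMod p) M) (hρ : Function.Injective ρ) (hqp : q ≠ p) (Y : Subgroup F)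
    (hY : IsPGroup p Y) (a : F) (haY : a ∈ Y) (hac : ∀ g ∈ Y, g * a = a * g) (hap : a ^ p = 1) (j : ℕ)
    (haj : a ∈ D Y (j + 1)) (hN2 : (ρ a - 1) ^ 2 = 0)
    (hvan : ∀ x : ℕ → F, (∀ i, x i ∈ D Y i) → (ρ a - 1) * bOp ρ x (j + 1) 0 = 0)
    (R : Subgroup F) (hqR : IsPGroup q R) (hYR : Y ≤ normalizer (R : Set F)) (hne : ∃ r ∈ R, a * r ≠ r * a) : False := by
  classical
  have hr := hpf.out
  have hp3 : 3 ≤ p := by
    have := hr.two_le
    omega
  have hp_q : ¬ p ∣ q := fun hd => hqp ((Nat.prime_dvd_prime_iff_eq hpf.out hqf.out).mp hd).symm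
  obtain ⟨kQ, hkQ⟩ := IsPGroup.iff_card.mp hqR
  have ha1 : a ≠ 1 := by
    rintro rfl
    obtain ⟨r, -, hr₂⟩ := hne
    exact hr₂ (by simp)
  have hord : orderOf a = p := orderOf_eq_prime hap ha1
  set S : Subgroup F := zpowers a with hS
  have haS : a ∈ S := mem_zpowers a
  have hSY : S ≤ Y := Subgroup.zpowers_le.mpr haY
  have hSn : Y ≤ normalizer (S : Set F) := by
    intro g hg
    apply Cfsg.Agent.Lib.Coprime.mem_normalizer_of_conj_le
    intro s hs
    obtain ⟨i, rfl⟩ := Subgroup.mem_zpowers_iff.mp hs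
    have h1 : Commute g (a ^ i) := (Commute.zpow_right (hac g hg) i)
    rw [h1.eq, mul_inv_cancel_right]
    exact hs
  have hcop : Nat.Coprime (Nat.card Y) (Nat.card R) := IsPGroup.coprime_card_of_ne p q hqp.symm Y R hY hqR
  have hne' : ¬ S ≤ centralizer (R : Set F) := by
    intro hle
    obtain ⟨r, hr₁, hr₂⟩ := hne
    exact hr₂ (Subgroup.mem_centralizer_iff.mp (hle haS) r hr₁).symm
  obtain ⟨Q, hQR, hM⟩ := exists_minNC hqR hSY hSn hYR hcop hne'
  have hxQn : a ∈ normalizer (Q : Set F) := hM.hQn haY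
  have hxQ' : ∀ b ∈ Q, a * b * a⁻¹ ∈ Q := fun b hb => (Subgroup.mem_normalizer_iff.mp hxQn b).mp hb
  have hYQ : ∀ g ∈ Y, ∀ b ∈ Q, g * b * g⁻¹ ∈ Q := fun g hg b hb => (Subgroup.mem_normalizer_iff.mp (hM.hQn hg) b).mp hb
  have hNC : (rhoC ρ a - 1) ^ 2 = 0 := rhoC_sub_one_pow ρ a hN2
  have hnormC := rhoC_norm ρ a (r := 2) (by omega) hN2
  have hKQ : (Nat.card Q : KK p) ≠ 0 := by
    apply cast_ne_KK
    obtain ⟨kQ', hkQ'⟩ := IsPGroup.iff_card.mp hM.hq
    rw [hkQ']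
    exact fun hd => hp_q (hpf.out.dvd_of_dvd_pow hd)
  by_cases hab : ∀ b ∈ Q, ∀ c ∈ Q, b * c = c * b
  · -- the abelian case
    have h1 := ab_case_norm (rhoC ρ) Q hab a hxQn hKQ hr hap hnormC
    apply hM.hne
    rw [hS, Subgroup.zpowers_le, Subgroup.mem_centralizer_iff]
    intro b hb
    have h3 : (ρ (a * b * a⁻¹ * b⁻¹)).baseChange (KK p) = 1 := by
      change rhoC ρ (a * b * a⁻¹ * b⁻¹) = 1
      rw [map_mul, h1 b hb, ← map_mul, mul_inv_cancel, map_one]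
    have h4 := hρ ((eq_one_of_baseChange (KK p) _ h3).trans (map_one ρ).symm)
    have h5 : a * b = (a * b * a⁻¹ * b⁻¹) * (b * a) := by group
    rw [h5, h4, one_mul]
  -- the nonabelian case
  set Dd : Subgroup F := MinNC.D Q S with hD
  have hDeq : Dd = ⁅Q, Q⁆ := hM.D_eq
  have hDc : ∀ d ∈ Dd, ∀ b ∈ Q, d * b = b * d := fun d hd b hb => hM.D_comm hd hb
  have hDQ : Dd ≤ Q := inf_le_left
  have hDne : ¬ (∀ z ∈ Dd, z = 1) := by
    intro hall
    apply hab
    intro b hb c hc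
    have h1 := hall _ (hM.comm_mem hb hc)
    exact commutatorElement_eq_one_iff_mul_comm.mp h1
  have hnD : ¬ p ∣ Nat.card ↥Dd := by
    obtain ⟨kD, hkD⟩ := IsPGroup.iff_card.mp (hM.hq.to_le hDQ)
    rw [hkD]
    exact fun hd => hp_q (hpf.out.dvd_of_dvd_pow hd)
  let σ : ↥Dd →* End (KK p) (KK p ⊗[ZMod p] M) := (rhoC ρ).comp Dd.subtype
  have hσ : ∀ z : ↥Dd, σ z = rhoC ρ z := fun _ => rfl
  have hcommσ : ∀ n n', σ n * σ n' = σ n' * σ n := by
    intro n n'
    rw [← map_mul, ← map_mul]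
    congr 1
    exact Subtype.ext (hDc n n.2 n' (hDQ n'.2))
  obtain ⟨hindD, htop⟩ := simEig_indep σ hcommσ (cast_ne_KK hnD)
  obtain ⟨χ, hχ0, z₀, hz₀⟩ : ∃ χ : ↥Dd → KK p, simEig σ χ ≠ ⊥ ∧ ∃ z, χ z ≠ 1 := by
    by_contra hcon2
    push Not at hcon2
    have hall : ∀ z : ↥Dd, σ z = 1 := by
      intro z
      have h1 : (⊤ : Submodule (KK p) (KK p ⊗[ZMod p] M)) ≤ LinearMap.ker (σ z - 1) := by
        rw [← htop]
        refine iSup_le fun χ => ?_
        by_cases h0 : simEig σ χ = ⊥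
        · rw [h0]
          exact bot_le
        · intro w hw
          have h2 := hcon2 χ h0 z
          have h3 : σ z w = χ z • w := mem_simEig.mp hw z
          rw [LinearMap.mem_ker, LinearMap.sub_apply, h3, h2, one_smul, Module.End.one_apply, sub_self]
      apply LinearMap.ext
      intro w
      have h2 := h1 (Submodule.mem_top (x := w))
      rw [LinearMap.mem_ker, LinearMap.sub_apply, Module.End.one_apply, sub_eq_zero] at h2
      exact h2
    apply hDne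
    intro z hz
    have h1 := eq_one_of_baseChange (KK p) _ (hall ⟨z, hz⟩)
    exact hρ (h1.trans (map_one ρ).symm)
  set W := simEig σ χ with hW
  have hxD : ∀ z ∈ Dd, a * z * a⁻¹ = z := by
    intro z hz
    have h1 := Subgroup.mem_centralizer_iff.mp hz.2 a haS
    rw [h1]
    group
  have hleC : Q ⊔ zpowers a ≤ centralizer (Dd : Set F) := by
    refine sup_le ?_ ?_
    · intro b hb
      rw [Subgroup.mem_centralizer_iff]
      intro c hc
      exact hDc c hc b hb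
    · rw [Subgroup.zpowers_le, Subgroup.mem_centralizer_iff]
      intro c hc
      calc c * a = (a * c * a⁻¹) * a := by rw [hxD c hc]
        _ = a * c := by group
  have hCinv : ∀ g ∈ centralizer (Dd : Set F), ∀ w ∈ W, rhoC ρ g w ∈ W := by
    intro g hg w hw
    rw [hW, mem_simEig]
    intro z
    have h1 := mem_simEig.mp hw z
    rw [hσ, ← Module.End.mul_apply, ← map_mul, (Subgroup.mem_centralizer_iff.mp hg z z.2), map_mul, Module.End.mul_apply,
      ← hσ, h1, map_smul]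
  have hWQ : ∀ g ∈ Q, ∀ w ∈ W, rhoC ρ g w ∈ W := fun g hg w hw => hCinv g (hleC (le_sup_left (a := Q) hg)) w hw
  have hWa : ∀ w ∈ W, rhoC ρ a w ∈ W := fun w hw => hCinv a (hleC ((le_sup_right : zpowers a ≤ Q ⊔ zpowers a) (mem_zpowers a))) w hw
  obtain ⟨R₁, hR⟩ := exists_radical (rhoC ρ) W Q Dd hDc (fun b hb c hc => hM.comm_mem hb hc)
  have hRQ : R₁ ≤ Q := fun b hb => ((hR b).mp hb).1
  have hDR : Dd ≤ R₁ := by
    intro d hd
    refine (hR d).mpr ⟨hDQ hd, fun b hb w _ => ?_⟩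
    rw [commutatorElement_eq_one_iff_mul_comm.mpr (hDc d hd b hb), map_one, Module.End.one_apply]
  have hRa : ∀ r ∈ R₁, a * r * a⁻¹ ∈ R₁ := by
    intro r hr₁
    obtain ⟨ha1, ha2⟩ := (hR r).mp hr₁
    refine (hR _).mpr ⟨hxQ' r ha1, fun b hb w hw => ?_⟩
    have hb' : a⁻¹ * b * a ∈ Q := by
      have := (Subgroup.mem_normalizer_iff.mp (inv_mem hxQn) b).mp hb
      simpa using this
    have h1 : ⁅a * r * a⁻¹, b⁆ = ⁅r, a⁻¹ * b * a⁆ := by
      rw [← hxD _ (hM.comm_mem ha1 hb')]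
      simp only [commutatorElement_def]
      group
    rw [h1]
    exact ha2 _ hb' w hw
  let T : Subgroup F :=
    { carrier := {g | ∀ w ∈ W, rhoC ρ g w = w}
      mul_mem' := fun {g h} hg hh w hw => by
        rw [map_mul, Module.End.mul_apply, hh w hw, hg w hw]
      one_mem' := fun w _ => by rw [map_one, Module.End.one_apply]
      inv_mem' := fun {g} hg w hw => by
        conv_lhs => rw [← hg w hw]
        rw [← Module.End.mul_apply, ← map_mul, inv_mul_cancel, map_one, Module.End.one_apply] }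
  have hTmem : ∀ g, g ∈ T ↔ ∀ w ∈ W, rhoC ρ g w = w := fun _ => Iff.rfl
  have hRne : R₁ ≠ Q := by
    intro hRQ'
    have hle : ⁅Q, Q⁆ ≤ T := by
      rw [Subgroup.commutator_le]
      intro b hb c hc w hw
      have hb' : b ∈ R₁ := hRQ' ▸ hb
      exact ((hR b).mp hb').2 c hc w hw
    obtain ⟨w₀, hw₀, hw₀0⟩ := Submodule.exists_mem_ne_zero_of_ne_bot hχ0
    have hz₀T : (z₀ : F) ∈ T := hle (hDeq ▸ z₀.2)
    have h1 : rhoC ρ z₀ w₀ = w₀ := hz₀T w₀ hw₀
    have h2 : rhoC ρ z₀ w₀ = χ z₀ • w₀ := mem_simEig.mp hw₀ z₀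
    rw [h1] at h2
    have h3 : (1 : KK p) • w₀ = χ z₀ • w₀ := by rw [one_smul]; exact h2
    exact hz₀ (smul_left_injective (KK p) hw₀0 h3).symm
  have hQq : IsPGroup q Q := hM.hq
  have hR₁q : IsPGroup q R₁ := hQq.to_le hRQ
  have hcardR₁ : (Nat.card R₁ : KK p) ≠ 0 := by
    apply cast_ne_KK
    obtain ⟨k, hk⟩ := IsPGroup.iff_card.mp hR₁q
    rw [hk]
    exact fun hd => hp_q (hpf.out.dvd_of_dvd_pow hd)
  have haR₁n : a ∈ normalizer (R₁ : Set F) := Cfsg.Agent.Lib.Coprime.mem_normalizer_of_conj_le _ _ hRa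
  have hzR₁ : ∀ e ∈ zpowers a, ∀ n ∈ R₁, e * n * e⁻¹ ∈ R₁ := by
    intro e he n hn
    have h1 : zpowers a ≤ normalizer (R₁ : Set F) := Subgroup.zpowers_le.mpr haR₁n
    exact (Subgroup.mem_normalizer_iff.mp (h1 he) n).mp hn
  have hR₁comm : ∀ r ∈ R₁, ∀ b ∈ Q, ∀ w ∈ W, rhoC ρ r (rhoC ρ b w) = rhoC ρ b (rhoC ρ r w) := by
    intro r hr₁ b hb w hw
    have h1 : r * b = ⁅r, b⁆ * (b * r) := by
      rw [commutatorElement_def]
      group
    rw [← Module.End.mul_apply, ← map_mul, h1, map_mul, Module.End.mul_apply, ((hR r).mp hr₁).2 b hb _ ?_, ← Module.End.mul_apply, ← map_mul]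
    exact hWQ (b * r) (mul_mem hb (hRQ hr₁)) w hw
  -- `a` acts trivially on `R₁` on `W`
  have hRconj₁ : ∀ r ∈ R₁, ∀ w ∈ W, rhoC ρ (a * r * a⁻¹) w = rhoC ρ r w := by
    intro r hr₁ w hw
    let σ₁ : ↥R₁ →* End (KK p) ↥W := resRep (ρ := rhoC ρ) R₁ W (fun y hy v hv => hWQ y (hRQ hy) v hv)
    let τ₁ : ↥(zpowers a) →* End (KK p) ↥W :=
      resRep (ρ := rhoC ρ) (zpowers a) W (fun y hy v hv => hCinv y (hleC ((le_sup_right : zpowers a ≤ Q ⊔ zpowers a) hy)) v hv)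
    let θ : ↥(zpowers a) →* MulAut ↥R₁ := conjOn (zpowers a) R₁ hzR₁
    have hcomm₁ : ∀ n n', σ₁ n * σ₁ n' = σ₁ n' * σ₁ n := by
      intro n n'
      ext v
      simp only [σ₁, Module.End.mul_apply, resRep_apply]
      exact hR₁comm n n.2 n' (hRQ n'.2) v v.2
    have hcompat₁ : ∀ e n, τ₁ e * σ₁ n = σ₁ (θ e n) * τ₁ e := by
      intro e n
      ext v
      simp only [σ₁, τ₁, θ, Module.End.mul_apply, resRep_apply, conjOn_apply]
      rw [← Module.End.mul_apply, ← Module.End.mul_apply, ← map_mul, ← map_mul]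
      congr 2
      group
    let x' : ↥(zpowers a) := ⟨a, mem_zpowers a⟩
    have hx'p : x' ^ p = 1 := Subtype.ext hap
    have hτpow : ∀ (i : ℕ) (v : ↥W), (((τ₁ x') ^ i) v : KK p ⊗[ZMod p] M) = ((rhoC ρ a) ^ i) v := by
      intro i v
      induction i with
      | zero => simp
      | succ i ih =>
        rw [pow_succ', pow_succ', Module.End.mul_apply, Module.End.mul_apply, ← ih]
        rfl
    have hnorm₁ : ∀ v : ↥W, (∑ i ∈ Finset.range p, (τ₁ x') ^ i) v = 0 := by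
      intro v
      apply Subtype.ext
      have h1 := hnormC (v : KK p ⊗[ZMod p] M)
      rw [LinearMap.sum_apply] at h1 ⊢
      rw [Submodule.coe_sum, Submodule.coe_zero]
      simp only [hτpow]
      exact h1
    have h1 := ab_generic (K := KK p) (S := ↥W) (N := ↥R₁) (E := ↥(zpowers a)) σ₁ τ₁ θ hcomm₁ hcompat₁ hcardR₁ (x := x') (r := p) hr hx'p hnorm₁ ⟨r, hr₁⟩
    have h2 := congrArg (fun f : End (KK p) ↥W => ((f ⟨w, hw⟩ : ↥W) : KK p ⊗[ZMod p] M)) h1
    exact h2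
  have hRconj : ∀ (n : ℕ), ∀ r ∈ R₁, ∀ w ∈ W, rhoC ρ (a ^ n * r * (a ^ n)⁻¹) w = rhoC ρ r w := by
    intro n
    induction n with
    | zero => intro r _ w _; simp
    | succ n ih =>
      intro r hr₁ w hw
      have h1 : a ^ (n + 1) * r * (a ^ (n + 1))⁻¹ = a * (a ^ n * r * (a ^ n)⁻¹) * a⁻¹ := by
        rw [pow_succ']
        group
      rw [h1, hRconj₁ _ (hzR₁ _ (pow_mem (mem_zpowers a) n) r hr₁) w hw, ih r hr₁ w hw]
  -- `R₁` acts by scalars
  have hscalar : ∀ r ∈ R₁, ∃ c : KK p, ∀ w ∈ W, rhoC ρ r w = c • w := by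
    intro r hr₁
    set N₀ : Subgroup F := R₁ ⊓ T with hN₀
    have hN₀q : IsPGroup q N₀ := hR₁q.to_le inf_le_left
    have hzp : IsPGroup p (zpowers a) := by
      apply IsPGroup.of_card (n := 1)
      rw [Nat.card_zpowers, pow_one]
      exact hord
    have hA : zpowers a ≤ normalizer (N₀ : Set F) := by
      rw [Subgroup.zpowers_le]
      apply Cfsg.Agent.Lib.Coprime.mem_normalizer_of_conj_le
      rintro n ⟨hn1, hn2⟩
      refine Subgroup.mem_inf.mpr ⟨hRa n hn1, ?_⟩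
      intro w hw
      rw [hRconj₁ n hn1 w hw]
      exact hn2 w hw
    have hcopN : (Nat.card N₀).Coprime (Nat.card (zpowers a)) := IsPGroup.coprime_card_of_ne q p hqp N₀ _ hN₀q hzp
    have hsolv : Group.IsSolvable ↥N₀ := by
      haveI := hN₀q.isNilpotent
      infer_instance
    obtain ⟨n, hn, hnr⟩ := Cfsg.Agent.Lib.OddLocal.exists_mul_mem_centralizer hA hcopN (Or.inl hsolv) r (by
      intro s hs
      obtain ⟨i, rfl⟩ := exists_pow_of_mem_zpowers hs
      have h1 : a ^ i * r⁻¹ * (a ^ i)⁻¹ ∈ R₁ := hzR₁ _ hs _ (inv_mem hr₁)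
      have h2 : r * a ^ i * r⁻¹ * (a ^ i)⁻¹ = r * (a ^ i * r⁻¹ * (a ^ i)⁻¹) := by group
      rw [h2]
      refine Subgroup.mem_inf.mpr ⟨mul_mem hr₁ h1, ?_⟩
      intro w hw
      rw [map_mul, Module.End.mul_apply, hRconj i r⁻¹ (inv_mem hr₁) w hw, ← Module.End.mul_apply, ← map_mul, mul_inv_cancel, map_one]
      rfl)
    have hd : n * r ∈ Dd := Subgroup.mem_inf.mpr ⟨hRQ (mul_mem (Subgroup.mem_inf.mp hn).1 hr₁), hnr⟩
    refine ⟨χ ⟨n * r, hd⟩, fun w hw => ?_⟩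
    have h1 : rhoC ρ (n * r) w = χ ⟨n * r, hd⟩ • w := mem_simEig.mp hw ⟨n * r, hd⟩
    have hnT : ∀ w' ∈ W, rhoC ρ n⁻¹ w' = w' := by
      have h2 : n⁻¹ ∈ T := inv_mem (Subgroup.mem_inf.mp hn).2
      exact h2
    have h3 : rhoC ρ r w = rhoC ρ n⁻¹ (rhoC ρ (n * r) w) := by
      rw [← Module.End.mul_apply, ← map_mul, inv_mul_cancel_left]
    rw [h3, h1, map_smul, hnT w hw]
  -- fixed points on `Q / R₁`
  have hfpfk : ∀ k : ℕ, a ^ k ≠ 1 → ∀ b ∈ Q, a ^ k * b * (a ^ k)⁻¹ * b⁻¹ ∈ R₁ → b ∈ R₁ := by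
    intro k hk b hb hc
    have hnd : ¬ p ∣ k := by
      rintro ⟨j', rfl⟩
      apply hk
      rw [pow_mul, hap, one_pow]
    have hcop' : Nat.Coprime k p := ((Nat.Prime.coprime_iff_not_dvd hr).2 hnd).symm
    obtain ⟨m, -, hm⟩ := Nat.exists_mul_mod_eq_one_of_coprime hcop' hr.one_lt
    have hit : ∀ j' : ℕ, (a ^ k) ^ j' * b * ((a ^ k) ^ j')⁻¹ * b⁻¹ ∈ R₁ := by
      intro j'
      induction j' with
      | zero => simp [one_mem]
      | succ j' ih =>
        have h1 : (a ^ k) ^ (j' + 1) * b * ((a ^ k) ^ (j' + 1))⁻¹ * b⁻¹ =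
            a ^ k * ((a ^ k) ^ j' * b * ((a ^ k) ^ j')⁻¹ * b⁻¹) * (a ^ k)⁻¹ * (a ^ k * b * (a ^ k)⁻¹ * b⁻¹) := by
          rw [pow_succ']
          group
        rw [h1]
        exact mul_mem (hzR₁ _ (pow_mem (mem_zpowers a) k) _ ih) hc
    have h2 : (a ^ k) ^ m = a := by
      rw [← pow_mul, pow_eq_pow_mod (k * m) hap, hm, pow_one]
    have h3 : ∀ s ∈ zpowers a, b * s * b⁻¹ * s⁻¹ ∈ R₁ := by
      intro s hs
      obtain ⟨i, rfl⟩ := exists_pow_of_mem_zpowers hs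
      have h4 := hit (m * i)
      rw [pow_mul, h2] at h4
      have h5 : b * a ^ i * b⁻¹ * (a ^ i)⁻¹ = (a ^ i * b * (a ^ i)⁻¹ * b⁻¹)⁻¹ := by group
      rw [h5]
      exact inv_mem h4
    have hzp : IsPGroup p (zpowers a) := by
      apply IsPGroup.of_card (n := 1)
      rw [Nat.card_zpowers, pow_one]
      exact hord
    have hcopN : (Nat.card R₁).Coprime (Nat.card (zpowers a)) := IsPGroup.coprime_card_of_ne q p hqp R₁ _ hR₁q hzp
    have hsolv : Group.IsSolvable ↥R₁ := by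
      haveI := hR₁q.isNilpotent
      infer_instance
    obtain ⟨n, hn, hnb⟩ := Cfsg.Agent.Lib.OddLocal.exists_mul_mem_centralizer (Subgroup.zpowers_le.mpr haR₁n) hcopN (Or.inl hsolv) b h3
    have hd : n * b ∈ Dd := Subgroup.mem_inf.mpr ⟨mul_mem (hRQ hn) hb, hnb⟩
    have h6 := hDR hd
    exact (R₁.mul_mem_cancel_left hn).mp h6
  obtain ⟨b₀, hb₀, hb₀R⟩ : ∃ b ∈ Q, b ∉ R₁ := by
    by_contra hcon
    push Not at hcon
    exact hRne (le_antisymm hRQ hcon)
  have hWinv : ∀ y ∈ Q ⊔ zpowers a, ∀ w ∈ W, rhoC ρ y w ∈ W := fun g hg w hw => hCinv g (hleC hg) w hw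
  have hnum := eigen_cl (rhoC ρ) Q R₁ a W hχ0 hKQ hWinv hscalar hRQ
    (fun b hb c hc => hDR (hM.comm_mem hb hc)) (fun b hb hab' => (hR b).mpr ⟨hb, hab'⟩) hxQ' hfpfk ⟨b₀, hb₀, hb₀R⟩
    (r := 2) (fun w _ => by rw [hNC]; rfl)
  rw [hord] at hnum
  have hRn : ∀ r ∈ R₁, ∀ b ∈ Q, b * r * b⁻¹ ∈ R₁ := by
    intro r hr₁ b hb
    have h1 : b * r * b⁻¹ = ⁅b, r⁆ * r := by
      rw [commutatorElement_def]
      group
    rw [h1]
    exact mul_mem (hDR (hM.comm_mem hb (hRQ hr₁))) hr₁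
  have hmod := relIndex_modEq_one' hap hRQ hRn hxQ' hRa (fun b hb h => hfpfk 1 (by simpa using ha1) b hb (by simpa using h))
  have hI1 : R₁.relIndex Q ≠ 1 := fun h => hb₀R (Subgroup.relIndex_eq_one.mp h hb₀)
  have hI0 : R₁.relIndex Q ≠ 0 := Subgroup.index_ne_zero_of_finite
  obtain ⟨hp3', hI4⟩ := numeric_three hr hp2 hnum hmod hI1 hI0
  subst hp3'
  -- the stabilizer of `χ`
  set Nn : Subgroup F := normalizer (Dd : Set F) with hNn
  have hYN : Y ≤ Nn := hM.D_norm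
  have hcompat := nConj_compat (K := KK 3) (V := KK 3 ⊗[ZMod 3] M) (rhoC ρ) Dd
  let T₀ : Subgroup ↥Nn :=
    { carrier := {e | twist (nConj Dd) e χ = χ}
      mul_mem' := fun {e e'} he he' => by
        change twist (nConj Dd) (e * e') χ = χ
        have he₁ : twist (nConj Dd) e χ = χ := he
        have he₂ : twist (nConj Dd) e' χ = χ := he'
        rw [twist_mul, he₂, he₁]
      one_mem' := twist_one _ _
      inv_mem' := fun {e} he => by
        have he₁ : twist (nConj Dd) e χ = χ := he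
        have h1 := twist_inv_twist (nConj Dd) e χ
        rw [he₁] at h1
        exact h1 }
  set Tt : Subgroup F := T₀.map Nn.subtype with hTt
  have hTtmem : ∀ g (hg : g ∈ Nn), g ∈ Tt ↔ twist (nConj Dd) ⟨g, hg⟩ χ = χ := by
    intro g hg
    constructor
    · rintro ⟨e, he, rfl⟩
      exact he
    · intro h
      exact ⟨⟨g, hg⟩, h, rfl⟩
  have hmapW : ∀ g (hg : g ∈ Nn) , ∀ w ∈ W, rhoC ρ g w ∈ simEig σ (twist (nConj Dd) ⟨g, hg⟩ χ) := by
    intro g hg w hw
    have h1 := map_simEig hcompat ⟨g, hg⟩ χ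
    have h2 : rhoC ρ g w ∈ (simEig ((rhoC ρ).comp Dd.subtype) χ).map ((rhoC ρ).comp Nn.subtype ⟨g, hg⟩) := ⟨w, hw, rfl⟩
    rw [h1] at h2
    exact h2
  set Ot : Submodule (KK 3) (KK 3 ⊗[ZMod 3] M) := ⨆ (j' : ↥Dd → KK 3) (_ : j' ≠ χ), simEig σ j' with hOt
  have hmove : ∀ g ∈ Y, g ∉ Tt → ∀ w ∈ W, rhoC ρ g w ∈ Ot := by
    intro g hg hgT w hw
    have h1 := hmapW g (hYN hg) w hw
    have h2 : twist (nConj Dd) ⟨g, hYN hg⟩ χ ≠ χ := fun h => hgT ((hTtmem g (hYN hg)).mpr h)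
    exact Submodule.mem_iSup_of_mem _ (Submodule.mem_iSup_of_mem h2 h1)
  have hspan : ∀ A ∈ Submodule.span (KK 3) ((rhoC ρ) '' {g | g ∈ D Y 0 ∧ g ∉ Tt}), ∀ w ∈ W, A w ∈ Ot := by
    intro A hA w hw
    induction hA using Submodule.span_induction with
    | mem A h =>
      obtain ⟨g, ⟨hg1, hg2⟩, rfl⟩ := h
      exact hmove g hg1 hg2 w hw
    | zero => exact Submodule.zero_mem _
    | add A A' _ _ h1 h2 =>
      rw [LinearMap.add_apply]
      exact Submodule.add_mem _ h1 h2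
    | smul c A _ h1 =>
      rw [LinearMap.smul_apply]
      exact Submodule.smul_mem _ c h1
  -- `a` acts nontrivially on `W`
  obtain ⟨w₁, hw₁, hw₁a⟩ : ∃ w ∈ W, rhoC ρ a w ≠ w := by
    by_contra hcon
    push Not at hcon
    have haT : a ∈ T := hcon
    apply hb₀R
    apply hfpfk 1 (by simpa using ha1) b₀ hb₀
    have h1 : a * b₀ * a⁻¹ * b₀⁻¹ ∈ Q := mul_mem (hxQ' b₀ hb₀) (inv_mem hb₀)
    have h2 : a * b₀ * a⁻¹ * b₀⁻¹ ∈ T := by
      intro w hw
      have hw2 : rhoC ρ b₀⁻¹ w ∈ W := hWQ _ (inv_mem hb₀) w hw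
      have hw3 : rhoC ρ a⁻¹ (rhoC ρ b₀⁻¹ w) = rhoC ρ b₀⁻¹ w := (inv_mem haT : a⁻¹ ∈ T) _ hw2
      rw [map_mul, map_mul, map_mul, Module.End.mul_apply, Module.End.mul_apply, Module.End.mul_apply, hw3,
        ← Module.End.mul_apply (rhoC ρ b₀), ← map_mul, mul_inv_cancel, map_one, Module.End.one_apply]
      exact haT w hw
    have h3 : (a * b₀ * a⁻¹ * b₀⁻¹) ∈ R₁ := by
      refine (hR _).mpr ⟨h1, fun c hc w hw => ?_⟩
      have h4 : ∀ g ∈ T, ∀ c ∈ Q, ∀ w ∈ W, rhoC ρ ⁅g, c⁆ w = w := by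
        intro g hg c hc w hw
        have hw2 : rhoC ρ c⁻¹ w ∈ W := hWQ _ (inv_mem hc) w hw
        rw [commutatorElement_def, map_mul, map_mul, map_mul, Module.End.mul_apply, Module.End.mul_apply,
          Module.End.mul_apply, (inv_mem hg : g⁻¹ ∈ T) _ hw2, ← Module.End.mul_apply (rhoC ρ c), ← map_mul, mul_inv_cancel,
          map_one, Module.End.one_apply]
        exact hg w hw
      exact h4 _ h2 c hc w hw
    simpa using h3
  set u : KK 3 ⊗[ZMod 3] M := (rhoC ρ a - 1) w₁ with hu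
  have huW : u ∈ W := by
    rw [hu, LinearMap.sub_apply, Module.End.one_apply]
    exact W.sub_mem (hWa w₁ hw₁) hw₁
  have hu0 : u ≠ 0 := by
    rw [hu, LinearMap.sub_apply, Module.End.one_apply]
    exact sub_ne_zero.mpr hw₁a
  -- the derived group `D Y j` stabilizes `χ`
  have hBT : D Y j ≤ Tt := by
    by_contra hBT
    obtain ⟨x, hx, hb⟩ := tower (rhoC ρ) Y Tt hY j hBT
    obtain ⟨ε, hε, A, hA, hbe⟩ := hb (j + 1) 0 (by omega)
    have hv := hvan x hx
    have hvC : (rhoC ρ a - 1) * bOp (rhoC ρ) x (j + 1) 0 = 0 := by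
      have h1 : rhoC ρ a - 1 = Module.End.baseChangeHom (ZMod 3) (KK 3) M (ρ a - 1) := by
        rw [map_sub, map_one]
        rfl
      rw [h1, bOp_baseChange, ← map_mul, hv, map_zero]
    have hcommute : ∀ (n i : ℕ), Commute (rhoC ρ a - 1) (bOp (rhoC ρ) x n i) := by
      intro n
      induction n with
      | zero => intro i; simp [bOp]
      | succ n ih =>
        intro i
        refine Commute.mul_right (ih (i + 1)) ?_
        have h1 : Commute (rhoC ρ a) (rhoC ρ (x i)) := by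
          have h2 := hac _ (D_le Y i (hx i))
          change rhoC ρ a * rhoC ρ (x i) = rhoC ρ (x i) * rhoC ρ a
          rw [← map_mul, ← map_mul, h2]
        have e1 : rhoC ρ a * rhoC ρ (x i) = rhoC ρ (x i) * rhoC ρ a := h1
        change (rhoC ρ a - 1) * (rhoC ρ (x i) - 1) = (rhoC ρ (x i) - 1) * (rhoC ρ a - 1)
        apply LinearMap.ext
        intro v
        have e2 : rhoC ρ a (rhoC ρ (x i) v) = rhoC ρ (x i) (rhoC ρ a v) := congrArg (fun f => f v) e1
        simp only [Module.End.mul_apply, LinearMap.sub_apply, Module.End.one_apply, map_sub]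
        rw [e2]
        abel
    have h0 : bOp (rhoC ρ) x (j + 1) 0 u = 0 := by
      rw [hu, ← Module.End.mul_apply, ← (hcommute (j + 1) 0).eq, hvC]
      rfl
    rw [hbe, LinearMap.add_apply, LinearMap.smul_apply, Module.End.one_apply] at h0
    have h1 : A u ∈ Ot := hspan A hA u huW
    have h2 : u ∈ Ot := by
      have h4 : ε • u = - A u := eq_neg_of_add_eq_zero_left h0
      have h5 : ε • u ∈ Ot := by
        rw [h4]
        exact Ot.neg_mem h1
      have h3 : u = ε⁻¹ • (ε • u) := by rw [smul_smul, inv_mul_cancel₀ hε, one_smul]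
      rw [h3]
      exact Ot.smul_mem _ h5
    have h3 := (iSupIndep_def.mp hindD χ).le_bot ⟨huW, h2⟩
    exact hu0 (by simpa using h3)
  -- the action on `Q / R₁`
  have hBY : D Y j ≤ Y := D_le Y j
  have hBp : IsPGroup 3 (D Y j) := hY.to_le hBY
  have hgW : ∀ g ∈ D Y j, ∀ w ∈ W, rhoC ρ g w ∈ W := by
    intro g hg w hw
    have h1 := hmapW g (hYN (hBY hg)) w hw
    rwa [(hTtmem g (hYN (hBY hg))).mp (hBT hg)] at h1
  have hBR : ∀ g ∈ D Y j, ∀ r ∈ R₁, g * r * g⁻¹ ∈ R₁ := by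
    intro g hg r hr₁
    obtain ⟨h1, h2⟩ := (hR r).mp hr₁
    refine (hR _).mpr ⟨hYQ g (hBY hg) r h1, fun b hb w hw => ?_⟩
    have hb' : g⁻¹ * b * g ∈ Q := by
      have := hYQ g⁻¹ (hBY (inv_mem hg)) b hb
      simpa using this
    have hw2 : rhoC ρ g⁻¹ w ∈ W := hgW g⁻¹ (inv_mem hg) w hw
    have h3 : ⁅g * r * g⁻¹, b⁆ = g * ⁅r, g⁻¹ * b * g⁆ * g⁻¹ := by
      simp only [commutatorElement_def]
      group
    rw [h3, map_mul, map_mul, Module.End.mul_apply, Module.End.mul_apply, h2 _ hb' _ hw2, ← Module.End.mul_apply, ← map_mul,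
      mul_inv_cancel, map_one, Module.End.one_apply]
  have haB : a ∈ ⁅D Y j, D Y j⁆ := haj
  apply hb₀R
  apply hfpfk 1 (by simpa using ha1) b₀ hb₀
  have h1 := coset_comm (D Y j) Q R₁ hBp (fun g hg b hb => hYQ g (hBY hg) b hb) hBR hI4 hRn haB hb₀
  simpa using h1

end Main

end Cfsg.Agent.Lib.Coprime.HHB
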