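import Cfsg.Agent.Lib.Coprime.HHFix
import Cfsg.Agent.Lib.OddLocal.HallHigman
import Cfsg.Agent.Lib.Coprime.PLen

/-!
A solvable normal subgroup of odd order on which an element of prime order without fixed points acts coprimely:
the element centralizes it modulo the kernel.
-/

set_option autoImplicit false
set_option linter.unusedSectionVars false
set_option linter.style.haveILetI false

namespace Cfsg.Agent.Lib.Coprime.HHFix

open Module Subgroup Cfsg Cfsg.Agent.Lib.FT Cfsg.Agent.Lib.Coprime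
open scoped commutatorElement

section Main

variable {F : Type*} [Group F] [Finite F] {p r : ℕ} [hpf : Fact p.Prime]

theorem centralizes_normal_of_fix {A : Type*} [Group A] [Finite A] (hAc : ∀ a b : A, a * b = b * a)
    (hAe : ∀ a : A, a ^ p = 1) (α : F →* MulAut A) (hα : Function.Injective α) (K : Subgroup F) [hKn : K.Normal]
    (hKs : Group.IsSolvable K) (hodd : Odd (Nat.card K)) (hpK : ¬ p ∣ Nat.card K) (hr : r.Prime) (hrp : r ≠ p)
    (hrK : ¬ r ∣ Nat.card K) (x : F) (hxr : x ^ r = 1) (hfix : ∀ a : A, α x a = a → a = 1) :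
    ∀ k ∈ K, x * k = k * x := by
  classical
  haveI := hKs
  -- `x` centralizes the Fitting subgroup of `K`
  have hcore : ∀ q : Nat.Primes, ∀ t ∈ (Cfsg.pCore (q : ℕ) ↥K).map K.subtype, x * t = t * x := by
    intro q t ht
    haveI hqf : Fact (q : ℕ).Prime := ⟨q.2⟩
    by_cases hq : (q : ℕ) ∣ Nat.card K
    · have hq2 : (q : ℕ) ≠ 2 := by
        intro h
        rw [h] at hq
        exact (Nat.not_even_iff_odd.mpr hodd) (even_iff_two_dvd.mpr hq)
      haveI hAc' : (Cfsg.pCore (q : ℕ) ↥K).Characteristic := Cfsg.Agent.Lib.Basic.pCore_characteristic q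
      haveI hAn : ((Cfsg.pCore (q : ℕ) ↥K).map K.subtype).Normal := Cfsg.Agent.Lib.Coprime.PLen.normal_map_of_characteristic _
      refine centralizes_of_fix_aut hAc hAe α hα hr (fun h => hpK (h ▸ hq)) hrp
        (fun h => hrK (h ▸ hq)) _ x ?_ hxr ?_ hfix (fun h => (hq2 h).elim) t ht
      · exact (Cfsg.Agent.Lib.Basic.pCore_isPGroup (G := ↥K) q).map K.subtype
      · rw [Subgroup.normalizer_eq_top_iff.mpr hAn]
        exact mem_top _
    · rw [Cfsg.Agent.Lib.Basic.pCore_eq_bot_of_not_dvd hq, Subgroup.map_bot, Subgroup.mem_bot] at ht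
      rw [ht, one_mul, mul_one]
  have hT : ∀ t ∈ (Cfsg.fittingSubgroup ↥K).map K.subtype, x * t = t * x := by
    have hle : (Cfsg.fittingSubgroup ↥K).map K.subtype ≤ centralizer ({x} : Set F) := by
      rw [Cfsg.Agent.Lib.Basic.fittingSubgroup_eq_iSup_pCore, Subgroup.map_iSup]
      refine iSup_le fun q => ?_
      intro t ht
      rw [Subgroup.mem_centralizer_singleton_iff]
      exact (hcore q t ht).symm
    intro t ht
    exact (Subgroup.mem_centralizer_singleton_iff.mp (hle ht)).symm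
  set T : Subgroup F := (Cfsg.fittingSubgroup ↥K).map K.subtype with hTdef
  haveI hTc : (Cfsg.fittingSubgroup ↥K).Characteristic := Cfsg.Agent.Lib.Basic.fittingSubgroup_characteristic
  haveI hTn : T.Normal := Cfsg.Agent.Lib.Coprime.PLen.normal_map_of_characteristic _
  have hTz : ∀ y ∈ zpowers x, ∀ t ∈ T, y * t = t * y := by
    intro y hy t ht
    obtain ⟨n, rfl⟩ := Subgroup.mem_zpowers_iff.mp hy
    have h1 : Commute x t := hT t ht
    exact (h1.zpow_left n).eq
  -- `[K, x]` lies in `T`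
  have hkT : ∀ y ∈ zpowers x, ∀ k ∈ K, k * y * k⁻¹ * y⁻¹ ∈ T := by
    intro y hyz k hk
    have hT := hTz y hyz
    have hkK : k * y * k⁻¹ * y⁻¹ ∈ K := by
      have h1 := hKn.conj_mem k⁻¹ (inv_mem hk) y
      have h2 : k * y * k⁻¹ * y⁻¹ = k * (y * k⁻¹ * y⁻¹) := by group
      rw [h2]
      exact mul_mem hk h1
    have hcent : (⟨_, hkK⟩ : ↥K) ∈ centralizer (Cfsg.fittingSubgroup ↥K : Set ↥K) := by
      rw [Subgroup.mem_centralizer_iff]
      intro u hu
      apply Subtype.ext
      have huT : (u : F) ∈ T := ⟨u, hu, rfl⟩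
      have h1 : k⁻¹ * u * k ∈ T := by
        have := hTn.conj_mem _ huT k⁻¹
        simpa using this
      have h2 := hT _ h1
      have h3 := hT _ huT
      change (u : F) * (k * y * k⁻¹ * y⁻¹) = (k * y * k⁻¹ * y⁻¹) * u
      have h4 : y⁻¹ * (u : F) = u * y⁻¹ := by
        calc y⁻¹ * (u : F) = y⁻¹ * (u * y) * y⁻¹ := by group
          _ = y⁻¹ * (y * u) * y⁻¹ := by rw [h3]
          _ = u * y⁻¹ := by group
      have h5 : (u : F) * (k * y * k⁻¹) = (k * y * k⁻¹) * u := by
        calc (u : F) * (k * y * k⁻¹) = k * ((k⁻¹ * u * k) * y) * k⁻¹ := by group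
          _ = k * (y * (k⁻¹ * u * k)) * k⁻¹ := by rw [h2]
          _ = (k * y * k⁻¹) * u := by group
      calc (u : F) * (k * y * k⁻¹ * y⁻¹) = ((u : F) * (k * y * k⁻¹)) * y⁻¹ := by group
        _ = (k * y * k⁻¹) * (u * y⁻¹) := by rw [h5]; group
        _ = (k * y * k⁻¹) * (y⁻¹ * u) := by rw [h4]
        _ = (k * y * k⁻¹ * y⁻¹) * u := by group
    have h6 := Cfsg.Agent.Lib.OddLocal.centralizer_fitting_le_of_solvable hcent
    exact ⟨_, h6, rfl⟩
  -- the coprime action
  have hact : CoprimeAction (zpowers x) K := by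
    refine ⟨?_, ?_, Or.inr hKs⟩
    · rw [Subgroup.normalizer_eq_top_iff.mpr hKn]
      exact le_top
    · have h1 : Nat.card (zpowers x) ∣ r := by
        rw [Nat.card_zpowers]
        exact orderOf_dvd_of_pow_eq_one hxr
      refine Nat.Coprime.coprime_dvd_left h1 ?_
      exact (Nat.Prime.coprime_iff_not_dvd hr).mpr hrK
  have hbot : ⁅⁅K, zpowers x⁆, zpowers x⁆ = ⊥ := by
    have h1 : ⁅K, zpowers x⁆ ≤ T := by
      rw [Subgroup.commutator_le]
      intro k hk y hy
      exact hkT y hy k hk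
    rw [Subgroup.commutator_eq_bot_iff_le_centralizer]
    intro t ht
    rw [Subgroup.mem_centralizer_iff]
    intro y hy
    exact hTz y hy t (h1 ht)
  have h1 := hact.commutator_eq_bot_of_commutator_commutator hbot
  intro k hk
  have h2 : ⁅k, x⁆ ∈ ⁅K, zpowers x⁆ := Subgroup.commutator_mem_commutator hk (mem_zpowers x)
  rw [h1, Subgroup.mem_bot] at h2
  exact (commutatorElement_eq_one_iff_mul_comm.mp h2).symm

theorem comm_normal_of_fix_aux {A : Type*} [Group A] [Finite A] (hAc : ∀ a b : A, a * b = b * a)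
    (hAe : ∀ a : A, a ^ p = 1) (α : F →* MulAut A) {Fb : Type*} [Group Fb] [Finite Fb] (π : F →* Fb)
    (hπ : Function.Surjective π) (β : Fb →* MulAut A) (hβ : Function.Injective β) (hcomp : ∀ g : F, β (π g) = α g)
    (K : Subgroup F) [hKn : K.Normal]
    (hKs : Group.IsSolvable K) (hodd : Odd (Nat.card K)) (hpK : ¬ p ∣ Nat.card K) (hr : r.Prime) (hrp : r ≠ p)
    (hrK : ¬ r ∣ Nat.card K) (x : F) (hxr : x ^ r = 1) (hfix : ∀ a : A, α x a = a → a = 1) :
    ∀ k ∈ K, α (x * k) = α (k * x) := by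
  haveI hKb : (K.map π).Normal := hKn.map π hπ
  have hcd : Nat.card (K.map π) ∣ Nat.card K := K.card_map_dvd π
  have hsb : Group.IsSolvable ↥(K.map π) := by
    haveI := hKs
    exact solvable_of_surjective (f := (π.subgroupMap K)) (MonoidHom.subgroupMap_surjective π K)
  have h1 := centralizes_normal_of_fix hAc hAe β hβ (K.map π) hsb
    (Odd.of_dvd_nat hodd hcd) (fun h => hpK (h.trans hcd)) hr hrp (fun h => hrK (h.trans hcd)) (π x)
    (by rw [← map_pow, hxr, map_one]) (by
      intro a ha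
      rw [hcomp] at ha
      exact hfix a ha)
  intro k hk
  have h2 := h1 (π k) ⟨k, hk, rfl⟩
  have e1 : π (x * k) = π k * π x := by rw [map_mul π, h2]
  have e2 : π (k * x) = π k * π x := map_mul π k x
  rw [← hcomp (x * k), ← hcomp (k * x), e1, e2]

/-- The general form, modulo the kernel. -/
theorem comm_normal_of_fix {A : Type*} [Group A] [Finite A] (hAc : ∀ a b : A, a * b = b * a)
    (hAe : ∀ a : A, a ^ p = 1) (α : F →* MulAut A) (K : Subgroup F) [hKn : K.Normal]
    (hKs : Group.IsSolvable K) (hodd : Odd (Nat.card K)) (hpK : ¬ p ∣ Nat.card K) (hr : r.Prime) (hrp : r ≠ p)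
    (hrK : ¬ r ∣ Nat.card K) (x : F) (hxr : x ^ r = 1) (hfix : ∀ a : A, α x a = a → a = 1) :
    ∀ k ∈ K, α (x * k) = α (k * x) :=
  comm_normal_of_fix_aux hAc hAe α (QuotientGroup.mk' α.ker) (QuotientGroup.mk'_surjective _) (QuotientGroup.kerLift α)
    (QuotientGroup.kerLift_injective α) (fun _ => rfl) K hKs hodd hpK hr hrp hrK x hxr hfix

end Main

end Cfsg.Agent.Lib.Coprime.HHFix
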