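import Cfsg.Agent.Lib.Coprime.HHB2

/-!
Hall-Higman Theorem B in general: preliminaries. The commutant of a nilpotent operator has dimension at least the dimension of
the space; powers of `T - 1` in characteristic `p`; the block lemma for induced blocks; stabilizers in cyclic `p`-groups.
-/

set_option autoImplicit false
set_option linter.unusedSectionVars false
set_option linter.style.haveILetI false

universe u

namespace Cfsg.Agent.Lib.Coprime.HHG

open Module Subgroup Cfsg Cfsg.Agent.Lib.FT Cfsg.Agent.Lib.Coprime.HHB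
open scoped commutatorElement

section Commutant

variable {K : Type*} [Field K]

/-- The commutant of a nilpotent operator has dimension at least the dimension of the space. -/
theorem finrank_le_commSub (r : ℕ) :
    ∀ (V : Type u) [AddCommGroup V] [Module K V] [FiniteDimensional K V] (N : End K V), N ^ r = 0 →
      finrank K V ≤ finrank K (commSub N) := by
  induction r with
  | zero =>
    intro V _ _ _ N hN
    have h0 : Subsingleton V := by
      constructor
      intro a b
      have h1 : ∀ v : V, v = 0 := by
        intro v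
        rw [pow_zero] at hN
        have := congrArg (fun f : End K V => f v) hN
        simpa using this
      rw [h1 a, h1 b]
    simp [finrank_zero_of_subsingleton]
  | succ r ih =>
    intro V _ _ _ N hN
    set V' : Submodule K V := LinearMap.range N with hV'
    have hinv : ∀ v ∈ V', N v ∈ V' := fun v _ => LinearMap.mem_range_self N v
    let N' : End K ↥V' := N.restrict hinv
    have hN'v : ∀ v : ↥V', ((N' v : ↥V') : V) = N v := fun _ => rfl
    have hpow : ∀ (k : ℕ) (v : ↥V'), (((N' ^ k) v : ↥V') : V) = (N ^ k) v := by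
      intro k
      induction k with
      | zero => intro v; simp
      | succ k ihk =>
        intro v
        rw [pow_succ', pow_succ', Module.End.mul_apply, Module.End.mul_apply, hN'v, ihk]
    have hN' : N' ^ r = 0 := by
      apply LinearMap.ext
      rintro ⟨_, u, rfl⟩
      apply Subtype.ext
      rw [hpow, LinearMap.zero_apply, Submodule.coe_zero]
      change (N ^ r) (N u) = 0
      rw [← Module.End.mul_apply, ← pow_succ, hN]
      rfl
    have h1 := ih ↥V' N' hN'
    have hrn := LinearMap.finrank_range_add_finrank_ker N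
    obtain ⟨C, hC⟩ := Submodule.exists_isCompl V'
    have hCdim : finrank K ↥V' + finrank K ↥C = finrank K V := Submodule.finrank_add_eq_of_isCompl hC
    -- restriction
    have hres : ∀ f : ↥(commSub N), ∀ v ∈ V', (f : End K V) v ∈ V' := by
      rintro f _ ⟨u, rfl⟩
      have h2 : (f : End K V) * N = N * f := f.2
      refine ⟨(f : End K V) u, ?_⟩
      have h3 := congrArg (fun g : End K V => g u) h2
      exact h3.symm
    let res : ↥(commSub N) →ₗ[K] End K ↥V' :=
      { toFun := fun f => (f : End K V).restrict (hres f)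
        map_add' := fun a b => by
          ext v
          rfl
        map_smul' := fun c a => by
          ext v
          rfl }
    have hresv : ∀ (f : ↥(commSub N)) (v : ↥V'), ((res f v : ↥V') : V) = (f : End K V) v := fun _ _ => rfl
    -- surjectivity onto the commutant of `N'`
    have hsurj : commSub N' ≤ LinearMap.range res := by
      intro h hh
      have hh' : h * N' = N' * h := hh
      obtain ⟨σ, hσ⟩ := (N.rangeRestrict).exists_rightInverse_of_surjective (LinearMap.range_rangeRestrict N)
      have hσv : ∀ v : ↥V', N (σ v) = v := by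
        intro v
        have := congrArg (fun g : ↥V' →ₗ[K] ↥V' => ((g v : ↥V') : V)) hσ
        exact this
      let f : End K V := LinearMap.ofIsCompl hC (V'.subtype ∘ₗ h) (σ ∘ₗ h ∘ₗ N.rangeRestrict ∘ₗ C.subtype)
      have hf1 : ∀ a : ↥V', f a = h a := fun a => LinearMap.ofIsCompl_left_apply hC a
      have hf2 : ∀ c : ↥C, f c = σ (h (N.rangeRestrict c)) := fun c => LinearMap.ofIsCompl_right_apply hC c
      have hfc : f * N = N * f := by
        apply LinearMap.ext
        intro v
        have hv : v ∈ V' ⊔ C := by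
          rw [hC.sup_eq_top]
          trivial
        obtain ⟨a, ha, c, hc, rfl⟩ := Submodule.mem_sup.mp hv
        simp only [Module.End.mul_apply, map_add]
        have e1 : f (N a) = N (f a) := by
          have h2 := hf1 ⟨a, ha⟩
          have h3 := hf1 (N' ⟨a, ha⟩)
          have h4 := congrArg (fun g : End K ↥V' => ((g ⟨a, ha⟩ : ↥V') : V)) hh'
          change f (N a) = _ at h3
          change f a = _ at h2
          rw [h2, h3]
          exact h4
        have e2 : f (N c) = N (f c) := by
          have h2 := hf2 ⟨c, hc⟩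
          change f c = _ at h2
          rw [h2, hσv]
          have h3 := hf1 (N.rangeRestrict c)
          exact h3
        rw [e1, e2]
      refine ⟨⟨f, hfc⟩, ?_⟩
      apply LinearMap.ext
      intro v
      apply Subtype.ext
      rw [hresv]
      exact hf1 v
    -- the kernel
    let proj : V →ₗ[K] ↥C := Submodule.projectionOnto C V' hC.symm
    have hproj1 : ∀ a ∈ V', proj a = 0 := by
      intro a ha
      exact Submodule.projectionOnto_apply_right hC.symm ⟨a, ha⟩
    have hproj2 : ∀ c : ↥C, proj c = c := fun c => Submodule.projectionOnto_apply_left hC.symm c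
    let G : (↥C →ₗ[K] ↥(LinearMap.ker N)) →ₗ[K] ↥(LinearMap.ker res) :=
      { toFun := fun ψ => ⟨⟨(LinearMap.ker N).subtype ∘ₗ ψ ∘ₗ proj, by
            change _ * N = N * _
            apply LinearMap.ext
            intro v
            simp only [Module.End.mul_apply, LinearMap.comp_apply, Submodule.subtype_apply]
            rw [hproj1 _ (LinearMap.mem_range_self N v), map_zero, Submodule.coe_zero]
            exact ((ψ (proj v)).2).symm⟩, by
            rw [LinearMap.mem_ker]
            apply LinearMap.ext
            intro v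
            apply Subtype.ext
            rw [hresv]
            change ((ψ (proj v) : ↥(LinearMap.ker N)) : V) = 0
            rw [hproj1 _ v.2, map_zero, Submodule.coe_zero]⟩
        map_add' := fun a b => by
          apply Subtype.ext
          apply Subtype.ext
          rfl
        map_smul' := fun c a => by
          apply Subtype.ext
          apply Subtype.ext
          rfl }
    have hG : Function.Injective G := by
      refine (injective_iff_map_eq_zero G).mpr ?_
      intro ψ hψ
      apply LinearMap.ext
      intro c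
      apply Subtype.ext
      have h2 : (((G ψ : ↥(LinearMap.ker res)) : ↥(commSub N)) : End K V) c = 0 := by
        rw [hψ]
        rfl
      have h3 : ((ψ (proj c) : ↥(LinearMap.ker N)) : V) = 0 := h2
      rw [hproj2] at h3
      exact h3
    have h2 := LinearMap.finrank_le_finrank_of_injective hG
    rw [Module.finrank_linearMap] at h2
    have h3 := LinearMap.finrank_range_add_finrank_ker res
    have h4 : finrank K (commSub N') ≤ finrank K (LinearMap.range res) := Submodule.finrank_mono hsurj
    -- numeric
    set E := finrank K ↥V' with hE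
    set l := finrank K ↥(LinearMap.ker N) with hl
    set A := finrank K ↥(commSub N') with hA
    set Z := finrank K ↥(commSub N) with hZ
    have hCl : finrank K ↥C = l := by omega
    rw [hCl] at h2
    have hAZ : A + l * l ≤ Z := by omega
    have hD : finrank K V = E + l := by omega
    rw [hD]
    nlinarith [Nat.le_mul_self l]

end Commutant

section Powers

variable {K W : Type*} [Field K] [AddCommGroup W] [Module K W] {p : ℕ} [hp : Fact p.Prime] [CharP K p]

open Polynomial in
theorem sub_one_ppow (T : End K W) (s : ℕ) : (T - 1) ^ (p ^ s) = T ^ (p ^ s) - 1 := by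
  have h1 : ((X : K[X]) - 1) ^ (p ^ s) = X ^ (p ^ s) - 1 := by
    rw [sub_pow_char_pow, one_pow]
  have h2 := congrArg (Polynomial.aeval T) h1
  simpa [map_pow] using h2

open Polynomial in
theorem sub_one_ppow_pred (T : End K W) (s : ℕ) :
    (T - 1) ^ (p ^ s - 1) = ∑ i ∈ Finset.range (p ^ s), T ^ i := by
  have h1 : ((X : K[X]) - 1) ^ (p ^ s - 1) = ∑ i ∈ Finset.range (p ^ s), (X : K[X]) ^ i := by
    have hne : (X : K[X]) - 1 ≠ 0 := by
      have := Polynomial.X_sub_C_ne_zero (1 : K)
      simpa using this
    apply mul_left_cancel₀ hne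
    have hpos : 0 < p ^ s := pow_pos hp.out.pos s
    rw [← pow_succ', Nat.sub_add_cancel hpos, mul_geom_sum, sub_pow_char_pow, one_pow]
  have h2 := congrArg (Polynomial.aeval T) h1
  simpa [map_sum, map_pow] using h2

/-- **The block lemma.** -/
theorem block_lemma (T : End K W) (s r : ℕ) (W₀ : Submodule K W) (hinv : ∀ w ∈ W₀, (T ^ (p ^ s)) w ∈ W₀)
    (hind : ∀ w ∈ W₀, (∑ i ∈ Finset.range (p ^ s), T ^ i) w = 0 → w = 0)
    (hr : ∀ w ∈ W₀, ((T - 1) ^ r) w = 0) : ∀ w ∈ W₀, ((T ^ (p ^ s) - 1) ^ (r / p ^ s)) w = 0 := by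
  intro w hw
  set P := p ^ s with hP
  have hPpos : 0 < P := pow_pos hp.out.pos s
  set t := r / P with ht
  have hmem : ∀ (k : ℕ), ((T ^ P - 1) ^ k) w ∈ W₀ := by
    intro k
    induction k with
    | zero => simpa using hw
    | succ k ih =>
      rw [pow_succ', Module.End.mul_apply, LinearMap.sub_apply, Module.End.one_apply]
      exact W₀.sub_mem (hinv _ ih) ih
  apply hind _ (hmem t)
  rw [← sub_one_ppow_pred (K := K) (p := p), ← hP, ← Module.End.mul_apply]
  have h1 : (T ^ P - 1) ^ t = (T - 1) ^ (P * t) := by
    rw [pow_mul, hP, sub_one_ppow (K := K) (p := p)]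
  rw [h1, ← pow_add]
  have hle : r ≤ (P - 1) + P * t := by
    have h2 : r < P * (t + 1) := by
      rw [ht, mul_comm]
      exact Nat.lt_mul_of_div_lt (by simp) hPpos
    rw [mul_add, mul_one] at h2
    omega
  obtain ⟨d, hd⟩ := Nat.exists_eq_add_of_le hle
  rw [hd, add_comm r d, pow_add, Module.End.mul_apply, hr w hw, map_zero]

/-- A unipotent operator has a nonzero fixed vector. -/
theorem exists_fixed_of_unipotent {M : Type*} [AddCommGroup M] [Module K M] [Nontrivial M] (Θ : End K M) (j : ℕ)
    (hΘ : Θ ^ (p ^ j) = 1) : ∃ f : M, f ≠ 0 ∧ Θ f = f := by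
  classical
  have h0 : (Θ - 1) ^ (p ^ j) = 0 := by
    rw [sub_one_ppow (K := K) (p := p), hΘ, sub_self]
  have hex : ∃ k, (Θ - 1) ^ k = 0 := ⟨_, h0⟩
  have hk := Nat.find_spec hex
  have hk0 : Nat.find hex ≠ 0 := by
    intro h
    rw [h, pow_zero] at hk
    exact one_ne_zero hk
  obtain ⟨k, hk1⟩ := Nat.exists_eq_succ_of_ne_zero hk0
  have hmin := Nat.find_min hex (show k < Nat.find hex by omega)
  have hne : ∃ v, ((Θ - 1) ^ k) v ≠ 0 := by
    by_contra hcon
    push Not at hcon
    exact hmin (LinearMap.ext hcon)
  obtain ⟨v, hv⟩ := hne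
  refine ⟨_, hv, ?_⟩
  rw [hk1] at hk
  have h2 := congrArg (fun g : End K M => g v) hk
  simp only [Nat.succ_eq_add_one, pow_succ', Module.End.mul_apply, LinearMap.sub_apply, Module.End.one_apply,
    LinearMap.zero_apply] at h2
  exact sub_eq_zero.mp h2

end Powers

section Stab

variable {E : Type*} [Group E] {p : ℕ} [hp : Fact p.Prime]

/-- In a cyclic `p`-group, a subgroup containing `x ^ i` contains `x ^ (p ^ e)`, where `p ^ e` is the `p`-part of `i`. -/
theorem ppart_mem (M : Subgroup E) {x : E} {j : ℕ} (hx : x ^ (p ^ j) = 1) {i e i' : ℕ} (hi : i = p ^ e * i')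
    (hi' : ¬ p ∣ i') (hM : x ^ i ∈ M) : x ^ (p ^ e) ∈ M := by
  have hcop : Nat.Coprime i' (p ^ j) := by
    rw [Nat.coprime_comm]
    exact Nat.Coprime.pow_left _ ((Nat.Prime.coprime_iff_not_dvd hp.out).mpr hi')
  by_cases hj : j = 0
  · subst hj
    have hx1 : x = 1 := by simpa using hx
    rw [hx1, one_pow]
    exact M.one_mem
  have h1 : 1 < p ^ j := Nat.one_lt_pow hj hp.out.one_lt
  obtain ⟨m, -, hm⟩ := Nat.exists_mul_mod_eq_one_of_coprime hcop h1
  have h2 : (x ^ i) ^ m ∈ M := M.pow_mem hM m
  have h3 : (x ^ i) ^ m = x ^ (p ^ e) := by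
    rw [hi, ← pow_mul, mul_assoc, pow_mul]
    have h4 : (x ^ p ^ e) ^ (p ^ j) = 1 := by
      rw [← pow_mul, mul_comm, pow_mul, hx, one_pow]
    rw [pow_eq_pow_mod _ h4, hm, pow_one]
  rwa [h3] at h2

/-- In a cyclic `p`-group, a nontrivial power generates a subgroup containing the last nontrivial power. -/
theorem last_mem (M : Subgroup E) {x : E} {j : ℕ} (hx : x ^ (p ^ (j + 1)) = 1) {i : ℕ} (hi0 : i % p ^ (j + 1) ≠ 0)
    (hM : x ^ i ∈ M) : x ^ (p ^ j) ∈ M := by
  have hi00 : i ≠ 0 := by
    rintro rfl
    simp at hi0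
  obtain ⟨e, i', hi', hi⟩ := Nat.exists_eq_pow_mul_and_not_dvd hi00 p hp.out.ne_one
  have h1 := ppart_mem M hx hi hi' hM
  have he : e ≤ j := by
    by_contra hc
    push Not at hc
    apply hi0
    obtain ⟨d, hd⟩ := Nat.exists_eq_add_of_le (show j + 1 ≤ e from hc)
    rw [hi, hd, pow_add, mul_assoc]
    exact Nat.mul_mod_right _ _
  obtain ⟨d, hd⟩ := Nat.exists_eq_add_of_le he
  have h2 : x ^ (p ^ j) = (x ^ (p ^ e)) ^ (p ^ d) := by
    rw [← pow_mul, ← pow_add, hd]
  rw [h2]
  exact M.pow_mem h1 _

end Stab

section Orbit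

variable {K S N E : Type*} [Field K] [AddCommGroup S] [Module K S] [Group N] [Finite N] [Group E]
  {σ : N →* End K S} {τ : E →* End K S} {θ : E →* MulAut N}

/-- The sum over an orbit of length `P` vanishes only at zero. -/
theorem orbit_indep (hind : iSupIndep (simEig σ)) (hcompat : ∀ e n, τ e * σ n = σ (θ e n) * τ e) {x : E} {P : ℕ}
    (hP : 0 < P) {χ : N → K} (hχ : ∀ i, 0 < i → i < P → twist θ (x ^ i) χ ≠ χ) {v : S} (hv : v ∈ simEig σ χ)
    (h : (∑ i ∈ Finset.range P, (τ x) ^ i) v = 0) : v = 0 := by
  obtain ⟨P', rfl⟩ : ∃ P', P = P' + 1 := ⟨P - 1, by omega⟩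
  have hterm : ∀ i ∈ Finset.range P', ((τ x) ^ (i + 1)) v ∈ ⨆ (j : N → K) (_ : j ≠ χ), simEig σ j := by
    intro i hi
    have hi' : i + 1 < P' + 1 := by
      have := Finset.mem_range.mp hi
      omega
    have hne := hχ (i + 1) (by omega) hi'
    refine Submodule.mem_iSup_of_mem _ (Submodule.mem_iSup_of_mem hne ?_)
    rw [← map_pow, ← map_simEig hcompat]
    exact ⟨v, hv, rfl⟩
  have h1 : v = - ∑ i ∈ Finset.range P', ((τ x) ^ (i + 1)) v := by
    rw [Finset.sum_range_succ', LinearMap.add_apply, LinearMap.sum_apply] at h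
    simp only [pow_zero, Module.End.one_apply] at h
    rw [eq_neg_iff_add_eq_zero, add_comm]
    exact h
  have h2 : v ∈ ⨆ (j : N → K) (_ : j ≠ χ), simEig σ j := by
    rw [h1]
    exact Submodule.neg_mem _ (Submodule.sum_mem _ hterm)
  have h3 := (iSupIndep_def.mp hind χ).le_bot ⟨hv, h2⟩
  simpa using h3

/-- The stabilizer of a function under twisting. -/
def twStab (θ : E →* MulAut N) (χ : N → K) : Subgroup E where
  carrier := {e | twist θ e χ = χ}
  mul_mem' := by
    intro a b ha hb
    change twist θ (a * b) χ = χ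
    rw [twist_mul]
    have h1 : twist θ b χ = χ := hb
    have h2 : twist θ a χ = χ := ha
    rw [h1, h2]
  one_mem' := twist_one θ χ
  inv_mem' := by
    intro a ha
    have h1 : twist θ a χ = χ := ha
    change twist θ a⁻¹ χ = χ
    conv_lhs => rw [← h1]
    exact twist_inv_twist θ a χ

@[simp] theorem mem_twStab {χ : N → K} {e : E} : e ∈ twStab θ χ ↔ twist θ e χ = χ := Iff.rfl

end Orbit

end Cfsg.Agent.Lib.Coprime.HHG
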