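import Cfsg.Agent.Lib.Coprime.HHG1

/-!
Hall-Higman Theorem B in general: the summation identity for a group of class two with scalar commutators, the uniqueness of
the irreducible module, and an irreducible submodule invariant under a `p`-element.
-/

set_option autoImplicit false
set_option linter.unusedSectionVars false
set_option linter.style.haveILetI false

namespace Cfsg.Agent.Lib.Coprime.HHG

open Module Subgroup Cfsg Cfsg.Agent.Lib.FT Cfsg.Agent.Lib.Coprime.HHB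
open scoped commutatorElement

section Abstract

variable {K W' W₁ Γ : Type*} [Field K] [AddCommGroup W'] [Module K W'] [AddCommGroup W₁] [Module K W₁] [Group Γ]

/-- Schur's lemma. -/
theorem schur [IsAlgClosed K] [FiniteDimensional K W'] [Nontrivial W'] (τ : Γ →* End K W')
    (hirr : ∀ U : Submodule K W', (∀ g, ∀ w ∈ U, τ g w ∈ U) → U = ⊥ ∨ U = ⊤) (f : End K W')
    (hf : ∀ g, f * τ g = τ g * f) : ∃ c : K, f = c • 1 := by
  obtain ⟨μ, hμ⟩ := Module.End.exists_eigenvalue f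
  have hinv : ∀ g, ∀ w ∈ f.eigenspace μ, τ g w ∈ f.eigenspace μ := by
    intro g w hw
    rw [Module.End.mem_eigenspace_iff] at hw ⊢
    have h1 := congrArg (fun h : End K W' => h w) (hf g)
    simp only [Module.End.mul_apply] at h1
    rw [h1, hw, map_smul]
  rcases hirr _ hinv with h | h
  · exact absurd h hμ
  · refine ⟨μ, LinearMap.ext fun w => ?_⟩
    have h2 : w ∈ f.eigenspace μ := by
      rw [h]
      trivial
    rw [Module.End.mem_eigenspace_iff] at h2
    rw [h2]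
    simp

/-- An intertwiner can be normalized so that its `P`-th power is the identity. -/
theorem exists_normalized [IsAlgClosed K] [FiniteDimensional K W'] [Nontrivial W'] (τ : Γ →* End K W')
    (hirr : ∀ U : Submodule K W', (∀ g, ∀ w ∈ U, τ g w ∈ U) → U = ⊥ ∨ U = ⊤) (α : Γ →* Γ) {P : ℕ} (hP : 0 < P)
    (hα : ∀ g, α^[P] g = g) (h : End K W') (hne : h ≠ 0) (hh : ∀ g, h * τ g = τ (α g) * h) :
    ∃ Ξ : End K W', Ξ ^ P = 1 ∧ (∀ g, Ξ * τ g = τ (α g) * Ξ) ∧ Function.Surjective Ξ := by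
  have hker : LinearMap.ker h = ⊥ := by
    rcases hirr (LinearMap.ker h) (by
      intro g w hw
      rw [LinearMap.mem_ker] at hw ⊢
      have h1 := congrArg (fun f : End K W' => f w) (hh g)
      simp only [Module.End.mul_apply] at h1
      rw [h1, hw, map_zero]) with h0 | h0
    · exact h0
    · exfalso
      apply hne
      exact LinearMap.ker_eq_top.mp h0
  have hinj : Function.Injective h := LinearMap.ker_eq_bot.mp hker
  have hsurj : Function.Surjective h := LinearMap.injective_iff_surjective.mp hinj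
  have hpow : ∀ (k : ℕ) (g : Γ), h ^ k * τ g = τ (α^[k] g) * h ^ k := by
    intro k
    induction k with
    | zero => intro g; simp
    | succ k ih =>
      intro g
      rw [pow_succ, mul_assoc, hh, ← mul_assoc, ih, Function.iterate_succ_apply, mul_assoc, ← pow_succ]
  obtain ⟨μ, hμ⟩ := schur τ hirr (h ^ P) (fun g => by
    rw [hpow, hα])
  have hμ0 : μ ≠ 0 := by
    rintro rfl
    rw [zero_smul] at hμ
    have hinjP : Function.Injective (h ^ P) := by
      rw [Module.End.coe_pow]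
      exact hinj.iterate P
    rw [hμ] at hinjP
    obtain ⟨w, hw⟩ := exists_ne (0 : W')
    apply hw
    exact hinjP (by simp)
  obtain ⟨κ, hκ⟩ := IsAlgClosed.exists_pow_nat_eq μ hP
  have hκ0 : κ ≠ 0 := by
    rintro rfl
    rw [zero_pow hP.ne'] at hκ
    exact hμ0 hκ.symm
  refine ⟨κ⁻¹ • h, ?_, ?_, ?_⟩
  · rw [smul_pow, hμ, smul_smul, inv_pow, hκ, inv_mul_cancel₀ hμ0, one_smul]
  · intro g
    rw [smul_mul_assoc, mul_smul_comm, hh]
  · intro w
    obtain ⟨v, hv⟩ := hsurj (κ • w)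
    refine ⟨v, ?_⟩
    rw [LinearMap.smul_apply, hv, smul_smul, inv_mul_cancel₀ hκ0, one_smul]

/-- A fixed intertwiner. -/
theorem exists_fixed_intertwiner {p : ℕ} [hp : Fact p.Prime] [CharP K p] (τ : Γ →* End K W') (τ₁ : Γ →* End K W₁) (α : Γ →* Γ)
    (Ξ : End K W') (X : End K W₁) (j : ℕ) (hΞ : Ξ ^ (p ^ j) = 1) (hX : X ^ (p ^ j) = 1) (hΞτ : ∀ g, Ξ * τ g = τ (α g) * Ξ)
    (hXτ : ∀ g, X * τ₁ (α g) = τ₁ g * X) (f₁ : W' →ₗ[K] W₁) (hf₁ : f₁ ≠ 0) (hf₁τ : ∀ g v, f₁ (τ g v) = τ₁ g (f₁ v)) :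
    ∃ f₀ : W' →ₗ[K] W₁, f₀ ≠ 0 ∧ (∀ g v, f₀ (τ g v) = τ₁ g (f₀ v)) ∧ ∀ v, X (f₀ (Ξ v)) = f₀ v := by
  let M₀ : Submodule K (W' →ₗ[K] W₁) :=
    { carrier := {f | ∀ g v, f (τ g v) = τ₁ g (f v)}
      add_mem' := by
        intro a b ha hb g v
        simp only [LinearMap.add_apply, map_add, ha g v, hb g v]
      zero_mem' := by
        intro g v
        simp
      smul_mem' := by
        intro c a ha g v
        simp only [LinearMap.smul_apply, map_smul, ha g v] }
  let Θ₀ : (W' →ₗ[K] W₁) →ₗ[K] (W' →ₗ[K] W₁) :=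
    { toFun := fun f => X ∘ₗ f ∘ₗ Ξ
      map_add' := fun a b => by
        ext v
        simp
      map_smul' := fun c a => by
        ext v
        simp }
  have hΘ₀ : ∀ f v, Θ₀ f v = X (f (Ξ v)) := fun _ _ => rfl
  have hinv : ∀ f ∈ M₀, Θ₀ f ∈ M₀ := by
    intro f hf g v
    rw [hΘ₀, hΘ₀]
    have h1 := congrArg (fun t : End K W' => t v) (hΞτ g)
    simp only [Module.End.mul_apply] at h1
    rw [h1, hf (α g) (Ξ v)]
    have h2 := congrArg (fun t : End K W₁ => t (f (Ξ v))) (hXτ g)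
    simp only [Module.End.mul_apply] at h2
    exact h2
  let Θ : End K ↥M₀ := Θ₀.restrict hinv
  have hΘpow : ∀ (k : ℕ) (f : ↥M₀) (v : W'), (((Θ ^ k) f : ↥M₀) : W' →ₗ[K] W₁) v = (X ^ k) ((f : W' →ₗ[K] W₁) ((Ξ ^ k) v)) := by
    intro k
    induction k with
    | zero => intro f v; simp
    | succ k ih =>
      intro f v
      rw [pow_succ', Module.End.mul_apply]
      change X ((((Θ ^ k) f : ↥M₀) : W' →ₗ[K] W₁) (Ξ v)) = _
      rw [ih, pow_succ', Module.End.mul_apply, pow_succ Ξ, Module.End.mul_apply]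
  have hΘP : Θ ^ (p ^ j) = 1 := by
    apply LinearMap.ext
    intro f
    apply Subtype.ext
    apply LinearMap.ext
    intro v
    rw [hΘpow, hΞ, hX]
    rfl
  haveI : Nontrivial ↥M₀ := ⟨⟨⟨f₁, hf₁τ⟩, 0, fun h => hf₁ (congrArg Subtype.val h)⟩⟩
  obtain ⟨f₀, hf₀, hfix⟩ := exists_fixed_of_unipotent (K := K) (p := p) Θ j hΘP
  refine ⟨f₀, fun h => hf₀ (Subtype.ext h), f₀.2, fun v => ?_⟩
  have h1 := congrArg (fun f : ↥M₀ => (f : W' →ₗ[K] W₁) v) hfix
  exact h1

end Abstract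

section Identity

variable {K W F : Type*} [Field K] [AddCommGroup W] [Module K W] [Group F] [Finite F]
  {ρ : F →* End K W} {Q Z : Subgroup F} {x : F}

/-- The averaging sum (without the denominator). -/
noncomputable def sumQ (ρ : F →* End K W) (Q : Subgroup F) [Fintype ↥Q] (f : End K W) : End K W :=
  ∑ a : ↥Q, ρ a * f * ρ (a : F)⁻¹

theorem sumQ_comm [Fintype ↥Q] (f : End K W) {b : F} (hb : b ∈ Q) : ρ b * sumQ ρ Q f = sumQ ρ Q f * ρ b := by
  unfold sumQ
  rw [Finset.mul_sum, Finset.sum_mul]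
  refine Fintype.sum_equiv (Equiv.mulLeft (⟨b, hb⟩ : ↥Q)) _ _ (fun a => ?_)
  have h1 : ρ ((((Equiv.mulLeft (⟨b, hb⟩ : ↥Q)) a : ↥Q) : F)) = ρ b * ρ (a : F) := by
    rw [← map_mul]
    rfl
  have h2 : ρ (((Equiv.mulLeft (⟨b, hb⟩ : ↥Q)) a : ↥Q) : F)⁻¹ * ρ b = ρ (a : F)⁻¹ := by
    rw [← map_mul]
    congr 1
    change ((b * (a : F))⁻¹ * b) = _
    group
  rw [h1, mul_assoc (ρ b * ρ (a : F)) f, mul_assoc (ρ b * ρ (a : F)) (f * _), mul_assoc f, h2]
  simp only [mul_assoc]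

/-- The summation identity. -/
theorem sum_identity [Nontrivial W] [Fintype ↥Q] [DecidablePred (fun a : ↥Q => (a : F) ∈ Z)]
    (hZQ : Z ≤ Q) (hZs : ∀ z ∈ Z, ∃ c : K, ρ z = c • 1)
    (hcomm : ∀ a ∈ Q, ∀ b ∈ Q, ⁅a, b⁆ ∈ Z) (hnd : ∀ a ∈ Q, (∀ b ∈ Q, ρ ⁅a, b⁆ = 1) → a ∈ Z) (f : End K W) :
    ∑ c : ↥Q, sumQ ρ Q (f * ρ (c : F)) * ρ (c : F)⁻¹ =
      (((Fintype.card ↥Q) * (Finset.univ.filter (fun a : ↥Q => (a : F) ∈ Z)).card : ℕ) : K) • f := by
  classical
  have hex : ∀ c a : ↥Q, ∃ u : K, ρ ⁅(c : F), (a : F)⁻¹⁆ = u • 1 := fun c a =>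
    hZs _ (hcomm _ c.2 _ (Q.inv_mem a.2))
  choose g hg using hex
  have hone : (1 : End K W) ≠ 0 := one_ne_zero
  have hscal : ∀ {u v : K}, u • (1 : End K W) = v • (1 : End K W) → u = v := by
    intro u v h
    have h1 : (u - v) • (1 : End K W) = 0 := by rw [sub_smul, h, sub_self]
    rcases smul_eq_zero.mp h1 with h2 | h2
    · exact sub_eq_zero.mp h2
    · exact absurd h2 hone
  have hterm : ∀ c a : ↥Q, ρ (a : F) * (f * ρ (c : F)) * ρ (a : F)⁻¹ * ρ (c : F)⁻¹ =
      g c a • (ρ (a : F) * f * ρ (a : F)⁻¹) := by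
    intro c a
    have h1 : (c : F) * (a : F)⁻¹ * (c : F)⁻¹ = ⁅(c : F), (a : F)⁻¹⁆ * (a : F)⁻¹ := by
      rw [commutatorElement_def]
      group
    calc ρ (a : F) * (f * ρ (c : F)) * ρ (a : F)⁻¹ * ρ (c : F)⁻¹
        = ρ (a : F) * f * (ρ (c : F) * ρ (a : F)⁻¹ * ρ (c : F)⁻¹) := by simp only [mul_assoc]
      _ = ρ (a : F) * f * ρ ((c : F) * (a : F)⁻¹ * (c : F)⁻¹) := by simp only [map_mul]
      _ = ρ (a : F) * f * (ρ ⁅(c : F), (a : F)⁻¹⁆ * ρ (a : F)⁻¹) := by rw [h1, map_mul]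
      _ = g c a • (ρ (a : F) * f * ρ (a : F)⁻¹) := by
        rw [hg c a, smul_mul_assoc, one_mul, mul_smul_comm]
  have hsum : ∀ c : ↥Q, sumQ ρ Q (f * ρ (c : F)) * ρ (c : F)⁻¹ =
      ∑ a : ↥Q, g c a • (ρ (a : F) * f * ρ (a : F)⁻¹) := by
    intro c
    unfold sumQ
    rw [Finset.sum_mul]
    exact Finset.sum_congr rfl (fun a _ => hterm c a)
  simp only [hsum]
  rw [Finset.sum_comm]
  have hin : ∀ a : ↥Q, ∑ c : ↥Q, g c a • (ρ (a : F) * f * ρ (a : F)⁻¹) =
      if (a : F) ∈ Z then ((Fintype.card ↥Q : ℕ) : K) • f else 0 := by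
    intro a
    rw [← Finset.sum_smul]
    split_ifs with ha
    · -- `a` acts as a scalar
      obtain ⟨u, hu⟩ := hZs a ha
      have hconj : ρ (a : F) * f * ρ (a : F)⁻¹ = f := by
        have h1 := conj_of_scalar (ρ := ρ) hu
        have h2 := congrArg (fun φ : End K (End K W) => φ f) h1
        exact h2
      have hg1 : ∀ c : ↥Q, g c a = 1 := by
        intro c
        apply hscal
        rw [← hg c a, one_smul, commutatorElement_def, map_mul, map_mul, map_mul]
        obtain ⟨u', hu'⟩ := hZs _ (Z.inv_mem ha)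
        rw [hu', inv_inv, hu]
        simp only [mul_smul_comm, smul_mul_assoc, mul_one]
        rw [rho_mul_inv, smul_smul]
        have h3 : u * u' = 1 := by
          apply hscal
          rw [one_smul]
          have h4 := rho_mul_inv ρ (a : F)⁻¹
          rw [inv_inv, hu', hu, smul_mul_assoc, one_mul, smul_smul, mul_comm] at h4
          exact h4
        rw [h3, one_smul]
      rw [hconj]
      simp [hg1]
    · -- a nontrivial character
      obtain ⟨b, hb, hb1⟩ : ∃ b ∈ Q, ρ ⁅(a : F), b⁆ ≠ 1 := by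
        by_contra hcon
        push Not at hcon
        exact ha (hnd a a.2 hcon)
      have hbb : ρ ⁅b, (a : F)⁻¹⁆ ≠ 1 := by
        have h1 : ⁅b, (a : F)⁻¹⁆ = (a : F)⁻¹ * ⁅(a : F), b⁆ * a := by
          simp only [commutatorElement_def]
          group
        rw [h1, map_mul, map_mul]
        obtain ⟨u, hu⟩ := hZs _ (hcomm a a.2 b hb)
        rw [hu, mul_smul_comm, mul_one, smul_mul_assoc, rho_inv_mul, ← hu]
        exact hb1
      have hmul : ∀ c c' : ↥Q, g (c * c') a = g c a * g c' a := by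
        intro c c'
        apply hscal
        rw [← hg, mul_smul, ← one_smul K (1 : End K W)]
        have h1 : ⁅((c * c' : ↥Q) : F), (a : F)⁻¹⁆ = (c : F) * ⁅(c' : F), (a : F)⁻¹⁆ * (c : F)⁻¹ * ⁅(c : F), (a : F)⁻¹⁆ := by
          simp only [commutatorElement_def, Subgroup.coe_mul]
          group
        rw [h1, map_mul, map_mul, map_mul, hg c' a, hg c a]
        simp only [mul_smul_comm, smul_mul_assoc, mul_one, one_smul]
        rw [rho_mul_inv, smul_smul, mul_comm, mul_smul]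
      have hg0 : g ⟨b, hb⟩ a ≠ 1 := by
        intro h0
        apply hbb
        have := hg ⟨b, hb⟩ a
        rw [h0, one_smul] at this
        exact this
      have hs : ∑ c : ↥Q, g c a = 0 := by
        have h1 : ∑ c : ↥Q, g c a = g ⟨b, hb⟩ a * ∑ c : ↥Q, g c a := by
          rw [Finset.mul_sum]
          refine (Fintype.sum_equiv (Equiv.mulLeft (⟨b, hb⟩ : ↥Q)) _ _ (fun c => ?_)).symm
          simp [hmul]
        have h2 : (g ⟨b, hb⟩ a - 1) * ∑ c : ↥Q, g c a = 0 := by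
          rw [sub_mul, ← h1, one_mul, sub_self]
        rcases mul_eq_zero.mp h2 with h3 | h3
        · exact absurd (sub_eq_zero.mp h3) hg0
        · exact h3
      rw [hs, zero_smul]
  simp only [hin]
  rw [Finset.sum_ite, Finset.sum_const_zero, add_zero, Finset.sum_const, ← Nat.cast_smul_eq_nsmul K, smul_smul, mul_comm]
  push_cast
  rfl

end Identity

end Cfsg.Agent.Lib.Coprime.HHG
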