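import Cfsg.Agent.Lib.Coprime.HHG2

/-!
Hall-Higman Theorem B in general: dimension of an irreducible module, and an irreducible submodule invariant under a `p`-element.
-/

set_option autoImplicit false
set_option linter.unusedSectionVars false
set_option linter.style.haveILetI false

namespace Cfsg.Agent.Lib.Coprime.HHG

open Module Subgroup Cfsg Cfsg.Agent.Lib.FT Cfsg.Agent.Lib.Coprime.HHB
open scoped commutatorElement

section Irr

variable {K W F : Type*} [Field K] [IsAlgClosed K] [AddCommGroup W] [Module K W] [FiniteDimensional K W] [Nontrivial W]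
  [Group F] [Finite F] {ρ : F →* End K W} {Q Z : Subgroup F} {x : F}

theorem cast_sum_ne_zero [Fintype ↥Q] [DecidablePred (fun a : ↥Q => (a : F) ∈ Z)] (hKQ : (Nat.card Q : K) ≠ 0) :
    (((Fintype.card ↥Q) * (Finset.univ.filter (fun a : ↥Q => (a : F) ∈ Z)).card : ℕ) : K) ≠ 0 := by
  have h1 : Nat.card ↥(Z.subgroupOf Q) = (Finset.univ.filter (fun a : ↥Q => (a : F) ∈ Z)).card := by
    classical
    rw [Nat.card_eq_fintype_card]
    exact Fintype.card_of_subtype _ (by simp [Subgroup.mem_subgroupOf])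
  rw [← h1, ← Nat.card_eq_fintype_card, Nat.cast_mul]
  refine mul_ne_zero hKQ ?_
  intro h0
  apply hKQ
  obtain ⟨c, hc⟩ := Subgroup.card_subgroup_dvd_card (Z.subgroupOf Q)
  rw [hc, Nat.cast_mul, h0, zero_mul]

/-- An irreducible module for a group with scalar commutators has dimension squared at most the index. -/
theorem finrank_end_le (hZQ : Z ≤ Q) (hZs : ∀ z ∈ Z, ∃ c : K, ρ z = c • 1)
    (hcomm : ∀ a ∈ Q, ∀ b ∈ Q, ⁅a, b⁆ ∈ Z) (hnd : ∀ a ∈ Q, (∀ b ∈ Q, ρ ⁅a, b⁆ = 1) → a ∈ Z)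
    (hKQ : (Nat.card Q : K) ≠ 0)
    (hirr : ∀ U : Submodule K W, (∀ a ∈ Q, ∀ w ∈ U, ρ a w ∈ U) → U = ⊥ ∨ U = ⊤) :
    finrank K (End K W) ≤ Z.relIndex Q := by
  classical
  letI := Fintype.ofFinite ↥Q
  let Q₀ := ↥Q
  let Z₀ : Subgroup Q₀ := Z.subgroupOf Q
  letI : Fintype (Q₀ ⧸ Z₀) := Fintype.ofFinite _
  let τ : Q₀ ⧸ Z₀ → Q₀ := Quotient.out
  have hτ : ∀ u : Q₀ ⧸ Z₀, (QuotientGroup.mk (τ u) : Q₀ ⧸ Z₀) = u := fun u => Quotient.out_eq' u
  let b : Q₀ ⧸ Z₀ → End K W := fun u => ρ ((τ u : Q₀) : F)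
  have hirr' : ∀ U : Submodule K W, (∀ g : ↥Q, ∀ w ∈ U, (ρ.comp Q.subtype) g w ∈ U) → U = ⊥ ∨ U = ⊤ := fun U hU =>
    hirr U (fun a ha w hw => hU ⟨a, ha⟩ w hw)
  have hmemb : ∀ c : Q₀, ρ (c : F) ∈ Submodule.span K (Set.range b) := by
    intro c
    set u : Q₀ ⧸ Z₀ := (c : Q₀ ⧸ Z₀) with hu
    have h1 : (τ u)⁻¹ * c ∈ Z₀ := by
      have := hτ u
      exact QuotientGroup.eq.mp this
    obtain ⟨v, hv⟩ := hZs _ (Subgroup.mem_subgroupOf.mp h1)
    have h2 : (c : F) = ((τ u : Q₀) : F) * (((τ u)⁻¹ * c : Q₀) : F) := by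
      have h3 : c = τ u * ((τ u)⁻¹ * c) := (mul_inv_cancel_left _ _).symm
      exact congrArg Subtype.val h3
    rw [h2, map_mul, hv, mul_smul_comm, mul_one]
    exact Submodule.smul_mem _ _ (Submodule.subset_span ⟨u, rfl⟩)
  have hspan : Submodule.span K (Set.range b) = ⊤ := by
    rw [eq_top_iff]
    intro f _
    have hid := sum_identity hZQ hZs hcomm hnd f
    have hN := cast_sum_ne_zero (Q := Q) (Z := Z) hKQ
    refine (Submodule.smul_mem_iff _ hN).mp ?_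
    rw [← hid]
    refine Submodule.sum_mem _ (fun c _ => ?_)
    obtain ⟨μ, hμ⟩ := schur (ρ.comp Q.subtype) hirr' (sumQ ρ Q (f * ρ (c : F))) (fun g => (sumQ_comm _ g.2).symm)
    rw [hμ, smul_mul_assoc, one_mul]
    exact Submodule.smul_mem _ _ (hmemb c⁻¹)
  have h1 := finrank_range_le_card (R := K) b
  rw [Set.finrank, hspan, finrank_top] at h1
  have hidx : Z.relIndex Q = Fintype.card (Q₀ ⧸ Z₀) := by
    rw [Subgroup.relIndex, Subgroup.index, Nat.card_eq_fintype_card]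
  rw [hidx]
  exact h1

/-- **An irreducible submodule invariant under a `p`-element.** -/
theorem exists_irr_inv {p : ℕ} [hp : Fact p.Prime] [CharP K p] (hZQ : Z ≤ Q) (hZs : ∀ z ∈ Z, ∃ c : K, ρ z = c • 1)
    (hcomm : ∀ a ∈ Q, ∀ b ∈ Q, ⁅a, b⁆ ∈ Z) (hnd : ∀ a ∈ Q, (∀ b ∈ Q, ρ ⁅a, b⁆ = 1) → a ∈ Z)
    (hKQ : (Nat.card Q : K) ≠ 0) (hxQ : ∀ a ∈ Q, x * a * x⁻¹ ∈ Q) (hxQ' : ∀ a ∈ Q, x⁻¹ * a * x ∈ Q) {j : ℕ}
    (hxp : x ^ (p ^ j) = 1) :
    ∃ W₂ : Submodule K W, W₂ ≠ ⊥ ∧ (∀ a ∈ Q, ∀ w ∈ W₂, ρ a w ∈ W₂) ∧ (∀ w ∈ W₂, ρ x w ∈ W₂) ∧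
      ∀ U : Submodule K W, U ≤ W₂ → (∀ a ∈ Q, ∀ w ∈ U, ρ a w ∈ U) → U = ⊥ ∨ U = W₂ := by
  classical
  letI := Fintype.ofFinite ↥Q
  -- a minimal invariant subspace
  let 𝒜 : Set (Submodule K W) := {U | U ≠ ⊥ ∧ ∀ a ∈ Q, ∀ w ∈ U, ρ a w ∈ U}
  have h𝒜 : 𝒜.Nonempty := ⟨⊤, top_ne_bot, fun _ _ _ _ => trivial⟩
  obtain ⟨W', ⟨hW'0, hW'inv⟩, hmin⟩ := WellFounded.has_min (wellFounded_lt (α := Submodule K W)) 𝒜 h𝒜
  haveI : Nontrivial ↥W' := Submodule.nontrivial_iff_ne_bot.mpr hW'0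
  let τ : ↥Q →* End K ↥W' := resRep (ρ := ρ) Q W' hW'inv
  have hτ : ∀ (g : ↥Q) (v : ↥W'), ((τ g v : ↥W') : W) = ρ g v := fun _ _ => rfl
  have hirr : ∀ U : Submodule K ↥W', (∀ g, ∀ w ∈ U, τ g w ∈ U) → U = ⊥ ∨ U = ⊤ := by
    intro U hU
    by_cases h0 : U = ⊥
    · exact Or.inl h0
    right
    have h1 : U.map W'.subtype ∈ 𝒜 := by
      refine ⟨?_, ?_⟩
      · intro h2
        apply h0
        rw [Submodule.eq_bot_iff]
        intro v hv
        have h3 : (v : W) ∈ U.map W'.subtype := ⟨v, hv, rfl⟩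
        rw [h2, Submodule.mem_bot] at h3
        exact Subtype.ext h3
      · rintro a ha _ ⟨w, hw, rfl⟩
        exact ⟨τ ⟨a, ha⟩ w, hU ⟨a, ha⟩ w hw, rfl⟩
    have h2 : U.map W'.subtype ≤ W' := Submodule.map_subtype_le W' U
    have h3 : U.map W'.subtype = W' := by
      by_contra hne
      exact hmin _ h1 (lt_of_le_of_ne h2 hne)
    rw [eq_top_iff]
    intro v _
    have hv : (v : W) ∈ U.map W'.subtype := by
      rw [h3]
      exact v.2
    obtain ⟨w, hw, hwv⟩ := hv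
    have : w = v := Subtype.ext hwv
    rwa [← this]
  let α : ↥Q →* ↥Q :=
    { toFun := fun a => ⟨x⁻¹ * a * x, hxQ' a a.2⟩
      map_one' := Subtype.ext (by simp)
      map_mul' := fun a b => Subtype.ext (by
        change x⁻¹ * ((a : F) * b) * x = (x⁻¹ * a * x) * (x⁻¹ * b * x)
        group) }
  have hαv : ∀ a : ↥Q, ((α a : ↥Q) : F) = x⁻¹ * a * x := fun _ => rfl
  have hαit : ∀ (k : ℕ) (a : ↥Q), ((α^[k] a : ↥Q) : F) = (x ^ k)⁻¹ * a * x ^ k := by
    intro k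
    induction k with
    | zero => intro a; simp
    | succ k ih =>
      intro a
      rw [Function.iterate_succ_apply', hαv, ih, pow_succ]
      group
  have hαP : ∀ g, α^[p ^ j] g = g := by
    intro g
    apply Subtype.ext
    rw [hαit, hxp]
    simp
  have hPpos : 0 < p ^ j := pow_pos hp.out.pos j
  -- the intertwiner
  obtain ⟨π', hπ'⟩ := LinearMap.exists_leftInverse_of_injective W'.subtype (Submodule.ker_subtype W')
  have hπ'v : ∀ v : ↥W', π' (v : W) = v := fun v => LinearMap.congr_fun hπ' v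
  let f : End K W := ρ x * (W'.subtype ∘ₗ π')
  have hfv : ∀ v ∈ W', f v = ρ x v := by
    intro v hv
    change ρ x ((π' v : ↥W') : W) = _
    rw [hπ'v ⟨v, hv⟩]
  have hinvx : ∀ v, ρ x⁻¹ (ρ x v) = v := by
    intro v
    rw [← Module.End.mul_apply, ← map_mul, inv_mul_cancel, map_one, Module.End.one_apply]
  obtain ⟨v₀, hv₀, hv₀0⟩ := Submodule.exists_mem_ne_zero_of_ne_bot hW'0
  obtain ⟨c, v₁, hv₁, hgv₁⟩ : ∃ (c : ↥Q), ∃ v₁ ∈ W', sumQ ρ Q (f * ρ (c : F)) v₁ ≠ 0 := by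
    by_contra hcon
    push Not at hcon
    have hid := sum_identity hZQ hZs hcomm hnd f
    have hN := cast_sum_ne_zero (Q := Q) (Z := Z) hKQ
    have h1 := congrArg (fun g : End K W => g v₀) hid
    simp only [LinearMap.sum_apply, LinearMap.smul_apply, Module.End.mul_apply] at h1
    rw [Finset.sum_eq_zero (fun c _ => hcon c _ (hW'inv _ (Q.inv_mem c.2) _ hv₀))] at h1
    have h2 := (smul_eq_zero.mp h1.symm).resolve_left hN
    rw [hfv v₀ hv₀] at h2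
    apply hv₀0
    have h3 := hinvx v₀
    rw [h2, map_zero] at h3
    exact h3.symm
  set g : End K W := sumQ ρ Q (f * ρ (c : F)) with hg
  have hgW : ∀ u, ρ x⁻¹ (g u) ∈ W' := by
    intro u
    rw [hg]
    unfold sumQ
    rw [LinearMap.sum_apply, map_sum]
    refine Submodule.sum_mem _ (fun a _ => ?_)
    simp only [Module.End.mul_apply]
    change ρ x⁻¹ (ρ (a : F) (ρ x ((π' _ : ↥W') : W))) ∈ W'
    have h5 := hW'inv _ (hxQ' a a.2) _ (π' (ρ (c : F) (ρ (a : F)⁻¹ u))).2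
    simpa only [map_mul, Module.End.mul_apply] using h5
  have hginv : ∀ v ∈ W', (ρ x⁻¹ * g) v ∈ W' := fun v _ => hgW v
  let h : End K ↥W' := (ρ x⁻¹ * g).restrict hginv
  have hhv : ∀ v : ↥W', ((h v : ↥W') : W) = ρ x⁻¹ (g v) := fun _ => rfl
  have hh0 : h ≠ 0 := by
    intro h0
    apply hgv₁
    have h1 := congrArg (fun t : End K ↥W' => ((t ⟨v₁, hv₁⟩ : ↥W') : W)) h0
    have h2 : ρ x⁻¹ (g v₁) = 0 := h1
    have h3 : ρ x (ρ x⁻¹ (g v₁)) = g v₁ := by
      rw [← Module.End.mul_apply, ← map_mul, mul_inv_cancel, map_one, Module.End.one_apply]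
    rw [h2, map_zero] at h3
    exact h3.symm
  have hhτ : ∀ a, h * τ a = τ (α a) * h := by
    intro a
    apply LinearMap.ext
    intro v
    apply Subtype.ext
    rw [Module.End.mul_apply, Module.End.mul_apply, hhv, hτ, hτ, hhv, hαv]
    have h1 := congrArg (fun t : End K W => t (v : W)) (sumQ_comm (ρ := ρ) (f * ρ (c : F)) a.2)
    simp only [Module.End.mul_apply] at h1
    rw [← hg] at h1
    have h2 : ρ (x⁻¹ * (a : F) * x) * ρ x⁻¹ = ρ x⁻¹ * ρ (a : F) := by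
      rw [← map_mul, ← map_mul]
      congr 1
      group
    have h3 := congrArg (fun t : End K W => t (g v)) h2
    simp only [Module.End.mul_apply] at h3
    rw [h3, h1]
  obtain ⟨Ξ, hΞP, hΞτ, hΞs⟩ := exists_normalized τ hirr α hPpos hαP h hh0 hhτ
  -- the fixed intertwiner
  have hXP : ρ x ^ (p ^ j) = 1 := by
    rw [← map_pow, hxp, map_one]
  obtain ⟨f₀, hf₀0, hf₀τ, hf₀X⟩ := exists_fixed_intertwiner (p := p) τ (ρ.comp Q.subtype) α Ξ (ρ x) j hΞP hXP hΞτ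
    (fun a => by
      simp only [MonoidHom.comp_apply, Subgroup.coe_subtype, hαv]
      rw [← map_mul, ← map_mul]
      congr 1
      group) W'.subtype (by
      intro h0
      apply hv₀0
      have h1 := congrArg (fun t : ↥W' →ₗ[K] W => t ⟨v₀, hv₀⟩) h0
      exact h1) (fun _ _ => rfl)
  have hkerf : LinearMap.ker f₀ = ⊥ := by
    rcases hirr (LinearMap.ker f₀) (by
      intro a w hw
      rw [LinearMap.mem_ker] at hw ⊢
      rw [hf₀τ, hw, map_zero]) with h0 | h0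
    · exact h0
    · exact absurd (LinearMap.ker_eq_top.mp h0) hf₀0
  refine ⟨LinearMap.range f₀, ?_, ?_, ?_, ?_⟩
  · intro h0
    exact hf₀0 (LinearMap.range_eq_bot.mp h0)
  · rintro a ha _ ⟨v, rfl⟩
    exact ⟨τ ⟨a, ha⟩ v, hf₀τ ⟨a, ha⟩ v⟩
  · rintro _ ⟨v, rfl⟩
    obtain ⟨v', rfl⟩ := hΞs v
    exact ⟨v', (hf₀X v').symm⟩
  · intro U hU hUinv
    rcases hirr (U.comap f₀) (by
      intro a w hw
      rw [Submodule.mem_comap] at hw ⊢
      rw [hf₀τ]
      exact hUinv a a.2 _ hw) with h0 | h0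
    · left
      rw [Submodule.eq_bot_iff]
      intro u hu
      obtain ⟨v, rfl⟩ := hU hu
      have h1 : v ∈ U.comap f₀ := hu
      rw [h0, Submodule.mem_bot] at h1
      rw [h1, map_zero]
    · right
      apply le_antisymm hU
      rintro _ ⟨v, rfl⟩
      have h1 : v ∈ U.comap f₀ := by
        rw [h0]
        trivial
      exact h1

end Irr

end Cfsg.Agent.Lib.Coprime.HHG
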