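import Cfsg.Agent.Lib.Coprime.HHG3
import Cfsg.Agent.Lib.OddLocal.CoprimeFix

/-!
Hall-Higman Theorem B in general: the exceptional case of the count, and the behaviour on an eigenspace of `Q'`.
-/

set_option autoImplicit false
set_option linter.unusedSectionVars false
set_option linter.style.haveILetI false

namespace Cfsg.Agent.Lib.Coprime.HHG

open Module Subgroup Cfsg Cfsg.Agent.Lib.FT Cfsg.Agent.Lib.Coprime.HHB Cfsg.Agent.Lib.Coprime.HHFix
open scoped commutatorElement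

section Numeric

/-- The numerical core. -/
theorem numeric_exc {n t w I c₁ C : ℕ} (htn : t < n) (h1 : w ^ 2 ≤ I) (h2 : I * c₁ ≤ w ^ 2) (hc₁ : 1 ≤ c₁) (h3 : w ≤ C)
    (h4 : n * C ≤ w ^ 2 + (n - 1) * c₁) (h5 : (n - t) * I ≤ t * (n - 1)) (hI : 1 < I) :
    t + 1 = n ∧ w + 1 = n ∧ I = w ^ 2 := by
  have hc : c₁ = 1 := by
    have h6 : I * c₁ ≤ I * 1 := by
      rw [mul_one]
      exact h2.trans h1
    have := Nat.le_of_mul_le_mul_left h6 (by omega)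
    omega
  subst hc
  rw [mul_one] at h2 h4
  have hIw : I = w ^ 2 := le_antisymm h2 h1
  subst hIw
  have hw : 2 ≤ w := by
    by_contra hc
    push Not at hc
    interval_cases w <;> simp at hI
  obtain ⟨n', rfl⟩ : ∃ n', n = n' + 1 := ⟨n - 1, by omega⟩
  simp only [Nat.add_sub_cancel] at h4 h5
  obtain ⟨s, hs⟩ : ∃ s, n' = t + s := ⟨n' - t, by omega⟩
  subst hs
  have h6 : t + s + 1 - t = s + 1 := by omega
  rw [h6] at h5
  have h7 : (t + s + 1) * w ≤ w ^ 2 + (t + s) := by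
    calc (t + s + 1) * w ≤ (t + s + 1) * C := Nat.mul_le_mul_left _ h3
      _ ≤ _ := h4
  have h8 : t + s ≤ w := by
    obtain ⟨v, rfl⟩ : ∃ v, w = v + 1 := ⟨w - 1, by omega⟩
    have hv : 1 ≤ v := by omega
    have h9 : (t + s + 1) * (v + 1) ≤ (v + 1) ^ 2 + (t + s) := h7
    have h10 : (t + s + 1) * v ≤ v * (v + 2) := by nlinarith
    have h11 := Nat.le_of_mul_le_mul_left (by rw [mul_comm]; exact h10 : v * (t + s + 1) ≤ v * (v + 2)) (by omega)
    omega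
  have h9 : w ≤ t + s := by
    by_contra hc
    push Not at hc
    have h10 : (t + s + 1) ^ 2 ≤ w ^ 2 := Nat.pow_le_pow_left hc 2
    nlinarith
  have hwe : w = t + s := le_antisymm h9 h8
  subst hwe
  have hs0 : s = 0 := by
    by_contra hne
    have hs1 : 1 ≤ s := Nat.pos_of_ne_zero hne
    have h10 : (s + 1) * (t + s) ≤ t := by
      have h11 : ((s + 1) * (t + s)) * (t + s) ≤ t * (t + s) := by
        calc ((s + 1) * (t + s)) * (t + s) = (s + 1) * (t + s) ^ 2 := by ring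
          _ ≤ t * (t + s) := h5
      exact Nat.le_of_mul_le_mul_right h11 (by omega)
    nlinarith
  subst hs0
  simp

end Numeric

section Count

variable {K W F : Type*} [Field K] [IsAlgClosed K] [AddCommGroup W] [Module K W] [FiniteDimensional K W]
  [Group F] [Finite F] {ρ : F →* End K W} {Q Z : Subgroup F} {x : F} {q : ℕ} [hqf : Fact q.Prime]

/-- The exceptional case on an irreducible module. -/
theorem cl_irr [Nontrivial W] (h : CLData ρ Q Z x) (hq : IsPGroup q Q)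
    (hirr : ∀ U : Submodule K W, (∀ a ∈ Q, ∀ w ∈ U, ρ a w ∈ U) → U = ⊥ ∨ U = ⊤) {t : ℕ} (ht : (ρ x - 1) ^ t = 0)
    (htn : t < orderOf x) : t + 1 = orderOf x ∧ ∃ m : ℕ, 1 ≤ m ∧ orderOf x - 1 = q ^ m := by
  have h1 := finrank_end_le h.hZQ h.hZs h.hcomm h.hnd h.hKQ hirr
  have hfin : finrank K (End K W) = finrank K W ^ 2 := by
    rw [sq]
    exact Module.finrank_linearMap K K W W
  rw [hfin] at h1
  obtain ⟨c₁, hc₁, hidx, hcount⟩ := cl_count h
  have hA := finrank_le_commSub (K := K) t W (ρ x - 1) ht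
  rw [commSub_sub_one] at hA
  have hnum := cl_numeric h ht
  have hI : 1 < Z.relIndex Q := by
    have h0 : Z.relIndex Q ≠ 0 := Subgroup.index_ne_zero_of_finite
    have h2 : Z.relIndex Q ≠ 1 := by
      intro h3
      obtain ⟨a, ha, haZ⟩ := h.hne
      exact haZ (Subgroup.relIndex_eq_one.mp h3 ha)
    omega
  obtain ⟨h3, h4, h5⟩ := numeric_exc htn h1 hidx hc₁ hA hcount hnum hI
  refine ⟨h3, ?_⟩
  have hd : finrank K W ∣ q ^ (IsPGroup.iff_card.mp hq).choose := by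
    rw [← (IsPGroup.iff_card.mp hq).choose_spec]
    have h6 : Z.relIndex Q ∣ Nat.card Q := Subgroup.relIndex_dvd_card Z Q
    rw [h5] at h6
    exact (Dvd.intro_left _ (sq (finrank K W)).symm).trans h6
  obtain ⟨m, -, hm⟩ := (Nat.dvd_prime_pow hqf.out).mp hd
  refine ⟨m, ?_, ?_⟩
  · rcases Nat.eq_zero_or_pos m with rfl | hpos
    · exfalso
      rw [pow_zero] at hm
      rw [hm, one_pow] at h5
      omega
    · exact hpos
  · rw [← h4, ← hm]
    simp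

/-- The exceptional case, using an invariant irreducible submodule. -/
theorem cl_exc [Nontrivial W] {p : ℕ} [hpf : Fact p.Prime] [CharP K p] {j : ℕ} (h : CLData ρ Q Z x) (hq : IsPGroup q Q)
    (hxn : orderOf x = p ^ j) {t : ℕ} (ht : (ρ x - 1) ^ t = 0) (htn : t < p ^ j) :
    t + 1 = p ^ j ∧ ∃ m : ℕ, 1 ≤ m ∧ p ^ j - 1 = q ^ m := by
  classical
  have hxp : x ^ (p ^ j) = 1 := by
    rw [← hxn]
    exact pow_orderOf_eq_one x
  have hxQn : x ∈ normalizer (Q : Set F) := Cfsg.Agent.Lib.Coprime.mem_normalizer_of_conj_le _ _ h.hxQ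
  have hxQ' : ∀ a ∈ Q, x⁻¹ * a * x ∈ Q := by
    intro a ha
    have := (Subgroup.mem_normalizer_iff.mp (inv_mem hxQn) a).mp ha
    simpa using this
  obtain ⟨W₂, hW₂0, hW₂Q, hW₂x, hW₂irr⟩ := exists_irr_inv (p := p) h.hZQ h.hZs h.hcomm h.hnd h.hKQ h.hxQ hxQ' hxp
  haveI : Nontrivial ↥W₂ := Submodule.nontrivial_iff_ne_bot.mpr hW₂0
  -- the stabilizer
  let T : Subgroup F :=
    { carrier := {g | ∀ w ∈ W₂, ρ g w ∈ W₂}
      mul_mem' := by
        intro a b ha hb w hw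
        rw [map_mul, Module.End.mul_apply]
        exact ha _ (hb w hw)
      one_mem' := by
        intro w hw
        rw [map_one]
        exact hw
      inv_mem' := by
        intro a ha w hw
        have h1 : ∀ n : ℕ, ρ (a ^ n) w ∈ W₂ := by
          intro n
          induction n with
          | zero => simpa using hw
          | succ n ih =>
            rw [pow_succ', map_mul, Module.End.mul_apply]
            exact ha _ ih
        have h2 : a⁻¹ = a ^ (orderOf a - 1) := by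
          rw [eq_comm, ← mul_eq_one_iff_eq_inv, ← pow_succ, Nat.sub_add_cancel (orderOf_pos a), pow_orderOf_eq_one]
        rw [h2]
        exact h1 _ }
  set Y₀ : Subgroup F := Q ⊔ zpowers x with hY₀
  have hY₀T : Y₀ ≤ T := sup_le (fun a ha w hw => hW₂Q a ha w hw) (Subgroup.zpowers_le.mpr hW₂x)
  have hWinv : ∀ y ∈ Y₀, ∀ w ∈ W₂, ρ y w ∈ W₂ := fun y hy w hw => hY₀T hy w hw
  have hQY : Q ≤ Y₀ := le_sup_left
  have hZY : Z ≤ Y₀ := h.hZQ.trans hQY
  have hxY : x ∈ Y₀ := (le_sup_right : zpowers x ≤ Y₀) (mem_zpowers x)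
  let ρ₁ : ↥Y₀ →* End K ↥W₂ := resRep (ρ := ρ) Y₀ W₂ hWinv
  let Q₁ : Subgroup ↥Y₀ := Q.subgroupOf Y₀
  let Z₁ : Subgroup ↥Y₀ := Z.subgroupOf Y₀
  let x₁ : ↥Y₀ := ⟨x, hxY⟩
  have hρ₁ : ∀ (y : ↥Y₀) (w : ↥W₂), ((ρ₁ y w : ↥W₂) : W) = ρ y w := fun _ _ => rfl
  have hZs₁ : ∀ z ∈ Z₁, ∃ c : K, ρ₁ z = c • 1 := by
    intro z hz
    obtain ⟨c, hc⟩ := h.hZs z (Subgroup.mem_subgroupOf.mp hz)
    refine ⟨c, ?_⟩
    ext w
    rw [hρ₁, hc]
    rfl
  have hZQ₁ : Z₁ ≤ Q₁ := fun z hz => Subgroup.mem_subgroupOf.mpr (h.hZQ (Subgroup.mem_subgroupOf.mp hz))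
  have hcomm₁ : ∀ a ∈ Q₁, ∀ b ∈ Q₁, ⁅a, b⁆ ∈ Z₁ := fun a ha b hb =>
    Subgroup.mem_subgroupOf.mpr (h.hcomm a (Subgroup.mem_subgroupOf.mp ha) b (Subgroup.mem_subgroupOf.mp hb))
  have hnd₁ : ∀ a ∈ Q₁, (∀ b ∈ Q₁, ρ₁ ⁅a, b⁆ = 1) → a ∈ Z₁ := by
    intro a ha hab
    refine Subgroup.mem_subgroupOf.mpr (h.hnd a (Subgroup.mem_subgroupOf.mp ha) ?_)
    intro b hb
    obtain ⟨c, hc⟩ := h.hZs _ (h.hcomm a (Subgroup.mem_subgroupOf.mp ha) b hb)
    have h1 := hab ⟨b, hQY hb⟩ (Subgroup.mem_subgroupOf.mpr hb)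
    obtain ⟨w₀, hw₀, hw₀0⟩ := Submodule.exists_mem_ne_zero_of_ne_bot hW₂0
    have h2 := congrArg (fun f : End K ↥W₂ => ((f ⟨w₀, hw₀⟩ : ↥W₂) : W)) h1
    have h3 : ρ ⁅(a : F), b⁆ w₀ = w₀ := h2
    rw [hc] at h3 ⊢
    have h4 : c • w₀ = (1 : K) • w₀ := by
      rw [one_smul]
      exact h3
    rw [smul_left_injective K hw₀0 h4, one_smul]
  have hcardQ : Nat.card Q₁ = Nat.card Q := Nat.card_congr (Subgroup.subgroupOfEquivOfLe hQY).toEquiv
  have hT : CLData ρ₁ Q₁ Z₁ x₁ :=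
    { hKQ := by rw [hcardQ]; exact h.hKQ
      hZQ := hZQ₁
      hZs := hZs₁
      hcomm := hcomm₁
      hnd := hnd₁
      hxQ := fun a ha => Subgroup.mem_subgroupOf.mpr (h.hxQ a (Subgroup.mem_subgroupOf.mp ha))
      hfpf := fun k hk a ha hm => Subgroup.mem_subgroupOf.mpr (h.hfpf k (fun h0 => hk (Subtype.ext h0)) a
        (Subgroup.mem_subgroupOf.mp ha) (Subgroup.mem_subgroupOf.mp hm))
      hne := by
        obtain ⟨a, ha, ha2⟩ := h.hne
        exact ⟨⟨a, hQY ha⟩, Subgroup.mem_subgroupOf.mpr ha, fun h => ha2 (Subgroup.mem_subgroupOf.mp h)⟩ }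
  have hord : orderOf x₁ = orderOf x := Subgroup.orderOf_mk x hxY
  have hpw : ∀ (k : ℕ) (w : ↥W₂), ((((ρ₁ x₁ - 1) ^ k) w : ↥W₂) : W) = ((ρ x - 1) ^ k) w := by
    intro k
    induction k with
    | zero => intro w; simp
    | succ k ih =>
      intro w
      rw [pow_succ, pow_succ, Module.End.mul_apply, Module.End.mul_apply, ih]
      rfl
  have hN₁ : (ρ₁ x₁ - 1) ^ t = 0 := by
    apply LinearMap.ext
    intro w
    apply Subtype.ext
    rw [hpw, ht]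
    rfl
  have hq₁ : IsPGroup q Q₁ := hq.of_equiv (Subgroup.subgroupOfEquivOfLe hQY).symm
  have hirr₁ : ∀ U : Submodule K ↥W₂, (∀ a ∈ Q₁, ∀ w ∈ U, ρ₁ a w ∈ U) → U = ⊥ ∨ U = ⊤ := by
    intro U hU
    rcases hW₂irr (U.map W₂.subtype) (Submodule.map_subtype_le W₂ U) (by
      rintro a ha _ ⟨w, hw, rfl⟩
      exact ⟨ρ₁ ⟨a, hQY ha⟩ w, hU ⟨a, hQY ha⟩ (Subgroup.mem_subgroupOf.mpr ha) w hw, rfl⟩) with h0 | h0
    · left
      rw [Submodule.eq_bot_iff]
      intro v hv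
      have h3 : (v : W) ∈ U.map W₂.subtype := ⟨v, hv, rfl⟩
      rw [h0, Submodule.mem_bot] at h3
      exact Subtype.ext h3
    · right
      rw [eq_top_iff]
      intro v _
      have hv : (v : W) ∈ U.map W₂.subtype := by
        rw [h0]
        exact v.2
      obtain ⟨w, hw, hwv⟩ := hv
      have : w = v := Subtype.ext hwv
      rwa [← this]
  have hres := cl_irr hT hq₁ hirr₁ hN₁ (by rw [hord, hxn]; exact htn)
  rwa [hord, hxn] at hres

end Count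

section Eigen

variable {K W F : Type*} [Field K] [IsAlgClosed K] [AddCommGroup W] [Module K W] [FiniteDimensional K W]
  [Group F] [Finite F] {p q : ℕ} [hpf : Fact p.Prime] [hqf : Fact q.Prime] [CharP K p]

theorem cast_prime_ne (hqp : q ≠ p) : (q : K) ≠ 0 := by
  intro h0
  have h1 := (CharP.cast_eq_zero_iff K p q).mp h0
  exact hqp ((Nat.prime_dvd_prime_iff_eq hpf.out hqf.out).mp h1).symm

theorem cast_card_ne {A : Type*} [Group A] [Finite A] (hA : IsPGroup q A) (hqp : q ≠ p) : (Nat.card A : K) ≠ 0 := by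
  obtain ⟨k, hk⟩ := IsPGroup.iff_card.mp hA
  rw [hk, Nat.cast_pow]
  exact pow_ne_zero _ (cast_prime_ne hqp)

/-- **The behaviour on a module where `D` is scalar.** -/
theorem eigen_dich [Nontrivial W] (ρ : F →* End K W) (Q D : Subgroup F) (x : F) (j : ℕ) (hxp : x ^ (p ^ (j + 1)) = 1)
    (hy1 : x ^ (p ^ j) ≠ 1) (hq : IsPGroup q Q) (hqp : q ≠ p) (hxQ : x ∈ normalizer (Q : Set F)) (hDQ : D ≤ Q)
    (hDc : ∀ d ∈ D, ∀ a ∈ Q, d * a = a * d) (hcomm : ∀ a ∈ Q, ∀ b ∈ Q, ⁅a, b⁆ ∈ D) (hDs : ∀ d ∈ D, ∃ c : K, ρ d = c • 1)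
    (hfpf : ∀ a ∈ Q, x ^ (p ^ j) * a * (x ^ (p ^ j))⁻¹ * a⁻¹ ∈ D → a ∈ D) {t : ℕ} (ht : (ρ x - 1) ^ t = 0)
    (htn : t < p ^ (j + 1)) :
    (∀ a ∈ Q, ρ (x ^ (p ^ j) * a * (x ^ (p ^ j))⁻¹) = ρ a) ∨
      ((∃ a ∈ Q, ∃ b ∈ Q, ρ ⁅a, b⁆ ≠ 1) ∧ t + 1 = p ^ (j + 1) ∧ ∃ m : ℕ, 1 ≤ m ∧ p ^ (j + 1) - 1 = q ^ m) := by
  classical
  have hp := hpf.out
  set y : F := x ^ (p ^ j) with hy
  have hPpos : 0 < p ^ (j + 1) := pow_pos hp.pos _
  obtain ⟨R, hR⟩ := exists_radical ρ ⊤ Q D hDc hcomm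
  have hR' : ∀ a, a ∈ R ↔ a ∈ Q ∧ ∀ b ∈ Q, ρ ⁅a, b⁆ = 1 := by
    intro a
    rw [hR]
    refine and_congr Iff.rfl (forall₂_congr fun b _ => ?_)
    constructor
    · intro h
      exact LinearMap.ext fun w => h w trivial
    · intro h w _
      rw [h, Module.End.one_apply]
  have hRQ : R ≤ Q := fun a ha => ((hR' a).mp ha).1
  have hDR : D ≤ R := by
    intro d hd
    refine (hR' d).mpr ⟨hDQ hd, fun b hb => ?_⟩
    have h1 : ⁅d, b⁆ = 1 := commutatorElement_eq_one_iff_mul_comm.mpr (hDc d hd b hb)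
    rw [h1, map_one]
  have hxR : x ∈ normalizer (R : Set F) := by
    apply Cfsg.Agent.Lib.Coprime.mem_normalizer_of_conj_le
    intro a ha
    obtain ⟨ha1, ha2⟩ := (hR' a).mp ha
    refine (hR' _).mpr ⟨(Subgroup.mem_normalizer_iff.mp hxQ a).mp ha1, fun b hb => ?_⟩
    have hb' : x⁻¹ * b * x ∈ Q := by
      have := (Subgroup.mem_normalizer_iff.mp (inv_mem hxQ) b).mp hb
      simpa using this
    have h1 : ⁅x * a * x⁻¹, b⁆ = x * ⁅a, x⁻¹ * b * x⁆ * x⁻¹ := by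
      simp only [commutatorElement_def]
      group
    rw [h1, map_mul, map_mul, ha2 _ hb', mul_one, rho_mul_inv]
  have hqR : IsPGroup q R := hq.to_le hRQ
  let σ : ↥R →* End K W := ρ.comp R.subtype
  have hσ : ∀ z : ↥R, σ z = ρ z := fun _ => rfl
  have hcommσ : ∀ n n', σ n * σ n' = σ n' * σ n := by
    intro n n'
    have h1 : ((n : F) * n') = ⁅(n : F), (n' : F)⁆ * ((n' : F) * n) := by
      rw [commutatorElement_def]
      group
    rw [hσ, hσ, ← map_mul, h1, map_mul, ((hR' n).mp n.2).2 _ (hRQ n'.2), one_mul, map_mul]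
  obtain ⟨hind, htop⟩ := simEig_indep σ hcommσ (cast_card_ne (K := K) hqR hqp)
  let E : Subgroup F := normalizer (R : Set F)
  let x' : ↥E := ⟨x, hxR⟩
  let θ := nConj R
  let τ : ↥E →* End K W := ρ.comp E.subtype
  have hτ : ∀ e : ↥E, τ e = ρ e := fun _ => rfl
  have hcompat : ∀ e n, τ e * σ n = σ (θ e n) * τ e := nConj_compat (K := K) (V := W) ρ R
  have hxp' : x' ^ (p ^ (j + 1)) = 1 := Subtype.ext hxp
  -- Claim 1: `y` fixes every character
  have hyfix : ∀ ψ : ↥R → K, simEig σ ψ ≠ ⊥ → twist θ (x' ^ (p ^ j)) ψ = ψ := by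
    intro ψ hψ
    by_contra hne
    have hstab : ∀ i, 0 < i → i < p ^ (j + 1) → twist θ (x' ^ i) ψ ≠ ψ := by
      intro i hi0 hi1 hfix
      apply hne
      refine last_mem (twStab θ ψ) hxp' (i := i) (by rw [Nat.mod_eq_of_lt hi1]; omega) hfix
    obtain ⟨v, hv, hv0⟩ := Submodule.exists_mem_ne_zero_of_ne_bot hψ
    have hTP : (τ x') ^ (p ^ (j + 1)) = 1 := by
      rw [← map_pow, hxp', map_one]
    have hb := block_lemma (K := K) (p := p) (τ x') (j + 1) t (simEig σ ψ)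
      (fun w hw => by rw [hTP]; exact hw)
      (fun w hw h0 => orbit_indep hind hcompat hPpos hstab hw h0)
      (fun w _ => by
        have h1 : τ x' = ρ x := rfl
        rw [h1, ht]
        rfl) v hv
    rw [Nat.div_eq_of_lt htn, pow_zero, Module.End.one_apply] at hb
    exact hv0 hb
  -- Claim 2: `y` acts trivially on `R`
  have hyR : ∀ a ∈ R, ρ (y * a * y⁻¹) = ρ a := by
    intro a ha
    refine eq_of_forall_simEig (σ := σ) htop ?_
    intro ψ hψ v hv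
    rw [mem_simEig] at hv
    set e : ↥E := x' ^ (p ^ j) with he
    have hev : (e : F) = y := rfl
    have h1 := hv (θ e ⟨a, ha⟩)
    have h2 := hv ⟨a, ha⟩
    have h3 : ψ (θ e ⟨a, ha⟩) = ψ ⟨a, ha⟩ := by
      have h4 := hyfix ψ hψ
      have h5 := congrArg (twist θ e⁻¹) h4
      rw [twist_inv_twist] at h5
      have h6 := congrFun h5 ⟨a, ha⟩
      rw [twist_apply, inv_inv] at h6
      exact h6.symm
    have h7 : σ (θ e ⟨a, ha⟩) = ρ (y * a * y⁻¹) := rfl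
    have h8 : σ ⟨a, ha⟩ = ρ a := rfl
    rw [h3, h7] at h1
    rw [h8] at h2
    rw [h1, h2]
  have hyE : y ∈ normalizer (R : Set F) := pow_mem hxR _
  have hord : orderOf x = p ^ (j + 1) := orderOf_eq_prime_pow hy1 hxp
  have hxgrp : IsPGroup p (zpowers x) := by
    apply IsPGroup.of_card (n := j + 1)
    rw [Nat.card_zpowers, hord]
  have hzp : ∀ k : ℕ, IsPGroup p (zpowers (x ^ k)) := fun k =>
    hxgrp.to_le (Subgroup.zpowers_le.mpr (pow_mem (mem_zpowers x) k))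
  have hsolv : ∀ k : ℕ, Group.IsSolvable (zpowers (x ^ k)) := fun k => by
    haveI := (hzp k).isNilpotent
    infer_instance
  -- Claim 3: `R` acts by scalars
  have hRs : ∀ a ∈ R, ∃ c : K, ρ a = c • 1 := by
    intro a ha
    set N : Subgroup F := R ⊓ ρ.ker with hN
    have hNq : IsPGroup q N := hqR.to_le inf_le_left
    have hyN : y ∈ normalizer (N : Set F) := by
      apply normalizer_inf hyE
      rw [Subgroup.normalizer_eq_top_iff.mpr (MonoidHom.normal_ker ρ)]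
      exact mem_top y
    have hcop : (Nat.card N).Coprime (Nat.card (zpowers y)) :=
      IsPGroup.coprime_card_of_ne q p hqp N (zpowers y) hNq (hzp _)
    have hc : a * y * a⁻¹ * y⁻¹ ∈ N := by
      have h1 : a * y * a⁻¹ * y⁻¹ = a * (y * a⁻¹ * y⁻¹) := by group
      refine Subgroup.mem_inf.mpr ⟨?_, ?_⟩
      · rw [h1]
        exact mul_mem ha ((Subgroup.mem_normalizer_iff.mp hyE _).mp (inv_mem ha))
      · rw [MonoidHom.mem_ker, h1, map_mul, hyR _ (inv_mem ha), ← map_mul, mul_inv_cancel, map_one]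
    obtain ⟨n, hnN, hna⟩ := Cfsg.Agent.Lib.OddLocal.exists_mul_mem_centralizer (Subgroup.zpowers_le.mpr hyN) hcop
      (Or.inr (hsolv _)) a (comm_zpowers_mem hyN hc)
    have hnaQ : n * a ∈ Q := mul_mem (hRQ hnN.1) (hRQ ha)
    have hnaD : n * a ∈ D := hfpf _ hnaQ (by
      have h1 := Subgroup.mem_centralizer_iff.mp hna y (mem_zpowers y)
      rw [h1]
      simp [one_mem])
    obtain ⟨c, hc'⟩ := hDs _ hnaD
    refine ⟨c, ?_⟩
    rw [← hc', map_mul, MonoidHom.mem_ker.mp hnN.2, one_mul]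
  by_cases hRall : ∀ a ∈ Q, a ∈ R
  · left
    intro a ha
    exact hyR a (hRall a ha)
  right
  push Not at hRall
  obtain ⟨a₀, ha₀, ha₀R⟩ := hRall
  obtain ⟨b₀, hb₀, hb₀1⟩ : ∃ b ∈ Q, ρ ⁅a₀, b⁆ ≠ 1 := by
    by_contra hcon
    push Not at hcon
    exact ha₀R ((hR' a₀).mpr ⟨ha₀, hcon⟩)
  have hfpf' : ∀ k : ℕ, x ^ k ≠ 1 → ∀ a ∈ Q, x ^ k * a * (x ^ k)⁻¹ * a⁻¹ ∈ R → a ∈ R := by
    intro k hk a ha hc
    have hxkR : x ^ k ∈ normalizer (R : Set F) := pow_mem hxR k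
    have hcop := IsPGroup.coprime_card_of_ne q p hqp R (zpowers (x ^ k)) hqR (hzp k)
    have hc' : a * x ^ k * a⁻¹ * (x ^ k)⁻¹ ∈ R := by
      have h1 := inv_mem hc
      have e : (x ^ k * a * (x ^ k)⁻¹ * a⁻¹)⁻¹ = a * x ^ k * a⁻¹ * (x ^ k)⁻¹ := by group
      rwa [e] at h1
    obtain ⟨n, hnR, hna⟩ := Cfsg.Agent.Lib.OddLocal.exists_mul_mem_centralizer (Subgroup.zpowers_le.mpr hxkR) hcop
      (Or.inr (hsolv k)) a (comm_zpowers_mem hxkR hc')
    have hyz : y ∈ zpowers (x ^ k) := last_mem (zpowers (x ^ k)) hxp (i := k) (fun h0 => hk (by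
      rw [pow_eq_pow_mod k hxp, h0, pow_zero])) (mem_zpowers _)
    have hnaD : n * a ∈ D := hfpf _ (mul_mem (hRQ hnR) ha) (by
      have h1 := Subgroup.mem_centralizer_iff.mp hna y hyz
      rw [h1]
      simp [one_mem])
    have h1 := hDR hnaD
    have h2 : a = n⁻¹ * (n * a) := by group
    rw [h2]
    exact mul_mem (inv_mem hnR) h1
  have hCL : CLData ρ Q R x :=
    { hKQ := cast_card_ne hq hqp
      hZQ := hRQ
      hZs := hRs
      hcomm := fun a ha b hb => hDR (hcomm a ha b hb)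
      hnd := fun a ha h => (hR' a).mpr ⟨ha, h⟩
      hxQ := fun a ha => (Subgroup.mem_normalizer_iff.mp hxQ a).mp ha
      hfpf := hfpf'
      hne := ⟨a₀, ha₀, ha₀R⟩ }
  obtain ⟨h1, h2⟩ := cl_exc hCL hq hord ht htn
  exact ⟨⟨a₀, ha₀, b₀, hb₀, hb₀1⟩, h1, h2⟩

/-- The dichotomy on an invariant subspace. -/
theorem eigen_sub (ρ : F →* End K W) (W₁ : Submodule K W) (hW₁0 : W₁ ≠ ⊥) (Q D : Subgroup F) (x : F) (j : ℕ)
    (hxp : x ^ (p ^ (j + 1)) = 1)
    (hy1 : x ^ (p ^ j) ≠ 1) (hq : IsPGroup q Q) (hqp : q ≠ p) (hxQ : x ∈ normalizer (Q : Set F)) (hDQ : D ≤ Q)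
    (hDc : ∀ d ∈ D, ∀ a ∈ Q, d * a = a * d) (hcomm : ∀ a ∈ Q, ∀ b ∈ Q, ⁅a, b⁆ ∈ D)
    (hDs : ∀ d ∈ D, ∃ c : K, ∀ w ∈ W₁, ρ d w = c • w)
    (hfpf : ∀ a ∈ Q, x ^ (p ^ j) * a * (x ^ (p ^ j))⁻¹ * a⁻¹ ∈ D → a ∈ D)
    (hQinv : ∀ a ∈ Q, ∀ w ∈ W₁, ρ a w ∈ W₁) (hxinv : ∀ w ∈ W₁, ρ x w ∈ W₁) {t : ℕ}
    (ht : ∀ w ∈ W₁, ((ρ x - 1) ^ t) w = 0) (htn : t < p ^ (j + 1)) :
    (∀ a ∈ Q, ∀ w ∈ W₁, ρ (x ^ (p ^ j) * a * (x ^ (p ^ j))⁻¹) w = ρ a w) ∨
      ((∃ a ∈ Q, ∃ b ∈ Q, ∃ w ∈ W₁, ρ ⁅a, b⁆ w ≠ w) ∧ t + 1 = p ^ (j + 1) ∧ ∃ m : ℕ, 1 ≤ m ∧ p ^ (j + 1) - 1 = q ^ m) := by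
  classical
  haveI : Nontrivial ↥W₁ := Submodule.nontrivial_iff_ne_bot.mpr hW₁0
  let T : Subgroup F :=
    { carrier := {g | ∀ w ∈ W₁, ρ g w ∈ W₁}
      mul_mem' := by
        intro a b ha hb w hw
        rw [map_mul, Module.End.mul_apply]
        exact ha _ (hb w hw)
      one_mem' := by
        intro w hw
        rw [map_one]
        exact hw
      inv_mem' := by
        intro a ha w hw
        have h1 : ∀ n : ℕ, ρ (a ^ n) w ∈ W₁ := by
          intro n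
          induction n with
          | zero => simpa using hw
          | succ n ih =>
            rw [pow_succ', map_mul, Module.End.mul_apply]
            exact ha _ ih
        have h2 : a⁻¹ = a ^ (orderOf a - 1) := by
          rw [eq_comm, ← mul_eq_one_iff_eq_inv, ← pow_succ, Nat.sub_add_cancel (orderOf_pos a), pow_orderOf_eq_one]
        rw [h2]
        exact h1 _ }
  set Y₀ : Subgroup F := Q ⊔ zpowers x with hY₀
  have hY₀T : Y₀ ≤ T := sup_le (fun a ha w hw => hQinv a ha w hw) (Subgroup.zpowers_le.mpr hxinv)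
  have hWinv : ∀ y ∈ Y₀, ∀ w ∈ W₁, ρ y w ∈ W₁ := fun y hy w hw => hY₀T hy w hw
  have hQY : Q ≤ Y₀ := le_sup_left
  have hxY : x ∈ Y₀ := (le_sup_right : zpowers x ≤ Y₀) (mem_zpowers x)
  let ρ₁ : ↥Y₀ →* End K ↥W₁ := resRep (ρ := ρ) Y₀ W₁ hWinv
  let Q₁ : Subgroup ↥Y₀ := Q.subgroupOf Y₀
  let D₁ : Subgroup ↥Y₀ := D.subgroupOf Y₀
  let x₁ : ↥Y₀ := ⟨x, hxY⟩
  have hρ₁ : ∀ (y : ↥Y₀) (w : ↥W₁), ((ρ₁ y w : ↥W₁) : W) = ρ y w := fun _ _ => rfl
  have hxQ₁ : x₁ ∈ normalizer (Q₁ : Set ↥Y₀) := by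
    apply Cfsg.Agent.Lib.Coprime.mem_normalizer_of_conj_le
    intro a ha
    exact Subgroup.mem_subgroupOf.mpr ((Subgroup.mem_normalizer_iff.mp hxQ a).mp (Subgroup.mem_subgroupOf.mp ha))
  have hpw : ∀ (k : ℕ) (w : ↥W₁), ((((ρ₁ x₁ - 1) ^ k) w : ↥W₁) : W) = ((ρ x - 1) ^ k) w := by
    intro k
    induction k with
    | zero => intro w; simp
    | succ k ih =>
      intro w
      rw [pow_succ, pow_succ, Module.End.mul_apply, Module.End.mul_apply, ih]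
      rfl
  have hres := eigen_dich ρ₁ Q₁ D₁ x₁ j (Subtype.ext hxp) (fun h => hy1 (congrArg Subtype.val h))
    (hq.of_equiv (Subgroup.subgroupOfEquivOfLe hQY).symm) hqp hxQ₁
    (fun d hd => Subgroup.mem_subgroupOf.mpr (hDQ (Subgroup.mem_subgroupOf.mp hd)))
    (fun d hd a ha => Subtype.ext (hDc d (Subgroup.mem_subgroupOf.mp hd) a (Subgroup.mem_subgroupOf.mp ha)))
    (fun a ha b hb => Subgroup.mem_subgroupOf.mpr (hcomm a (Subgroup.mem_subgroupOf.mp ha) b (Subgroup.mem_subgroupOf.mp hb)))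
    (fun d hd => by
      obtain ⟨c, hc⟩ := hDs d (Subgroup.mem_subgroupOf.mp hd)
      refine ⟨c, ?_⟩
      ext w
      rw [hρ₁, hc w w.2]
      rfl)
    (fun a ha hm => Subgroup.mem_subgroupOf.mpr (hfpf a (Subgroup.mem_subgroupOf.mp ha) (Subgroup.mem_subgroupOf.mp hm)))
    (t := t) (by
      apply LinearMap.ext
      intro w
      apply Subtype.ext
      rw [hpw, ht w w.2]
      rfl) htn
  rcases hres with h | ⟨⟨a, ha, b, hb, hab⟩, h2, h3⟩
  · left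
    intro a ha w hw
    have h1 := h ⟨a, hQY ha⟩ (Subgroup.mem_subgroupOf.mpr ha)
    have h2 := congrArg (fun f : End K ↥W₁ => ((f ⟨w, hw⟩ : ↥W₁) : W)) h1
    exact h2
  · right
    refine ⟨⟨a, Subgroup.mem_subgroupOf.mp ha, b, Subgroup.mem_subgroupOf.mp hb, ?_⟩, h2, h3⟩
    by_contra hcon
    push Not at hcon
    apply hab
    apply LinearMap.ext
    intro w
    apply Subtype.ext
    exact hcon w w.2

end Eigen

end Cfsg.Agent.Lib.Coprime.HHG
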