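import Cfsg.Agent.Lib.Coprime.HHG4

/-!
**Hall-Higman Theorem B** in general, over an algebraically closed field.
-/

set_option autoImplicit false
set_option linter.unusedSectionVars false
set_option linter.style.haveILetI false

namespace Cfsg.Agent.Lib.Coprime.HHG

open Module Subgroup Cfsg Cfsg.Agent.Lib.FT Cfsg.Agent.Lib.Coprime.HHB Cfsg.Agent.Lib.Coprime.HHFix
open scoped commutatorElement

section Core

variable {K W F : Type*} [Field K] [IsAlgClosed K] [AddCommGroup W] [Module K W] [FiniteDimensional K W]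
  [Group F] [Finite F] {p q : ℕ} [hpf : Fact p.Prime] [hqf : Fact q.Prime] [CharP K p]

/-- **Hall-Higman Theorem B.** -/
theorem thmB_core [Nontrivial W] (ρ : F →* End K W) (hρ : Function.Injective ρ) (hqp : q ≠ p) (x : F) (n : ℕ)
    (hxn : x ^ (p ^ (n + 1)) = 1) (Q₀ : Subgroup F) (hq : IsPGroup q Q₀) (hxQ : x ∈ normalizer (Q₀ : Set F))
    (hne : ∃ a ∈ Q₀, x ^ (p ^ n) * a ≠ a * x ^ (p ^ n)) {r : ℕ} (hr : (ρ x - 1) ^ r = 0) :
    p ^ (n + 1) ≤ r ∨ ∃ s m : ℕ, s ≤ n ∧ 1 ≤ m ∧ p ^ (n + 1 - s) - 1 = q ^ m ∧ p ^ s * (p ^ (n + 1 - s) - 1) ≤ r ∧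
      (∃ a ∈ Q₀, ∃ b ∈ Q₀, a * b ≠ b * a) ∧
      ((∀ d ∈ Q₀, x ^ (p ^ n) * d = d * x ^ (p ^ n) → x * d = d * x) → s = 0) := by
  classical
  have hp := hpf.out
  by_cases hlt : p ^ (n + 1) ≤ r
  · exact Or.inl hlt
  right
  push Not at hlt
  set y : F := x ^ (p ^ n) with hy
  have hy1 : y ≠ 1 := by
    intro h
    obtain ⟨a, -, ha⟩ := hne
    apply ha
    rw [h]
    simp
  have hord : orderOf x = p ^ (n + 1) := orderOf_eq_prime_pow hy1 hxn
  set Y : Subgroup F := zpowers x with hYdef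
  set S : Subgroup F := zpowers y with hSdef
  have hxY : x ∈ Y := mem_zpowers x
  have hyY : y ∈ Y := pow_mem hxY _
  have hSY : S ≤ Y := Subgroup.zpowers_le.mpr hyY
  have hYc : ∀ g ∈ Y, ∀ h ∈ Y, g * h = h * g := by
    intro g hg h hh
    obtain ⟨k, rfl⟩ := exists_pow_of_mem_zpowers hg
    obtain ⟨l, rfl⟩ := exists_pow_of_mem_zpowers hh
    exact ((Commute.refl x).pow_pow k l).eq
  have hSn : Y ≤ normalizer (S : Set F) := by
    intro g hg
    apply Cfsg.Agent.Lib.Coprime.mem_normalizer_of_conj_le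
    intro s hs
    have h1 : g * s * g⁻¹ = s := by
      rw [hYc g hg s (hSY hs)]
      group
    rw [h1]
    exact hs
  have hYp : IsPGroup p Y := by
    apply IsPGroup.of_card (n := n + 1)
    rw [hYdef, Nat.card_zpowers, hord]
  have hRn : Y ≤ normalizer (Q₀ : Set F) := Subgroup.zpowers_le.mpr hxQ
  have hcop : (Nat.card Y).Coprime (Nat.card Q₀) := IsPGroup.coprime_card_of_ne p q hqp.symm Y Q₀ hYp hq
  have hne' : ¬ S ≤ centralizer (Q₀ : Set F) := by
    intro hle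
    obtain ⟨a, ha, hna⟩ := hne
    have h1 := Subgroup.mem_centralizer_iff.mp (hle (mem_zpowers y)) a ha
    exact hna h1.symm
  obtain ⟨Q, hQQ₀, hM⟩ := exists_minNC hq hSY hSn hRn hcop hne'
  set D : Subgroup F := MinNC.D Q S with hD
  have hDQ : D ≤ Q := inf_le_left
  have hxQ' : x ∈ normalizer (Q : Set F) := hM.hQn hxY
  have hxD : x ∈ normalizer (D : Set F) := hM.D_norm hxY
  have hyDn : y ∈ normalizer (D : Set F) := hM.D_norm hyY
  have hyD : ∀ z ∈ D, z * y = y * z := by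
    intro z hz
    have h1 := Subgroup.mem_centralizer_iff.mp hz.2 y (mem_zpowers y)
    exact h1.symm
  have hDc : ∀ d ∈ D, ∀ a ∈ Q, d * a = a * d := fun d hd a ha => hM.D_comm hd ha
  have hcomm : ∀ a ∈ Q, ∀ b ∈ Q, ⁅a, b⁆ ∈ D := fun a ha b hb => hM.comm_mem ha hb
  have hfpfy : ∀ a ∈ Q, y * a * y⁻¹ * a⁻¹ ∈ D → a ∈ D := by
    intro a ha hc
    refine hM.fpf ha (fun s hs => comm_zpowers_mem hyDn ?_ s hs)
    have h1 := inv_mem hc
    have e : (y * a * y⁻¹ * a⁻¹)⁻¹ = a * y * a⁻¹ * y⁻¹ := by group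
    rwa [e] at h1
  have hqQ : IsPGroup q Q := hM.hq
  have hqD : IsPGroup q D := hqQ.to_le hDQ
  let σ : ↥D →* End K W := ρ.comp D.subtype
  have hσ : ∀ z : ↥D, σ z = ρ z := fun _ => rfl
  have hcommσ : ∀ n n', σ n * σ n' = σ n' * σ n := by
    intro n n'
    rw [hσ, hσ, ← map_mul, ← map_mul, hDc n n.2 n' (hDQ n'.2)]
  obtain ⟨hind, htop⟩ := simEig_indep σ hcommσ (cast_card_ne (K := K) hqD hqp)
  -- the choice of the character
  obtain ⟨χ, hχ0, a₁, ha₁, v₁, hv₁, hv₁ne⟩ : ∃ χ : ↥D → K, simEig σ χ ≠ ⊥ ∧ ∃ a ∈ Q, ∃ v ∈ simEig σ χ,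
      ρ (y * a * y⁻¹) v ≠ ρ a v := by
    by_contra hcon
    push Not at hcon
    have hall : ∀ a ∈ Q, y * a = a * y := by
      intro a ha
      have h1 : ρ (y * a * y⁻¹) = ρ a := by
        refine eq_of_forall_simEig (σ := σ) htop ?_
        intro χ hχ v hv
        exact hcon χ hχ a ha v hv
      have h2 := hρ h1
      calc y * a = (y * a * y⁻¹) * y := by group
        _ = a * y := by rw [h2]
    apply hM.hne
    rw [hSdef, Subgroup.zpowers_le, Subgroup.mem_centralizer_iff]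
    intro a ha
    exact (hall a ha).symm
  let E : Subgroup F := normalizer (D : Set F)
  let x' : ↥E := ⟨x, hxD⟩
  let θ := nConj D
  let τ : ↥E →* End K W := ρ.comp E.subtype
  have hτ : ∀ e : ↥E, τ e = ρ e := fun _ => rfl
  have hcompat : ∀ e n, τ e * σ n = σ (θ e n) * τ e := nConj_compat (K := K) (V := W) ρ D
  have hxp' : x' ^ (p ^ (n + 1)) = 1 := Subtype.ext hxn
  have hfixn : twist θ (x' ^ (p ^ n)) χ = χ := by
    funext z
    rw [twist_apply]
    congr 1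
    apply Subtype.ext
    rw [nConj_apply]
    have h1 : (((x' ^ (p ^ n))⁻¹ : ↥E) : F) = y⁻¹ := rfl
    rw [h1, inv_inv, mul_assoc, hyD z z.2]
    group
  have hex : ∃ s, twist θ (x' ^ (p ^ s)) χ = χ := ⟨n, hfixn⟩
  set s := Nat.find hex with hs
  have hsfix : twist θ (x' ^ (p ^ s)) χ = χ := Nat.find_spec hex
  have hsn : s ≤ n := Nat.find_min' hex hfixn
  have hstab : ∀ i, 0 < i → i < p ^ s → twist θ (x' ^ i) χ ≠ χ := by
    intro i hi0 hi1 hfix
    obtain ⟨e, i', hi', hi⟩ := Nat.exists_eq_pow_mul_and_not_dvd (Nat.pos_iff_ne_zero.mp hi0) p hp.ne_one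
    have h1 := ppart_mem (twStab θ χ) hxp' hi hi' hfix
    have h2 : s ≤ e := Nat.find_min' hex h1
    have h3 : p ^ s ≤ p ^ e := Nat.pow_le_pow_right hp.pos h2
    have h4 : p ^ e ≤ i := by
      rw [hi]
      exact Nat.le_mul_of_pos_right _ (Nat.pos_of_ne_zero (fun h => hi' (h ▸ dvd_zero p)))
    omega
  set P := p ^ s with hP
  have hPpos : 0 < P := pow_pos hp.pos s
  have hx₁ : (τ x') ^ P = ρ (x ^ P) := by
    rw [← map_pow]
    rfl
  have hW₁inv : ∀ w ∈ simEig σ χ, ρ (x ^ P) w ∈ simEig σ χ := by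
    intro w hw
    have h1 := map_simEig hcompat (x' ^ P) χ
    rw [hsfix] at h1
    rw [← h1]
    exact ⟨w, hw, rfl⟩
  have hblock := block_lemma (K := K) (p := p) (τ x') s r (simEig σ χ)
    (fun w hw => by rw [← hP, hx₁]; exact hW₁inv w hw)
    (fun w hw h0 => orbit_indep hind hcompat hPpos hstab hw h0)
    (fun w _ => by
      have h1 : τ x' = ρ x := rfl
      rw [h1, hr]
      rfl)
  rw [← hP, hx₁] at hblock
  set x₁ := x ^ P with hx₁def
  set j := n - s with hj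
  set t := r / P with ht
  have hsj : s + j = n := by omega
  have hx₁j : x₁ ^ (p ^ j) = y := by
    rw [hx₁def, ← pow_mul, hP, ← pow_add, hsj]
  have hx₁j1 : x₁ ^ (p ^ (j + 1)) = 1 := by
    rw [hx₁def, ← pow_mul, hP, ← pow_add, show s + (j + 1) = n + 1 by omega]
    exact hxn
  have htn : t < p ^ (j + 1) := by
    apply Nat.div_lt_of_lt_mul
    rw [hP, ← pow_add, show s + (j + 1) = n + 1 by omega]
    exact hlt
  have hQinv : ∀ a ∈ Q, ∀ w ∈ simEig σ χ, ρ a w ∈ simEig σ χ := by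
    intro a ha w hw
    rw [mem_simEig]
    intro z
    have h1 := mem_simEig.mp hw z
    rw [hσ, ← Module.End.mul_apply, ← map_mul, hDc z z.2 a ha, map_mul, Module.End.mul_apply, ← hσ, h1, map_smul]
  have hres := eigen_sub ρ (simEig σ χ) hχ0 Q D x₁ j hx₁j1 (by rw [hx₁j]; exact hy1) hqQ hqp (pow_mem hxQ' P) hDQ hDc hcomm
    (fun d hd => ⟨χ ⟨d, hd⟩, fun w hw => mem_simEig.mp hw ⟨d, hd⟩⟩) (by rw [hx₁j]; exact hfpfy)
    hQinv hW₁inv (t := t) hblock htn
  rcases hres with h | ⟨⟨a, ha, b, hb, w, hw, hab⟩, h2, m, hm1, hm2⟩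
  · exfalso
    rw [hx₁j] at h
    exact hv₁ne (h a₁ ha₁ v₁ hv₁)
  · refine ⟨s, m, hsn, hm1, ?_, ?_, ⟨a, hQQ₀ ha, b, hQQ₀ hb, ?_⟩, ?_⟩
    · rwa [show n + 1 - s = j + 1 by omega]
    · rw [show n + 1 - s = j + 1 by omega]
      have h3 : p ^ (j + 1) - 1 = t := by
        rw [← h2, Nat.add_sub_cancel]
      rw [h3]
      exact Nat.mul_div_le r P
    · intro hcomm'
      apply hab
      have h3 : ⁅a, b⁆ = 1 := commutatorElement_eq_one_iff_mul_comm.mpr hcomm'
      rw [h3, map_one]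
      rfl
    · intro hall
      have hx'fix : twist θ (x' ^ (p ^ 0)) χ = χ := by
        rw [pow_zero, pow_one]
        funext z
        rw [twist_apply]
        congr 1
        apply Subtype.ext
        rw [nConj_apply]
        have h1 : ((x'⁻¹ : ↥E) : F) = x⁻¹ := rfl
        rw [h1, inv_inv]
        have h3 : x * z = z * x := hall z (hQQ₀ (hDQ z.2)) (hyD z z.2).symm
        rw [mul_assoc, ← h3]
        group
      have h3 := Nat.find_min' hex hx'fix
      omega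

end Core

end Cfsg.Agent.Lib.Coprime.HHG
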