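import Cfsg.Agent.Lib.Coprime.HHG5

/-!
Hall-Higman: the index in the exceptional case, and two commuting subgroups cannot both act non-abelianly.
-/

set_option autoImplicit false
set_option linter.unusedSectionVars false
set_option linter.style.haveILetI false

namespace Cfsg.Agent.Lib.Coprime.HHL

open Module Subgroup Cfsg Cfsg.Agent.Lib.FT Cfsg.Agent.Lib.Coprime.HHB Cfsg.Agent.Lib.Coprime.HHFix Cfsg.Agent.Lib.Coprime.HHG
open scoped commutatorElement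

section Count

variable {K W F : Type*} [Field K] [IsAlgClosed K] [AddCommGroup W] [Module K W] [FiniteDimensional K W]
  [Group F] [Finite F] {ρ : F →* End K W} {Q Z : Subgroup F} {x : F} {q : ℕ} [hqf : Fact q.Prime]

/-- The index on an irreducible module. -/
theorem cl_irr_index [Nontrivial W] (h : CLData ρ Q Z x) (hq : IsPGroup q Q)
    (hirr : ∀ U : Submodule K W, (∀ a ∈ Q, ∀ w ∈ U, ρ a w ∈ U) → U = ⊥ ∨ U = ⊤) {t : ℕ} (ht : (ρ x - 1) ^ t = 0)
    (htn : t < orderOf x) : Z.relIndex Q = (orderOf x - 1) ^ 2 := by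
  have h1 := finrank_end_le h.hZQ h.hZs h.hcomm h.hnd h.hKQ hirr
  have hfin : finrank K (End K W) = finrank K W ^ 2 := by
    rw [sq]
    exact Module.finrank_linearMap K K W W
  rw [hfin] at h1
  obtain ⟨c₁, hc₁, hidx, hcount⟩ := cl_count h
  have hA := finrank_le_commSub (K := K) t W (ρ x - 1) ht
  rw [commSub_sub_one] at hA
  have hnum := cl_numeric h ht
  have hI : 1 < Z.relIndex Q := by
    have h0 : Z.relIndex Q ≠ 0 := Subgroup.index_ne_zero_of_finite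
    have h2 : Z.relIndex Q ≠ 1 := by
      intro h3
      obtain ⟨a, ha, haZ⟩ := h.hne
      exact haZ (Subgroup.relIndex_eq_one.mp h3 ha)
    omega
  obtain ⟨h3, h4, h5⟩ := numeric_exc htn h1 hidx hc₁ hA hcount hnum hI
  rw [h5, ← h4, Nat.add_sub_cancel]

theorem cl_exc_index [Nontrivial W] {p : ℕ} [hpf : Fact p.Prime] [CharP K p] {j : ℕ} (h : CLData ρ Q Z x) (hq : IsPGroup q Q)
    (hxn : orderOf x = p ^ j) {t : ℕ} (ht : (ρ x - 1) ^ t = 0) (htn : t < p ^ j) :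
    Z.relIndex Q = (p ^ j - 1) ^ 2 := by
  classical
  have hxp : x ^ (p ^ j) = 1 := by
    rw [← hxn]
    exact pow_orderOf_eq_one x
  have hxQn : x ∈ normalizer (Q : Set F) := Cfsg.Agent.Lib.Coprime.mem_normalizer_of_conj_le _ _ h.hxQ
  have hxQ' : ∀ a ∈ Q, x⁻¹ * a * x ∈ Q := by
    intro a ha
    have := (Subgroup.mem_normalizer_iff.mp (inv_mem hxQn) a).mp ha
    simpa using this
  obtain ⟨W₂, hW₂0, hW₂Q, hW₂x, hW₂irr⟩ := exists_irr_inv (p := p) h.hZQ h.hZs h.hcomm h.hnd h.hKQ h.hxQ hxQ' hxp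
  haveI : Nontrivial ↥W₂ := Submodule.nontrivial_iff_ne_bot.mpr hW₂0
  -- the stabilizer
  let T : Subgroup F :=
    { carrier := {g | ∀ w ∈ W₂, ρ g w ∈ W₂}
      mul_mem' := by
        intro a b ha hb w hw
        rw [map_mul, Module.End.mul_apply]
        exact ha _ (hb w hw)
      one_mem' := by
        intro w hw
        rw [map_one]
        exact hw
      inv_mem' := by
        intro a ha w hw
        have h1 : ∀ n : ℕ, ρ (a ^ n) w ∈ W₂ := by
          intro n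
          induction n with
          | zero => simpa using hw
          | succ n ih =>
            rw [pow_succ', map_mul, Module.End.mul_apply]
            exact ha _ ih
        have h2 : a⁻¹ = a ^ (orderOf a - 1) := by
          rw [eq_comm, ← mul_eq_one_iff_eq_inv, ← pow_succ, Nat.sub_add_cancel (orderOf_pos a), pow_orderOf_eq_one]
        rw [h2]
        exact h1 _ }
  set Y₀ : Subgroup F := Q ⊔ zpowers x with hY₀
  have hY₀T : Y₀ ≤ T := sup_le (fun a ha w hw => hW₂Q a ha w hw) (Subgroup.zpowers_le.mpr hW₂x)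
  have hWinv : ∀ y ∈ Y₀, ∀ w ∈ W₂, ρ y w ∈ W₂ := fun y hy w hw => hY₀T hy w hw
  have hQY : Q ≤ Y₀ := le_sup_left
  have hZY : Z ≤ Y₀ := h.hZQ.trans hQY
  have hxY : x ∈ Y₀ := (le_sup_right : zpowers x ≤ Y₀) (mem_zpowers x)
  let ρ₁ : ↥Y₀ →* End K ↥W₂ := resRep (ρ := ρ) Y₀ W₂ hWinv
  let Q₁ : Subgroup ↥Y₀ := Q.subgroupOf Y₀
  let Z₁ : Subgroup ↥Y₀ := Z.subgroupOf Y₀
  let x₁ : ↥Y₀ := ⟨x, hxY⟩
  have hρ₁ : ∀ (y : ↥Y₀) (w : ↥W₂), ((ρ₁ y w : ↥W₂) : W) = ρ y w := fun _ _ => rfl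
  have hZs₁ : ∀ z ∈ Z₁, ∃ c : K, ρ₁ z = c • 1 := by
    intro z hz
    obtain ⟨c, hc⟩ := h.hZs z (Subgroup.mem_subgroupOf.mp hz)
    refine ⟨c, ?_⟩
    ext w
    rw [hρ₁, hc]
    rfl
  have hZQ₁ : Z₁ ≤ Q₁ := fun z hz => Subgroup.mem_subgroupOf.mpr (h.hZQ (Subgroup.mem_subgroupOf.mp hz))
  have hcomm₁ : ∀ a ∈ Q₁, ∀ b ∈ Q₁, ⁅a, b⁆ ∈ Z₁ := fun a ha b hb =>
    Subgroup.mem_subgroupOf.mpr (h.hcomm a (Subgroup.mem_subgroupOf.mp ha) b (Subgroup.mem_subgroupOf.mp hb))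
  have hnd₁ : ∀ a ∈ Q₁, (∀ b ∈ Q₁, ρ₁ ⁅a, b⁆ = 1) → a ∈ Z₁ := by
    intro a ha hab
    refine Subgroup.mem_subgroupOf.mpr (h.hnd a (Subgroup.mem_subgroupOf.mp ha) ?_)
    intro b hb
    obtain ⟨c, hc⟩ := h.hZs _ (h.hcomm a (Subgroup.mem_subgroupOf.mp ha) b hb)
    have h1 := hab ⟨b, hQY hb⟩ (Subgroup.mem_subgroupOf.mpr hb)
    obtain ⟨w₀, hw₀, hw₀0⟩ := Submodule.exists_mem_ne_zero_of_ne_bot hW₂0
    have h2 := congrArg (fun f : End K ↥W₂ => ((f ⟨w₀, hw₀⟩ : ↥W₂) : W)) h1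
    have h3 : ρ ⁅(a : F), b⁆ w₀ = w₀ := h2
    rw [hc] at h3 ⊢
    have h4 : c • w₀ = (1 : K) • w₀ := by
      rw [one_smul]
      exact h3
    rw [smul_left_injective K hw₀0 h4, one_smul]
  have hcardQ : Nat.card Q₁ = Nat.card Q := Nat.card_congr (Subgroup.subgroupOfEquivOfLe hQY).toEquiv
  have hT : CLData ρ₁ Q₁ Z₁ x₁ :=
    { hKQ := by rw [hcardQ]; exact h.hKQ
      hZQ := hZQ₁
      hZs := hZs₁
      hcomm := hcomm₁
      hnd := hnd₁
      hxQ := fun a ha => Subgroup.mem_subgroupOf.mpr (h.hxQ a (Subgroup.mem_subgroupOf.mp ha))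
      hfpf := fun k hk a ha hm => Subgroup.mem_subgroupOf.mpr (h.hfpf k (fun h0 => hk (Subtype.ext h0)) a
        (Subgroup.mem_subgroupOf.mp ha) (Subgroup.mem_subgroupOf.mp hm))
      hne := by
        obtain ⟨a, ha, ha2⟩ := h.hne
        exact ⟨⟨a, hQY ha⟩, Subgroup.mem_subgroupOf.mpr ha, fun h => ha2 (Subgroup.mem_subgroupOf.mp h)⟩ }
  have hord : orderOf x₁ = orderOf x := Subgroup.orderOf_mk x hxY
  have hpw : ∀ (k : ℕ) (w : ↥W₂), ((((ρ₁ x₁ - 1) ^ k) w : ↥W₂) : W) = ((ρ x - 1) ^ k) w := by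
    intro k
    induction k with
    | zero => intro w; simp
    | succ k ih =>
      intro w
      rw [pow_succ, pow_succ, Module.End.mul_apply, Module.End.mul_apply, ih]
      rfl
  have hN₁ : (ρ₁ x₁ - 1) ^ t = 0 := by
    apply LinearMap.ext
    intro w
    apply Subtype.ext
    rw [hpw, ht]
    rfl
  have hq₁ : IsPGroup q Q₁ := hq.of_equiv (Subgroup.subgroupOfEquivOfLe hQY).symm
  have hirr₁ : ∀ U : Submodule K ↥W₂, (∀ a ∈ Q₁, ∀ w ∈ U, ρ₁ a w ∈ U) → U = ⊥ ∨ U = ⊤ := by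
    intro U hU
    rcases hW₂irr (U.map W₂.subtype) (Submodule.map_subtype_le W₂ U) (by
      rintro a ha _ ⟨w, hw, rfl⟩
      exact ⟨ρ₁ ⟨a, hQY ha⟩ w, hU ⟨a, hQY ha⟩ (Subgroup.mem_subgroupOf.mpr ha) w hw, rfl⟩) with h0 | h0
    · left
      rw [Submodule.eq_bot_iff]
      intro v hv
      have h3 : (v : W) ∈ U.map W₂.subtype := ⟨v, hv, rfl⟩
      rw [h0, Submodule.mem_bot] at h3
      exact Subtype.ext h3
    · right
      rw [eq_top_iff]
      intro v _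
      have hv : (v : W) ∈ U.map W₂.subtype := by
        rw [h0]
        exact v.2
      obtain ⟨w, hw, hwv⟩ := hv
      have : w = v := Subtype.ext hwv
      rwa [← this]
  have hres := cl_irr_index hT hq₁ hirr₁ hN₁ (by rw [hord, hxn]; exact htn)
  rw [hord, hxn] at hres
  rw [← hres]
  exact (Subgroup.relIndex_subgroupOf hQY).symm

end Count

end Cfsg.Agent.Lib.Coprime.HHL
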