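import Cfsg.Agent.Lib.Coprime.HHL1

/-!
Two commuting subgroups cannot both act non-abelianly in the exceptional case of Hall-Higman.
-/

set_option autoImplicit false
set_option linter.unusedSectionVars false
set_option linter.style.haveILetI false

namespace Cfsg.Agent.Lib.Coprime.HHL

open Module Subgroup Cfsg Cfsg.Agent.Lib.FT Cfsg.Agent.Lib.Coprime.HHB Cfsg.Agent.Lib.Coprime.HHFix Cfsg.Agent.Lib.Coprime.HHG
open scoped commutatorElement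

section Perp

variable {F : Type*} [Group F] {K W : Type*} [Field K] [AddCommGroup W] [Module K W]

/-- The orthogonal complement of a subgroup for the commutator form. -/
theorem exists_perp (ρ : F →* End K W) (Q Q₂ D : Subgroup F) (hQ₂ : Q₂ ≤ Q)
    (hDc : ∀ d ∈ D, ∀ a ∈ Q, d * a = a * d) (hcomm : ∀ a ∈ Q, ∀ b ∈ Q, ⁅a, b⁆ ∈ D) :
    ∃ R : Subgroup F, ∀ a, a ∈ R ↔ a ∈ Q ∧ ∀ b ∈ Q₂, ρ ⁅a, b⁆ = 1 := by
  refine ⟨{ carrier := {a | a ∈ Q ∧ ∀ b ∈ Q₂, ρ ⁅a, b⁆ = 1}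
            mul_mem' := ?_
            one_mem' := ?_
            inv_mem' := ?_ }, fun a => Iff.rfl⟩
  · rintro a a' ⟨ha, h1⟩ ⟨ha', h2⟩
    refine ⟨mul_mem ha ha', fun b hb => ?_⟩
    have h3 : ⁅a * a', b⁆ = ⁅a', b⁆ * ⁅a, b⁆ := by
      have h4 : a * ⁅a', b⁆ * a⁻¹ = ⁅a', b⁆ := by
        rw [← hDc _ (hcomm a' ha' b (hQ₂ hb)) a ha]
        group
      calc ⁅a * a', b⁆ = (a * ⁅a', b⁆ * a⁻¹) * ⁅a, b⁆ := by
            simp only [commutatorElement_def]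
            group
        _ = ⁅a', b⁆ * ⁅a, b⁆ := by rw [h4]
    rw [h3, map_mul, h1 b hb, h2 b hb, mul_one]
  · refine ⟨one_mem _, fun b _ => ?_⟩
    rw [commutatorElement_one_left, map_one]
  · rintro a ⟨ha, h1⟩
    refine ⟨inv_mem ha, fun b hb => ?_⟩
    have h3 : ⁅a⁻¹, b⁆ = ⁅a, b⁆⁻¹ := by
      have h4 : a⁻¹ * ⁅b, a⁆ * a = ⁅b, a⁆ := by
        have h5 : ⁅b, a⁆ ∈ D := hcomm b (hQ₂ hb) a ha
        rw [← hDc _ h5 a⁻¹ (inv_mem ha)]
        group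
      calc ⁅a⁻¹, b⁆ = a⁻¹ * ⁅b, a⁆ * a := by
            simp only [commutatorElement_def]
            group
        _ = ⁅b, a⁆ := h4
        _ = ⁅a, b⁆⁻¹ := by rw [commutatorElement_inv]
    have h6 : ρ ⁅a, b⁆⁻¹ = ρ ⁅a, b⁆⁻¹ * ρ ⁅a, b⁆ := by rw [h1 b hb, mul_one]
    rw [h3, h6, ← map_mul, inv_mul_cancel, map_one]

end Perp

section Eigen

variable {K W F : Type*} [Field K] [IsAlgClosed K] [AddCommGroup W] [Module K W] [FiniteDimensional K W]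
  [Group F] [Finite F] {p q : ℕ} [hpf : Fact p.Prime] [hqf : Fact q.Prime] [CharP K p]

/-- The main computation: two orthogonal pieces. -/
theorem eigen_two [Nontrivial W] (ρ : F →* End K W) (Q Q₁ Q₂ D : Subgroup F) (x : F) (j : ℕ)
    (hxp : x ^ (p ^ (j + 1)) = 1)
    (hy1 : x ^ (p ^ j) ≠ 1) (hq : IsPGroup q Q) (hqp : q ≠ p) (hxQ : x ∈ normalizer (Q : Set F))
    (hxQ₂ : x ∈ normalizer (Q₂ : Set F)) (hDQ : D ≤ Q)
    (hDc : ∀ d ∈ D, ∀ a ∈ Q, d * a = a * d) (hcomm : ∀ a ∈ Q, ∀ b ∈ Q, ⁅a, b⁆ ∈ D) (hDs : ∀ d ∈ D, ∃ c : K, ρ d = c • 1)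
    (hfpf : ∀ a ∈ Q, x ^ (p ^ j) * a * (x ^ (p ^ j))⁻¹ * a⁻¹ ∈ D → a ∈ D)
    (hQ₁ : Q₁ ≤ Q) (hQ₂ : Q₂ ≤ Q) (hsup : ∀ b ∈ Q, ∃ b₁ ∈ Q₁, ∃ b₂ ∈ Q₂, b = b₁ * b₂)
    (h12 : ∀ a ∈ Q₁, ∀ b ∈ Q₂, a * b = b * a)
    (ha₁ : ∃ a ∈ Q₁, ∃ b ∈ Q₁, ρ ⁅a, b⁆ ≠ 1) (ha₂ : ∃ a ∈ Q₂, ∃ b ∈ Q₂, ρ ⁅a, b⁆ ≠ 1)
    {t : ℕ} (ht : (ρ x - 1) ^ t = 0) (htn : t < p ^ (j + 1)) : False := by
  classical
  have hp := hpf.out
  set y : F := x ^ (p ^ j) with hy
  have hPpos : 0 < p ^ (j + 1) := pow_pos hp.pos _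
  obtain ⟨R, hR⟩ := exists_radical ρ ⊤ Q D hDc hcomm
  have hR' : ∀ a, a ∈ R ↔ a ∈ Q ∧ ∀ b ∈ Q, ρ ⁅a, b⁆ = 1 := by
    intro a
    rw [hR]
    refine and_congr Iff.rfl (forall₂_congr fun b _ => ?_)
    constructor
    · intro h
      exact LinearMap.ext fun w => h w trivial
    · intro h w _
      rw [h, Module.End.one_apply]
  have hRQ : R ≤ Q := fun a ha => ((hR' a).mp ha).1
  have hDR : D ≤ R := by
    intro d hd
    refine (hR' d).mpr ⟨hDQ hd, fun b hb => ?_⟩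
    have h1 : ⁅d, b⁆ = 1 := commutatorElement_eq_one_iff_mul_comm.mpr (hDc d hd b hb)
    rw [h1, map_one]
  have hxR : x ∈ normalizer (R : Set F) := by
    apply Cfsg.Agent.Lib.Coprime.mem_normalizer_of_conj_le
    intro a ha
    obtain ⟨ha1, ha2⟩ := (hR' a).mp ha
    refine (hR' _).mpr ⟨(Subgroup.mem_normalizer_iff.mp hxQ a).mp ha1, fun b hb => ?_⟩
    have hb' : x⁻¹ * b * x ∈ Q := by
      have := (Subgroup.mem_normalizer_iff.mp (inv_mem hxQ) b).mp hb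
      simpa using this
    have h1 : ⁅x * a * x⁻¹, b⁆ = x * ⁅a, x⁻¹ * b * x⁆ * x⁻¹ := by
      simp only [commutatorElement_def]
      group
    rw [h1, map_mul, map_mul, ha2 _ hb', mul_one, rho_mul_inv]
  have hqR : IsPGroup q R := hq.to_le hRQ
  let σ : ↥R →* End K W := ρ.comp R.subtype
  have hσ : ∀ z : ↥R, σ z = ρ z := fun _ => rfl
  have hcommσ : ∀ n n', σ n * σ n' = σ n' * σ n := by
    intro n n'
    have h1 : ((n : F) * n') = ⁅(n : F), (n' : F)⁆ * ((n' : F) * n) := by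
      rw [commutatorElement_def]
      group
    rw [hσ, hσ, ← map_mul, h1, map_mul, ((hR' n).mp n.2).2 _ (hRQ n'.2), one_mul, map_mul]
  obtain ⟨hind, htop⟩ := simEig_indep σ hcommσ (cast_card_ne (K := K) hqR hqp)
  let E : Subgroup F := normalizer (R : Set F)
  let x' : ↥E := ⟨x, hxR⟩
  let θ := nConj R
  let τ : ↥E →* End K W := ρ.comp E.subtype
  have hτ : ∀ e : ↥E, τ e = ρ e := fun _ => rfl
  have hcompat : ∀ e n, τ e * σ n = σ (θ e n) * τ e := nConj_compat (K := K) (V := W) ρ R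
  have hxp' : x' ^ (p ^ (j + 1)) = 1 := Subtype.ext hxp
  -- Claim 1: `y` fixes every character
  have hyfix : ∀ ψ : ↥R → K, simEig σ ψ ≠ ⊥ → twist θ (x' ^ (p ^ j)) ψ = ψ := by
    intro ψ hψ
    by_contra hne
    have hstab : ∀ i, 0 < i → i < p ^ (j + 1) → twist θ (x' ^ i) ψ ≠ ψ := by
      intro i hi0 hi1 hfix
      apply hne
      refine last_mem (twStab θ ψ) hxp' (i := i) (by rw [Nat.mod_eq_of_lt hi1]; omega) hfix
    obtain ⟨v, hv, hv0⟩ := Submodule.exists_mem_ne_zero_of_ne_bot hψ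
    have hTP : (τ x') ^ (p ^ (j + 1)) = 1 := by
      rw [← map_pow, hxp', map_one]
    have hb := block_lemma (K := K) (p := p) (τ x') (j + 1) t (simEig σ ψ)
      (fun w hw => by rw [hTP]; exact hw)
      (fun w hw h0 => orbit_indep hind hcompat hPpos hstab hw h0)
      (fun w _ => by
        have h1 : τ x' = ρ x := rfl
        rw [h1, ht]
        rfl) v hv
    rw [Nat.div_eq_of_lt htn, pow_zero, Module.End.one_apply] at hb
    exact hv0 hb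
  -- Claim 2: `y` acts trivially on `R`
  have hyR : ∀ a ∈ R, ρ (y * a * y⁻¹) = ρ a := by
    intro a ha
    refine eq_of_forall_simEig (σ := σ) htop ?_
    intro ψ hψ v hv
    rw [mem_simEig] at hv
    set e : ↥E := x' ^ (p ^ j) with he
    have hev : (e : F) = y := rfl
    have h1 := hv (θ e ⟨a, ha⟩)
    have h2 := hv ⟨a, ha⟩
    have h3 : ψ (θ e ⟨a, ha⟩) = ψ ⟨a, ha⟩ := by
      have h4 := hyfix ψ hψ
      have h5 := congrArg (twist θ e⁻¹) h4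
      rw [twist_inv_twist] at h5
      have h6 := congrFun h5 ⟨a, ha⟩
      rw [twist_apply, inv_inv] at h6
      exact h6.symm
    have h7 : σ (θ e ⟨a, ha⟩) = ρ (y * a * y⁻¹) := rfl
    have h8 : σ ⟨a, ha⟩ = ρ a := rfl
    rw [h3, h7] at h1
    rw [h8] at h2
    rw [h1, h2]
  have hyE : y ∈ normalizer (R : Set F) := pow_mem hxR _
  have hord : orderOf x = p ^ (j + 1) := orderOf_eq_prime_pow hy1 hxp
  have hxgrp : IsPGroup p (zpowers x) := by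
    apply IsPGroup.of_card (n := j + 1)
    rw [Nat.card_zpowers, hord]
  have hzp : ∀ k : ℕ, IsPGroup p (zpowers (x ^ k)) := fun k =>
    hxgrp.to_le (Subgroup.zpowers_le.mpr (pow_mem (mem_zpowers x) k))
  have hsolv : ∀ k : ℕ, Group.IsSolvable (zpowers (x ^ k)) := fun k => by
    haveI := (hzp k).isNilpotent
    infer_instance
  -- Claim 3: `R` acts by scalars
  have hRs : ∀ a ∈ R, ∃ c : K, ρ a = c • 1 := by
    intro a ha
    set N : Subgroup F := R ⊓ ρ.ker with hN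
    have hNq : IsPGroup q N := hqR.to_le inf_le_left
    have hyN : y ∈ normalizer (N : Set F) := by
      apply normalizer_inf hyE
      rw [Subgroup.normalizer_eq_top_iff.mpr (MonoidHom.normal_ker ρ)]
      exact mem_top y
    have hcop : (Nat.card N).Coprime (Nat.card (zpowers y)) :=
      IsPGroup.coprime_card_of_ne q p hqp N (zpowers y) hNq (hzp _)
    have hc : a * y * a⁻¹ * y⁻¹ ∈ N := by
      have h1 : a * y * a⁻¹ * y⁻¹ = a * (y * a⁻¹ * y⁻¹) := by group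
      refine Subgroup.mem_inf.mpr ⟨?_, ?_⟩
      · rw [h1]
        exact mul_mem ha ((Subgroup.mem_normalizer_iff.mp hyE _).mp (inv_mem ha))
      · rw [MonoidHom.mem_ker, h1, map_mul, hyR _ (inv_mem ha), ← map_mul, mul_inv_cancel, map_one]
    obtain ⟨n, hnN, hna⟩ := Cfsg.Agent.Lib.OddLocal.exists_mul_mem_centralizer (Subgroup.zpowers_le.mpr hyN) hcop
      (Or.inr (hsolv _)) a (comm_zpowers_mem hyN hc)
    have hnaQ : n * a ∈ Q := mul_mem (hRQ hnN.1) (hRQ ha)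
    have hnaD : n * a ∈ D := hfpf _ hnaQ (by
      have h1 := Subgroup.mem_centralizer_iff.mp hna y (mem_zpowers y)
      rw [h1]
      simp [one_mem])
    obtain ⟨c, hc'⟩ := hDs _ hnaD
    refine ⟨c, ?_⟩
    rw [← hc', map_mul, MonoidHom.mem_ker.mp hnN.2, one_mul]
  have hfpf' : ∀ k : ℕ, x ^ k ≠ 1 → ∀ a ∈ Q, x ^ k * a * (x ^ k)⁻¹ * a⁻¹ ∈ R → a ∈ R := by
    intro k hk a ha hc
    have hxkR : x ^ k ∈ normalizer (R : Set F) := pow_mem hxR k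
    have hcop := IsPGroup.coprime_card_of_ne q p hqp R (zpowers (x ^ k)) hqR (hzp k)
    have hc' : a * x ^ k * a⁻¹ * (x ^ k)⁻¹ ∈ R := by
      have h1 := inv_mem hc
      have e : (x ^ k * a * (x ^ k)⁻¹ * a⁻¹)⁻¹ = a * x ^ k * a⁻¹ * (x ^ k)⁻¹ := by group
      rwa [e] at h1
    obtain ⟨n, hnR, hna⟩ := Cfsg.Agent.Lib.OddLocal.exists_mul_mem_centralizer (Subgroup.zpowers_le.mpr hxkR) hcop
      (Or.inr (hsolv k)) a (comm_zpowers_mem hxkR hc')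
    have hyz : y ∈ zpowers (x ^ k) := last_mem (zpowers (x ^ k)) hxp (i := k) (fun h0 => hk (by
      rw [pow_eq_pow_mod k hxp, h0, pow_zero])) (mem_zpowers _)
    have hnaD : n * a ∈ D := hfpf _ (mul_mem (hRQ hnR) ha) (by
      have h1 := Subgroup.mem_centralizer_iff.mp hna y hyz
      rw [h1]
      simp [one_mem])
    have h1 := hDR hnaD
    have h2 : a = n⁻¹ * (n * a) := by group
    rw [h2]
    exact mul_mem (inv_mem hnR) h1
  have hCL : CLData ρ Q R x :=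
    { hKQ := cast_card_ne hq hqp
      hZQ := hRQ
      hZs := hRs
      hcomm := fun a ha b hb => hDR (hcomm a ha b hb)
      hnd := fun a ha h => (hR' a).mpr ⟨ha, h⟩
      hxQ := fun a ha => (Subgroup.mem_normalizer_iff.mp hxQ a).mp ha
      hfpf := hfpf'
      hne := by
        obtain ⟨a, ha, b, hb, hab⟩ := ha₁
        refine ⟨a, hQ₁ ha, fun haR => hab (((hR' a).mp haR).2 b (hQ₁ hb))⟩ }
  -- the orthogonal complement of `Q₂`
  obtain ⟨Q₃, hQ₃⟩ := exists_perp ρ Q Q₂ D hQ₂ hDc hcomm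
  have hQ₃Q : Q₃ ≤ Q := fun a ha => ((hQ₃ a).mp ha).1
  have hRQ₃ : R ≤ Q₃ := fun a ha => (hQ₃ a).mpr ⟨hRQ ha, fun b hb => ((hR' a).mp ha).2 b (hQ₂ hb)⟩
  have hQ₁Q₃ : Q₁ ≤ Q₃ := fun a ha => (hQ₃ a).mpr ⟨hQ₁ ha, fun b hb => by
    rw [commutatorElement_eq_one_iff_mul_comm.mpr (h12 a ha b hb), map_one]⟩
  have hxQ₃ : x ∈ normalizer (Q₃ : Set F) := by
    apply Cfsg.Agent.Lib.Coprime.mem_normalizer_of_conj_le
    intro a ha
    obtain ⟨ha1, ha2⟩ := (hQ₃ a).mp ha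
    refine (hQ₃ _).mpr ⟨(Subgroup.mem_normalizer_iff.mp hxQ a).mp ha1, fun b hb => ?_⟩
    have hb' : x⁻¹ * b * x ∈ Q₂ := by
      have := (Subgroup.mem_normalizer_iff.mp (inv_mem hxQ₂) b).mp hb
      simpa using this
    have h1 : ⁅x * a * x⁻¹, b⁆ = x * ⁅a, x⁻¹ * b * x⁆ * x⁻¹ := by
      simp only [commutatorElement_def]
      group
    rw [h1, map_mul, map_mul, ha2 _ hb', mul_one, rho_mul_inv]
  have hCL₃ : CLData ρ Q₃ R x :=
    { hKQ := cast_card_ne (hq.to_le hQ₃Q) hqp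
      hZQ := hRQ₃
      hZs := hRs
      hcomm := fun a ha b hb => hDR (hcomm a (hQ₃Q ha) b (hQ₃Q hb))
      hnd := by
        intro a ha h
        refine (hR' a).mpr ⟨hQ₃Q ha, fun b hb => ?_⟩
        obtain ⟨b₁, hb₁, b₂, hb₂, rfl⟩ := hsup b hb
        have hbi : ⁅a, b₁ * b₂⁆ = ⁅a, b₁⁆ * (b₁ * ⁅a, b₂⁆ * b₁⁻¹) := by
          simp only [commutatorElement_def]
          group
        have h2 : b₁ * ⁅a, b₂⁆ * b₁⁻¹ = ⁅a, b₂⁆ := by
          rw [← hDc _ (hcomm a (hQ₃Q ha) b₂ (hQ₂ hb₂)) b₁ (hQ₁ hb₁)]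
          group
        rw [hbi, h2, map_mul, h b₁ (hQ₁Q₃ hb₁), ((hQ₃ a).mp ha).2 b₂ hb₂, mul_one]
      hxQ := fun a ha => (Subgroup.mem_normalizer_iff.mp hxQ₃ a).mp ha
      hfpf := fun k hk a ha hm => hfpf' k hk a (hQ₃Q ha) hm
      hne := by
        obtain ⟨a, ha, b, hb, hab⟩ := ha₁
        refine ⟨a, hQ₁Q₃ ha, fun haR => hab (((hR' a).mp haR).2 b (hQ₁ hb))⟩ }
  have hI := cl_exc_index hCL hq hord ht htn
  have hI₃ := cl_exc_index hCL₃ (hq.to_le hQ₃Q) hord ht htn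
  have hmul := Subgroup.relIndex_mul_relIndex R Q₃ Q hRQ₃ hQ₃Q
  rw [hI, hI₃] at hmul
  have hpos : 0 < (p ^ (j + 1) - 1) ^ 2 := by
    apply pow_pos
    have : 1 < p ^ (j + 1) := Nat.one_lt_pow (by omega) hp.one_lt
    omega
  have h3 : Q₃.relIndex Q = 1 := by
    have h4 : (p ^ (j + 1) - 1) ^ 2 * Q₃.relIndex Q = (p ^ (j + 1) - 1) ^ 2 * 1 := by
      rw [mul_one]
      exact hmul
    exact Nat.eq_of_mul_eq_mul_left hpos h4
  have hQQ₃ : Q ≤ Q₃ := Subgroup.relIndex_eq_one.mp h3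
  obtain ⟨a, ha, b, hb, hab⟩ := ha₂
  exact hab (((hQ₃ a).mp (hQQ₃ (hQ₂ ha))).2 b hb)

end Eigen

end Cfsg.Agent.Lib.Coprime.HHL
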