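import Cfsg.Agent.Lib.Coprime.HHL2

/-!
The global form of the two commuting subgroups lemma.
-/

set_option autoImplicit false
set_option linter.unusedSectionVars false
set_option linter.style.haveILetI false

namespace Cfsg.Agent.Lib.Coprime.HHL

open Module Subgroup Cfsg Cfsg.Agent.Lib.FT Cfsg.Agent.Lib.Coprime.HHB Cfsg.Agent.Lib.Coprime.HHFix Cfsg.Agent.Lib.Coprime.HHG
open scoped commutatorElement

section Eigen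

variable {K W F : Type*} [Field K] [IsAlgClosed K] [AddCommGroup W] [Module K W] [FiniteDimensional K W]
  [Group F] [Finite F] {p q : ℕ} [hpf : Fact p.Prime] [hqf : Fact q.Prime] [CharP K p]

/-- The main computation on an invariant subspace. -/
theorem eigen_two_sub (ρ : F →* End K W) (W₁ : Submodule K W) (hW₁0 : W₁ ≠ ⊥) (Q Q₁ Q₂ D : Subgroup F) (x : F) (j : ℕ)
    (hxp : x ^ (p ^ (j + 1)) = 1)
    (hy1 : x ^ (p ^ j) ≠ 1) (hq : IsPGroup q Q) (hqp : q ≠ p) (hxQ : x ∈ normalizer (Q : Set F))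
    (hxQ₂ : x ∈ normalizer (Q₂ : Set F)) (hDQ : D ≤ Q)
    (hDc : ∀ d ∈ D, ∀ a ∈ Q, d * a = a * d) (hcomm : ∀ a ∈ Q, ∀ b ∈ Q, ⁅a, b⁆ ∈ D)
    (hDs : ∀ d ∈ D, ∃ c : K, ∀ w ∈ W₁, ρ d w = c • w)
    (hfpf : ∀ a ∈ Q, x ^ (p ^ j) * a * (x ^ (p ^ j))⁻¹ * a⁻¹ ∈ D → a ∈ D)
    (hQ₁ : Q₁ ≤ Q) (hQ₂ : Q₂ ≤ Q) (hsup : ∀ b ∈ Q, ∃ b₁ ∈ Q₁, ∃ b₂ ∈ Q₂, b = b₁ * b₂)
    (h12 : ∀ a ∈ Q₁, ∀ b ∈ Q₂, a * b = b * a)
    (ha₁ : ∃ a ∈ Q₁, ∃ b ∈ Q₁, ∃ w ∈ W₁, ρ ⁅a, b⁆ w ≠ w) (ha₂ : ∃ a ∈ Q₂, ∃ b ∈ Q₂, ∃ w ∈ W₁, ρ ⁅a, b⁆ w ≠ w)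
    (hQinv : ∀ a ∈ Q, ∀ w ∈ W₁, ρ a w ∈ W₁) (hxinv : ∀ w ∈ W₁, ρ x w ∈ W₁) {t : ℕ}
    (ht : ∀ w ∈ W₁, ((ρ x - 1) ^ t) w = 0) (htn : t < p ^ (j + 1)) : False := by
  classical
  haveI : Nontrivial ↥W₁ := Submodule.nontrivial_iff_ne_bot.mpr hW₁0
  let T : Subgroup F :=
    { carrier := {g | ∀ w ∈ W₁, ρ g w ∈ W₁}
      mul_mem' := by
        intro a b ha hb w hw
        rw [map_mul, Module.End.mul_apply]
        exact ha _ (hb w hw)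
      one_mem' := by
        intro w hw
        rw [map_one]
        exact hw
      inv_mem' := by
        intro a ha w hw
        have h1 : ∀ n : ℕ, ρ (a ^ n) w ∈ W₁ := by
          intro n
          induction n with
          | zero => simpa using hw
          | succ n ih =>
            rw [pow_succ', map_mul, Module.End.mul_apply]
            exact ha _ ih
        have h2 : a⁻¹ = a ^ (orderOf a - 1) := by
          rw [eq_comm, ← mul_eq_one_iff_eq_inv, ← pow_succ, Nat.sub_add_cancel (orderOf_pos a), pow_orderOf_eq_one]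
        rw [h2]
        exact h1 _ }
  set Y₀ : Subgroup F := Q ⊔ zpowers x with hY₀
  have hY₀T : Y₀ ≤ T := sup_le (fun a ha w hw => hQinv a ha w hw) (Subgroup.zpowers_le.mpr hxinv)
  have hWinv : ∀ y ∈ Y₀, ∀ w ∈ W₁, ρ y w ∈ W₁ := fun y hy w hw => hY₀T hy w hw
  have hQY : Q ≤ Y₀ := le_sup_left
  have hxY : x ∈ Y₀ := (le_sup_right : zpowers x ≤ Y₀) (mem_zpowers x)
  let ρ₁ : ↥Y₀ →* End K ↥W₁ := resRep (ρ := ρ) Y₀ W₁ hWinv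
  let Q₁' : Subgroup ↥Y₀ := Q.subgroupOf Y₀
  let Q₁₁ : Subgroup ↥Y₀ := Q₁.subgroupOf Y₀
  let Q₁₂ : Subgroup ↥Y₀ := Q₂.subgroupOf Y₀
  let D₁ : Subgroup ↥Y₀ := D.subgroupOf Y₀
  let x₁ : ↥Y₀ := ⟨x, hxY⟩
  have hρ₁ : ∀ (y : ↥Y₀) (w : ↥W₁), ((ρ₁ y w : ↥W₁) : W) = ρ y w := fun _ _ => rfl
  have hxQ₁ : x₁ ∈ normalizer (Q₁' : Set ↥Y₀) := by
    apply Cfsg.Agent.Lib.Coprime.mem_normalizer_of_conj_le
    intro a ha
    exact Subgroup.mem_subgroupOf.mpr ((Subgroup.mem_normalizer_iff.mp hxQ a).mp (Subgroup.mem_subgroupOf.mp ha))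
  have hpw : ∀ (k : ℕ) (w : ↥W₁), ((((ρ₁ x₁ - 1) ^ k) w : ↥W₁) : W) = ((ρ x - 1) ^ k) w := by
    intro k
    induction k with
    | zero => intro w; simp
    | succ k ih =>
      intro w
      rw [pow_succ, pow_succ, Module.End.mul_apply, Module.End.mul_apply, ih]
      rfl
  have hQ₁Y : ∀ a ∈ Q₁, a ∈ Y₀ := fun a ha => hQY (hQ₁ ha)
  have hQ₂Y : ∀ a ∈ Q₂, a ∈ Y₀ := fun a ha => hQY (hQ₂ ha)
  have hne₁ : ∀ (a b : F), a ∈ Q → b ∈ Q → (∃ w ∈ W₁, ρ ⁅a, b⁆ w ≠ w) → ∀ (ha : a ∈ Y₀) (hb : b ∈ Y₀), ρ₁ ⁅(⟨a, ha⟩ : ↥Y₀), ⟨b, hb⟩⁆ ≠ 1 := by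
    intro a b _ _ ⟨w, hw, hne⟩ ha hb h0
    apply hne
    have h2 := congrArg (fun f : End K ↥W₁ => ((f ⟨w, hw⟩ : ↥W₁) : W)) h0
    exact h2
  refine eigen_two ρ₁ Q₁' Q₁₁ Q₁₂ D₁ x₁ j (Subtype.ext hxp) (fun h => hy1 (congrArg Subtype.val h))
    (hq.of_equiv (Subgroup.subgroupOfEquivOfLe hQY).symm) hqp hxQ₁ ?_
    (fun d hd => Subgroup.mem_subgroupOf.mpr (hDQ (Subgroup.mem_subgroupOf.mp hd)))
    (fun d hd a ha => Subtype.ext (hDc d (Subgroup.mem_subgroupOf.mp hd) a (Subgroup.mem_subgroupOf.mp ha)))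
    (fun a ha b hb => Subgroup.mem_subgroupOf.mpr (hcomm a (Subgroup.mem_subgroupOf.mp ha) b (Subgroup.mem_subgroupOf.mp hb)))
    (fun d hd => by
      obtain ⟨c, hc⟩ := hDs d (Subgroup.mem_subgroupOf.mp hd)
      refine ⟨c, ?_⟩
      ext w
      rw [hρ₁, hc w w.2]
      rfl)
    (fun a ha hm => Subgroup.mem_subgroupOf.mpr (hfpf a (Subgroup.mem_subgroupOf.mp ha) (Subgroup.mem_subgroupOf.mp hm)))
    (fun a ha => Subgroup.mem_subgroupOf.mpr (hQ₁ (Subgroup.mem_subgroupOf.mp ha)))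
    (fun a ha => Subgroup.mem_subgroupOf.mpr (hQ₂ (Subgroup.mem_subgroupOf.mp ha))) ?_
    (fun a ha b hb => Subtype.ext (h12 a (Subgroup.mem_subgroupOf.mp ha) b (Subgroup.mem_subgroupOf.mp hb))) ?_ ?_
    (t := t) (by
      apply LinearMap.ext
      intro w
      apply Subtype.ext
      rw [hpw, ht w w.2]
      rfl) htn
  · apply Cfsg.Agent.Lib.Coprime.mem_normalizer_of_conj_le
    intro a ha
    exact Subgroup.mem_subgroupOf.mpr ((Subgroup.mem_normalizer_iff.mp hxQ₂ _).mp (Subgroup.mem_subgroupOf.mp ha))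
  · intro b hb
    obtain ⟨b₁, hb₁, b₂, hb₂, he⟩ := hsup b (Subgroup.mem_subgroupOf.mp hb)
    exact ⟨⟨b₁, hQ₁Y b₁ hb₁⟩, Subgroup.mem_subgroupOf.mpr hb₁, ⟨b₂, hQ₂Y b₂ hb₂⟩, Subgroup.mem_subgroupOf.mpr hb₂,
      Subtype.ext he⟩
  · obtain ⟨a, ha, b, hb, hw⟩ := ha₁
    exact ⟨⟨a, hQ₁Y a ha⟩, Subgroup.mem_subgroupOf.mpr ha, ⟨b, hQ₁Y b hb⟩, Subgroup.mem_subgroupOf.mpr hb,
      hne₁ a b (hQ₁ ha) (hQ₁ hb) hw _ _⟩
  · obtain ⟨a, ha, b, hb, hw⟩ := ha₂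
    exact ⟨⟨a, hQ₂Y a ha⟩, Subgroup.mem_subgroupOf.mpr ha, ⟨b, hQ₂Y b hb⟩, Subgroup.mem_subgroupOf.mpr hb,
      hne₁ a b (hQ₂ ha) (hQ₂ hb) hw _ _⟩

/-- **Two commuting subgroups in the exceptional case.** -/
theorem thm_two [Nontrivial W] (ρ : F →* End K W) (hqp : q ≠ p) (x : F) (n : ℕ)
    (hxn : x ^ (p ^ (n + 1)) = 1) (hy1 : x ^ (p ^ n) ≠ 1) (Q Q₁ Q₂ D : Subgroup F) (hq : IsPGroup q Q)
    (hxQ' : x ∈ normalizer (Q : Set F)) (hxQ₂ : x ∈ normalizer (Q₂ : Set F)) (hxD : x ∈ normalizer (D : Set F))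
    (hDQ : D ≤ Q) (hDc : ∀ d ∈ D, ∀ a ∈ Q, d * a = a * d) (hcomm : ∀ a ∈ Q, ∀ b ∈ Q, ⁅a, b⁆ ∈ D)
    (hyD : ∀ z ∈ D, z * x ^ (p ^ n) = x ^ (p ^ n) * z)
    (hfpfy : ∀ a ∈ Q, x ^ (p ^ n) * a * (x ^ (p ^ n))⁻¹ * a⁻¹ ∈ D → a ∈ D)
    (hQ₁ : Q₁ ≤ Q) (hQ₂ : Q₂ ≤ Q) (hsup : ∀ b ∈ Q, ∃ b₁ ∈ Q₁, ∃ b₂ ∈ Q₂, b = b₁ * b₂)
    (h12 : ∀ a ∈ Q₁, ∀ b ∈ Q₂, a * b = b * a) (χ : ↥D → K)
    (hχ0 : simEig (ρ.comp D.subtype) χ ≠ ⊥)
    (ha₁ : ∃ a ∈ Q₁, ∃ b ∈ Q₁, ∃ w ∈ simEig (ρ.comp D.subtype) χ, ρ ⁅a, b⁆ w ≠ w)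
    (ha₂ : ∃ a ∈ Q₂, ∃ b ∈ Q₂, ∃ w ∈ simEig (ρ.comp D.subtype) χ, ρ ⁅a, b⁆ w ≠ w)
    {r : ℕ} (hr : (ρ x - 1) ^ r = 0) (hlt : r < p ^ (n + 1)) : False := by
  classical
  have hp := hpf.out
  set y : F := x ^ (p ^ n) with hy
  have hqQ : IsPGroup q Q := hq
  have hqD : IsPGroup q D := hqQ.to_le hDQ
  let σ : ↥D →* End K W := ρ.comp D.subtype
  have hσ : ∀ z : ↥D, σ z = ρ z := fun _ => rfl
  have hcommσ : ∀ n n', σ n * σ n' = σ n' * σ n := by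
    intro n n'
    rw [hσ, hσ, ← map_mul, ← map_mul, hDc n n.2 n' (hDQ n'.2)]
  obtain ⟨hind, htop⟩ := simEig_indep σ hcommσ (cast_card_ne (K := K) hqD hqp)
  let E : Subgroup F := normalizer (D : Set F)
  let x' : ↥E := ⟨x, hxD⟩
  let θ := nConj D
  let τ : ↥E →* End K W := ρ.comp E.subtype
  have hτ : ∀ e : ↥E, τ e = ρ e := fun _ => rfl
  have hcompat : ∀ e n, τ e * σ n = σ (θ e n) * τ e := nConj_compat (K := K) (V := W) ρ D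
  have hxp' : x' ^ (p ^ (n + 1)) = 1 := Subtype.ext hxn
  have hfixn : twist θ (x' ^ (p ^ n)) χ = χ := by
    funext z
    rw [twist_apply]
    congr 1
    apply Subtype.ext
    rw [nConj_apply]
    have h1 : (((x' ^ (p ^ n))⁻¹ : ↥E) : F) = y⁻¹ := rfl
    rw [h1, inv_inv, mul_assoc, hyD z z.2]
    group
  have hex : ∃ s, twist θ (x' ^ (p ^ s)) χ = χ := ⟨n, hfixn⟩
  set s := Nat.find hex with hs
  have hsfix : twist θ (x' ^ (p ^ s)) χ = χ := Nat.find_spec hex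
  have hsn : s ≤ n := Nat.find_min' hex hfixn
  have hstab : ∀ i, 0 < i → i < p ^ s → twist θ (x' ^ i) χ ≠ χ := by
    intro i hi0 hi1 hfix
    obtain ⟨e, i', hi', hi⟩ := Nat.exists_eq_pow_mul_and_not_dvd (Nat.pos_iff_ne_zero.mp hi0) p hp.ne_one
    have h1 := ppart_mem (twStab θ χ) hxp' hi hi' hfix
    have h2 : s ≤ e := Nat.find_min' hex h1
    have h3 : p ^ s ≤ p ^ e := Nat.pow_le_pow_right hp.pos h2
    have h4 : p ^ e ≤ i := by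
      rw [hi]
      exact Nat.le_mul_of_pos_right _ (Nat.pos_of_ne_zero (fun h => hi' (h ▸ dvd_zero p)))
    omega
  set P := p ^ s with hP
  have hPpos : 0 < P := pow_pos hp.pos s
  have hx₁ : (τ x') ^ P = ρ (x ^ P) := by
    rw [← map_pow]
    rfl
  have hW₁inv : ∀ w ∈ simEig σ χ, ρ (x ^ P) w ∈ simEig σ χ := by
    intro w hw
    have h1 := map_simEig hcompat (x' ^ P) χ
    rw [hsfix] at h1
    rw [← h1]
    exact ⟨w, hw, rfl⟩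
  have hblock := block_lemma (K := K) (p := p) (τ x') s r (simEig σ χ)
    (fun w hw => by rw [← hP, hx₁]; exact hW₁inv w hw)
    (fun w hw h0 => orbit_indep hind hcompat hPpos hstab hw h0)
    (fun w _ => by
      have h1 : τ x' = ρ x := rfl
      rw [h1, hr]
      rfl)
  rw [← hP, hx₁] at hblock
  set x₁ := x ^ P with hx₁def
  set j := n - s with hj
  set t := r / P with ht
  have hsj : s + j = n := by omega
  have hx₁j : x₁ ^ (p ^ j) = y := by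
    rw [hx₁def, ← pow_mul, hP, ← pow_add, hsj]
  have hx₁j1 : x₁ ^ (p ^ (j + 1)) = 1 := by
    rw [hx₁def, ← pow_mul, hP, ← pow_add, show s + (j + 1) = n + 1 by omega]
    exact hxn
  have htn : t < p ^ (j + 1) := by
    apply Nat.div_lt_of_lt_mul
    rw [hP, ← pow_add, show s + (j + 1) = n + 1 by omega]
    exact hlt
  have hQinv : ∀ a ∈ Q, ∀ w ∈ simEig σ χ, ρ a w ∈ simEig σ χ := by
    intro a ha w hw
    rw [mem_simEig]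
    intro z
    have h1 := mem_simEig.mp hw z
    rw [hσ, ← Module.End.mul_apply, ← map_mul, hDc z z.2 a ha, map_mul, Module.End.mul_apply, ← hσ, h1, map_smul]
  exact eigen_two_sub ρ (simEig σ χ) hχ0 Q Q₁ Q₂ D x₁ j hx₁j1 (by rw [hx₁j]; exact hy1) hqQ hqp (pow_mem hxQ' P)
    (pow_mem hxQ₂ P) hDQ hDc hcomm
    (fun d hd => ⟨χ ⟨d, hd⟩, fun w hw => mem_simEig.mp hw ⟨d, hd⟩⟩) (by rw [hx₁j]; exact hfpfy)
    hQ₁ hQ₂ hsup h12 ha₁ ha₂ hQinv hW₁inv (t := t) hblock htn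

end Eigen

end Cfsg.Agent.Lib.Coprime.HHL
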