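import Cfsg.Agent.Lib.Coprime.HHL3
import Cfsg.Agent.Lib.Coprime.HHL4

/-!
The action of a normalizing subgroup on a section, and preimages of fixed points.
-/

set_option autoImplicit false
set_option linter.unusedSectionVars false
set_option linter.style.haveILetI false

namespace Cfsg.Agent.Lib.Coprime.HHL

open Module Subgroup Cfsg Cfsg.Agent.Lib.FT Cfsg.Agent.Lib.Coprime.HHB Cfsg.Agent.Lib.Coprime.HHFix Cfsg.Agent.Lib.Coprime.HHG
open scoped commutatorElement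

section Act

variable {F : Type*} [Group F]

/-- Conjugation on a normalized subgroup. -/
def conjT {T Y : Subgroup F} (hYT : Y ≤ normalizer (T : Set F)) (g : ↥Y) : ↥T ≃* ↥T where
  toFun t := ⟨(g : F) * t * (g : F)⁻¹, (mem_normalizer_iff.mp (hYT g.2) t).mp t.2⟩
  invFun t := ⟨(g : F)⁻¹ * t * g, by
    have := (mem_normalizer_iff.mp (inv_mem (hYT g.2)) t).mp t.2
    simpa using this⟩
  left_inv t := by
    apply Subtype.ext
    simp [mul_assoc]
  right_inv t := by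
    apply Subtype.ext
    simp [mul_assoc]
  map_mul' a b := by
    apply Subtype.ext
    simp [mul_assoc]

theorem conjT_coe {T Y : Subgroup F} (hYT : Y ≤ normalizer (T : Set F)) (g : ↥Y) (t : ↥T) :
    (conjT hYT g t : F) = g * t * (g : F)⁻¹ := rfl

theorem map_conjT {T N Y : Subgroup F} (hYT : Y ≤ normalizer (T : Set F)) (hYN : Y ≤ normalizer (N : Set F)) (g : ↥Y) :
    (N.subgroupOf T).map (conjT hYT g).toMonoidHom = N.subgroupOf T := by
  ext ⟨x, hx⟩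
  constructor
  · rintro ⟨⟨y, hy⟩, hyN, he⟩
    have h1 : y ∈ N := Subgroup.mem_subgroupOf.mp hyN
    have h2 : (g : F) * y * (g : F)⁻¹ = x := congrArg Subtype.val he
    rw [Subgroup.mem_subgroupOf]
    show x ∈ N
    rw [← h2]
    exact (mem_normalizer_iff.mp (hYN g.2) y).mp h1
  · intro hxN
    have h1 : x ∈ N := Subgroup.mem_subgroupOf.mp hxN
    have h2 : (g : F)⁻¹ * x * g ∈ N := by
      have := (mem_normalizer_iff.mp (inv_mem (hYN g.2)) x).mp h1
      simpa using this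
    have h3 : (g : F)⁻¹ * x * g ∈ T := by
      have := (mem_normalizer_iff.mp (inv_mem (hYT g.2)) x).mp hx
      simpa using this
    refine ⟨⟨_, h3⟩, Subgroup.mem_subgroupOf.mpr h2, ?_⟩
    apply Subtype.ext
    show (g : F) * ((g : F)⁻¹ * x * g) * (g : F)⁻¹ = x
    group

/-- The action on a section. -/
noncomputable def actQ {T N Y : Subgroup F} (hYT : Y ≤ normalizer (T : Set F)) (hYN : Y ≤ normalizer (N : Set F))
    [(N.subgroupOf T).Normal] : ↥Y →* MulAut (↥T ⧸ N.subgroupOf T) where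
  toFun g := QuotientGroup.congr (N.subgroupOf T) (N.subgroupOf T) (conjT hYT g) (map_conjT hYT hYN g)
  map_one' := by
    ext v
    induction v using QuotientGroup.induction_on with
    | H u =>
      show (QuotientGroup.mk (conjT hYT 1 u) : ↥T ⧸ N.subgroupOf T) = QuotientGroup.mk u
      congr 1
      apply Subtype.ext
      simp [conjT_coe]
  map_mul' a b := by
    ext v
    induction v using QuotientGroup.induction_on with
    | H u =>
      show (QuotientGroup.mk (conjT hYT (a * b) u) : ↥T ⧸ N.subgroupOf T) = QuotientGroup.mk (conjT hYT a (conjT hYT b u))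
      congr 1
      apply Subtype.ext
      simp [conjT_coe, mul_assoc]

theorem actQ_mk {T N Y : Subgroup F} (hYT : Y ≤ normalizer (T : Set F)) (hYN : Y ≤ normalizer (N : Set F))
    [(N.subgroupOf T).Normal] (g : ↥Y) (t : ↥T) :
    actQ hYT hYN g (QuotientGroup.mk t) = QuotientGroup.mk (conjT hYT g t) := rfl

theorem mk_eq_iff {T N : Subgroup F} [(N.subgroupOf T).Normal] (s t : ↥T) :
    (QuotientGroup.mk s : ↥T ⧸ N.subgroupOf T) = QuotientGroup.mk t ↔ (s : F)⁻¹ * t ∈ N := by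
  rw [QuotientGroup.eq, Subgroup.mem_subgroupOf]
  rfl

theorem mk_eq_one_iff {T N : Subgroup F} [(N.subgroupOf T).Normal] (t : ↥T) :
    (QuotientGroup.mk t : ↥T ⧸ N.subgroupOf T) = 1 ↔ (t : F) ∈ N := by
  rw [QuotientGroup.eq_one_iff, Subgroup.mem_subgroupOf]

theorem normal_subgroupOf_of_comm {T N : Subgroup F} (h : ∀ a ∈ T, ∀ b ∈ T, ⁅a, b⁆ ∈ N) (hNT : N ≤ T) :
    (N.subgroupOf T).Normal := by
  constructor
  intro n hn g
  rw [Subgroup.mem_subgroupOf] at hn ⊢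
  have h1 := h g g.2 n (hNT hn)
  have h2 : ((g * n * g⁻¹ : ↥T) : F) = ⁅(g : F), (n : F)⁆ * n := by
    simp only [commutatorElement_def]
    push_cast
    group
  rw [h2]
  exact mul_mem h1 hn

theorem quot_comm {T N : Subgroup F} [(N.subgroupOf T).Normal] (h : ∀ a ∈ T, ∀ b ∈ T, ⁅a, b⁆ ∈ N) (x y : ↥T ⧸ N.subgroupOf T) :
    x * y = y * x := by
  obtain ⟨a, rfl⟩ := QuotientGroup.mk_surjective x
  obtain ⟨b, rfl⟩ := QuotientGroup.mk_surjective y
  rw [← QuotientGroup.mk_mul, ← QuotientGroup.mk_mul, QuotientGroup.eq, Subgroup.mem_subgroupOf]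
  have h1 := h (a⁻¹ : F) (inv_mem a.2) (b⁻¹ : F) (inv_mem b.2)
  have h2 : (((a * b)⁻¹ * (b * a) : ↥T) : F) = ⁅(b⁻¹ : F), (a⁻¹ : F)⁆ := by
    simp only [commutatorElement_def]
    push_cast
    group
  rw [h2]
  have h3 : ⁅(b⁻¹ : F), (a⁻¹ : F)⁆ = ⁅(a⁻¹ : F), (b⁻¹ : F)⁆⁻¹ := by
    rw [commutatorElement_inv]
  rw [h3]
  exact inv_mem h1

/-- The preimage of the fixed points of an automorphism of a section. -/
def fixPre {T : Subgroup F} {N₀ : Subgroup ↥T} [N₀.Normal] (τ : MulAut (↥T ⧸ N₀)) : Subgroup F where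
  carrier := {x | ∃ h : x ∈ T, τ (QuotientGroup.mk ⟨x, h⟩) = QuotientGroup.mk ⟨x, h⟩}
  mul_mem' := by
    rintro a b ⟨ha, ha'⟩ ⟨hb, hb'⟩
    refine ⟨mul_mem ha hb, ?_⟩
    have h1 : (QuotientGroup.mk ⟨a * b, mul_mem ha hb⟩ : ↥T ⧸ N₀) = QuotientGroup.mk ⟨a, ha⟩ * QuotientGroup.mk ⟨b, hb⟩ := rfl
    rw [h1, map_mul, ha', hb']
  one_mem' := by
    refine ⟨one_mem _, ?_⟩
    have h1 : (QuotientGroup.mk ⟨1, one_mem T⟩ : ↥T ⧸ N₀) = 1 := rfl
    rw [h1, map_one]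
  inv_mem' := by
    rintro a ⟨ha, ha'⟩
    refine ⟨inv_mem ha, ?_⟩
    have h1 : (QuotientGroup.mk ⟨a⁻¹, inv_mem ha⟩ : ↥T ⧸ N₀) = (QuotientGroup.mk ⟨a, ha⟩)⁻¹ := rfl
    rw [h1, map_inv, ha']

theorem mem_fixPre {T : Subgroup F} {N₀ : Subgroup ↥T} [N₀.Normal] {τ : MulAut (↥T ⧸ N₀)} {x : F} :
    x ∈ fixPre τ ↔ ∃ h : x ∈ T, τ (QuotientGroup.mk ⟨x, h⟩) = QuotientGroup.mk ⟨x, h⟩ := Iff.rfl

/-- The product of two commuting subgroups. -/
theorem exists_prod_comm (A B : Subgroup F) (h : ∀ a ∈ A, ∀ b ∈ B, a * b = b * a) :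
    ∃ Q : Subgroup F, ∀ x, x ∈ Q ↔ ∃ a ∈ A, ∃ b ∈ B, x = a * b := by
  refine ⟨{ carrier := {x | ∃ a ∈ A, ∃ b ∈ B, x = a * b}
            mul_mem' := ?_
            one_mem' := ⟨1, one_mem _, 1, one_mem _, by simp⟩
            inv_mem' := ?_ }, fun x => Iff.rfl⟩
  · rintro _ _ ⟨a, ha, b, hb, rfl⟩ ⟨a', ha', b', hb', rfl⟩
    refine ⟨a * a', mul_mem ha ha', b * b', mul_mem hb hb', ?_⟩
    calc a * b * (a' * b') = a * (b * a') * b' := by group
      _ = a * (a' * b) * b' := by rw [h a' ha' b hb]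
      _ = _ := by group
  · rintro _ ⟨a, ha, b, hb, rfl⟩
    refine ⟨a⁻¹, inv_mem ha, b⁻¹, inv_mem hb, ?_⟩
    rw [mul_inv_rev]
    have h1 := h a⁻¹ (inv_mem ha) b⁻¹ (inv_mem hb)
    exact h1.symm

/-- The commutator with a fixed element, on a group of class two. -/
def cH {T D : Subgroup F} (hDc : ∀ d ∈ D, ∀ a ∈ T, d * a = a * d) (hcomm : ∀ a ∈ T, ∀ b ∈ T, ⁅a, b⁆ ∈ D) (t : ↥T) : ↥T →* F where
  toFun b := ⁅(t : F), (b : F)⁆
  map_one' := by simp
  map_mul' a b := by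
    have h1 : ⁅(t : F), ((a * b : ↥T) : F)⁆ = ⁅(t : F), (a : F)⁆ * ((a : F) * ⁅(t : F), (b : F)⁆ * (a : F)⁻¹) := by
      simp only [commutatorElement_def]
      push_cast
      group
    have h2 : (a : F) * ⁅(t : F), (b : F)⁆ * (a : F)⁻¹ = ⁅(t : F), (b : F)⁆ := by
      rw [← hDc _ (hcomm t t.2 b b.2) a a.2]
      group
    rw [h1, h2]

/-- The commutator with a fixed element on the section. -/
noncomputable def cQ {T D : Subgroup F} (hDc : ∀ d ∈ D, ∀ a ∈ T, d * a = a * d) (hcomm : ∀ a ∈ T, ∀ b ∈ T, ⁅a, b⁆ ∈ D)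
    [(D.subgroupOf T).Normal] (t : ↥T) : (↥T ⧸ D.subgroupOf T) →* F :=
  QuotientGroup.lift (D.subgroupOf T) (cH hDc hcomm t) (by
    intro d hd
    show ⁅(t : F), (d : F)⁆ = 1
    rw [commutatorElement_eq_one_iff_mul_comm]
    exact (hDc d (Subgroup.mem_subgroupOf.mp hd) t t.2).symm)

theorem cQ_mk {T D : Subgroup F} (hDc : ∀ d ∈ D, ∀ a ∈ T, d * a = a * d) (hcomm : ∀ a ∈ T, ∀ b ∈ T, ⁅a, b⁆ ∈ D)
    [(D.subgroupOf T).Normal] (t b : ↥T) : cQ hDc hcomm t (QuotientGroup.mk b) = ⁅(t : F), (b : F)⁆ := rfl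

end Act

section Wrap

variable {p : ℕ} [hpf : Fact p.Prime]

theorem w_pow_fix {A : Type*} [Group A] [Finite A] (hAc : ∀ x y : A, x * y = y * x) {α : MulAut A} (hα : α ^ p = 1)
    (hf : ∀ x, α x = x → x = 1) {U : ℕ} (hU : U % p ≠ 0) (x : A) (hx : (α ^ U) x = x) : x = 1 := by
  letI cA : CommGroup A := { (inferInstance : Group A) with mul_comm := hAc }
  apply fpf_pow hα hf hU
  rw [inv_pow]
  nth_rewrite 1 [← hx]
  rw [MulAut.inv_apply_self]

end Wrap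

end Cfsg.Agent.Lib.Coprime.HHL
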