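import Cfsg.Agent.Lib.Coprime.HHL5

/-!
The cubes (`p ^ n`-th powers) of exceptional elements generate an abelian group on every invariant `q`-subgroup.
-/

set_option autoImplicit false
set_option linter.unusedSectionVars false
set_option linter.style.haveILetI false

namespace Cfsg.Agent.Lib.Coprime.HHL

open Module Subgroup Cfsg Cfsg.Agent.Lib.FT Cfsg.Agent.Lib.Coprime.HHB Cfsg.Agent.Lib.Coprime.HHFix Cfsg.Agent.Lib.Coprime.HHG
open scoped commutatorElement

section Main

variable {K W F : Type*} [Field K] [IsAlgClosed K] [AddCommGroup W] [Module K W] [FiniteDimensional K W]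
  [Group F] [Finite F] {p q : ℕ} [hpf : Fact p.Prime] [hqf : Fact q.Prime] [CharP K p]

/-- Minimal invariant subgroup structure. -/
theorem exists_min_T (L Q : Subgroup F) (hq : IsPGroup q Q) (hLQ : L ≤ normalizer (Q : Set F)) (hqp : q ≠ p) (hL : IsPGroup p L)
    (a : F) (haL : a ∈ L) (hacen : ∀ g ∈ L, g * a = a * g)
    (hne : ∃ t ∈ Q, t * a ≠ a * t) :
    ∃ T : Subgroup F, T ≤ Q ∧ L ≤ normalizer (T : Set F) ∧ (∃ t ∈ T, t * a ≠ a * t) ∧
      (∀ x ∈ T, ∀ y ∈ T, ⁅x, y⁆ * a = a * ⁅x, y⁆) ∧ ⁅T, zpowers a⁆ = T := by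
  classical
  let 𝒯 : Set (Subgroup F) := {T | T ≤ Q ∧ L ≤ normalizer (T : Set F) ∧ ∃ t ∈ T, t * a ≠ a * t}
  obtain ⟨T, hT⟩ := Set.Finite.exists_minimal (Set.toFinite 𝒯) ⟨Q, le_rfl, hLQ, hne⟩
  obtain ⟨hTQ, hLT, hTa⟩ := hT.prop
  have hmin : ∀ T' : Subgroup F, T' ≤ T → L ≤ normalizer (T' : Set F) → (∃ t ∈ T', t * a ≠ a * t) → T ≤ T' :=
    fun T' h1 h2 h3 => hT.le_of_le ⟨h1.trans hTQ, h2, h3⟩ h1
  have hqT : IsPGroup q T := hq.to_le hTQ
  have hAp : IsPGroup p (zpowers a) := hL.to_le (Subgroup.zpowers_le.mpr haL)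
  have hca : ∀ g ∈ L, ∀ c ∈ zpowers a, g * c * g⁻¹ = c := by
    intro g hg c hc
    obtain ⟨k, rfl⟩ := mem_zpowers_iff.mp hc
    have h1 : Commute g a := hacen g hg
    have := (h1.zpow_right k).eq
    rw [this]
    group
  have hCA : CoprimeAction (zpowers a) T :=
    { normalizes := (Subgroup.zpowers_le.mpr haL).trans hLT
      coprime := IsPGroup.coprime_card_of_ne p q hqp.symm _ _ hAp hqT
      solvable := by
        left
        haveI := hAp.isNilpotent
        infer_instance }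
  -- the commutator with `a`
  have hT₁L : L ≤ normalizer ((⁅T, zpowers a⁆ : Subgroup F) : Set F) := by
    intro g hg
    apply Cfsg.Agent.Lib.Coprime.mem_normalizer_of_conj_le
    have h1 : ⁅T, zpowers a⁆ ≤ (⁅T, zpowers a⁆ : Subgroup F).comap (MulAut.conj g).toMonoidHom := by
      rw [Subgroup.commutator_le]
      intro x hx c hc
      rw [Subgroup.mem_comap]
      have h2 : (MulAut.conj g).toMonoidHom ⁅x, c⁆ = ⁅g * x * g⁻¹, g * c * g⁻¹⁆ := by
        simp only [commutatorElement_def, MulEquiv.coe_toMonoidHom, MulAut.conj_apply]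
        group
      rw [h2, hca g hg c hc]
      exact Subgroup.commutator_mem_commutator ((mem_normalizer_iff.mp (hLT hg) x).mp hx) hc
    intro x hx
    exact h1 hx
  have hT₁a : ∃ t ∈ (⁅T, zpowers a⁆ : Subgroup F), t * a ≠ a * t := by
    by_contra hcon
    push Not at hcon
    have h1 : ⁅⁅T, zpowers a⁆, zpowers a⁆ = ⊥ := by
      rw [Subgroup.commutator_eq_bot_iff_le_centralizer]
      intro t ht
      rw [Subgroup.mem_centralizer_iff]
      intro c hc
      obtain ⟨k, rfl⟩ := mem_zpowers_iff.mp hc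
      exact (((show Commute t a from hcon t ht).zpow_right k).eq).symm
    have h2 := hCA.commutator_eq_bot_of_commutator_commutator h1
    obtain ⟨t, ht, hta⟩ := hTa
    have h3 := Subgroup.commutator_mem_commutator ht (mem_zpowers a)
    rw [h2, Subgroup.mem_bot, commutatorElement_eq_one_iff_mul_comm] at h3
    exact hta h3
  have hT₁ : ⁅T, zpowers a⁆ = T := le_antisymm hCA.commutator_le_self (hmin _ hCA.commutator_le_self hT₁L hT₁a)
  -- the commutator subgroup
  have hT'L : L ≤ normalizer ((⁅T, T⁆ : Subgroup F) : Set F) := by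
    intro g hg
    apply Cfsg.Agent.Lib.Coprime.mem_normalizer_of_conj_le
    have h1 : ⁅T, T⁆ ≤ (⁅T, T⁆ : Subgroup F).comap (MulAut.conj g).toMonoidHom := by
      rw [Subgroup.commutator_le]
      intro x hx c hc
      rw [Subgroup.mem_comap]
      have h2 : (MulAut.conj g).toMonoidHom ⁅x, c⁆ = ⁅g * x * g⁻¹, g * c * g⁻¹⁆ := by
        simp only [commutatorElement_def, MulEquiv.coe_toMonoidHom, MulAut.conj_apply]
        group
      rw [h2]
      exact Subgroup.commutator_mem_commutator ((mem_normalizer_iff.mp (hLT hg) x).mp hx)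
        ((mem_normalizer_iff.mp (hLT hg) c).mp hc)
    intro x hx
    exact h1 hx
  have hT'T : ⁅T, T⁆ ≤ T := by
    rw [Subgroup.commutator_le]
    intro x hx y hy
    rw [commutatorElement_def]
    exact mul_mem (mul_mem (mul_mem hx hy) (inv_mem hx)) (inv_mem hy)
  have hT'a : ∀ t ∈ (⁅T, T⁆ : Subgroup F), t * a = a * t := by
    by_contra hcon
    push Not at hcon
    have h1 := hmin _ hT'T hT'L hcon
    have h2 : ⁅T, T⁆ = T := le_antisymm hT'T h1
    haveI : Nontrivial ↥T := by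
      obtain ⟨t, ht, hta⟩ := hTa
      refine ⟨⟨⟨t, ht⟩, 1, fun h => hta ?_⟩⟩
      have h3 : t = 1 := congrArg Subtype.val h
      rw [h3]
      simp
    haveI := hqT.isNilpotent
    have h3 := IsSolvable.commutator_lt_top_of_nontrivial ↥T
    apply h3.ne
    have h4 : (commutator ↥T).map T.subtype = T := by
      rw [Subgroup.map_subtype_commutator, h2]
    rw [eq_top_iff]
    rintro ⟨x, hx⟩ -
    rw [← h4] at hx
    obtain ⟨y, hy, hyx⟩ := hx
    have : y = ⟨x, by rw [← h4]; exact ⟨y, hy, hyx⟩⟩ := Subtype.ext hyx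
    rw [← this]
    exact hy
  refine ⟨T, hTQ, hLT, hTa, ?_, hT₁⟩
  intro x hx y hy
  exact hT'a _ (Subgroup.commutator_mem_commutator hx hy)

/-- Abelian invariant subgroups are centralized. -/
theorem centralized_of_abelian [Nontrivial W] (ρ : F →* End K W) (hρ : Function.Injective ρ) (hqp : q ≠ p)
    (L : Subgroup F) (n : ℕ) (S : Set F)
    (hS : ∀ s ∈ S, ∃ ξ ∈ L, ξ ^ (p ^ (n + 1)) = 1 ∧ ξ ^ (p ^ n) = s ∧ ∃ r, r < p ^ (n + 1) ∧ (ρ ξ - 1) ^ r = 0)
    (B : Subgroup F) (hqB : IsPGroup q B) (hLB : L ≤ normalizer (B : Set F)) (hBc : ∀ x ∈ B, ∀ y ∈ B, x * y = y * x) :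
    ∀ g ∈ closure S, ∀ d ∈ B, g * d = d * g := by
  have h1 : closure S ≤ centralizer (B : Set F) := by
    rw [closure_le]
    intro s hs
    rw [SetLike.mem_coe, Subgroup.mem_centralizer_iff]
    intro d hd
    by_contra hne
    obtain ⟨ξ, hξL, hξ1, hξs, r, hr, hrr⟩ := hS s hs
    have h2 := thmB_core (K := K) (p := p) (q := q) ρ hρ hqp ξ n hξ1 B hqB (hLB hξL) ⟨d, hd, by
      rw [hξs]
      exact fun h => hne h.symm⟩ hrr
    rcases h2 with h3 | ⟨_, _, _, _, _, _, ⟨x, hx, y, hy, hxy⟩, _⟩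
    · omega
    · exact hxy (hBc x hx y hy)
  intro g hg d hd
  exact (Subgroup.mem_centralizer_iff.mp (h1 hg) d hd).symm

end Main

end Cfsg.Agent.Lib.Coprime.HHL
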