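import Cfsg.Agent.Lib.Coprime.HHL6

/-!
The main theorem on `p ^ n`-th powers of exceptional elements.
-/

set_option autoImplicit false
set_option linter.unusedSectionVars false
set_option linter.style.haveILetI false
set_option maxHeartbeats 2000000

namespace Cfsg.Agent.Lib.Coprime.HHL

open Module Subgroup Cfsg Cfsg.Agent.Lib.FT Cfsg.Agent.Lib.Coprime.HHB Cfsg.Agent.Lib.Coprime.HHFix Cfsg.Agent.Lib.Coprime.HHG
open scoped commutatorElement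

section Main

variable {K W F : Type*} [Field K] [IsAlgClosed K] [AddCommGroup W] [Module K W] [FiniteDimensional K W]
  [Group F] [Finite F] {p q : ℕ} [hpf : Fact p.Prime] [hqf : Fact q.Prime] [CharP K p]


/-- A fixed-point-free statement. -/
theorem fpf_gen {T N : Subgroup F} {a : F} (hA : IsPGroup p (zpowers a)) (hNq : IsPGroup q N) (hqp : q ≠ p)
    (haN : a ∈ normalizer (N : Set F)) (hC : ∀ x ∈ T, x * a = a * x → x ∈ N) (hNT : N ≤ T) {t : F} (ht : t ∈ T)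
    (h : a * t * a⁻¹ * t⁻¹ ∈ N) : t ∈ N := by
  have hc : t * a * t⁻¹ * a⁻¹ ∈ N := by
    have h1 := inv_mem h
    have e : (a * t * a⁻¹ * t⁻¹)⁻¹ = t * a * t⁻¹ * a⁻¹ := by group
    rwa [e] at h1
  have hcop : (Nat.card N).Coprime (Nat.card (zpowers a)) := IsPGroup.coprime_card_of_ne q p hqp N (zpowers a) hNq hA
  haveI := hA.isNilpotent
  obtain ⟨n, hnN, hna⟩ := Cfsg.Agent.Lib.OddLocal.exists_mul_mem_centralizer (Subgroup.zpowers_le.mpr haN) hcop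
    (Or.inr inferInstance) t (comm_zpowers_mem haN hc)
  have h1 : n * t ∈ N := hC _ (mul_mem (hNT hnN) ht) ((Subgroup.mem_centralizer_iff.mp hna a (mem_zpowers a)).symm)
  have h2 : t = n⁻¹ * (n * t) := by group
  rw [h2]
  exact mul_mem (inv_mem hnN) h1

/-- Fixed points on a section. -/
theorem fpf_quot {T N Y : Subgroup F} (hYT : Y ≤ normalizer (T : Set F)) (hYN : Y ≤ normalizer (N : Set F))
    [(N.subgroupOf T).Normal] (y : ↥Y) (hA : IsPGroup p (zpowers (y : F))) (hNq : IsPGroup q N) (hqp : q ≠ p)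
    (hC : ∀ x ∈ T, x * y = y * x → x ∈ N) (hNT : N ≤ T) (hcomm : ∀ x ∈ T, ∀ z ∈ T, ⁅x, z⁆ ∈ N) (v : ↥T ⧸ N.subgroupOf T)
    (hv : actQ hYT hYN y v = v) : v = 1 := by
  obtain ⟨t, rfl⟩ := QuotientGroup.mk_surjective v
  rw [actQ_mk] at hv
  rw [mk_eq_one_iff]
  apply fpf_gen hA hNq hqp (hYN y.2) hC hNT t.2
  have h1 : (QuotientGroup.mk (conjT hYT y t * t⁻¹) : ↥T ⧸ N.subgroupOf T) = 1 := by
    rw [QuotientGroup.mk_mul, hv, ← QuotientGroup.mk_mul, mul_inv_cancel]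
    rfl
  rw [mk_eq_one_iff] at h1
  exact h1

/-- **The main theorem.** -/
theorem thmC [Nontrivial W] (ρ : F →* End K W) (hρ : Function.Injective ρ) (hp2 : p ≠ 2) (hqp : q ≠ p)
    (L : Subgroup F) (hL : IsPGroup p L) (Q : Subgroup F) (hq : IsPGroup q Q) (hLQ : L ≤ normalizer (Q : Set F))
    (n : ℕ) (S : Set F) (hSL : closure S ≤ L)
    (hS : ∀ s ∈ S, ∃ ξ ∈ L, ξ ^ (p ^ (n + 1)) = 1 ∧ ξ ^ (p ^ n) = s ∧ ∃ r, r < p ^ (n + 1) ∧ (ρ ξ - 1) ^ r = 0)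
    (a : F) (haL : a ∈ L) (hacen : ∀ g ∈ L, g * a = a * g) (hap : a ^ p = 1) (haZ : a ∈ ⁅closure S, closure S⁆)
    (hne : ∃ t ∈ Q, t * a ≠ a * t) : False := by
  classical
  have hp := hpf.out
  have hAp : IsPGroup p (zpowers a) := hL.to_le (Subgroup.zpowers_le.mpr haL)
  obtain ⟨T, hTQ, hLT, hTa, hT'a, hT₁⟩ := exists_min_T L Q hq hLQ hqp hL a haL hacen hne
  have hqT : IsPGroup q T := hq.to_le hTQ
  -- the fixed points of `a`
  let D : Subgroup F := T ⊓ centralizer {a}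
  have hDmem : ∀ x, x ∈ D ↔ x ∈ T ∧ x * a = a * x := by
    intro x
    rw [Subgroup.mem_inf, Subgroup.mem_centralizer_singleton_iff]
  have hDT : D ≤ T := inf_le_left
  have hqD : IsPGroup q D := hqT.to_le hDT
  have hcomm : ∀ x ∈ T, ∀ y ∈ T, ⁅x, y⁆ ∈ D := by
    intro x hx y hy
    refine (hDmem _).mpr ⟨?_, hT'a x hx y hy⟩
    rw [commutatorElement_def]
    exact mul_mem (mul_mem (mul_mem hx hy) (inv_mem hx)) (inv_mem hy)
  have hLD : L ≤ normalizer (D : Set F) := by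
    intro g hg
    apply Cfsg.Agent.Lib.Coprime.mem_normalizer_of_conj_le
    intro x hx
    obtain ⟨h1, h2⟩ := (hDmem x).mp hx
    refine (hDmem _).mpr ⟨(mem_normalizer_iff.mp (hLT hg) x).mp h1, ?_⟩
    have h3 : g * a = a * g := hacen g hg
    have h4 : a * g⁻¹ = g⁻¹ * a := by
      rw [eq_inv_mul_iff_mul_eq, ← mul_assoc, h3, mul_assoc, mul_inv_cancel, mul_one]
    calc g * x * g⁻¹ * a = g * x * (g⁻¹ * a) := by group
      _ = g * (x * a) * g⁻¹ := by rw [← h4]; group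
      _ = g * (a * x) * g⁻¹ := by rw [h2]
      _ = (g * a) * x * g⁻¹ := by group
      _ = a * (g * x * g⁻¹) := by rw [h3]; group
  have hDc : ∀ d ∈ D, ∀ t ∈ T, d * t = t * d := by
    have h1 : ⁅⁅zpowers a, D⁆, T⁆ = ⊥ := by
      have h2 : ⁅zpowers a, D⁆ = ⊥ := by
        rw [Subgroup.commutator_eq_bot_iff_le_centralizer]
        intro c hc
        obtain ⟨k, rfl⟩ := mem_zpowers_iff.mp hc
        rw [Subgroup.mem_centralizer_iff]
        intro d hd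
        exact (((show Commute d a from ((hDmem d).mp hd).2).zpow_right k).eq)
      rw [h2, Subgroup.commutator_bot_left]
    have h2 : ⁅⁅D, T⁆, zpowers a⁆ = ⊥ := by
      rw [Subgroup.commutator_eq_bot_iff_le_centralizer]
      have h3 : ⁅D, T⁆ ≤ centralizer ((zpowers a : Subgroup F) : Set F) := by
        rw [Subgroup.commutator_le]
        intro x hx y hy
        rw [Subgroup.mem_centralizer_iff]
        intro c hc
        obtain ⟨k, rfl⟩ := mem_zpowers_iff.mp hc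
        exact (((show Commute ⁅x, y⁆ a from hT'a x (hDT hx) y hy).zpow_right k).eq).symm
      exact h3
    have h3 := Subgroup.commutator_commutator_eq_bot_of_rotate h1 h2
    rw [hT₁, Subgroup.commutator_eq_bot_iff_le_centralizer] at h3
    intro d hd t ht
    exact Subgroup.mem_centralizer_iff.mp (h3 ht) d hd
  have hDab : ∀ x ∈ D, ∀ y ∈ D, x * y = y * x := fun x hx y hy => hDc x hx y (hDT hy)
  have haS : a ∈ closure S := by
    have h1 : ⁅closure S, closure S⁆ ≤ closure S := by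
      rw [Subgroup.commutator_le]
      intro x hx y hy
      rw [commutatorElement_def]
      exact mul_mem (mul_mem (mul_mem hx hy) (inv_mem hx)) (inv_mem hy)
    exact h1 haZ
  have hZD : ∀ g ∈ closure S, ∀ d ∈ D, g * d = d * g :=
    centralized_of_abelian (K := K) ρ hρ hqp L n S hS D hqD hLD hDab
  -- `T` is not abelian
  obtain ⟨x₀, hx₀, y₀, hy₀, hxy₀⟩ : ∃ x ∈ T, ∃ y ∈ T, x * y ≠ y * x := by
    by_contra hcon
    push Not at hcon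
    have h1 := centralized_of_abelian (K := K) ρ hρ hqp L n S hS T hqT hLT hcon
    obtain ⟨t, ht, hta⟩ := hTa
    exact hta (h1 a haS t ht).symm
  -- the character
  let σ : ↥D →* End K W := ρ.comp D.subtype
  have hσ : ∀ z : ↥D, σ z = ρ z := fun _ => rfl
  have hcommσ : ∀ n n', σ n * σ n' = σ n' * σ n := by
    intro n n'
    rw [hσ, hσ, ← map_mul, ← map_mul, hDab n n.2 n' n'.2]
  obtain ⟨hind, htop⟩ := simEig_indep σ hcommσ (cast_card_ne (K := K) hqD hqp)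
  obtain ⟨χ, hχ0, v₀, hv₀, hv₀ne⟩ : ∃ χ : ↥D → K, simEig σ χ ≠ ⊥ ∧ ∃ v ∈ simEig σ χ, ρ ⁅x₀, y₀⁆ v ≠ v := by
    by_contra hcon
    push Not at hcon
    have h1 : ρ ⁅x₀, y₀⁆ = 1 := by
      refine eq_of_forall_simEig (σ := σ) htop ?_
      intro χ hχ v hv
      rw [Module.End.one_apply]
      exact hcon χ hχ v hv
    have h2 : ⁅x₀, y₀⁆ = 1 := hρ (h1.trans (map_one ρ).symm)
    exact hxy₀ (commutatorElement_eq_one_iff_mul_comm.mp h2)
  set W₁ := simEig σ χ with hW₁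
  obtain ⟨R, hR⟩ := exists_radical ρ W₁ T D hDc hcomm
  have hRT : R ≤ T := fun x hx => ((hR x).mp hx).1
  have hDR : D ≤ R := by
    intro d hd
    refine (hR d).mpr ⟨hDT hd, fun b hb w _ => ?_⟩
    rw [commutatorElement_eq_one_iff_mul_comm.mpr (hDc d hd b hb), map_one, Module.End.one_apply]
  have hcommR : ∀ x ∈ T, ∀ y ∈ T, ⁅x, y⁆ ∈ R := fun x hx y hy => hDR (hcomm x hx y hy)
  have hx₀R : x₀ ∉ R := fun h => hv₀ne (((hR x₀).mp h).2 y₀ hy₀ v₀ hv₀)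
  -- invariance of the eigenspace
  have hgW : ∀ g ∈ closure S, ∀ w ∈ W₁, ρ g w ∈ W₁ := by
    intro g hg w hw
    rw [hW₁, mem_simEig]
    intro z
    have h1 := mem_simEig.mp hw z
    rw [hσ, ← Module.End.mul_apply, ← map_mul, ← hZD g hg z z.2, map_mul, Module.End.mul_apply, ← hσ, h1, map_smul]
  have hY₂T : closure S ≤ normalizer (T : Set F) := hSL.trans hLT
  have hY₂D : closure S ≤ normalizer (D : Set F) := hSL.trans hLD
  have hY₂R : closure S ≤ normalizer (R : Set F) := by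
    intro g hg
    apply Cfsg.Agent.Lib.Coprime.mem_normalizer_of_conj_le
    intro x hx
    obtain ⟨h1, h2⟩ := (hR x).mp hx
    refine (hR _).mpr ⟨(mem_normalizer_iff.mp (hY₂T hg) x).mp h1, fun b hb w hw => ?_⟩
    have hb' : g⁻¹ * b * g ∈ T := by
      have := (mem_normalizer_iff.mp (inv_mem (hY₂T hg)) b).mp hb
      simpa using this
    have h3 : ⁅g * x * g⁻¹, b⁆ = g * ⁅x, g⁻¹ * b * g⁆ * g⁻¹ := by
      simp only [commutatorElement_def]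
      group
    rw [h3, map_mul, map_mul, Module.End.mul_apply, Module.End.mul_apply, h2 _ hb' _ (hgW _ (inv_mem hg) w hw),
      ← Module.End.mul_apply, rho_mul_inv, Module.End.one_apply]
  haveI hRn : (R.subgroupOf T).Normal := normal_subgroupOf_of_comm hcommR hRT
  haveI hDn : (D.subgroupOf T).Normal := normal_subgroupOf_of_comm hcomm hDT
  -- the sections
  let φR : ↥(closure S) →* MulAut (↥T ⧸ R.subgroupOf T) := actQ hY₂T hY₂R
  let φD : ↥L →* MulAut (↥T ⧸ D.subgroupOf T) := actQ hLT hLD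
  have hARc : ∀ x y : ↥T ⧸ R.subgroupOf T, x * y = y * x := quot_comm hcommR
  have hADc : ∀ x y : ↥T ⧸ D.subgroupOf T, x * y = y * x := quot_comm hcomm
  have hcardR : (Nat.card (↥T ⧸ R.subgroupOf T)).Coprime p := by
    have h1 : Nat.card (↥T ⧸ R.subgroupOf T) ∣ Nat.card T := Subgroup.card_quotient_dvd_card _
    obtain ⟨k, hk⟩ := IsPGroup.iff_card.mp hqT
    rw [hk] at h1
    exact Nat.Coprime.coprime_dvd_left h1 (Nat.Coprime.pow_left _ ((Nat.coprime_primes hqf.out hp).mpr hqp))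
  let a' : ↥(closure S) := ⟨a, haS⟩
  have hap' : a' ^ p = 1 := Subtype.ext hap
  have hac' : ∀ g, g * a' = a' * g := fun g => Subtype.ext (hacen g (hSL g.2))
  have hfR : ∀ v, φR a' v = v → v = 1 := fun v hv =>
    fpf_quot hY₂T hY₂R a' hAp (hqT.to_le hRT) hqp (fun x hx h => hDR ((hDmem x).mpr ⟨hx, h⟩)) hRT hcommR v hv
  have hSp : ∀ s ∈ (Subtype.val ⁻¹' S : Set ↥(closure S)), s ^ p = 1 := by
    intro s hs
    obtain ⟨ξ, -, hξ1, hξs, -⟩ := hS s hs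
    apply Subtype.ext
    show (s : F) ^ p = 1
    rw [← hξs, ← pow_mul, ← pow_succ]
    exact hξ1
  have hna : ∃ g h : ↥(closure S), φR g * φR h ≠ φR h * φR g := by
    by_contra hcon
    push Not at hcon
    have hC : ⁅closure S, closure S⁆ ≤ (φR.ker).map (closure S).subtype := by
      rw [Subgroup.commutator_le]
      intro g₁ h₁ g₂ h₂
      refine ⟨⁅(⟨g₁, h₁⟩ : ↥(closure S)), ⟨g₂, h₂⟩⁆, ?_, rfl⟩
      show φR _ = 1
      rw [commutatorElement_def, map_mul, map_mul, map_mul, map_inv, map_inv, hcon ⟨g₁, h₁⟩ ⟨g₂, h₂⟩]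
      group
    obtain ⟨y, hy, hya⟩ := hC haZ
    have hya' : y = a' := Subtype.ext hya
    have hy' : φR a' = 1 := by rw [← hya']; exact hy
    have h1 := hfR (QuotientGroup.mk ⟨x₀, hx₀⟩) (by rw [hy']; rfl)
    rw [mk_eq_one_iff] at h1
    exact hx₀R h1
  obtain ⟨s', hs', u₁, u₂, h₁, h₂, h12, t₁, t₂, ht₁, ht₂, he₁, he₂⟩ := w_lemmaE hARc hp2 hcardR (hL.to_le hSL) φR a' hac' hap' hfR
    (Subtype.val ⁻¹' S) (Subgroup.closure_closure_coe_preimage) hSp hna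
  -- reduce the exponents
  obtain ⟨U₁, hU₁⟩ : ∃ U₁, U₁ = u₁ % p := ⟨_, rfl⟩
  obtain ⟨U₂, hU₂⟩ : ∃ U₂, U₂ = u₂ % p := ⟨_, rfl⟩
  have hU₁lt : U₁ < p := hU₁ ▸ Nat.mod_lt _ hp.pos
  have hU₂lt : U₂ < p := hU₂ ▸ Nat.mod_lt _ hp.pos
  have hU₁0 : U₁ % p ≠ 0 := by rw [Nat.mod_eq_of_lt hU₁lt, hU₁]; exact h₁
  have hU₂0 : U₂ % p ≠ 0 := by rw [Nat.mod_eq_of_lt hU₂lt, hU₂]; exact h₂
  have hU12 : U₁ % p ≠ U₂ % p := by
    rw [Nat.mod_eq_of_lt hU₁lt, Nat.mod_eq_of_lt hU₂lt, hU₁, hU₂]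
    exact h12
  rw [pow_eq_pow_mod u₁ hap', ← hU₁] at he₁
  rw [pow_eq_pow_mod u₂ hap', ← hU₂] at he₂
  clear h₁ h₂ h12 hU₁ hU₂
  -- the elements
  obtain ⟨ξ, hξL, hξ1, hξs, r, hr, hrr⟩ := hS s' hs'
  let sL : ↥L := ⟨s', hSL s'.2⟩
  let aL : ↥L := ⟨a, haL⟩
  let ξL : ↥L := ⟨ξ, hξL⟩
  have hsa : sL * aL = aL * sL := Subtype.ext (hacen _ (hSL s'.2))
  have hspL : sL ^ p = 1 := by
    apply Subtype.ext
    show ((s' : F)) ^ p = 1
    exact congrArg Subtype.val (hSp s' hs')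
  have hapL : aL ^ p = 1 := Subtype.ext hap
  set β := φD sL with hβdef
  set α := φD aL with hαdef
  have hc : β * α = α * β := by
    rw [hβdef, hαdef, ← map_mul, ← map_mul, hsa]
  have hβ : β ^ p = 1 := by rw [hβdef, ← map_pow, hspL, map_one]
  have hα : α ^ p = 1 := by rw [hαdef, ← map_pow, hapL, map_one]
  have hfα : ∀ v, α v = v → v = 1 := fun v hv =>
    fpf_quot hLT hLD aL hAp hqD hqp (fun x hx h => (hDmem x).mpr ⟨hx, h⟩) hDT hcomm v hv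
  set β' := φR s' with hβ'def
  set α' := φR a' with hα'def
  have hc' : β' * α' = α' * β' := by
    rw [hβ'def, hα'def, ← map_mul, ← map_mul, hac' s']
  -- the map between the sections
  let ψ : (↥T ⧸ D.subgroupOf T) →* (↥T ⧸ R.subgroupOf T) :=
    QuotientGroup.map _ _ (MonoidHom.id _) (fun x hx => Subgroup.mem_subgroupOf.mpr (hDR (Subgroup.mem_subgroupOf.mp hx)))
  have hψs : Function.Surjective ψ := by
    intro y
    obtain ⟨t, rfl⟩ := QuotientGroup.mk_surjective y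
    exact ⟨QuotientGroup.mk t, rfl⟩
  -- the twisted elements
  let e : ℕ → ↥(closure S) := fun U => s' * (a'⁻¹) ^ U
  have hτ : ∀ U, β * α⁻¹ ^ U = φD ⟨(e U : F), hSL (e U).2⟩ := by
    intro U
    have h1 : (⟨(e U : F), hSL (e U).2⟩ : ↥L) = sL * (aL⁻¹) ^ U := Subtype.ext rfl
    rw [h1, map_mul, map_pow, map_inv]
  have hτ' : ∀ U, β' * α'⁻¹ ^ U = φR (e U) := by
    intro U
    show _ = φR (s' * (a'⁻¹) ^ U)
    rw [map_mul, map_pow, map_inv]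
  have hψc : ∀ U v, ψ ((β * α⁻¹ ^ U) v) = (β' * α'⁻¹ ^ U) (ψ v) := by
    intro U v
    obtain ⟨t, rfl⟩ := QuotientGroup.mk_surjective v
    rw [hτ, hτ']
    rfl
  have hβU : ∀ U, (β * α⁻¹ ^ U) ^ p = 1 := by
    intro U
    have hcβ : Commute β ((α⁻¹) ^ U) := (Commute.inv_right (show Commute β α from hc)).pow_right U
    rw [hcβ.mul_pow, hβ, ← pow_mul, mul_comm, pow_mul, inv_pow, hα, inv_one, one_pow, one_mul]
  -- eigen-subgroups
  let E : ℕ → Subgroup F := fun U => fixPre (β * α⁻¹ ^ U)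
  have hTp : ∀ y ∈ T, y ^ p = 1 → y = 1 := by
    intro y hy h
    obtain ⟨k, hk⟩ := hqT ⟨y, hy⟩
    have h1 : y ^ (q ^ k) = 1 := congrArg Subtype.val hk
    have h2 : orderOf y ∣ p := orderOf_dvd_of_pow_eq_one h
    have h3 : orderOf y ∣ q ^ k := orderOf_dvd_of_pow_eq_one h1
    have h4 : Nat.Coprime p (q ^ k) := Nat.Coprime.pow_right _ ((Nat.coprime_primes hp hqf.out).mpr (Ne.symm hqp))
    exact orderOf_eq_one_iff.mp (Nat.eq_one_of_dvd_coprimes h4 h2 h3)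
  have hE : ∀ U V, U % p ≠ V % p → ∀ t ∈ E U, ∀ b ∈ E V, t * b = b * t := by
    intro U V hUV t ht b hb
    obtain ⟨htT, htfix⟩ := ht
    obtain ⟨hbT, hbfix⟩ := hb
    let f := cQ hDc hcomm ⟨t, htT⟩
    have hfu : ∀ x, f ((β * α⁻¹ ^ U) x) = f x := by
      intro x
      obtain ⟨c, rfl⟩ := QuotientGroup.mk_surjective x
      rw [hτ] at htfix ⊢
      rw [actQ_mk] at htfix ⊢
      rw [cQ_mk, cQ_mk, conjT_coe]
      rw [mk_eq_iff, conjT_coe] at htfix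
      obtain ⟨g, hgdef⟩ : ∃ g : F, g = (e U : F) := ⟨_, rfl⟩
      have hgS : g ∈ closure S := hgdef ▸ (e U).2
      show ⁅t, (e U : F) * c * (e U : F)⁻¹⁆ = ⁅t, (c : F)⁆
      rw [← hgdef] at htfix ⊢
      obtain ⟨d, hd, hde⟩ : ∃ d ∈ D, (g * t * g⁻¹)⁻¹ * t = d := ⟨_, htfix, rfl⟩
      have h1 : g * t * g⁻¹ = t * d⁻¹ := by
        rw [eq_mul_inv_iff_mul_eq, ← hde]
        group
      have h2 : g * ⁅t, (c : F)⁆ * g⁻¹ = ⁅t, (c : F)⁆ := by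
        rw [hZD g hgS _ (hcomm t htT c c.2)]
        group
      have h3 : g * ⁅t, (c : F)⁆ * g⁻¹ = ⁅g * t * g⁻¹, g * c * g⁻¹⁆ := by
        simp only [commutatorElement_def]
        group
      rw [← h2, h3, h1]
      have h4 : ∀ z : F, ⁅t * d⁻¹, z⁆ = t * (d⁻¹ * z * d) * t⁻¹ * z⁻¹ := by
        intro z
        simp only [commutatorElement_def]
        group
      have h5 : g * (c : F) * g⁻¹ ∈ T := (mem_normalizer_iff.mp (hY₂T hgS) c).mp c.2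
      have h6 : d⁻¹ * (g * (c : F) * g⁻¹) * d = g * (c : F) * g⁻¹ := by
        rw [hDc d⁻¹ (inv_mem hd) _ h5]
        group
      rw [h4, h6]
      simp only [commutatorElement_def]
    have h1 := w_orth hADc β α hc hα hfα f hUV hfu (QuotientGroup.mk ⟨b, hbT⟩) hbfix
    have h2 : ⁅t, b⁆ ^ p = 1 := h1
    have h3 : ⁅t, b⁆ ∈ T := hDT (hcomm t htT b hbT)
    exact commutatorElement_eq_one_iff_mul_comm.mp (hTp _ h3 h2)
  -- lifting the fixed points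
  have hlift : ∀ U t, φR s' t = φR (a' ^ U) t → t ≠ 1 → ∃ π : ↥T, (π : F) ∈ E U ∧ (π : F) ∉ R := by
    intro U t he ht
    have hfix : (β' * α'⁻¹ ^ U) t = t := by
      rw [fix_iff hc' U t, hβ'def, hα'def, ← map_pow]
      exact he
    obtain ⟨t', ht', hψt'⟩ := w_lift hADc hARc hcardR ψ hψs (β * α⁻¹ ^ U) (β' * α'⁻¹ ^ U) (hψc U) (hβU U) t hfix ht
    obtain ⟨π, rfl⟩ := QuotientGroup.mk_surjective t'
    refine ⟨π, ⟨π.2, ht'⟩, fun hπ => hψt' ?_⟩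
    show (QuotientGroup.mk π : ↥T ⧸ R.subgroupOf T) = 1
    exact (mk_eq_one_iff π).mpr hπ
  have hrt : ∀ d ∈ T, ∀ w, ρ (d ^ p) w = w → ρ d w = w := by
    intro d hd w hw
    obtain ⟨k, hk⟩ := hqT ⟨d, hd⟩
    have h1 : d ^ (q ^ k) = 1 := congrArg Subtype.val hk
    have h3 : orderOf d ∣ q ^ k := orderOf_dvd_of_pow_eq_one h1
    have h4 : Nat.Coprime p (orderOf d) :=
      Nat.Coprime.coprime_dvd_right h3 (Nat.Coprime.pow_right _ ((Nat.coprime_primes hp hqf.out).mpr (Ne.symm hqp)))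
    obtain ⟨m, hm⟩ := exists_pow_eq_self_of_coprime h4
    rw [← hm, map_pow]
    clear hm
    induction m with
    | zero => simp
    | succ m ih => rw [pow_succ, Module.End.mul_apply, hw, ih]
  have hnd : ∀ U < p, ∀ π : ↥T, (π : F) ∈ E U → (π : F) ∉ R → ∃ b ∈ E U, ∃ w ∈ W₁, ρ ⁅(π : F), b⁆ w ≠ w := by
    intro U hU π hπ hπR
    have h1 : ¬ (∀ b ∈ T, ∀ w ∈ W₁, ρ ⁅(π : F), b⁆ w = w) := fun h => hπR ((hR _).mpr ⟨π.2, h⟩)
    push Not at h1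
    obtain ⟨b₀, hb₀, w, hw, hne⟩ := h1
    have hker : ∀ u < p, u ≠ U → ∀ x, (β * α⁻¹ ^ u) x = x → cQ hDc hcomm π x = 1 := by
      intro u hu huU x hx
      obtain ⟨c, rfl⟩ := QuotientGroup.mk_surjective x
      rw [cQ_mk, commutatorElement_eq_one_iff_mul_comm]
      exact hE U u (by rw [Nat.mod_eq_of_lt hU, Nat.mod_eq_of_lt hu]; exact huU.symm) _ hπ _ ⟨c.2, hx⟩
    obtain ⟨x₀', hx₀', hfx₀⟩ := w_decomp hADc β α hc hβ hα hfα (cQ hDc hcomm π) U hU hker (QuotientGroup.mk ⟨b₀, hb₀⟩)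
    obtain ⟨b', rfl⟩ := QuotientGroup.mk_surjective x₀'
    rw [cQ_mk, cQ_mk] at hfx₀
    refine ⟨b', ⟨b'.2, hx₀'⟩, w, hw, fun hcon => hne ?_⟩
    apply hrt _ (hDT (hcomm _ π.2 _ hb₀))
    rw [← hfx₀]
    exact hcon
  obtain ⟨π₁, hπ₁, hπ₁R⟩ := hlift U₁ t₁ he₁ ht₁
  obtain ⟨π₂, hπ₂, hπ₂R⟩ := hlift U₂ t₂ he₂ ht₂
  obtain ⟨b₁, hb₁, w₁, hw₁, hne₁⟩ := hnd U₁ hU₁lt π₁ hπ₁ hπ₁R
  obtain ⟨b₂, hb₂, w₂, hw₂, hne₂⟩ := hnd U₂ hU₂lt π₂ hπ₂ hπ₂R
  have h12' := hE U₁ U₂ hU12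
  obtain ⟨Q₀, hQ₀⟩ := exists_prod_comm (E U₁) (E U₂) h12'
  have hET : ∀ U, E U ≤ T := fun U x hx => hx.1
  have hDE : ∀ U, D ≤ E U := by
    intro U d hd
    refine ⟨hDT hd, ?_⟩
    have h1 : (QuotientGroup.mk ⟨d, hDT hd⟩ : ↥T ⧸ D.subgroupOf T) = 1 := (mk_eq_one_iff _).mpr hd
    rw [h1, map_one]
  have hDQ₀ : D ≤ Q₀ := fun d hd => (hQ₀ d).mpr ⟨d, hDE U₁ hd, 1, one_mem _, by simp⟩
  have hQ₀T : Q₀ ≤ T := by
    intro x hx
    obtain ⟨x₁, hx₁, x₂, hx₂, rfl⟩ := (hQ₀ x).mp hx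
    exact mul_mem (hET _ hx₁) (hET _ hx₂)
  have hQ₁Q₀ : E U₁ ≤ Q₀ := fun x hx => (hQ₀ x).mpr ⟨x, hx, 1, one_mem _, by simp⟩
  have hQ₂Q₀ : E U₂ ≤ Q₀ := fun x hx => (hQ₀ x).mpr ⟨1, one_mem _, x, hx, by simp⟩
  have hecomm : ∀ U, (⟨(e U : F), hSL (e U).2⟩ : ↥L) * ξL = ξL * ⟨(e U : F), hSL (e U).2⟩ := by
    intro U
    apply Subtype.ext
    show ((s' : F) * ((a : F)⁻¹) ^ U) * ξ = ξ * ((s' : F) * ((a : F)⁻¹) ^ U)
    have h1 : Commute (s' : F) ξ := by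
      rw [← hξs]
      exact (Commute.refl ξ).pow_left _
    have h2 : Commute (((a : F)⁻¹) ^ U) ξ := (Commute.inv_left (show Commute a ξ from (hacen ξ hξL).symm)).pow_left U
    exact (h1.mul_left h2).eq
  have hξE : ∀ U, ξ ∈ normalizer (E U : Set F) := by
    intro U
    apply Cfsg.Agent.Lib.Coprime.mem_normalizer_of_conj_le
    intro x hx
    obtain ⟨hxT, hxfix⟩ := hx
    have hT' : ξ * x * ξ⁻¹ ∈ T := (mem_normalizer_iff.mp (hLT hξL) x).mp hxT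
    refine ⟨hT', ?_⟩
    have h1 : (QuotientGroup.mk ⟨ξ * x * ξ⁻¹, hT'⟩ : ↥T ⧸ D.subgroupOf T) = φD ξL (QuotientGroup.mk ⟨x, hxT⟩) := rfl
    rw [h1]
    have h2 : (β * α⁻¹ ^ U) * φD ξL = φD ξL * (β * α⁻¹ ^ U) := by
      rw [hτ, ← map_mul, ← map_mul, hecomm]
    have h3 := DFunLike.congr_fun h2 (QuotientGroup.mk ⟨x, hxT⟩ : ↥T ⧸ D.subgroupOf T)
    exact h3.trans (congrArg (φD ξL) hxfix)
  have hξQ₀ : ξ ∈ normalizer (Q₀ : Set F) := by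
    apply Cfsg.Agent.Lib.Coprime.mem_normalizer_of_conj_le
    intro x hx
    obtain ⟨x₁, hx₁, x₂, hx₂, rfl⟩ := (hQ₀ x).mp hx
    refine (hQ₀ _).mpr ⟨ξ * x₁ * ξ⁻¹, (mem_normalizer_iff.mp (hξE U₁) x₁).mp hx₁, ξ * x₂ * ξ⁻¹,
      (mem_normalizer_iff.mp (hξE U₂) x₂).mp hx₂, by group⟩
  have hfpfy : ∀ x ∈ Q₀, ξ ^ (p ^ n) * x * (ξ ^ (p ^ n))⁻¹ * x⁻¹ ∈ D → x ∈ D := by
    intro x hx hd
    rw [hξs] at hd
    obtain ⟨x₁, hx₁, x₂, hx₂, rfl⟩ := (hQ₀ x).mp hx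
    obtain ⟨hx₁T, hx₁f⟩ := hx₁
    obtain ⟨hx₂T, hx₂f⟩ := hx₂
    have hxT : x₁ * x₂ ∈ T := mul_mem hx₁T hx₂T
    have hfix : β ((QuotientGroup.mk ⟨x₁, hx₁T⟩ : ↥T ⧸ D.subgroupOf T) * QuotientGroup.mk ⟨x₂, hx₂T⟩) =
        QuotientGroup.mk ⟨x₁, hx₁T⟩ * QuotientGroup.mk ⟨x₂, hx₂T⟩ := by
      have h1 : (QuotientGroup.mk ⟨x₁, hx₁T⟩ : ↥T ⧸ D.subgroupOf T) * QuotientGroup.mk ⟨x₂, hx₂T⟩ =
          QuotientGroup.mk ⟨x₁ * x₂, hxT⟩ := rfl
      rw [h1, hβdef, actQ_mk, mk_eq_iff, conjT_coe]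
      have h2 : (((s' : F) * (x₁ * x₂) * (s' : F)⁻¹)⁻¹ * (x₁ * x₂)) =
          (x₁ * x₂)⁻¹ * ((s' : F) * (x₁ * x₂) * (s' : F)⁻¹ * (x₁ * x₂)⁻¹)⁻¹ * (x₁ * x₂) := by group
      show (((s' : F) * (x₁ * x₂) * (s' : F)⁻¹)⁻¹ * (x₁ * x₂)) ∈ D
      rw [h2, mul_assoc, hDc _ (inv_mem hd) _ hxT, ← mul_assoc, inv_mul_cancel, one_mul]
      exact inv_mem hd
    obtain ⟨h1, h2⟩ := w_fpf_two hADc β α hc hα hfα hU₁0 hU₂0 hU12 _ _ hx₁f hx₂f hfix
    exact mul_mem ((mk_eq_one_iff _).mp h1) ((mk_eq_one_iff _).mp h2)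
  have hy1 : ξ ^ (p ^ n) ≠ 1 := by
    intro h1
    rw [hξs] at h1
    have h2 : s' = 1 := Subtype.ext h1
    rw [hβ'def, h2, map_one, map_pow] at he₁
    have hα' : α' ^ p = 1 := by rw [hα'def, ← map_pow, hap', map_one]
    exact ht₁ (w_pow_fix hARc hα' hfR hU₁0 t₁ he₁.symm)
  have hyD : ∀ z ∈ D, z * ξ ^ (p ^ n) = ξ ^ (p ^ n) * z := by
    intro z hz
    rw [hξs]
    exact (hZD s' s'.2 z hz).symm
  exact thm_two ρ hqp ξ n hξ1 hy1 Q₀ (E U₁) (E U₂) D (hqT.to_le hQ₀T) hξQ₀ (hξE U₂) (hLD hξL) hDQ₀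
    (fun d hd t ht => hDc d hd t (hQ₀T ht)) (fun x hx y hy => hcomm x (hQ₀T hx) y (hQ₀T hy)) hyD hfpfy hQ₁Q₀ hQ₂Q₀
    (fun b hb => (hQ₀ b).mp hb) h12' χ hχ0 ⟨π₁, hπ₁, b₁, hb₁, w₁, hw₁, hne₁⟩ ⟨π₂, hπ₂, b₂, hb₂, w₂, hw₂, hne₂⟩ hrr hr

end Main

end Cfsg.Agent.Lib.Coprime.HHL
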