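import Cfsg.Agent.Lib.Coprime.HHL7
import Cfsg.Agent.S3783
import Cfsg.Agent.S3789

/-!
The linear action on the Frattini quotient of the `p`-core.
-/

set_option autoImplicit false
set_option linter.unusedSectionVars false
set_option linter.style.haveILetI false

namespace Cfsg.Agent.Lib.Coprime.HHL

open Module Subgroup Cfsg Cfsg.Agent.Lib.FT Cfsg.Agent.Lib.Coprime.HHB Cfsg.Agent.Lib.Coprime.HHFix Cfsg.Agent.Lib.Coprime.HHG TensorProduct
open scoped commutatorElement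

universe u

section Rep

variable {p : ℕ} [hp : Fact p.Prime]

theorem exists_lin_aux {F A : Type u} [Group F] [CommGroup A] [Finite A] [Module (ZMod p) (Additive A)] (α : F →* MulAut A) :
    ∃ (W : Type u) (_ : AddCommGroup W) (_ : Module (ZMod p) W) (_ : Finite W) (ρ : F →* End (ZMod p) W) (e : A → W),
      Function.Bijective e ∧ (∀ a b, e (a * b) = e a + e b) ∧ (∀ g a, ρ g (e a) = e (α g a)) := by
  classical
  let f : F → End (ZMod p) (Additive A) := fun g => linOf p (α g).toMonoidHom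
  have hf : ∀ (g : F) (a : Additive A), f g a = Additive.ofMul (α g (Additive.toMul a)) := fun _ _ => rfl
  let ρ : F →* End (ZMod p) (Additive A) :=
    { toFun := f
      map_one' := LinearMap.ext fun x => by
        rw [hf, Module.End.one_apply]
        simp
      map_mul' := fun a b => LinearMap.ext fun x => by
        rw [Module.End.mul_apply, hf, hf, hf]
        simp }
  exact ⟨Additive A, inferInstance, inferInstance, inferInstanceAs (Finite A), ρ, Additive.ofMul, Additive.ofMul.bijective,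
    fun a b => rfl, fun g a => rfl⟩

theorem exists_lin {F A : Type u} [Group F] [Group A] [Finite A] (hAc : ∀ a b : A, a * b = b * a) (hAe : ∀ a : A, a ^ p = 1)
    (α : F →* MulAut A) :
    ∃ (W : Type u) (_ : AddCommGroup W) (_ : Module (ZMod p) W) (_ : Finite W) (ρ : F →* End (ZMod p) W) (e : A → W),
      Function.Bijective e ∧ (∀ a b, e (a * b) = e a + e b) ∧ (∀ g a, ρ g (e a) = e (α g a)) := by
  classical
  letI cA : CommGroup A := { (inferInstance : Group A) with mul_comm := hAc }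
  letI mA : Module (ZMod p) (Additive A) := AddCommGroup.zmodModule (n := p) (fun x => by
    change Additive.ofMul ((Additive.toMul x) ^ p) = 0
    rw [hAe]
    rfl)
  exact exists_lin_aux α

theorem exists_lift_hom {H F M : Type*} [Group H] [Group F] [Monoid M] (φ : H →* F) (hφ : Function.Surjective φ) (g : H →* M)
    (hg : ∀ u ∈ φ.ker, g u = 1) : ∃ h : F →* M, ∀ x, h (φ x) = g x := by
  have key : ∀ a b, φ a = φ b → g a = g b := by
    intro a b hab
    have h1 : a⁻¹ * b ∈ φ.ker := by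
      rw [MonoidHom.mem_ker, map_mul, map_inv, hab, inv_mul_cancel]
    have h2 : b = a * (a⁻¹ * b) := by group
    rw [h2, map_mul, hg _ h1, mul_one]
  let si := Function.surjInv hφ
  have hsi : ∀ y, φ (si y) = y := Function.surjInv_eq hφ
  refine ⟨{ toFun := fun y => g (si y)
            map_one' := ?_
            map_mul' := ?_ }, fun x => key _ _ (hsi _)⟩
  · show g (si 1) = 1
    rw [key (si 1) 1 (by rw [hsi, map_one]), map_one]
  · intro a b
    show g (si (a * b)) = g (si a) * g (si b)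
    rw [← map_mul]
    exact key _ _ (by rw [map_mul, hsi, hsi, hsi])

theorem exists_level_rep₀ {H F : Type u} [Group H] [Finite H] [Group F] [Finite F] (U : Subgroup H) [hUn : U.Normal]
    (φ : H →* F) (hφ : Function.Surjective φ) (hU : φ.ker = U)
    (hUp : IsPGroup p U) (hC : centralizer (U : Set H) ≤ U) (hO : pCore p F = ⊥) :
    ∃ (W : Type u) (_ : AddCommGroup W) (_ : Module (ZMod p) W) (_ : Finite W) (ρ : F →* End (ZMod p) W),
      Function.Injective ρ ∧
      (∀ (x : H) (s : ℕ), x ^ (p ^ s) = 1 → (∀ u ∈ U, (u * x) ^ (p ^ s) = 1) → (ρ (φ x) - 1) ^ (p ^ s - 1) = 0) ∧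
      (∀ (x : H) (s : ℕ), (∀ u ∈ U, x ^ (p ^ s) * (u * x) ^ (p ^ s) = (u * x) ^ (p ^ s) * x ^ (p ^ s)) →
        (ρ (φ x) - 1) ^ (2 * p ^ s - 1) = 0) := by
  classical
  have hpp := hp.out
  have hV : ∀ a b : ↥U ⧸ frattini ↥U, a * b = b * a := by
    intro a b
    obtain ⟨a, rfl⟩ := QuotientGroup.mk_surjective a
    obtain ⟨b, rfl⟩ := QuotientGroup.mk_surjective b
    rw [← QuotientGroup.mk_mul, ← QuotientGroup.mk_mul, QuotientGroup.eq_iff_div_mem]
    have := Cfsg.Agent.Lib.Transfer.commutator_mem_frattini hUp a b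
    have e : a * b / (b * a) = a * b * a⁻¹ * b⁻¹ := by
      rw [div_eq_mul_inv, mul_inv_rev]
      group
    rw [e]
    exact this
  have hVexp : ∀ v : ↥U ⧸ frattini ↥U, v ^ p = 1 := by
    intro v
    obtain ⟨a, rfl⟩ := QuotientGroup.mk_surjective v
    rw [← QuotientGroup.mk_pow, QuotientGroup.eq_one_iff]
    exact Cfsg.Agent.Lib.Transfer.pow_mem_frattini hUp a
  have htriv : ∀ u ∈ U, S3783.acV U u = 1 := by
    intro u hu
    ext v
    obtain ⟨a, rfl⟩ := QuotientGroup.mk_surjective v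
    rw [S3783.acV_mk]
    show (QuotientGroup.mk _ : ↥U ⧸ frattini ↥U) = QuotientGroup.mk a
    rw [QuotientGroup.eq_iff_div_mem]
    have := Cfsg.Agent.Lib.Transfer.commutator_mem_frattini hUp ⟨u, hu⟩ a
    have e : MulAut.conjNormal u a = ⟨u, hu⟩ * a * (⟨u, hu⟩ : ↥U)⁻¹ := Subtype.ext (MulAut.conjNormal_apply _ _)
    rw [e, div_eq_mul_inv]
    exact this
  obtain ⟨W, iW, mW, fW, ρ₀, e, he, hemul, heρ⟩ := exists_lin hV hVexp (S3783.acV U)
  have he1 : e 1 = 0 := by
    have h1 := hemul 1 1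
    rw [mul_one] at h1
    exact left_eq_add.mp h1
  let f : ↥U → W := fun u => e (QuotientGroup.mk u)
  have hfsurj : Function.Surjective f := fun w => by
    obtain ⟨a, rfl⟩ := he.2 w
    obtain ⟨u, rfl⟩ := QuotientGroup.mk_surjective a
    exact ⟨u, rfl⟩
  have hfmul : ∀ a b, f (a * b) = f a + f b := fun a b => hemul (QuotientGroup.mk a) (QuotientGroup.mk b)
  have hf1 : f 1 = 0 := he1
  have hfρ : ∀ (g : H) (u : ↥U), ρ₀ g (f u) = f (MulAut.conjNormal g u) := fun g u => heρ g _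
  have hρ₀U : ∀ u ∈ φ.ker, ρ₀ u = 1 := by
    intro u hu
    apply LinearMap.ext
    intro w
    obtain ⟨a, rfl⟩ := he.2 w
    rw [heρ, htriv u (hU ▸ hu)]
    rfl
  obtain ⟨ρ, hρ⟩ := exists_lift_hom φ hφ ρ₀ hρ₀U
  have hkerp : IsPGroup p ρ.ker := by
    rintro ⟨y, hy⟩
    obtain ⟨g, rfl⟩ := hφ y
    have hg1 : ρ₀ g = 1 := by
      rw [← hρ]
      exact hy
    obtain ⟨a, b, hab1, hcomm, ⟨ka, hka⟩, hb, ha2, hb2⟩ := Cfsg.Agent.Lib.PGroups.exists_pPart p g
    have hb1 : ρ₀ b = 1 := by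
      obtain ⟨j, rfl⟩ := exists_pow_of_mem_zpowers hb2
      rw [map_pow, hg1, one_pow]
    have hb2' : S3783.acV U b = 1 := by
      ext v
      apply he.1
      rw [← heρ, hb1]
      rfl
    have hcentral : zpowers b ≤ centralizer (U : Set H) := by
      apply Cfsg.Agent.Lib.Basic.le_centralizer_of_trivial_on_frattini
      · rw [Subgroup.normalizer_eq_top_iff.mpr hUn]
        exact le_top
      · rw [Nat.card_zpowers]
        obtain ⟨n, hn⟩ := IsPGroup.iff_card.mp (hUp.to_subgroup (frattini ↥U))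
        rw [hn]
        exact Nat.Coprime.pow_right _ ((hpp.coprime_iff_not_dvd).mpr hb).symm
      · intro a' ha' u hu
        obtain ⟨j, rfl⟩ := mem_zpowers_iff.mp ha'
        have h5 : S3783.acV U (b ^ j) = 1 := by rw [map_zpow, hb2', one_zpow]
        have h6 := congrArg (fun E : MulAut (↥U ⧸ frattini ↥U) => E (QuotientGroup.mk (⟨u, hu⟩ : ↥U))) h5
        simp only [S3783.acV_mk] at h6
        have h7 : (QuotientGroup.mk (MulAut.conjNormal (b ^ j) ⟨u, hu⟩) : ↥U ⧸ frattini ↥U)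
            = QuotientGroup.mk ⟨u, hu⟩ := h6
        rw [QuotientGroup.eq_iff_div_mem] at h7
        refine ⟨_, h7, ?_⟩
        rw [div_eq_mul_inv, map_mul, map_inv]
        show ((MulAut.conjNormal (b ^ j) ⟨u, hu⟩ : ↥U) : H) * u⁻¹ = _
        rw [MulAut.conjNormal_apply]
    have hbU : b ∈ U := hC (hcentral (mem_zpowers b))
    obtain ⟨n, hn⟩ := hUp ⟨b, hbU⟩
    have h8 : b ^ (p ^ n) = 1 := congrArg Subtype.val hn
    obtain ⟨i, -, hi⟩ := (Nat.dvd_prime_pow hpp).mp (orderOf_dvd_of_pow_eq_one h8)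
    have h9 : i = 0 := by
      by_contra hne
      apply hb
      rw [hi]
      exact dvd_pow_self p hne
    rw [h9, pow_zero, orderOf_eq_one_iff] at hi
    refine ⟨ka, Subtype.ext ?_⟩
    show (φ g) ^ (p ^ ka) = 1
    rw [hab1, hi, mul_one, ← map_pow, ← hka, pow_orderOf_eq_one, map_one]
  have hkerbot : ρ.ker = ⊥ := by
    have h1 : ρ.ker ≤ pCore p F := Cfsg.Agent.Lib.Components.le_pCore ρ.normal_ker hkerp
    rw [hO] at h1
    exact le_bot_iff.mp h1
  have hinj : Function.Injective ρ := by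
    intro a b hab
    have h1 : a * b⁻¹ ∈ ρ.ker := by
      rw [MonoidHom.mem_ker, map_mul, hab, ← map_mul, mul_inv_cancel, map_one]
    rw [hkerbot, Subgroup.mem_bot] at h1
    exact mul_inv_eq_one.mp h1
  have hnorm : ∀ (x : H) (u : ↥U) (N : ℕ), ∃ n : ↥U, (n : H) = ((u : H) * x) ^ N * (x ^ N)⁻¹ ∧
      (∑ i ∈ Finset.range N, (ρ₀ x) ^ i) (f u) = f n := by
    intro x u N
    induction N with
    | zero => exact ⟨1, by simp, by simp [hf1]⟩
    | succ N ih =>
      obtain ⟨n, hn, hs⟩ := ih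
      refine ⟨n * MulAut.conjNormal (x ^ N) u, ?_, ?_⟩
      · rw [Subgroup.coe_mul, hn, MulAut.conjNormal_apply, pow_succ ((u : H) * x), pow_succ x]
        group
      · rw [Finset.sum_range_succ, LinearMap.add_apply, hs, hfmul, ← map_pow, hfρ]
  refine ⟨W, iW, mW, fW, ρ, hinj, ?_, ?_⟩
  · intro x s hx hu
    rw [hρ, sub_one_ppow_pred (K := ZMod p) (p := p)]
    apply LinearMap.ext
    intro w
    obtain ⟨u, rfl⟩ := hfsurj w
    obtain ⟨n, hn, hs⟩ := hnorm x u (p ^ s)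
    rw [hs, LinearMap.zero_apply]
    have h1 : n = 1 := by
      apply Subtype.ext
      rw [hn, hu u u.2, hx]
      simp
    rw [h1, hf1]
  · intro x s hc
    rw [hρ]
    have h2 : 2 * p ^ s - 1 = p ^ s + (p ^ s - 1) := by
      have : 0 < p ^ s := pow_pos hpp.pos s
      omega
    rw [h2, pow_add, sub_one_ppow_pred (K := ZMod p) (p := p), sub_one_ppow (K := ZMod p) (p := p)]
    apply LinearMap.ext
    intro w
    obtain ⟨u, rfl⟩ := hfsurj w
    obtain ⟨n, hn, hs⟩ := hnorm x u (p ^ s)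
    rw [Module.End.mul_apply, hs, LinearMap.sub_apply, LinearMap.zero_apply, Module.End.one_apply, ← map_pow, hfρ, sub_eq_zero]
    congr 1
    apply Subtype.ext
    rw [MulAut.conjNormal_apply, hn]
    have h3 := hc u u.2
    calc x ^ p ^ s * (((u : H) * x) ^ p ^ s * (x ^ p ^ s)⁻¹) * (x ^ p ^ s)⁻¹
        = (x ^ p ^ s * ((u : H) * x) ^ p ^ s) * (x ^ p ^ s)⁻¹ * (x ^ p ^ s)⁻¹ := by group
      _ = ((u : H) * x) ^ p ^ s * (x ^ p ^ s)⁻¹ := by
        rw [h3]
        group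

/-- The same over the algebraic closure. -/
theorem exists_level_rep {H F : Type u} [Group H] [Finite H] [Group F] [Finite F] (U : Subgroup H) [hUn : U.Normal]
    (φ : H →* F) (hφ : Function.Surjective φ) (hU : φ.ker = U)
    (hUp : IsPGroup p U) (hC : centralizer (U : Set H) ≤ U) (hO : pCore p F = ⊥) :
    ∃ (W : Type u) (_ : AddCommGroup W) (_ : Module (KK p) W) (_ : FiniteDimensional (KK p) W) (ρ : F →* End (KK p) W),
      Function.Injective ρ ∧
      (∀ (x : H) (s : ℕ), x ^ (p ^ s) = 1 → (∀ u ∈ U, (u * x) ^ (p ^ s) = 1) → (ρ (φ x) - 1) ^ (p ^ s - 1) = 0) ∧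
      (∀ (x : H) (s : ℕ), (∀ u ∈ U, x ^ (p ^ s) * (u * x) ^ (p ^ s) = (u * x) ^ (p ^ s) * x ^ (p ^ s)) →
        (ρ (φ x) - 1) ^ (2 * p ^ s - 1) = 0) := by
  classical
  obtain ⟨W, iW, mW, fW, ρ₀, hinj, hN1, hN2⟩ := exists_level_rep₀ U φ hφ hU hUp hC hO
  haveI : Module.Finite (ZMod p) W := Module.Finite.of_finite
  have htr : ∀ (g : F) (r : ℕ), (ρ₀ g - 1) ^ r = 0 → (rhoC ρ₀ g - 1) ^ r = 0 := by
    intro g r h
    have h1 : rhoC ρ₀ g - 1 = Module.End.baseChangeHom (ZMod p) (KK p) W (ρ₀ g - 1) := by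
      rw [map_sub, map_one]
      rfl
    rw [h1, ← map_pow, h, map_zero]
  refine ⟨KK p ⊗[ZMod p] W, inferInstance, inferInstance, inferInstance, rhoC ρ₀, ?_, ?_, ?_⟩
  · intro g g' h
    have h1 : rhoC ρ₀ (g * g'⁻¹) = 1 := by
      rw [map_mul, h]
      exact rho_mul_inv _ g'
    have h2 : ρ₀ (g * g'⁻¹) = 1 := eq_one_of_baseChange (KK p) _ h1
    have h3 := hinj (h2.trans (map_one ρ₀).symm)
    exact mul_inv_eq_one.mp h3
  · intro x s hx hu
    exact htr _ _ (hN1 x s hx hu)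
  · intro x s hc
    exact htr _ _ (hN2 x s hc)

/-- Theorem B in a faithful representation. -/
theorem thmB_faith {K W H : Type*} [Field K] [IsAlgClosed K] [AddCommGroup W] [Module K W] [FiniteDimensional K W] [CharP K p]
    [Nontrivial W] [Group H] [Finite H] (ρ : H →* End K W) (hρ : Function.Injective ρ) (hsol : IsPSolvable p H)
    (hOp : pCore p H = ⊥) (x : H) (n : ℕ) (hx1 : x ^ (p ^ (n + 1)) = 1) (hy1 : x ^ (p ^ n) ≠ 1) {r : ℕ}
    (hr : (ρ x - 1) ^ r = 0) :
    p ^ (n + 1) ≤ r ∨ ∃ (s m q : ℕ), q.Prime ∧ s ≤ n ∧ 1 ≤ m ∧ p ^ (n + 1 - s) - 1 = q ^ m ∧ p ^ s * (p ^ (n + 1 - s) - 1) ≤ r ∧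
      ∃ R : Subgroup H, IsPGroup q R ∧ ∃ a ∈ R, ∃ b ∈ R, a * b ≠ b * a := by
  classical
  have hpp := hp.out
  have hord : orderOf x = p ^ (n + 1) := orderOf_eq_prime_pow hy1 hx1
  set L₀ : Subgroup H := pPrimeCore p H with hL₀
  haveI hL₀n : L₀.Normal := Cfsg.Agent.Lib.Basic.pPrimeCore_normal p
  have hL₀cop : (Nat.card L₀).Coprime p := Cfsg.Agent.Lib.Basic.pPrimeCore_coprime p
  have hC := Cfsg.Agent.Lib.PLocal.centralizer_pPrimeCore_le_of_isPSolvable hsol hOp
  have hyp : (x ^ (p ^ n)) ^ p = 1 := by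
    rw [← pow_mul, ← pow_succ]
    exact hx1
  have hyL₀ : x ^ (p ^ n) ∉ L₀ := by
    intro h
    apply hy1
    have h1 : orderOf (⟨_, h⟩ : L₀) ∣ Nat.card L₀ := orderOf_dvd_natCard _
    have h2 : orderOf (⟨_, h⟩ : L₀) ∣ p := by
      apply orderOf_dvd_of_pow_eq_one
      exact Subtype.ext hyp
    have h4 := Nat.eq_one_of_dvd_coprimes hL₀cop h1 h2
    rw [orderOf_eq_one_iff] at h4
    exact congrArg Subtype.val h4
  have hnc : x ^ (p ^ n) ∉ centralizer (L₀ : Set H) := fun h => hyL₀ (hC h)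
  have hYp : IsPGroup p (zpowers x) := by
    apply IsPGroup.of_card (n := n + 1)
    rw [Nat.card_zpowers, hord]
  obtain ⟨q, hqf, R, hqp, hRq, hYR, hne⟩ := Cfsg.Agent.S3789.exists_sylow_moved L₀ (zpowers x) hYp hL₀cop
    (pow_mem (mem_zpowers x) _) hnc
  haveI := hqf
  have hres := thmB_core (K := K) (p := p) (q := q) ρ hρ hqp x n hx1 R hRq (hYR (mem_zpowers x)) hne hr
  rcases hres with h | ⟨s, m', hs, hm1, hm2, hm3, ⟨a, ha, b, hb, hab⟩, -⟩
  · exact Or.inl h
  · exact Or.inr ⟨s, m', q, hqf.out, hs, hm1, hm2, hm3, R, hRq, a, ha, b, hb, hab⟩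

/-- A numerical consequence. -/
theorem exc_ge {n s : ℕ} (hp3 : 2 < p) (hs : s ≤ n) {r : ℕ} (hr : p ^ s * (p ^ (n + 1 - s) - 1) ≤ r) :
    2 * p ^ n ≤ r := by
  have hpp := hp.out
  have h1 : p ^ s ≤ p ^ n := Nat.pow_le_pow_right hpp.pos hs
  have h2 : p ^ s * (p ^ (n + 1 - s) - 1) = p ^ (n + 1) - p ^ s := by
    rw [Nat.mul_sub, mul_one, ← pow_add]
    congr 2
    omega
  rw [h2] at hr
  have h3 : p ^ (n + 1) = p ^ n * p := pow_succ p n
  have h4 : p ^ n * 3 ≤ p ^ n * p := Nat.mul_le_mul_left _ hp3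
  omega

end Rep

end Cfsg.Agent.Lib.Coprime.HHL
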