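import Cfsg.Agent.Lib.Coprime.HHL8

/-!
The second level of the `p`-series.
-/

set_option autoImplicit false
set_option linter.unusedSectionVars false
set_option linter.style.haveILetI false
set_option maxHeartbeats 1000000

namespace Cfsg.Agent.Lib.Coprime.HHL

open Module Subgroup Cfsg Cfsg.Agent.Lib.FT Cfsg.Agent.Lib.Coprime.HHB Cfsg.Agent.Lib.Coprime.HHFix Cfsg.Agent.Lib.Coprime.HHG TensorProduct
open scoped commutatorElement

universe u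

section Two

variable {p : ℕ} [hp : Fact p.Prime]

theorem pel {H : Type*} [Group H] [Finite H] (U : Subgroup H) [U.Normal] (hUp : IsPGroup p U) {x : H}
    (hx : ∃ k, orderOf x = p ^ k) {u : H} (hu : u ∈ U) : ∃ k, orderOf (u * x) = p ^ k := by
  have hpp := hp.out
  obtain ⟨k₀, hk₀⟩ := hx
  have hx₀ : x ^ (p ^ k₀) = 1 := by rw [← hk₀, pow_orderOf_eq_one]
  have h8 : (u * x) ^ (p ^ k₀) ∈ U := by
    rw [← QuotientGroup.eq_one_iff, ← QuotientGroup.mk'_apply, map_pow, map_mul]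
    have h9 : QuotientGroup.mk' U u = 1 := (QuotientGroup.eq_one_iff _).mpr hu
    rw [h9, one_mul, ← map_pow, hx₀, map_one]
  obtain ⟨n, hn⟩ := hUp ⟨_, h8⟩
  have h10 : ((u * x) ^ (p ^ k₀)) ^ (p ^ n) = 1 := congrArg Subtype.val hn
  rw [← pow_mul, ← pow_add] at h10
  obtain ⟨i, -, hi⟩ := (Nat.dvd_prime_pow hpp).mp (orderOf_dvd_of_pow_eq_one h10)
  exact ⟨i, hi⟩

/-- The key statement on the second level. -/
theorem level_two {F H₂ : Type u} [Group F] [Finite F] [Group H₂] [Finite H₂] (hp2 : p ≠ 2)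
    (π : F →* H₂) (hπ : Function.Surjective π) (hsol : IsPSolvable p F) (hOF : pCore p F = ⊥) (hO₂ : pPrimeCore p H₂ = ⊥)
    {K W : Type*} [Field K] [IsAlgClosed K] [AddCommGroup W] [Module K W] [FiniteDimensional K W] [CharP K p]
    (ρ : F →* End K W) (hρ : Function.Injective ρ) (m : ℕ)
    (hexp : ∀ y : F, (∃ k, orderOf y = p ^ k) → y ^ (p ^ (m + 1)) = 1 ∧ (ρ y - 1) ^ (p ^ (m + 1) - 1) = 0)
    (y : F) (hy : ∃ k, orderOf y = p ^ k) : (π y) ^ (p ^ m) ∈ pCore p H₂ := by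
  classical
  have hpp := hp.out
  have hp3 : 2 < p := lt_of_le_of_ne hpp.two_le (Ne.symm hp2)
  by_contra hne
  have hsol₂ : IsPSolvable p H₂ := Cfsg.Agent.Lib.Coprime.isPSolvable_map π hπ hsol
  have hC₂ := Cfsg.Agent.Lib.Char.centralizer_pCore_le_of_isPSolvable hsol₂ hO₂
  obtain ⟨U₂, hU₂⟩ : ∃ U₂, U₂ = pCore p H₂ := ⟨_, rfl⟩
  rw [← hU₂] at hne hC₂
  haveI hU₂n : U₂.Normal := hU₂ ▸ Cfsg.Agent.Lib.Basic.pCore_normal p
  have hU₂p : IsPGroup p U₂ := hU₂ ▸ Cfsg.Agent.Lib.Basic.pCore_isPGroup p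
  have hO₃ : pCore p (H₂ ⧸ U₂) = ⊥ := by
    rw [Cfsg.Agent.Lib.LocalEven.pCore_quotient _ hU₂p, ← hU₂, Subgroup.map_eq_bot_iff, QuotientGroup.ker_mk']
  let φ₂ : H₂ →* H₂ ⧸ U₂ := QuotientGroup.mk' U₂
  have hφ₂ : Function.Surjective φ₂ := QuotientGroup.mk'_surjective U₂
  have hφ₂1 : ∀ g, φ₂ g = 1 ↔ g ∈ U₂ := fun g => QuotientGroup.eq_one_iff g
  have hsol₃ : IsPSolvable p (H₂ ⧸ U₂) := Cfsg.Agent.Lib.Coprime.isPSolvable_map φ₂ hφ₂ hsol₂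
  obtain ⟨W₂, iW₂, mW₂, fW₂, ρ₂, hρ₂, -, hN2⟩ := exists_level_rep U₂ φ₂ hφ₂ (QuotientGroup.ker_mk' U₂) hU₂p hC₂ hO₃
  obtain ⟨z, hz⟩ : ∃ z, z = π y := ⟨_, rfl⟩
  rw [← hz] at hne
  have hz1 : z ^ (p ^ (m + 1)) = 1 := by rw [hz, ← map_pow, (hexp y hy).1, map_one]
  have hx1 : (φ₂ z) ^ (p ^ (m + 1)) = 1 := by rw [← map_pow, hz1, map_one]
  have hxne : (φ₂ z) ^ (p ^ m) ≠ 1 := by
    rw [← map_pow, Ne, hφ₂1]
    exact hne
  haveI hW₂ : Nontrivial W₂ := by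
    by_contra hcon
    rw [not_nontrivial_iff_subsingleton] at hcon
    apply hxne
    apply hρ₂
    apply LinearMap.ext
    intro w
    exact Subsingleton.elim _ _
  have hnz : (ρ₂ (φ₂ z) - 1) ^ (2 * p ^ m - 1) ≠ 0 := by
    intro h0
    rcases thmB_faith ρ₂ hρ₂ hsol₃ hO₃ (φ₂ z) m hx1 hxne h0 with h | ⟨s, m', q, hq, hs, hm', he, hle, -⟩
    · have h3 : p ^ (m + 1) = p ^ m * p := pow_succ p m
      have h4 : p ^ m * 3 ≤ p ^ m * p := Nat.mul_le_mul_left _ hp3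
      rw [h3] at h
      have h5 : 0 < p ^ m := pow_pos hpp.pos m
      generalize p ^ m * p = A at h h4
      generalize p ^ m = B at h h4 h5
      omega
    · have h6 := exc_ge hp3 hs hle
      have h5 : 0 < p ^ m := pow_pos hpp.pos m
      generalize p ^ m = B at h6 h5
      omega
  obtain ⟨u, hu, hucomm⟩ : ∃ u ∈ U₂, z ^ (p ^ m) * (u * z) ^ (p ^ m) ≠ (u * z) ^ (p ^ m) * z ^ (p ^ m) := by
    by_contra hcon
    push Not at hcon
    exact hnz (hN2 z m hcon)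
  -- the lifts
  have hYp : IsPGroup p (zpowers y) := by
    obtain ⟨k, hk⟩ := hy
    rw [IsPGroup.iff_card, Nat.card_zpowers]
    exact ⟨k, hk⟩
  obtain ⟨P₁, hP₁⟩ := hYp.exists_le_sylow
  have hyP : y ∈ (P₁ : Subgroup F) := hP₁ (mem_zpowers y)
  let ϖ : F →* H₂ ⧸ U₂ := φ₂.comp π
  have hϖ : ∀ g, ϖ g = φ₂ (π g) := fun _ => rfl
  let L : Subgroup F := (P₁ : Subgroup F) ⊓ (zpowers (ϖ y)).comap ϖ
  have hLmem : ∀ g, g ∈ L ↔ g ∈ (P₁ : Subgroup F) ∧ ϖ g ∈ zpowers (ϖ y) := by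
    intro g
    rw [Subgroup.mem_inf, Subgroup.mem_comap]
  have hLp : IsPGroup p L := P₁.2.to_le inf_le_left
  have hP₁el : ∀ g ∈ (P₁ : Subgroup F), ∃ k, orderOf g = p ^ k := by
    intro g hg
    obtain ⟨n, hn⟩ := P₁.2 ⟨g, hg⟩
    have h8 : g ^ (p ^ n) = 1 := congrArg Subtype.val hn
    obtain ⟨i, -, hi⟩ := (Nat.dvd_prime_pow hpp).mp (orderOf_dvd_of_pow_eq_one h8)
    exact ⟨i, hi⟩
  obtain ⟨u₀, hu₀P, hu₀⟩ : ∃ u₀ ∈ (P₁ : Subgroup F), π u₀ = u := by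
    have h1 : u ∈ (P₁.mapSurjective hπ : Subgroup H₂) := Cfsg.Agent.Lib.Basic.pCore_le_sylow _ (hU₂ ▸ hu)
    rw [Sylow.coe_mapSurjective] at h1
    obtain ⟨g, hg, rfl⟩ := h1
    exact ⟨g, hg, rfl⟩
  have hu₀' : ϖ u₀ = 1 := by
    rw [hϖ, hu₀]
    exact (hφ₂1 u).mpr hu
  let Ξ : Set F := {ξ | ξ ∈ (P₁ : Subgroup F) ∧ ϖ ξ = ϖ y}
  let S : Set F := (fun ξ => ξ ^ (p ^ m)) '' Ξ
  have hΞL : ∀ ξ ∈ Ξ, ξ ∈ L := fun ξ hξ => (hLmem ξ).mpr ⟨hξ.1, by rw [hξ.2]; exact mem_zpowers _⟩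
  have hΞconj : ∀ g ∈ L, ∀ ξ ∈ Ξ, g * ξ * g⁻¹ ∈ Ξ := by
    intro g hg ξ hξ
    obtain ⟨hg1, hg2⟩ := (hLmem g).mp hg
    refine ⟨mul_mem (mul_mem hg1 hξ.1) (inv_mem hg1), ?_⟩
    rw [map_mul, map_mul, map_inv, hξ.2]
    obtain ⟨j, hj⟩ := exists_pow_of_mem_zpowers hg2
    rw [hj, ((Commute.refl (ϖ y)).pow_left j).eq]
    group
  have hyΞ : y ∈ Ξ := ⟨hyP, rfl⟩
  have hu₀yΞ : u₀ * y ∈ Ξ := ⟨mul_mem hu₀P hyP, by rw [map_mul, hu₀', one_mul]⟩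
  have hSL : closure S ≤ L := by
    rw [Subgroup.closure_le]
    rintro _ ⟨ξ, hξ, rfl⟩
    exact pow_mem (hΞL ξ hξ) _
  have hLS : ∀ g ∈ L, ∀ x ∈ closure S, g * x * g⁻¹ ∈ closure S := by
    intro g hg x hx
    have h1 : closure S ≤ (closure S).comap (MulAut.conj g).toMonoidHom := by
      rw [Subgroup.closure_le]
      rintro _ ⟨ξ, hξ, rfl⟩
      apply Subgroup.subset_closure
      refine ⟨g * ξ * g⁻¹, hΞconj g hg ξ hξ, ?_⟩
      show (g * ξ * g⁻¹) ^ (p ^ m) = g * ξ ^ (p ^ m) * g⁻¹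
      rw [conj_pow]
    exact h1 hx
  let C₁ : Subgroup F := ⁅closure S, closure S⁆
  have hC₁S : C₁ ≤ closure S := by
    rw [Subgroup.commutator_le]
    intro x hx y hy
    rw [commutatorElement_def]
    exact mul_mem (mul_mem (mul_mem hx hy) (inv_mem hx)) (inv_mem hy)
  have hC₁L : C₁ ≤ L := hC₁S.trans hSL
  have hC₁n : ∀ g ∈ L, ∀ x ∈ C₁, g * x * g⁻¹ ∈ C₁ := by
    intro g hg x hx
    have h1 : C₁ ≤ C₁.comap (MulAut.conj g).toMonoidHom := by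
      rw [Subgroup.commutator_le]
      intro a ha b hb
      show g * ⁅a, b⁆ * g⁻¹ ∈ C₁
      have h2 : g * ⁅a, b⁆ * g⁻¹ = ⁅g * a * g⁻¹, g * b * g⁻¹⁆ := by
        simp only [commutatorElement_def]
        group
      rw [h2]
      exact Subgroup.commutator_mem_commutator (hLS g hg a ha) (hLS g hg b hb)
    exact h1 hx
  have hC₁ne : ∃ x ∈ C₁, x ≠ 1 := by
    refine ⟨⁅y ^ (p ^ m), (u₀ * y) ^ (p ^ m)⁆, Subgroup.commutator_mem_commutator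
      (Subgroup.subset_closure ⟨y, hyΞ, rfl⟩) (Subgroup.subset_closure ⟨_, hu₀yΞ, rfl⟩), ?_⟩
    intro h
    rw [commutatorElement_eq_one_iff_mul_comm] at h
    apply hucomm
    have h1 := congrArg π h
    rw [map_mul, map_mul, map_pow, map_pow, map_mul, hu₀, ← hz] at h1
    exact h1
  obtain ⟨a, haL, hacen, hap, haC, ha1⟩ : ∃ a ∈ L, (∀ g ∈ L, g * a = a * g) ∧ a ^ p = 1 ∧ a ∈ C₁ ∧ a ≠ 1 := by
    haveI hLnil := hLp.isNilpotent
    haveI hDn : (C₁.subgroupOf L).Normal := by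
      constructor
      intro n hn g
      rw [Subgroup.mem_subgroupOf] at hn ⊢
      exact hC₁n g g.2 n hn
    have hDne : C₁.subgroupOf L ≠ ⊥ := by
      obtain ⟨x, hx, hx1⟩ := hC₁ne
      intro h
      have h1 : (⟨x, hC₁L hx⟩ : ↥L) ∈ C₁.subgroupOf L := Subgroup.mem_subgroupOf.mpr hx
      rw [h, Subgroup.mem_bot] at h1
      exact hx1 (congrArg Subtype.val h1)
    have h1 := Cfsg.Agent.Lib.Basic.normal_inf_center_ne_bot (C₁.subgroupOf L) hDne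
    obtain ⟨⟨b, hb⟩, hb1⟩ := Subgroup.ne_bot_iff_exists_ne_one.mp h1
    obtain ⟨hbD, hbZ⟩ := Subgroup.mem_inf.mp hb
    have hb1' : b ≠ 1 := fun h => hb1 (Subtype.ext h)
    obtain ⟨n, hn⟩ := hLp b
    obtain ⟨i, -, hi⟩ := (Nat.dvd_prime_pow hpp).mp (orderOf_dvd_of_pow_eq_one hn)
    rcases i with _ | j
    · rw [pow_zero, orderOf_eq_one_iff] at hi
      exact absurd hi hb1'
    have hbo : b ^ (p ^ j) ≠ 1 := pow_ne_one_of_lt_orderOf (pow_ne_zero _ hpp.ne_zero) (by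
      rw [hi]
      exact Nat.pow_lt_pow_right hpp.one_lt (Nat.lt_succ_self j))
    refine ⟨((b ^ (p ^ j) : ↥L) : F), (b ^ (p ^ j)).2, ?_, ?_, ?_, ?_⟩
    · intro g hg
      have h2 : b ∈ center ↥L := hbZ
      have h3 := Subgroup.mem_center_iff.mp (pow_mem h2 (p ^ j)) ⟨g, hg⟩
      exact congrArg Subtype.val h3
    · have h4 : b ^ (p ^ (j + 1)) = 1 := by
        rw [← hi, pow_orderOf_eq_one]
      rw [← Subgroup.coe_pow, ← pow_mul, ← pow_succ, h4]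
      rfl
    · have h5 : b ^ (p ^ j) ∈ C₁.subgroupOf L := pow_mem hbD _
      exact Subgroup.mem_subgroupOf.mp h5
    · intro h6
      exact hbo (Subtype.ext h6)
  -- the prime
  have hCK := Cfsg.Agent.Lib.PLocal.centralizer_pPrimeCore_le_of_isPSolvable hsol hOF
  have hnc : a ∉ centralizer (pPrimeCore p F : Set F) := by
    intro h
    have h0 := hCK h
    have h1 : orderOf (⟨a, h0⟩ : ↥(pPrimeCore p F)) ∣ Nat.card ↥(pPrimeCore p F) := orderOf_dvd_natCard _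
    have h2 : orderOf (⟨a, h0⟩ : ↥(pPrimeCore p F)) ∣ p := by
      apply orderOf_dvd_of_pow_eq_one
      exact Subtype.ext hap
    have h4 := Nat.eq_one_of_dvd_coprimes (Cfsg.Agent.Lib.Basic.pPrimeCore_coprime p) h1 h2
    rw [orderOf_eq_one_iff] at h4
    exact ha1 (congrArg Subtype.val h4)
  haveI hKn : (pPrimeCore p F).Normal := Cfsg.Agent.Lib.Basic.pPrimeCore_normal p
  obtain ⟨q, hqf, R, hqp, hRq, hYR, r, hr, hra⟩ := Cfsg.Agent.S3789.exists_sylow_moved (pPrimeCore p F) L hLp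
    (Cfsg.Agent.Lib.Basic.pPrimeCore_coprime p) haL hnc
  haveI := hqf
  haveI hW : Nontrivial W := by
    by_contra hcon
    rw [not_nontrivial_iff_subsingleton] at hcon
    apply ha1
    apply hρ
    apply LinearMap.ext
    intro w
    exact Subsingleton.elim _ _
  refine thmC (K := K) ρ hρ hp2 hqp L hLp R hRq hYR m S hSL ?_ a haL hacen hap haC ⟨r, hr, fun h => hra h.symm⟩
  rintro _ ⟨ξ, hξ, rfl⟩
  obtain ⟨h1, h2⟩ := hexp ξ (hP₁el ξ hξ.1)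
  exact ⟨ξ, hΞL ξ hξ, h1, rfl, _, Nat.sub_lt (pow_pos hpp.pos _) one_pos, h2⟩

end Two

end Cfsg.Agent.Lib.Coprime.HHL
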