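import Cfsg.Agent.Lib.Coprime.HHB3
import Cfsg.Agent.Lib.Fusion.QdBasic

/-!
A section isomorphic to `C_p ≀ C_p`, from an element `x` acting on an elementary abelian group with `(x - 1) ^ (p - 1) ≠ 0`.
-/

set_option autoImplicit false
set_option linter.unusedSectionVars false
set_option linter.style.haveILetI false

namespace Cfsg.Agent.Lib.Coprime.HHB

open Module Subgroup Cfsg

section Cyc

variable {K M : Type*} [Field K] [AddCommGroup M] [Module K M]

theorem cyc_zero (L : End K M) (v : M) {n : ℕ} (hn : (L ^ (n + 1)) v = 0) {k : ℕ} (hk : n + 1 ≤ k) : (L ^ k) v = 0 := by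
  obtain ⟨j, rfl⟩ := Nat.exists_eq_add_of_le hk
  rw [add_comm, pow_add, Module.End.mul_apply, hn, map_zero]

/-- The key computation. -/
theorem cyc_key (L : End K M) (v : M) {n : ℕ} (hn : (L ^ (n + 1)) v = 0) (c : Fin (n + 1) → K) (i : Fin (n + 1))
    (hc : ∀ j, j < i → c j = 0) :
    (L ^ (n - i)) (∑ j, c j • (L ^ (j : ℕ)) v) = c i • (L ^ n) v := by
  classical
  rw [map_sum, Finset.sum_eq_single i]
  · rw [map_smul, ← Module.End.mul_apply, ← pow_add]
    congr 3
    have := i.2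
    omega
  · intro j _ hj
    rcases lt_or_gt_of_ne hj with h | h
    · rw [hc j h, zero_smul, map_zero]
    · rw [map_smul, ← Module.End.mul_apply, ← pow_add, cyc_zero L v hn, smul_zero]
      have h1 : (i : ℕ) < j := h
      have := i.2
      omega
  · intro h
    exact absurd (Finset.mem_univ i) h

/-- The coefficients vanish. -/
theorem cyc_coeff (L : End K M) (v : M) {n : ℕ} (hn : (L ^ (n + 1)) v = 0) (hne : (L ^ n) v ≠ 0) (c : Fin (n + 1) → K)
    (m : ℕ) (hm : ∀ k < m, (L ^ (n - k)) (∑ j, c j • (L ^ (j : ℕ)) v) = 0) : ∀ j : Fin (n + 1), (j : ℕ) < m → c j = 0 := by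
  have h : ∀ t : ℕ, ∀ j : Fin (n + 1), (j : ℕ) = t → t < m → c j = 0 := by
    intro t
    induction t using Nat.strong_induction_on with
    | _ t ih =>
      intro j hj htm
      have h1 := cyc_key L v hn c j (fun i hi => by
        have h2 : (i : ℕ) < j := hi
        exact ih i (by omega) i rfl (by omega))
      rw [hm j (by omega)] at h1
      exact (smul_eq_zero.mp h1.symm).resolve_right hne
  intro j hj
  exact h j j rfl hj

theorem cyc_indep (L : End K M) (v : M) {n : ℕ} (hn : (L ^ (n + 1)) v = 0) (hne : (L ^ n) v ≠ 0) :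
    LinearIndependent K (fun i : Fin (n + 1) => (L ^ (i : ℕ)) v) := by
  rw [Fintype.linearIndependent_iff]
  intro c hc i
  exact cyc_coeff L v hn hne c (n + 1) (fun k _ => by
    change (L ^ (n - k)) (∑ j, c j • (L ^ (j : ℕ)) v) = 0
    rw [hc, map_zero]) i i.2

/-- The span of the iterates. -/
abbrev cycS (L : End K M) (v : M) (n : ℕ) : Submodule K M :=
  Submodule.span K (Set.range (fun i : Fin (n + 1) => (L ^ (i : ℕ)) v))

theorem cyc_inv (L : End K M) (v : M) {n : ℕ} (hn : (L ^ (n + 1)) v = 0) {u : M} (hu : u ∈ cycS L v n) :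
    L u ∈ cycS L v n := by
  have h1 : (cycS L v n).map L ≤ cycS L v n := by
    rw [Submodule.map_span, Submodule.span_le]
    rintro _ ⟨_, ⟨i, rfl⟩, rfl⟩
    by_cases hi : (i : ℕ) = n
    · have h2 : L ((L ^ (i : ℕ)) v) = 0 := by
        rw [← Module.End.mul_apply, ← pow_succ', hi, hn]
      rw [SetLike.mem_coe, h2]
      exact Submodule.zero_mem _
    · apply Submodule.subset_span
      have hlt : (i : ℕ) + 1 < n + 1 := by
        have := i.2
        omega
      refine ⟨⟨(i : ℕ) + 1, hlt⟩, ?_⟩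
      simp only
      rw [pow_succ', Module.End.mul_apply]
  exact h1 ⟨u, hu, rfl⟩

theorem cyc_mem_last (L : End K M) (v : M) (n : ℕ) : (L ^ n) v ∈ cycS L v n :=
  Submodule.subset_span ⟨⟨n, by omega⟩, rfl⟩

theorem cyc_ker (L : End K M) (v : M) {n : ℕ} (hn : (L ^ (n + 1)) v = 0) (hne : (L ^ n) v ≠ 0) {u : M} (hu : u ∈ cycS L v n)
    (hLu : L u = 0) : ∃ c : K, u = c • (L ^ n) v := by
  obtain ⟨c, rfl⟩ := (Submodule.mem_span_range_iff_exists_fun K).mp hu
  refine ⟨c (Fin.last n), ?_⟩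
  have h1 := cyc_coeff L v hn hne c n (fun k hk => by
    obtain ⟨k', hk'⟩ : ∃ k', n - k = k' + 1 := ⟨n - k - 1, by omega⟩
    rw [hk', pow_succ, Module.End.mul_apply, hLu, map_zero])
  rw [Fin.sum_univ_castSucc]
  rw [Finset.sum_eq_zero, zero_add]
  · rfl
  · intro j _
    rw [h1 j.castSucc (by simp), zero_smul]

theorem cyc_finrank (L : End K M) (v : M) {n : ℕ} (hn : (L ^ (n + 1)) v = 0) (hne : (L ^ n) v ≠ 0) :
    finrank K (cycS L v n) = n + 1 := by
  rw [finrank_span_eq_card (cyc_indep L v hn hne)]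
  simp

end Cyc

section Wr

/-- The structure of `C_p ≀ C_p`. -/
def WrStr (p : ℕ) (W : Type*) [Group W] : Prop :=
  ∃ (B : Subgroup W) (t : W), B.Normal ∧ IsMulCommutative B ∧ (∀ b ∈ B, b ^ p = 1) ∧ Nat.card B = p ^ p ∧
    orderOf t = p ∧ t ∉ B ∧ Nat.card W = p ^ (p + 1) ∧ Nat.card ↥(B ⊓ Subgroup.centralizer ({t} : Set W)) = p

theorem involves_surj {H S : Type*} [Group H] [Group S] (f : S →* H) (hf : Function.Surjective f) :
    Involves H S := by
  have he : f.ker.subgroupOf (⊤ : Subgroup S) = (f.comp (⊤ : Subgroup S).subtype).ker := by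
    ext x
    rfl
  have hs : Function.Surjective (f.comp (⊤ : Subgroup S).subtype) := by
    intro y
    obtain ⟨x, rfl⟩ := hf y
    exact ⟨⟨x, trivial⟩, rfl⟩
  refine ⟨⊤, f.ker, ?_, ?_⟩
  · rw [he]
    exact MonoidHom.normal_ker _
  · exact ⟨(QuotientGroup.quotientMulEquivOfEq he).trans (QuotientGroup.quotientKerEquivOfSurjective _ hs)⟩

theorem WrStr.transport {p : ℕ} {W W' : Type*} [Group W] [Group W'] (h : WrStr p W) (e : W ≃* W') : WrStr p W' := by
  obtain ⟨B, t, h1, h2, h3, h4, h5, h6, h7, h8⟩ := h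
  have hmem : ∀ b, b ∈ B.map e.toMonoidHom ↔ e.symm b ∈ B := by
    intro b
    constructor
    · rintro ⟨c, hc, rfl⟩
      simpa using hc
    · intro hb
      exact ⟨_, hb, by simp⟩
  refine ⟨B.map e.toMonoidHom, e t, h1.map _ e.surjective, ?_, ?_, ?_, ?_, ?_, ?_, ?_⟩
  · constructor
    constructor
    rintro ⟨a, ha⟩ ⟨b, hb⟩
    apply Subtype.ext
    have ha' := (hmem a).mp ha
    have hb' := (hmem b).mp hb
    have h9 : (⟨_, ha'⟩ : ↥B) * ⟨_, hb'⟩ = ⟨_, hb'⟩ * ⟨_, ha'⟩ := h2.is_comm.comm _ _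
    have h10 : e.symm a * e.symm b = e.symm b * e.symm a := congrArg Subtype.val h9
    apply e.symm.injective
    change e.symm (a * b) = e.symm (b * a)
    rw [map_mul, map_mul, h10]
  · rintro _ ⟨c, hc, rfl⟩
    have h9 := h3 c hc
    change e c ^ p = 1
    rw [← map_pow, h9, map_one]
  · rw [Subgroup.card_map_of_injective e.injective, h4]
  · rw [MulEquiv.orderOf_eq, h5]
  · rintro ⟨c, hc, hce⟩
    have : c = t := e.injective hce
    exact h6 (this ▸ hc)
  · rw [← Nat.card_congr e.toEquiv, h7]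
  · rw [← h8]
    apply Nat.card_congr
    refine (Equiv.subtypeEquiv e.symm.toEquiv ?_)
    intro b
    simp only [Subgroup.mem_inf, hmem]
    refine and_congr_right fun _ => ?_
    rw [Subgroup.mem_centralizer_singleton_iff, Subgroup.mem_centralizer_singleton_iff]
    constructor
    · intro hb
      apply e.injective
      simpa using hb
    · intro hb
      have := congrArg e hb
      simpa using this

theorem exists_group_on {W T : Type*} [Group W] (e : W ≃ T) : ∃ _ : Group T, Nonempty (W ≃* T) := by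
  letI : Group T := e.symm.group
  exact ⟨inferInstance, ⟨(e.symm.mulEquiv).symm⟩⟩

/-- Transport to `Type`. -/
theorem WrStr.exists_type {p : ℕ} {W : Type*} [Group W] [Finite W] (h : WrStr p W) :
    ∃ (W' : Type) (_ : Group W') (_ : Finite W'), WrStr p W' ∧ Nonempty (W ≃* W') := by
  obtain ⟨i, ⟨e'⟩⟩ := exists_group_on (Finite.equivFin W)
  exact ⟨Fin (Nat.card W), i, inferInstance, h.transport e', ⟨e'⟩⟩

end Wr

section CycSub

variable {p : ℕ} [hpf : Fact p.Prime] {A : Type*} [CommGroup A] [Finite A] [Module (ZMod p) (Additive A)]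

/-- The cyclic submodule generated by `v₀`, in multiplicative form. -/
theorem cyc_sub (φ : A →* A) (hφ : ∀ u, φ^[p] u = u) (v₀ : A) {n : ℕ} (hn : p = n + 1) (hN : (dlt φ)^[n] v₀ ≠ 1) :
    ∃ S : Subgroup A, (∀ u ∈ S, φ u ∈ S) ∧ Nat.card S = p ^ p ∧ (dlt φ)^[n] v₀ ∈ S ∧ φ ((dlt φ)^[n] v₀) = (dlt φ)^[n] v₀ ∧
      ∀ u ∈ S, φ u = u → ∃ c : ℕ, u = ((dlt φ)^[n] v₀) ^ c := by
  classical
  have hp := hpf.out
  have hn' : p - 1 = n := by omega
  haveI hFinA : Finite (Additive A) := inferInstanceAs (Finite A)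
  haveI hFD : FiniteDimensional (ZMod p) (Additive A) := Module.Finite.of_finite
  set a : End (ZMod p) (Additive A) := linOf p φ with ha
  set L : End (ZMod p) (Additive A) := a - 1 with hL
  set w₀ : Additive A := Additive.ofMul v₀ with hw₀
  have hap : a ^ p = 1 := by
    apply LinearMap.ext
    intro y
    have h1 := linOf_iter (p := p) φ p (Additive.toMul y)
    rw [hφ] at h1
    exact h1
  have hLp : L ^ (n + 1) = 0 := by
    have h1 := sub_one_pow_eq_geom p a
    rw [hn'] at h1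
    rw [hL, pow_succ', h1, mul_geom_sum, hap, sub_self]
  have hLp' : (L ^ (n + 1)) w₀ = 0 := by
    rw [hLp]
    rfl
  set u₀ : A := (dlt φ)^[n] v₀ with hu₀
  have hLn : (L ^ n) w₀ = Additive.ofMul u₀ := linOf_pow φ n _
  have hLn0 : (L ^ n) w₀ ≠ 0 := by
    rw [hLn]
    intro h0
    exact hN (Additive.ofMul.injective h0)
  set S : Submodule (ZMod p) (Additive A) := cycS L w₀ n with hS
  have hfin : finrank (ZMod p) ↥S = n + 1 := cyc_finrank L w₀ hLp' hLn0
  have hcardS : Nat.card ↥S = p ^ p := by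
    rw [Module.natCard_eq_pow_finrank (K := ZMod p), Nat.card_zmod, hfin, ← hn]
  let V₁ : Subgroup A := AddSubgroup.toSubgroup' S.toAddSubgroup
  have hV₁ : ∀ u : A, u ∈ V₁ ↔ Additive.ofMul u ∈ S := fun _ => Iff.rfl
  have hlin : ∀ u : A, Additive.ofMul (φ u) = L (Additive.ofMul u) + Additive.ofMul u := by
    intro u
    rw [hL, LinearMap.sub_apply, Module.End.one_apply, sub_add_cancel]
    rfl
  refine ⟨V₁, ?_, ?_, ?_, ?_, ?_⟩
  · intro u hu
    rw [hV₁] at hu ⊢
    rw [hlin]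
    exact S.add_mem (cyc_inv L w₀ hLp' hu) hu
  · rw [← hcardS]
    exact Nat.card_congr (Equiv.subtypeEquiv Additive.ofMul (fun _ => Iff.rfl))
  · rw [hV₁, ← hLn]
    exact cyc_mem_last L w₀ n
  · apply Additive.ofMul.injective
    rw [hlin, ← hLn, ← Module.End.mul_apply, ← pow_succ', hLp', zero_add]
  · intro u hu hfix
    rw [hV₁] at hu
    have hLu : L (Additive.ofMul u) = 0 := by
      have h1 := hlin u
      rw [hfix] at h1
      have h2 : L (Additive.ofMul u) + Additive.ofMul u = 0 + Additive.ofMul u := by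
        rw [← h1, zero_add]
      exact add_right_cancel h2
    obtain ⟨c, hc⟩ := cyc_ker L w₀ hLp' hLn0 hu hLu
    rw [hLn] at hc
    haveI : NeZero p := ⟨hp.ne_zero⟩
    refine ⟨c.val, ?_⟩
    apply Additive.ofMul.injective
    rw [hc, ofMul_pow, ← Nat.cast_smul_eq_nsmul (ZMod p), ZMod.natCast_zmod_val]

end CycSub

section Wr0

variable {Y : Type*} [Group Y] [Finite Y] {p : ℕ} [hpf : Fact p.Prime]

/-- The commutator with `x`. -/
def cf (x : Y) (g : Y) : Y := x * g * x⁻¹ * g⁻¹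

/-- **The section** when `x ^ p = 1`. -/
theorem wr0 (V : Subgroup Y) (hVc : ∀ a ∈ V, ∀ b ∈ V, a * b = b * a) (hVp : ∀ a ∈ V, a ^ p = 1) (x : Y)
    (hxV : x ∈ normalizer (V : Set Y)) (hxp : x ^ p = 1) (v : Y) (hv : v ∈ V) (hN : (cf x)^[p - 1] v ≠ 1) :
    ∃ K₀ : Subgroup Y, K₀ ≤ V ⊔ zpowers x ∧ WrStr p K₀ := by
  classical
  have hp := hpf.out
  obtain ⟨n, hn⟩ : ∃ n, p = n + 1 := ⟨p - 1, by have := hp.one_lt; omega⟩
  have hn' : p - 1 = n := by omega
  rw [hn'] at hN
  have hn0 : n ≠ 0 := by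
    have := hp.one_lt
    omega
  letI iCG : CommGroup ↥V := { (inferInstance : Group ↥V) with mul_comm := fun a b => Subtype.ext (hVc a a.2 b b.2) }
  letI iM : Module (ZMod p) (Additive ↥V) := AddCommGroup.zmodModule (n := p) (fun y => by
    change Additive.ofMul ((Additive.toMul y) ^ p) = 0
    have h0 : (Additive.toMul y) ^ p = 1 := Subtype.ext (hVp _ (Additive.toMul y).2)
    rw [h0]
    rfl)
  have hxVm : ∀ g ∈ V, x * g * x⁻¹ ∈ V := fun g hg => (mem_normalizer_iff.mp hxV g).mp hg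
  let φ : ↥V →* ↥V :=
    { toFun := fun u => ⟨x * u * x⁻¹, hxVm u u.2⟩
      map_one' := by
        apply Subtype.ext
        simp
      map_mul' := fun a b => by
        apply Subtype.ext
        change x * ((a : Y) * b) * x⁻¹ = (x * a * x⁻¹) * (x * b * x⁻¹)
        group }
  have hφ : ∀ u : ↥V, ((φ u : ↥V) : Y) = x * u * x⁻¹ := fun _ => rfl
  have hcoe : ∀ (i : ℕ) (u : ↥V), (((dlt φ)^[i] u : ↥V) : Y) = (cf x)^[i] u := by
    intro i u
    induction i generalizing u with
    | zero => rfl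
    | succ i ih =>
      rw [Function.iterate_succ_apply, Function.iterate_succ_apply, ih]
      rfl
  have hφi : ∀ (i : ℕ) (u : ↥V), ((φ^[i] u : ↥V) : Y) = x ^ i * u * (x ^ i)⁻¹ := by
    intro i u
    induction i generalizing u with
    | zero => simp
    | succ i ih =>
      rw [Function.iterate_succ_apply, ih, hφ]
      rw [pow_succ]
      group
  have hφp : ∀ u, φ^[p] u = u := by
    intro u
    apply Subtype.ext
    rw [hφi, hxp]
    simp
  have hN' : (dlt φ)^[n] (⟨v, hv⟩ : ↥V) ≠ 1 := by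
    intro h0
    apply hN
    rw [← hcoe n ⟨v, hv⟩, h0]
    rfl
  obtain ⟨S, hS1, hS2, hS3, hS4, hS5⟩ := cyc_sub φ hφp ⟨v, hv⟩ hn hN'
  set u₀ : ↥V := (dlt φ)^[n] ⟨v, hv⟩ with hu₀
  set V₁ : Subgroup Y := S.map V.subtype with hV₁
  have hV₁V : V₁ ≤ V := Subgroup.map_subtype_le _
  have hmem : ∀ u : ↥V, (u : Y) ∈ V₁ ↔ u ∈ S := by
    intro u
    constructor
    · rintro ⟨w, hw, hwu⟩
      have : w = u := Subtype.ext hwu
      rw [← this]
      exact hw
    · intro h
      exact ⟨u, h, rfl⟩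
  have hcardV₁ : Nat.card V₁ = p ^ p := by
    rw [hV₁, Subgroup.card_map_of_injective V.subtype_injective, hS2]
  have hxV₁ : x ∈ normalizer (V₁ : Set Y) := by
    apply Cfsg.Agent.Lib.Coprime.mem_normalizer_of_conj_le
    intro g hg
    have hgV := hV₁V hg
    have h1 := (hmem ⟨g, hgV⟩).mp hg
    exact (hmem _).mpr (hS1 _ h1)
  have hxnV : x ∉ V := by
    intro hx
    apply hN
    have h1 : ∀ g ∈ V, cf x g = 1 := by
      intro g hg
      rw [cf, hVc x hx g hg]
      group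
    have h2 : ∀ i : ℕ, (cf x)^[i] (1 : Y) = 1 := by
      intro i
      induction i with
      | zero => rfl
      | succ i ih => rw [Function.iterate_succ_apply, h1 1 (one_mem _), ih]
    obtain ⟨k, hk⟩ : ∃ k, n = k + 1 := ⟨n - 1, by omega⟩
    rw [hk, Function.iterate_succ_apply, h1 v hv, h2]
  have hx1 : x ≠ 1 := by
    rintro rfl
    exact hxnV (one_mem _)
  have hord : orderOf x = p := orderOf_eq_prime hxp hx1
  set K₀ : Subgroup Y := V₁ ⊔ zpowers x with hK₀
  have hV₁K : V₁ ≤ K₀ := le_sup_left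
  have hxK : x ∈ K₀ := (le_sup_right : zpowers x ≤ K₀) (mem_zpowers x)
  have hK₀n : K₀ ≤ normalizer (V₁ : Set Y) := sup_le Subgroup.le_normalizer (Subgroup.zpowers_le.mpr hxV₁)
  let t : ↥K₀ := ⟨x, hxK⟩
  have hBcard : Nat.card ↥(V₁.subgroupOf K₀) = p ^ p := by
    rw [← hcardV₁]
    exact Nat.card_congr (Subgroup.subgroupOfEquivOfLe hV₁K).toEquiv
  have hnotmem : t ∉ V₁.subgroupOf K₀ := fun h => hxnV (hV₁V (Subgroup.mem_subgroupOf.mp h))
  refine ⟨K₀, sup_le_sup_right hV₁V _, V₁.subgroupOf K₀, t, ?_, ?_, ?_, hBcard, ?_, hnotmem, ?_, ?_⟩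
  · exact (Subgroup.normal_subgroupOf_iff_le_normalizer hV₁K).mpr hK₀n
  · constructor
    constructor
    rintro ⟨c, hc⟩ ⟨d, hd⟩
    apply Subtype.ext
    apply Subtype.ext
    exact hVc _ (hV₁V (Subgroup.mem_subgroupOf.mp hc)) _ (hV₁V (Subgroup.mem_subgroupOf.mp hd))
  · intro b hb
    apply Subtype.ext
    exact hVp _ (hV₁V (Subgroup.mem_subgroupOf.mp hb))
  · rw [Subgroup.orderOf_mk]
    exact hord
  · -- the order of `K₀`
    have h1 : Nat.card K₀ ∣ p ^ p * p := by
      have h2 := Cfsg.Agent.Lib.FT.card_sup_dvd_of_le_normalizer V₁ (zpowers x) (Subgroup.zpowers_le.mpr hxV₁)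
      rwa [hcardV₁, Nat.card_zpowers, hord] at h2
    have h3 := Subgroup.card_mul_index (V₁.subgroupOf K₀)
    rw [hBcard] at h3
    rw [← h3] at h1 ⊢
    rw [pow_succ]
    have h4 : (V₁.subgroupOf K₀).index ∣ p := Nat.dvd_of_mul_dvd_mul_left (pow_pos hp.pos p) h1
    rcases (Nat.dvd_prime hp).mp h4 with h5 | h5
    · exfalso
      rw [Subgroup.index_eq_one] at h5
      exact hnotmem (h5 ▸ mem_top t)
    · rw [h5]
  · -- the centralizer
    have hu₀mem : (u₀ : Y) ∈ V₁ := (hmem u₀).mpr hS3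
    let n₀ : ↥K₀ := ⟨u₀, hV₁K hu₀mem⟩
    have hfix₀ : x * (u₀ : Y) = u₀ * x := by
      have h4 : x * (u₀ : Y) * x⁻¹ = u₀ := congrArg Subtype.val hS4
      calc x * (u₀ : Y) = (x * (u₀ : Y) * x⁻¹) * x := by group
        _ = u₀ * x := by rw [h4]
    have hH : V₁.subgroupOf K₀ ⊓ centralizer ({t} : Set ↥K₀) = zpowers n₀ := by
      apply le_antisymm
      · rintro h ⟨hh1, hh2⟩
        have hhV₁ : (h : Y) ∈ V₁ := Subgroup.mem_subgroupOf.mp hh1
        have hhV := hV₁V hhV₁
        have hcomm : h * t = t * h := by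
          have : h ∈ centralizer ({t} : Set ↥K₀) := hh2
          rw [Subgroup.mem_centralizer_singleton_iff] at this
          exact this
        have hcomm' : (h : Y) * x = x * h := congrArg Subtype.val hcomm
        have hfix : φ ⟨h, hhV⟩ = ⟨h, hhV⟩ := by
          apply Subtype.ext
          change x * (h : Y) * x⁻¹ = h
          rw [← hcomm']
          group
        obtain ⟨c, hc⟩ := hS5 ⟨h, hhV⟩ ((hmem _).mp hhV₁) hfix
        refine Subgroup.mem_zpowers_iff.mpr ⟨(c : ℤ), ?_⟩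
        apply Subtype.ext
        have h6 : (h : Y) = ((u₀ ^ c : ↥V) : Y) := by
          rw [← hc]
        rw [zpow_natCast]
        rw [h6]
        rfl
      · rw [Subgroup.zpowers_le]
        refine ⟨Subgroup.mem_subgroupOf.mpr hu₀mem, ?_⟩
        change n₀ ∈ centralizer ({t} : Set ↥K₀)
        rw [Subgroup.mem_centralizer_singleton_iff]
        exact Subtype.ext hfix₀.symm
    rw [hH, Nat.card_zpowers]
    apply orderOf_eq_prime
    · apply Subtype.ext
      exact hVp _ u₀.2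
    · intro h0
      apply hN'
      apply Subtype.ext
      have h7 : ((n₀ : ↥K₀) : Y) = 1 := congrArg Subtype.val h0
      exact h7

theorem cf_iter_map {Y' : Type*} [Group Y'] (f : Y →* Y') (x g : Y) (i : ℕ) :
    (cf (f x))^[i] (f g) = f ((cf x)^[i] g) := by
  induction i generalizing g with
  | zero => rfl
  | succ i ih =>
    rw [Function.iterate_succ_apply, Function.iterate_succ_apply, ← ih]
    congr 1
    simp [cf]

/-- The power of `y * x`. -/
theorem mul_pow_formula {A : Type*} [CommGroup A] (ι : A →* Y) (φ : A →* A) (x : Y)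
    (hφ : ∀ u, ι (φ u) = x * ι u * x⁻¹) (y : A) (n : ℕ) :
    (ι y * x) ^ n = ι (∏ i ∈ Finset.range n, φ^[i] y) * x ^ n := by
  induction n with
  | zero => simp
  | succ n ih =>
    rw [pow_succ', ih, Finset.prod_range_succ']
    simp only [Function.iterate_succ_apply', ← map_prod, Function.iterate_zero, id]
    rw [map_mul, hφ, pow_succ']
    have hc : ι (∏ i ∈ Finset.range n, φ^[i] y) * ι y = ι y * ι (∏ i ∈ Finset.range n, φ^[i] y) := by
      rw [← map_mul, ← map_mul, mul_comm]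
    calc ι y * x * (ι (∏ i ∈ Finset.range n, φ^[i] y) * x ^ n)
        = ι y * (x * ι (∏ i ∈ Finset.range n, φ^[i] y) * x⁻¹) * (x * x ^ n) := by group
      _ = (x * ι (∏ i ∈ Finset.range n, φ^[i] y) * x⁻¹) * ι y * (x * x ^ n) := by
        rw [← hφ, ← map_mul, ← map_mul, mul_comm]

/-- The correction of `x`. -/
theorem exists_corrected {p : ℕ} [hpf : Fact p.Prime] (V : Subgroup Y) (hVc : ∀ a ∈ V, ∀ b ∈ V, a * b = b * a) (hVp : ∀ a ∈ V, a ^ p = 1) (x : Y)
    (hxV : x ∈ normalizer (V : Set Y)) (v : Y) (hv : v ∈ V) (c : ℕ) (hc : x ^ p = ((cf x)^[p - 1] v) ^ c) :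
    ((v ^ c)⁻¹ * x) ^ p = 1 := by
  have hxVm : ∀ g ∈ V, x * g * x⁻¹ ∈ V := fun g hg => (mem_normalizer_iff.mp hxV g).mp hg
  letI iCG : CommGroup ↥V := { (inferInstance : Group ↥V) with mul_comm := fun a b => Subtype.ext (hVc a a.2 b b.2) }
  letI iM : Module (ZMod p) (Additive ↥V) := AddCommGroup.zmodModule (n := p) (fun y => by
    change Additive.ofMul ((Additive.toMul y) ^ p) = 0
    have h0 : (Additive.toMul y) ^ p = 1 := Subtype.ext (hVp _ (Additive.toMul y).2)
    rw [h0]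
    rfl)
  let φ : ↥V →* ↥V :=
    { toFun := fun u => ⟨x * u * x⁻¹, hxVm u u.2⟩
      map_one' := by
        apply Subtype.ext
        simp
      map_mul' := fun a b => by
        apply Subtype.ext
        change x * ((a : Y) * b) * x⁻¹ = (x * a * x⁻¹) * (x * b * x⁻¹)
        group }
  have hcoe : ∀ (i : ℕ) (u : ↥V), (((dlt φ)^[i] u : ↥V) : Y) = (cf x)^[i] u := by
    intro i u
    induction i generalizing u with
    | zero => rfl
    | succ i ih =>
      rw [Function.iterate_succ_apply, Function.iterate_succ_apply, ih]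
      rfl
  have h1 := mul_pow_formula V.subtype φ x (fun _ => rfl) ((⟨v, hv⟩ : ↥V) ^ c)⁻¹ p
  rw [prod_iter_eq_dlt, dlt_iter_inv, dlt_iter_pow] at h1
  have h2 : ((V.subtype ((⟨v, hv⟩ : ↥V) ^ c)⁻¹)) = (v ^ c)⁻¹ := rfl
  rw [h2] at h1
  rw [h1, hc]
  have h3 : V.subtype (((dlt φ)^[p - 1] (⟨v, hv⟩ : ↥V)) ^ c)⁻¹ = (((cf x)^[p - 1] v) ^ c)⁻¹ := by
    rw [map_inv, map_pow, Subgroup.coe_subtype, hcoe]
  rw [h3, inv_mul_cancel]

/-- **The wreath section**. -/
theorem wr (V : Subgroup Y) (hVc : ∀ a ∈ V, ∀ b ∈ V, a * b = b * a) (hVp : ∀ a ∈ V, a ^ p = 1) (x : Y)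
    (hxV : x ∈ normalizer (V : Set Y)) (hxp : x ^ p ∈ V) (v : Y) (hv : v ∈ V) (hN : (cf x)^[p - 1] v ≠ 1) :
    ∃ (W : Type) (_ : Group W) (_ : Finite W), WrStr p W ∧ Involves W ↥(V ⊔ zpowers x) := by
  classical
  have hp := hpf.out
  have hxVm : ∀ g ∈ V, x * g * x⁻¹ ∈ V := fun g hg => (mem_normalizer_iff.mp hxV g).mp hg
  have hcfV : ∀ g ∈ V, cf x g ∈ V := fun g hg => mul_mem (hxVm g hg) (inv_mem hg)
  have hiterV : ∀ (i : ℕ), ∀ g ∈ V, (cf x)^[i] g ∈ V := by
    intro i
    induction i with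
    | zero => exact fun g hg => hg
    | succ i ih =>
      intro g hg
      rw [Function.iterate_succ_apply]
      exact ih _ (hcfV g hg)
  set Nr : Y := (cf x)^[p - 1] v with hNr
  have hNrV : Nr ∈ V := hiterV _ v hv
  by_cases hc : ∃ c : ℕ, x ^ p = Nr ^ c
  · obtain ⟨c, hc⟩ := hc
    have htp := exists_corrected V hVc hVp x hxV v hv c hc
    set y : Y := (v ^ c)⁻¹ with hy
    have hyV : y ∈ V := inv_mem (pow_mem hv c)
    set t : Y := y * x with ht
    have hconj : ∀ g ∈ V, t * g * t⁻¹ = x * g * x⁻¹ := by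
      intro g hg
      have h1 := hVc y hyV _ (hxVm g hg)
      calc t * g * t⁻¹ = y * (x * g * x⁻¹) * y⁻¹ := by rw [ht]; group
        _ = x * g * x⁻¹ := by rw [h1]; group
    have htV : t ∈ normalizer (V : Set Y) := by
      apply Cfsg.Agent.Lib.Coprime.mem_normalizer_of_conj_le
      intro g hg
      rw [hconj g hg]
      exact hxVm g hg
    have hcft : ∀ (i : ℕ), ∀ g ∈ V, (cf t)^[i] g = (cf x)^[i] g := by
      intro i
      induction i with
      | zero => exact fun g _ => rfl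
      | succ i ih =>
        intro g hg
        rw [Function.iterate_succ_apply, Function.iterate_succ_apply]
        have h1 : cf t g = cf x g := by
          rw [cf, cf, hconj g hg]
        rw [h1, ih _ (hcfV g hg)]
    obtain ⟨K₀, hK₀, hW⟩ := wr0 V hVc hVp t htV htp v hv (by rw [hcft _ v hv]; exact hN)
    obtain ⟨W, iG, iF, hW', ⟨e⟩⟩ := hW.exists_type
    refine ⟨W, iG, iF, hW', ?_⟩
    have hle : K₀ ≤ V ⊔ zpowers x := by
      refine hK₀.trans (sup_le le_sup_left ?_)
      rw [Subgroup.zpowers_le]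
      exact mul_mem ((le_sup_left : V ≤ V ⊔ zpowers x) hyV) ((le_sup_right : zpowers x ≤ V ⊔ zpowers x) (mem_zpowers x))
    refine Cfsg.Agent.Lib.Fusion.Qd.involves_of_subgroup (K₀.subgroupOf (V ⊔ zpowers x)) ?_
    exact involves_surj (e.toMonoidHom.comp (Subgroup.subgroupOfEquivOfLe hle).toMonoidHom)
      (e.surjective.comp (Subgroup.subgroupOfEquivOfLe hle).surjective)
  · -- the quotient
    set K₁ : Subgroup Y := V ⊔ zpowers x with hK₁
    have hVK : V ≤ K₁ := le_sup_left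
    have hxK : x ∈ K₁ := (le_sup_right : zpowers x ≤ K₁) (mem_zpowers x)
    set x₁ : ↥K₁ := ⟨x, hxK⟩ with hx₁
    set w₁ : ↥K₁ := x₁ ^ p with hw₁
    have hw₁c : ((w₁ : ↥K₁) : Y) = x ^ p := rfl
    have hcent : ∀ g : ↥K₁, g * w₁ = w₁ * g := by
      have h1 : K₁ ≤ centralizer ({x ^ p} : Set Y) := by
        refine sup_le ?_ ?_
        · intro g hg
          rw [Subgroup.mem_centralizer_singleton_iff]
          exact hVc _ hg _ hxp
        · rw [Subgroup.zpowers_le, Subgroup.mem_centralizer_singleton_iff]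
          exact (pow_succ' x p).symm.trans (pow_succ x p)
      intro g
      apply Subtype.ext
      have h2 := Subgroup.mem_centralizer_singleton_iff.mp (h1 g.2)
      exact h2
    set R : Subgroup ↥K₁ := zpowers w₁ with hR
    haveI hRn : R.Normal := by
      constructor
      intro n hn g
      obtain ⟨k, rfl⟩ := Subgroup.mem_zpowers_iff.mp hn
      have h1 : Commute g (w₁ ^ k) := ((Commute.symm (hcent g).symm).zpow_right k)
      rw [h1.eq, mul_inv_cancel_right]
      exact Subgroup.zpow_mem _ (Subgroup.mem_zpowers w₁) k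
    let π : ↥K₁ →* ↥K₁ ⧸ R := QuotientGroup.mk' R
    have hπ1 : ∀ g : ↥K₁, π g = 1 ↔ g ∈ R := fun g => QuotientGroup.eq_one_iff g
    set Vb : Subgroup (↥K₁ ⧸ R) := (V.subgroupOf K₁).map π with hVb
    have hVbc : ∀ a ∈ Vb, ∀ b ∈ Vb, a * b = b * a := by
      rintro _ ⟨a, ha, rfl⟩ _ ⟨b, hb, rfl⟩
      rw [← map_mul, ← map_mul]
      congr 1
      exact Subtype.ext (hVc _ (Subgroup.mem_subgroupOf.mp ha) _ (Subgroup.mem_subgroupOf.mp hb))
    have hVbp : ∀ a ∈ Vb, a ^ p = 1 := by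
      rintro _ ⟨a, ha, rfl⟩
      rw [← map_pow]
      have h1 : a ^ p = 1 := Subtype.ext (hVp _ (Subgroup.mem_subgroupOf.mp ha))
      rw [h1, map_one]
    have hxb : π x₁ ∈ normalizer (Vb : Set (↥K₁ ⧸ R)) := by
      apply Cfsg.Agent.Lib.Coprime.mem_normalizer_of_conj_le
      rintro _ ⟨a, ha, rfl⟩
      refine ⟨x₁ * a * x₁⁻¹, Subgroup.mem_subgroupOf.mpr (hxVm _ (Subgroup.mem_subgroupOf.mp ha)), ?_⟩
      simp only [map_mul, map_inv]
    have hxbp : (π x₁) ^ p = 1 := by
      rw [← map_pow, hπ1]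
      exact Subgroup.mem_zpowers w₁
    have hNb : (cf (π x₁))^[p - 1] (π ⟨v, hVK hv⟩) ≠ 1 := by
      rw [cf_iter_map, Ne, hπ1]
      intro hmem
      have hc1 : ((cf x₁)^[p - 1] ⟨v, hVK hv⟩ : ↥K₁) = ⟨Nr, hVK hNrV⟩ := by
        apply Subtype.ext
        have h1 := cf_iter_map K₁.subtype x₁ ⟨v, hVK hv⟩ (p - 1)
        exact h1.symm
      rw [hc1] at hmem
      obtain ⟨k, hk⟩ := Subgroup.mem_zpowers_iff.mp hmem
      have hw1 : x ^ p ≠ 1 := by
        intro h0
        apply hN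
        have h1 : w₁ = 1 := Subtype.ext h0
        rw [h1, one_zpow] at hk
        have h2 := congrArg Subtype.val hk
        exact h2.symm
      have hword : orderOf (x ^ p) = p := orderOf_eq_prime (hVp _ hxp) hw1
      -- `Nr` generates the same group as `x ^ p`
      have hNrz : Nr ∈ zpowers (x ^ p) := by
        refine Subgroup.mem_zpowers_iff.mpr ⟨k, ?_⟩
        have h2 := congrArg Subtype.val hk
        exact h2
      have hcard : Nat.card ↥(zpowers (x ^ p)) = p := by
        rw [Nat.card_zpowers, hword]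
      have h1 : (⟨x ^ p, Subgroup.mem_zpowers _⟩ : ↥(zpowers (x ^ p))) ∈ zpowers (⟨Nr, hNrz⟩ : ↥(zpowers (x ^ p))) := by
        apply mem_zpowers_of_prime_card hcard
        intro h0
        exact hN (congrArg Subtype.val h0)
      obtain ⟨c, hc2⟩ := (mem_powers_iff_mem_zpowers).mpr h1
      apply hc
      refine ⟨c, ?_⟩
      have h3 := congrArg Subtype.val hc2
      exact h3.symm
    obtain ⟨K₀, -, hW⟩ := wr0 Vb hVbc hVbp (π x₁) hxb hxbp (π ⟨v, hVK hv⟩) ⟨_, Subgroup.mem_subgroupOf.mpr hv, rfl⟩ hNb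
    obtain ⟨W, iG, iF, hW', ⟨e⟩⟩ := hW.exists_type
    refine ⟨W, iG, iF, hW', ?_⟩
    refine Cfsg.Agent.Lib.Fusion.Qd.involves_of_quotient R ?_
    refine Cfsg.Agent.Lib.Fusion.Qd.involves_of_subgroup K₀ ?_
    exact involves_surj e.toMonoidHom e.surjective

end Wr0

end Cfsg.Agent.Lib.Coprime.HHB
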