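import Mathlib
import Cfsg.Agent.Lib.Coprime.KP
import Cfsg.Agent.Lib.Basic.CoprimeAction2

/-!
# Counting conjugacy classes of `2`-elements
-/

set_option autoImplicit false

namespace Cfsg.Agent.Lib.Coprime.K2

open Subgroup Cfsg.Agent.Lib.Coprime.KP

/-- Burnside's lemma with a refined count. -/
theorem burnside_bound2 {L X : Type*} [Group L] [Finite L] [Finite X] [MulAction L X]
    (C : Subgroup L) (D : Set L)
    (hC : ∀ g : L, g ∉ C → 2 * Nat.card (MulAction.fixedBy X g) ≤ Nat.card X)
    (hD : ∀ g ∈ D, 4 * Nat.card (MulAction.fixedBy X g) ≤ Nat.card X)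
    (hD' : 2 * Nat.card C ≤ Nat.card D) :
    2 * Nat.card (MulAction.orbitRel.Quotient L X) ≤ Nat.card X := by
  classical
  haveI := Fintype.ofFinite L
  haveI := Fintype.ofFinite X
  haveI := Fintype.ofFinite (MulAction.orbitRel.Quotient L X)
  haveI : ∀ g : L, Fintype (MulAction.fixedBy X g) := fun g => Fintype.ofFinite _
  have hb := MulAction.sum_card_fixedBy_eq_card_orbits_mul_card_group L X
  have hsum : ∑ g : L, (4 * Fintype.card (MulAction.fixedBy X g) +
        (if g ∈ D then Fintype.card X else 0)) ≤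
      ∑ g : L, (2 * Fintype.card X + (if g ∈ C then 2 * Fintype.card X else 0)) := by
    refine Finset.sum_le_sum fun g _ => ?_
    have hfx : Fintype.card (MulAction.fixedBy X g) ≤ Fintype.card X := set_fintype_card_le_univ _
    by_cases hgD : g ∈ D
    · have h1 := hD g hgD
      simp only [Nat.card_eq_fintype_card] at h1
      simp only [hgD, if_true]
      split_ifs <;> omega
    · simp only [hgD, if_false, add_zero]
      by_cases hgC : g ∈ C
      · simp only [hgC, if_true]
        omega
      · have h1 := hC g hgC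
        simp only [Nat.card_eq_fintype_card] at h1
        simp only [hgC, if_false, add_zero]
        omega
  have hD1 : ∑ g : L, (if g ∈ D then Fintype.card X else 0) = Nat.card D * Fintype.card X := by
    rw [Finset.sum_ite, Finset.sum_const_zero, add_zero, Finset.sum_const, smul_eq_mul,
      Nat.card_eq_fintype_card (α := D), Fintype.card_subtype]
  have hC1 : ∑ g : L, (if g ∈ C then 2 * Fintype.card X else 0) =
      Nat.card C * (2 * Fintype.card X) := by
    rw [Finset.sum_ite, Finset.sum_const_zero, add_zero, Finset.sum_const, smul_eq_mul,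
      Nat.card_eq_fintype_card, Fintype.card_subtype]
  rw [Finset.sum_add_distrib, Finset.sum_add_distrib, hD1, hC1, Finset.sum_const, Finset.card_univ,
    smul_eq_mul, ← Finset.mul_sum, hb] at hsum
  have hLpos : 0 < Fintype.card L := Fintype.card_pos
  simp only [Nat.card_eq_fintype_card] at *
  have h1 : 2 * Fintype.card C * Fintype.card X ≤ Fintype.card D * Fintype.card X :=
    Nat.mul_le_mul_right _ hD'
  have h2 : 4 * (Fintype.card (MulAction.orbitRel.Quotient L X) * Fintype.card L) ≤
      2 * (Fintype.card X * Fintype.card L) := by nlinarith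
  have h3 : (2 * Fintype.card (MulAction.orbitRel.Quotient L X)) * (2 * Fintype.card L) ≤
      Fintype.card X * (2 * Fintype.card L) := by nlinarith
  exact Nat.le_of_mul_le_mul_right h3 (by omega)

variable {G : Type*} [Group G] [Finite G]

/-- An odd order automorphism of a `2`-group moves at least three quarters of its elements. -/
theorem four_mul_card_le (E : Subgroup G) (hE : IsPGroup 2 E) (b : G)
    (hb : b ∈ normalizer (E : Set G)) (m : ℕ) (hm : Odd m) (hbm : b ^ m = 1)
    (hne : b ∉ centralizer (E : Set G)) :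
    4 * Nat.card (E ⊓ centralizer ({b} : Set G) : Subgroup G) ≤ Nat.card E := by
  classical
  obtain ⟨F, hF⟩ : ∃ F : Subgroup G, F = E ⊓ centralizer ({b} : Set G) := ⟨_, rfl⟩
  rw [← hF]
  have hFE : F ≤ E := hF ▸ inf_le_left
  have hFmem : ∀ z, z ∈ F ↔ z ∈ E ∧ z * b = b * z := by
    intro z
    rw [hF, mem_inf, mem_centralizer_singleton_iff]
  have hFne : F ≠ E := by
    intro h
    apply hne
    rw [mem_centralizer_iff]
    intro y hy
    exact ((hFmem y).1 (h ▸ hy)).2.symm ▸ rfl
  obtain ⟨n, hn⟩ := IsPGroup.iff_card.mp hE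
  have hd := Subgroup.card_dvd_of_le hFE
  rw [hn] at hd
  obtain ⟨k, hk, hk'⟩ := (Nat.dvd_prime_pow Nat.prime_two).1 hd
  have hkn : k ≠ n := by
    rintro rfl
    apply hFne
    apply Subgroup.eq_of_le_of_card_ge hFE
    rw [hn, hk']
  by_cases h1 : k + 1 = n
  · exfalso
    obtain ⟨y, hyE, hyF⟩ : ∃ y ∈ E, y ∉ F := by
      by_contra hall
      push Not at hall
      exact hFne (le_antisymm hFE hall)
    have hidx : (F.subgroupOf E).index = 2 := by
      have h2 := Subgroup.card_mul_index (F.subgroupOf E)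
      have h3 : Nat.card (F.subgroupOf E) = Nat.card F :=
        (Subgroup.subgroupOfEquivOfLe hFE).toEquiv |> Nat.card_congr
      rw [h3, hk', hn, ← h1, pow_succ] at h2
      have h4 : 0 < 2 ^ k := by positivity
      exact Nat.eq_of_mul_eq_mul_left h4 h2
    have hz : b * y * b⁻¹ ∈ E := (mem_normalizer_iff.mp hb y).1 hyE
    have hzF : b * y * b⁻¹ ∉ F := by
      intro h2
      have h3 := ((hFmem _).1 h2).2
      apply hyF
      refine (hFmem y).2 ⟨hyE, ?_⟩
      have h4 : b * y * b⁻¹ * b = b * (b * y * b⁻¹) := h3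
      have h5 : b * y = b * (b * y * b⁻¹) := by
        rw [← h4]
        group
      have h6 : y = b * y * b⁻¹ := mul_left_cancel h5
      have h7 : y * b = b * y := by
        calc y * b = b * y * b⁻¹ * b := by rw [← h6]
          _ = b * y := by group
      exact h7
    obtain ⟨f, hf⟩ : ∃ f, f = y⁻¹ * (b * y * b⁻¹) := ⟨_, rfl⟩
    have hfF : f ∈ F := by
      have h2 := (Subgroup.mul_mem_iff_of_index_two hidx (a := (⟨y⁻¹, inv_mem hyE⟩ : E))
        (b := ⟨b * y * b⁻¹, hz⟩)).2 (by
          constructor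
          · intro h3
            rw [Subgroup.mem_subgroupOf] at h3
            exact absurd (by simpa using inv_mem h3) hyF
          · intro h3
            rw [Subgroup.mem_subgroupOf] at h3
            exact absurd h3 hzF)
      rw [Subgroup.mem_subgroupOf] at h2
      rw [hf]
      exact h2
    have hfb : f * b = b * f := ((hFmem f).1 hfF).2
    have hbz : b * y * b⁻¹ = y * f := by
      rw [hf]
      group
    have hpow : ∀ j : ℕ, b ^ j * y * (b ^ j)⁻¹ = y * f ^ j := by
      intro j
      induction j with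
      | zero => simp
      | succ j ih =>
        have hbfj : Commute b (f ^ j) := (Commute.symm hfb).pow_right j
        calc b ^ (j + 1) * y * (b ^ (j + 1))⁻¹ = b * (b ^ j * y * (b ^ j)⁻¹) * b⁻¹ := by
              rw [pow_succ']
              group
          _ = b * (y * f ^ j) * b⁻¹ := by rw [ih]
          _ = (b * y * b⁻¹) * (b * f ^ j * b⁻¹) := by group
          _ = (y * f) * f ^ j := by
              rw [hbz, hbfj.eq]
              group
          _ = y * f ^ (j + 1) := by rw [pow_succ']; group
    have h2 := hpow m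
    rw [hbm] at h2
    have hfm : f ^ m = 1 := by
      have h3 : y = y * f ^ m := by simpa using h2
      simpa using h3.symm
    obtain ⟨j, hj⟩ := hE ⟨f, hFE hfF⟩
    have hj' : f ^ 2 ^ j = 1 := congrArg Subtype.val hj
    have hcop : Nat.Coprime m (2 ^ j) := Nat.Coprime.pow_right j (Nat.coprime_two_right.mpr hm)
    have h3 := Nat.eq_one_of_dvd_coprimes hcop (orderOf_dvd_of_pow_eq_one hfm)
      (orderOf_dvd_of_pow_eq_one hj')
    rw [orderOf_eq_one_iff] at h3
    rw [h3, mul_one] at hbz
    apply hyF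
    refine (hFmem y).2 ⟨hyE, ?_⟩
    calc y * b = b * y * b⁻¹ * b := by rw [hbz]
      _ = b * y := by group
  · have hlt : k + 2 ≤ n := by omega
    rw [hk', hn]
    calc 4 * 2 ^ k = 2 ^ (k + 2) := by ring
      _ ≤ 2 ^ n := Nat.pow_le_pow_right (by norm_num) hlt

/-- Centric subgroups with odd automizers force `2 k₂ ≤ |P|`. -/
theorem two_kp_le_of_centric (P : Sylow 2 G) (E : Subgroup G) (hEP : E ≤ (P : Subgroup G))
    (hC : (P : Subgroup G) ⊓ centralizer (E : Set G) ≤ E) (x : G)
    (hx : x ∈ normalizer (E : Set G)) (hxo : Odd (orderOf x))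
    (hxc : x ∉ centralizer (E : Set G)) :
    2 * Nat.card (KpT 2 G) ≤ Nat.card (P : Subgroup G) := by
  classical
  have hEp : IsPGroup 2 E := P.isPGroup'.to_le hEP
  letI := conjActionOf E (normalizer (E : Set G)) le_rfl
  haveI hCn : ((centralizer (E : Set G)).subgroupOf (normalizer (E : Set G))).Normal :=
    Cfsg.Agent.Lib.Transfer.centralizer_subgroupOf_normal E
  obtain ⟨π, hπ⟩ : ∃ π : normalizer (E : Set G) →* (normalizer (E : Set G)) ⧸
      ((centralizer (E : Set G)).subgroupOf (normalizer (E : Set G))),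
      π = QuotientGroup.mk' _ := ⟨_, rfl⟩
  have hπk : ∀ g, π g = 1 ↔ g ∈ (centralizer (E : Set G)).subgroupOf (normalizer (E : Set G)) := by
    intro g
    rw [hπ]
    exact QuotientGroup.eq_one_iff g
  let x₁ : normalizer (E : Set G) := ⟨x, hx⟩
  have hx₁ : π x₁ ≠ 1 := by
    rw [Ne, hπk, Subgroup.mem_subgroupOf]
    exact hxc
  have hx₁o : Odd (orderOf x₁) := by
    have h2 : orderOf x₁ = orderOf x := Subgroup.orderOf_mk _ _
    rw [h2]
    exact hxo
  have hπx : ∀ k : ℕ, (π x₁) ^ 2 ^ k ≠ 1 := by
    intro k hk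
    have h3 := orderOf_dvd_of_pow_eq_one hk
    have h4 : (π x₁) ^ orderOf x₁ = 1 := by rw [← map_pow, pow_orderOf_eq_one, map_one]
    have h5 := orderOf_dvd_of_pow_eq_one h4
    have hcop : Nat.Coprime (orderOf x₁) (2 ^ k) :=
      Nat.Coprime.pow_right k (Nat.coprime_two_right.mpr hx₁o)
    have h6 := Nat.eq_one_of_dvd_coprimes hcop h5 h3
    rw [orderOf_eq_one_iff] at h6
    exact hx₁ h6
  let D : Set (normalizer (E : Set G)) := {g | ∀ k : ℕ, (π g) ^ 2 ^ k ≠ 1}
  have hfix : ∀ g : normalizer (E : Set G), Nat.card (MulAction.fixedBy E g) ≤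
      Nat.card (E ⊓ centralizer ({(g : G)} : Set G) : Subgroup G) := by
    intro g
    refine Nat.card_le_card_of_injective
      (fun y => (⟨((y : E) : G), ?_⟩ : (E ⊓ centralizer ({(g : G)} : Set G) : Subgroup G))) ?_
    · refine mem_inf.mpr ⟨(y : E).2, ?_⟩
      rw [mem_centralizer_singleton_iff]
      have hy : g • (y : E) = y := y.2
      have hy' : (g : G) * ((y : E) : G) * (g : G)⁻¹ = ((y : E) : G) := congrArg Subtype.val hy
      rw [mul_inv_eq_iff_eq_mul] at hy'
      exact hy'.symm
    · intro a b hab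
      apply Subtype.ext
      apply Subtype.ext
      have := congrArg (fun z : (E ⊓ centralizer ({(g : G)} : Set G) : Subgroup G) => (z : G)) hab
      exact this
  have hOrb : 2 * Nat.card (MulAction.orbitRel.Quotient (normalizer (E : Set G)) E) ≤ Nat.card E := by
    refine burnside_bound2 ((centralizer (E : Set G)).subgroupOf (normalizer (E : Set G))) D ?_ ?_ ?_
    · intro g hg
      rw [Subgroup.mem_subgroupOf] at hg
      refine (Nat.mul_le_mul_left 2 (hfix g)).trans ?_
      obtain ⟨F, hF⟩ : ∃ F : Subgroup G, F = E ⊓ centralizer ({(g : G)} : Set G) := ⟨_, rfl⟩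
      rw [← hF]
      have hFE : F ≤ E := hF ▸ inf_le_left
      have hne : F ≠ E := by
        intro h2
        apply hg
        rw [mem_centralizer_iff]
        intro y hy
        have h3 : y ∈ F := h2 ▸ hy
        rw [hF] at h3
        exact mem_centralizer_singleton_iff.mp (mem_inf.mp h3).2
      obtain ⟨n, hn⟩ := IsPGroup.iff_card.mp hEp
      have hd := Subgroup.card_dvd_of_le hFE
      rw [hn] at hd
      obtain ⟨m, hm, hm'⟩ := (Nat.dvd_prime_pow Nat.prime_two).1 hd
      have hmn : m ≠ n := by
        rintro rfl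
        apply hne
        apply Subgroup.eq_of_le_of_card_ge hFE
        rw [hn, hm']
      have hlt : m + 1 ≤ n := by omega
      rw [hm', hn, ← pow_succ']
      exact Nat.pow_le_pow_right (by norm_num) hlt
    · intro g hg
      obtain ⟨K, m, hm, hK⟩ := Nat.exists_eq_pow_mul_and_not_dvd (orderOf_pos g).ne' 2 (by norm_num)
      have hodd : Odd m := Nat.odd_iff.mpr (by omega)
      obtain ⟨b, hb⟩ : ∃ b, b = g ^ 2 ^ K := ⟨_, rfl⟩
      have hbm : b ^ m = 1 := by
        rw [hb, ← pow_mul, ← hK, pow_orderOf_eq_one]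
      have hbne : (b : G) ∉ centralizer (E : Set G) := by
        intro h2
        have h3 : π b = 1 := (hπk b).2 (by rw [Subgroup.mem_subgroupOf]; exact h2)
        apply hg K
        rw [← map_pow, ← hb, h3]
      have h4 := four_mul_card_le E hEp (b : G) b.2 m hodd (by
        have := congrArg Subtype.val hbm
        simpa using this) hbne
      refine le_trans (Nat.mul_le_mul_left 4 ((hfix g).trans ?_)) h4
      apply Subgroup.card_le_of_le
      apply inf_le_inf_left
      intro z hz
      rw [mem_centralizer_singleton_iff] at hz ⊢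
      rw [hb]
      have h5 : Commute z (g : G) := hz
      have h6 : Commute z ((g : G) ^ 2 ^ K) := h5.pow_right _
      exact h6.eq
    · -- the cosets `C x` and `C x⁻¹`
      let ι : ((centralizer (E : Set G)).subgroupOf (normalizer (E : Set G))) × Bool → D :=
        fun a => ⟨a.1 * (if a.2 then x₁ else x₁⁻¹), by
          intro k
          have hc : π (a.1 : normalizer (E : Set G)) = 1 := (hπk _).2 a.1.2
          rw [map_mul, hc, one_mul]
          cases a.2
          · simp only [if_false, Bool.false_eq_true, map_inv, inv_pow]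
            intro h
            exact hπx k (by simpa using h)
          · simp only [if_true]
            exact hπx k⟩
      have hinj : Function.Injective ι := by
        rintro ⟨c₁, s₁⟩ ⟨c₂, s₂⟩ h
        have h1 : (c₁ : normalizer (E : Set G)) * (if s₁ then x₁ else x₁⁻¹) =
            (c₂ : normalizer (E : Set G)) * (if s₂ then x₁ else x₁⁻¹) := congrArg Subtype.val h
        have hc1 : π (c₁ : normalizer (E : Set G)) = 1 := (hπk _).2 c₁.2
        have hc2 : π (c₂ : normalizer (E : Set G)) = 1 := (hπk _).2 c₂.2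
        have h2 := congrArg π h1
        rw [map_mul, map_mul, hc1, hc2, one_mul, one_mul] at h2
        have hodd2 : π x₁ ≠ (π x₁)⁻¹ := by
          intro h3
          have h4 : (π x₁) ^ 2 = 1 := by
            rw [pow_two]
            nth_rewrite 1 [h3]
            simp
          exact hπx 1 (by simpa using h4)
        have hs : s₁ = s₂ := by
          cases s₁ <;> cases s₂
          · rfl
          · exfalso
            simp only [if_false, if_true, Bool.false_eq_true, map_inv] at h2
            exact hodd2 h2.symm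
          · exfalso
            simp only [if_false, if_true, Bool.false_eq_true, map_inv] at h2
            exact hodd2 h2
          · rfl
        subst hs
        have h5 : (c₁ : normalizer (E : Set G)) = c₂ := mul_right_cancel h1
        have h6 : c₁ = c₂ := Subtype.ext h5
        rw [h6]
      have h7 := Nat.card_le_card_of_injective ι hinj
      rw [Nat.card_prod, Nat.card_eq_fintype_card (α := Bool), Fintype.card_bool] at h7
      linarith
  -- splitting the classes
  have hsplit : Nat.card (KpT 2 G) =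
      Nat.card {c : KpT 2 G // ∃ y ∈ E, ConjClasses.mk y = c.1} +
        Nat.card {c : KpT 2 G // ¬ ∃ y ∈ E, ConjClasses.mk y = c.1} := by
    haveI := Fintype.ofFinite (KpT 2 G)
    rw [Nat.card_eq_fintype_card, Nat.card_eq_fintype_card, Nat.card_eq_fintype_card,
      Fintype.card_subtype_compl, add_comm]
    have : Fintype.card {c : KpT 2 G // ∃ y ∈ E, ConjClasses.mk y = c.1} ≤ Fintype.card (KpT 2 G) :=
      Fintype.card_subtype_le _
    omega
  have hK1 : Nat.card {c : KpT 2 G // ∃ y ∈ E, ConjClasses.mk y = c.1} ≤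
      Nat.card (MulAction.orbitRel.Quotient (normalizer (E : Set G)) E) := by
    let f : MulAction.orbitRel.Quotient (normalizer (E : Set G)) E → ConjClasses G :=
      Quotient.lift (fun y : E => ConjClasses.mk (y : G)) (by
        rintro a b ⟨g, hg⟩
        apply ConjClasses.mk_eq_mk_iff_isConj.mpr
        rw [← hg]
        exact (isConj_iff.mpr ⟨(g : G), rfl⟩).symm)
    refine card_le_of_forall_exists_map f (fun c => c.1.1)
      (fun a b h => Subtype.ext (Subtype.ext h)) ?_
    rintro ⟨⟨c, hc⟩, y, hy, hyc⟩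
    exact ⟨Quotient.mk _ (⟨y, hy⟩ : E), hyc⟩
  have hK2 : 2 * Nat.card {c : KpT 2 G // ¬ ∃ y ∈ E, ConjClasses.mk y = c.1} + Nat.card E ≤
      Nat.card (P : Subgroup G) := by
    have hrep : ∀ c : {c : KpT 2 G // ¬ ∃ y ∈ E, ConjClasses.mk y = c.1},
        ∃ y y' : G, y ∈ (P : Subgroup G) ∧ y' ∈ (P : Subgroup G) ∧ ConjClasses.mk y = c.1.1 ∧
          ConjClasses.mk y' = c.1.1 ∧ y ≠ y' := by
      rintro ⟨⟨c, hc⟩, hcE⟩
      obtain ⟨z, rfl⟩ := ConjClasses.exists_rep c
      obtain ⟨k, hk⟩ := hc z ConjClasses.mem_carrier_mk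
      obtain ⟨y, hy, hzy⟩ := exists_conj_mem_sylow P z k hk
      have hyc : ConjClasses.mk y = ConjClasses.mk z :=
        (ConjClasses.mk_eq_mk_iff_isConj.mpr hzy).symm
      have hyE : y ∉ E := fun h => hcE ⟨y, h, hyc⟩
      have hyZ : ∃ u ∈ (P : Subgroup G), u * y * u⁻¹ ≠ y := by
        by_contra hall
        push Not at hall
        apply hyE
        apply hC
        refine mem_inf.mpr ⟨hy, ?_⟩
        rw [mem_centralizer_iff]
        intro e he
        have h1 := hall e (hEP he)
        rw [mul_inv_eq_iff_eq_mul] at h1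
        exact h1
      obtain ⟨u, hu, huy⟩ := hyZ
      refine ⟨y, u * y * u⁻¹, hy, mul_mem (mul_mem hu hy) (inv_mem hu), hyc, ?_, huy.symm⟩
      show ConjClasses.mk (u * y * u⁻¹) = ConjClasses.mk z
      rw [← hyc]
      exact (ConjClasses.mk_eq_mk_iff_isConj.mpr (isConj_iff.mpr ⟨u, rfl⟩)).symm
    choose y₁ y₂ hy₁ hy₂ hc₁ hc₂ hne using hrep
    have hnotE : ∀ (c : {c : KpT 2 G // ¬ ∃ y ∈ E, ConjClasses.mk y = c.1}) (z : G),
        ConjClasses.mk z = c.1.1 → z ∉ E := fun c z hz h => c.2 ⟨z, h, hz⟩
    let ι : {c : KpT 2 G // ¬ ∃ y ∈ E, ConjClasses.mk y = c.1} × Bool →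
        {z : (P : Subgroup G) // (z : G) ∉ E} := fun a =>
      if a.2 then ⟨⟨y₁ a.1, hy₁ a.1⟩, hnotE a.1 _ (hc₁ a.1)⟩
      else ⟨⟨y₂ a.1, hy₂ a.1⟩, hnotE a.1 _ (hc₂ a.1)⟩
    have hinj : Function.Injective ι := by
      have hcl : ∀ a : {c : KpT 2 G // ¬ ∃ y ∈ E, ConjClasses.mk y = c.1} × Bool,
          ConjClasses.mk (((ι a).1 : (P : Subgroup G)) : G) = a.1.1.1 := by
        rintro ⟨c, s⟩
        cases s
        · exact hc₂ c
        · exact hc₁ c
      intro a b hab
      have h1 : a.1.1.1 = b.1.1.1 := by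
        rw [← hcl a, ← hcl b, hab]
      have h2 : a.1 = b.1 := Subtype.ext (Subtype.ext h1)
      rcases a with ⟨c, s⟩
      rcases b with ⟨d, t⟩
      simp only at h2
      subst h2
      cases s <;> cases t
      · rfl
      · exfalso
        have h3 : y₂ c = y₁ c := congrArg (fun z : {z : (P : Subgroup G) // (z : G) ∉ E} => ((z.1 : (P : Subgroup G)) : G)) hab
        exact hne c h3.symm
      · exfalso
        have h3 : y₁ c = y₂ c := congrArg (fun z : {z : (P : Subgroup G) // (z : G) ∉ E} => ((z.1 : (P : Subgroup G)) : G)) hab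
        exact hne c h3
      · rfl
    have h7 := Nat.card_le_card_of_injective ι hinj
    rw [Nat.card_prod, Nat.card_eq_fintype_card (α := Bool), Fintype.card_bool] at h7
    have h8 : Nat.card {z : (P : Subgroup G) // (z : G) ∉ E} + Nat.card E ≤ Nat.card (P : Subgroup G) := by
      have hcardE : Nat.card E = Nat.card {z : (P : Subgroup G) // (z : G) ∈ E} := by
        refine Nat.card_congr ⟨fun e => ⟨⟨e, hEP e.2⟩, e.2⟩, fun z => ⟨z.1, z.2⟩, ?_, ?_⟩
        · intro e
          rfl
        · intro z
          rfl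
      haveI := Fintype.ofFinite (P : Subgroup G)
      rw [hcardE, Nat.card_eq_fintype_card (α := {z : (P : Subgroup G) // (z : G) ∉ E}),
        Nat.card_eq_fintype_card (α := {z : (P : Subgroup G) // (z : G) ∈ E}),
        Fintype.card_subtype_compl, Nat.card_eq_fintype_card]
      have : Fintype.card {z : (P : Subgroup G) // (z : G) ∈ E} ≤ Fintype.card (P : Subgroup G) :=
        Fintype.card_subtype_le _
      omega
    linarith
  rw [hsplit]
  omega

/-- Non-`p`-nilpotent groups contain a centric subgroup with non-`p` automizer. -/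
theorem exists_centric {p : ℕ} [Fact p.Prime]
    (h : ¬ Cfsg.Agent.Lib.Transfer.FrobeniusStable p G) :
    ∃ (P : Sylow p G) (E : Subgroup G) (x : G), E ≤ (P : Subgroup G) ∧
      (P : Subgroup G) ⊓ centralizer (E : Set G) ≤ E ∧ x ∈ normalizer (E : Set G) ∧
        (orderOf x).Coprime p ∧ x ∉ centralizer (E : Set G) := by
  classical
  have hp : p.Prime := Fact.out
  unfold Cfsg.Agent.Lib.Transfer.FrobeniusStable at h
  push Not at h
  obtain ⟨D, hD, g, hg, hgc, hgD⟩ := h
  have hne : ({U : Subgroup G | IsPGroup p U ∧ ∃ x ∈ normalizer (U : Set G),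
      (orderOf x).Coprime p ∧ x ∉ centralizer (U : Set G)}).Nonempty :=
    ⟨D, hD, g, hg, hgc, hgD⟩
  obtain ⟨U, ⟨hUp, x, hxU, hxc, hxC⟩, hmax⟩ := (Set.toFinite _).exists_maximal hne
  obtain ⟨P, hP⟩ := hUp.exists_le_sylow
  refine ⟨P, U, x, hP, ?_, hxU, hxc, hxC⟩
  -- the centralizer part
  obtain ⟨Q, hQ⟩ : ∃ Q : Subgroup G, Q = (P : Subgroup G) ⊓ centralizer (U : Set G) := ⟨_, rfl⟩
  rw [← hQ]
  have hQp : IsPGroup p Q := P.isPGroup'.to_le (hQ ▸ inf_le_left)
  have hcn : centralizer (U : Set G) ≤ normalizer (U : Set G) := by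
    intro c hc
    rw [mem_normalizer_iff]
    intro z
    constructor
    · intro hz
      have h1 := mem_centralizer_iff.mp hc z hz
      have h2 : c * z * c⁻¹ = z := by
        rw [← h1]
        group
      rw [h2]
      exact hz
    · intro hz
      by_contra hzQ
      have h1 := mem_centralizer_iff.mp hc _ hz
      apply hzQ
      have h2 : c * z * c⁻¹ * c = c * (c * z * c⁻¹) := h1
      have h3 : z = c * z * c⁻¹ := by
        have h4 : c * z = c * (c * z * c⁻¹) := by
          rw [← h2]
          group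
        exact mul_left_cancel h4
      rw [h3]
      exact hz
  haveI hM₀ : ((centralizer (U : Set G)).subgroupOf (normalizer (U : Set G))).Normal :=
    Cfsg.Agent.Lib.Transfer.centralizer_subgroupOf_normal U
  -- pass to a Sylow subgroup of the centralizer containing `Q`
  have hQM : ((Q.subgroupOf (normalizer (U : Set G))).subgroupOf
      ((centralizer (U : Set G)).subgroupOf (normalizer (U : Set G)))) ≤ ⊤ := le_top
  have hQ₀p : IsPGroup p ((Q.subgroupOf (normalizer (U : Set G))).subgroupOf
      ((centralizer (U : Set G)).subgroupOf (normalizer (U : Set G)))) := by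
    have h1 : IsPGroup p (Q.subgroupOf (normalizer (U : Set G))) := hQp.comap_subtype
    exact h1.comap_subtype
  obtain ⟨T, hT⟩ := hQ₀p.exists_le_sylow
  have hsup := Sylow.normalizer_sup_eq_top T
  have hxtop : (⟨x, hxU⟩ : normalizer (U : Set G)) ∈
      normalizer ((T.map ((centralizer (U : Set G)).subgroupOf (normalizer (U : Set G))).subtype : Subgroup _) : Set _) ⊔
        ((centralizer (U : Set G)).subgroupOf (normalizer (U : Set G))) := by
    rw [hsup]
    exact mem_top _
  obtain ⟨w, hw, m, hm, hwm⟩ := (Subgroup.mem_sup_of_normal_right).mp hxtop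
  obtain ⟨a, b, hab, hcomm, ⟨k, hk⟩, hbp, -, hbz⟩ := Cfsg.Agent.Lib.PGroups.exists_pPart p w
  -- `b` does not centralize `U`
  have hbC : (b : G) ∉ centralizer (U : Set G) := by
    intro hb
    apply hxC
    have h1 : b ∈ (centralizer (U : Set G)).subgroupOf (normalizer (U : Set G)) := by
      rw [Subgroup.mem_subgroupOf]
      exact hb
    let π := QuotientGroup.mk' ((centralizer (U : Set G)).subgroupOf (normalizer (U : Set G)))
    have h2 : π b = 1 := (QuotientGroup.eq_one_iff b).2 h1
    have h3 : π m = 1 := (QuotientGroup.eq_one_iff m).2 hm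
    have h4 : π ⟨x, hxU⟩ = π a := by
      rw [← hwm, map_mul, h3, mul_one, hab, map_mul, h2, mul_one]
    have h5 : (π ⟨x, hxU⟩) ^ p ^ k = 1 := by
      rw [h4, ← map_pow, ← hk, pow_orderOf_eq_one, map_one]
    have h6 : (π ⟨x, hxU⟩) ^ orderOf x = 1 := by
      rw [← map_pow]
      have : (⟨x, hxU⟩ : normalizer (U : Set G)) ^ orderOf x = 1 := by
        apply Subtype.ext
        simpa using pow_orderOf_eq_one x
      rw [this, map_one]
    have h7 := Nat.eq_one_of_dvd_coprimes (Nat.Coprime.pow_right k hxc)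
      (orderOf_dvd_of_pow_eq_one h6) (orderOf_dvd_of_pow_eq_one h5)
    rw [orderOf_eq_one_iff] at h7
    have h8 := (QuotientGroup.eq_one_iff _).1 h7
    rw [Subgroup.mem_subgroupOf] at h8
    exact h8
  obtain ⟨R₁, hR₁⟩ : ∃ R₁ : Subgroup (normalizer (U : Set G)),
      R₁ = T.map ((centralizer (U : Set G)).subgroupOf (normalizer (U : Set G))).subtype := ⟨_, rfl⟩
  rw [← hR₁] at hw
  obtain ⟨R, hR⟩ : ∃ R : Subgroup G, R = R₁.map (normalizer (U : Set G)).subtype := ⟨_, rfl⟩
  have hRp : IsPGroup p R := by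
    rw [hR, hR₁]
    exact (T.2.map _).map _
  have hRC : R ≤ centralizer (U : Set G) := by
    rw [hR, hR₁]
    rintro _ ⟨_, ⟨t, -, rfl⟩, rfl⟩
    have := t.2
    rw [Subgroup.mem_subgroupOf] at this
    exact this
  have hbR : (b : G) ∈ normalizer (R : Set G) := by
    have h1 : b ∈ normalizer (R₁ : Set (normalizer (U : Set G))) :=
      (zpowers_le.2 hw) hbz
    rw [hR]
    exact Subgroup.le_normalizer_map _ (mem_map_of_mem _ h1)
  have hU₁ : IsPGroup p (R ⊔ U : Subgroup G) :=
    IsPGroup.to_sup_of_normal_right' hRp hUp (hRC.trans hcn)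
  have hbU₁ : (b : G) ∈ normalizer ((R ⊔ U : Subgroup G) : Set G) := by
    have h1 := Cfsg.Agent.Lib.Basic.le_normalizer_sup (A := zpowers (b : G)) (X := R) (Y := U)
      (zpowers_le.2 hbR) (zpowers_le.2 b.2)
    exact h1 (mem_zpowers _)
  have hbcop : (orderOf (b : G)).Coprime p := by
    have h1 : orderOf (b : G) = orderOf b := Subgroup.orderOf_coe b
    rw [h1]
    exact ((Nat.Prime.coprime_iff_not_dvd hp).2 hbp).symm
  have hbnotC : (b : G) ∉ centralizer ((R ⊔ U : Subgroup G) : Set G) := by
    intro h1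
    apply hbC
    rw [mem_centralizer_iff] at h1 ⊢
    intro u hu
    exact h1 u (mem_sup_right hu)
  have hle : R ⊔ U ≤ U := hmax ⟨hU₁, b, hbU₁, hbcop, hbnotC⟩ le_sup_right
  have hRU : R ≤ U := le_sup_left.trans hle
  -- conclude
  intro q hq
  apply hRU
  have hqL : q ∈ normalizer (U : Set G) := hcn (by rw [hQ] at hq; exact (mem_inf.mp hq).2)
  have hqC : (⟨q, hqL⟩ : normalizer (U : Set G)) ∈ (centralizer (U : Set G)).subgroupOf (normalizer (U : Set G)) := by
    rw [Subgroup.mem_subgroupOf]
    rw [hQ] at hq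
    exact (mem_inf.mp hq).2
  have hqT : (⟨⟨q, hqL⟩, hqC⟩ : ((centralizer (U : Set G)).subgroupOf (normalizer (U : Set G)))) ∈ (T : Subgroup _) :=
    hT (by
      rw [Subgroup.mem_subgroupOf, Subgroup.mem_subgroupOf]
      exact hq)
  rw [hR, hR₁]
  exact ⟨⟨q, hqL⟩, ⟨⟨⟨q, hqL⟩, hqC⟩, hqT, rfl⟩, rfl⟩

end Cfsg.Agent.Lib.Coprime.K2
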