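import Mathlib
import Cfsg.Prelude.Def_OddOrderLocal
import Cfsg.Agent.Lib.Coprime.KP

/-!
# Counting conjugacy classes of `π`-elements
-/

set_option autoImplicit false

universe u

namespace Cfsg.Agent.Lib.Coprime.KPi

open Subgroup Cfsg.Agent.Lib.Coprime.KP
open scoped commutatorElement

/-- The type of conjugacy classes of `π`-elements. -/
abbrev KpiT (π : Finset ℕ) (G : Type*) [Group G] : Type _ :=
  {c : ConjClasses G // ∀ x ∈ c.carrier, ∀ r : ℕ, r.Prime → r ∣ orderOf x → r ∈ π}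

/-- The `π`-part of a natural number. -/
def piPart (π : Finset ℕ) (n : ℕ) : ℕ := π.prod (fun r => r ^ n.factorization r)

theorem piPart_mono (π : Finset ℕ) (hπ : ∀ r ∈ π, r.Prime) {m n : ℕ} (hm : m ≠ 0) (hn : n ≠ 0)
    (h : m ∣ n) : piPart π m ≤ piPart π n := by
  refine Finset.prod_le_prod' fun r hr => ?_
  exact Nat.pow_le_pow_right (hπ r hr).pos ((Nat.factorization_le_iff_dvd hm hn).2 h r)

theorem piPart_pos (π : Finset ℕ) (hπ : ∀ r ∈ π, r.Prime) (n : ℕ) : 0 < piPart π n :=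
  Finset.prod_pos fun r hr => pow_pos (hπ r hr).pos _

/-- One step of the primary decomposition of `π`-elements. -/
theorem step {H : Type*} [Group H] [Finite H] (r : ℕ) [Fact r.Prime] (π' : Finset ℕ) (hr : r ∉ π')
    (A : ℕ) (hA : ∀ u : H, Nat.card (KpiT π' (centralizer ({u} : Set H))) ≤ A) :
    Nat.card (KpiT (insert r π') H) ≤ Nat.card (KpT r H) * A := by
  classical
  haveI : Fintype (KpT r H) := Fintype.ofFinite _
  have hrep : ∀ c : KpT r H, ∃ u : H, ConjClasses.mk u = c.1 := fun c => ConjClasses.exists_rep c.1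
  choose rep hrep using hrep
  have hrepT : ∀ (c : KpT r H) (d : KpiT π' (centralizer ({rep c} : Set H))),
      ∃ v : centralizer ({rep c} : Set H), ConjClasses.mk v = d.1 :=
    fun c d => ConjClasses.exists_rep d.1
  choose repT hrepT using hrepT
  let f : (Σ c : KpT r H, KpiT π' (centralizer ({rep c} : Set H))) → ConjClasses H :=
    fun b => ConjClasses.mk (rep b.1 * (repT b.1 b.2 : H))
  have hle : Nat.card (KpiT (insert r π') H) ≤
      Nat.card (Σ c : KpT r H, KpiT π' (centralizer ({rep c} : Set H))) := by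
    refine card_le_of_forall_exists_map f Subtype.val Subtype.val_injective ?_
    rintro ⟨e, he⟩
    obtain ⟨g, rfl⟩ := ConjClasses.exists_rep e
    have hg := he g ConjClasses.mem_carrier_mk
    obtain ⟨u, v, hguv, hcomm, ⟨k, hk⟩, hvr, -, hvz⟩ := Cfsg.Agent.Lib.PGroups.exists_pPart r g
    have hu : ∀ x ∈ (ConjClasses.mk u).carrier, ∃ k : ℕ, orderOf x = r ^ k := by
      intro x hx
      rw [ConjClasses.mem_carrier_iff_mk_eq, ConjClasses.mk_eq_mk_iff_isConj] at hx
      refine ⟨k, ?_⟩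
      obtain ⟨t, ht⟩ := isConj_iff.mp hx
      rw [← Cfsg.Agent.Lib.PGroups.orderOf_conj_eq t x, ht]
      exact hk
    obtain ⟨c₀, hc₀⟩ : ∃ c₀ : KpT r H, c₀ = ⟨ConjClasses.mk u, hu⟩ := ⟨_, rfl⟩
    have hrepc : ConjClasses.mk (rep c₀) = ConjClasses.mk u := by
      rw [hrep, hc₀]
    rw [ConjClasses.mk_eq_mk_iff_isConj] at hrepc
    obtain ⟨h, hh⟩ := isConj_iff.mp hrepc.symm
    have hv' : h * v * h⁻¹ ∈ centralizer ({rep c₀} : Set H) := by
      rw [mem_centralizer_singleton_iff, ← hh]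
      have h1 : v * u = u * v := hcomm.eq.symm
      calc h * v * h⁻¹ * (h * u * h⁻¹) = h * (v * u) * h⁻¹ := by group
        _ = h * (u * v) * h⁻¹ := by rw [h1]
        _ = _ := by group
    obtain ⟨v₁, hv₁⟩ : ∃ v₁ : centralizer ({rep c₀} : Set H), v₁ = ⟨h * v * h⁻¹, hv'⟩ := ⟨_, rfl⟩
    have hd : ∀ x ∈ (ConjClasses.mk v₁).carrier, ∀ s : ℕ, s.Prime → s ∣ orderOf x → s ∈ π' := by
      intro x hx s hs hsd
      rw [ConjClasses.mem_carrier_iff_mk_eq, ConjClasses.mk_eq_mk_iff_isConj] at hx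
      obtain ⟨t, ht⟩ := isConj_iff.mp hx
      have h1 : orderOf x = orderOf v := by
        rw [← Cfsg.Agent.Lib.PGroups.orderOf_conj_eq t x, ht, hv₁, Subgroup.orderOf_mk,
          Cfsg.Agent.Lib.PGroups.orderOf_conj_eq]
      rw [h1] at hsd
      have h2 : s ∣ orderOf g := hsd.trans (orderOf_dvd_of_mem_zpowers hvz)
      have h3 := hg s hs h2
      rw [Finset.mem_insert] at h3
      rcases h3 with rfl | h3
      · exact absurd hsd hvr
      · exact h3
    obtain ⟨d₀, hd₀⟩ : ∃ d₀ : KpiT π' (centralizer ({rep c₀} : Set H)),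
        d₀ = ⟨ConjClasses.mk v₁, hd⟩ := ⟨_, rfl⟩
    refine ⟨⟨c₀, d₀⟩, ?_⟩
    show ConjClasses.mk (rep c₀ * (repT c₀ d₀ : H)) = ConjClasses.mk g
    have h3 : ConjClasses.mk (repT c₀ d₀) = ConjClasses.mk v₁ := by
      rw [hrepT, hd₀]
    rw [ConjClasses.mk_eq_mk_iff_isConj] at h3
    obtain ⟨t, ht⟩ := isConj_iff.mp h3
    rw [ConjClasses.mk_eq_mk_iff_isConj]
    have ht' : (t : H) * (repT c₀ d₀ : H) * (t : H)⁻¹ = h * v * h⁻¹ := by
      have := congrArg Subtype.val ht
      rw [hv₁] at this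
      exact this
    have htc : (t : H) * rep c₀ = rep c₀ * (t : H) := mem_centralizer_singleton_iff.mp t.2
    refine isConj_iff.mpr ⟨h⁻¹ * (t : H), ?_⟩
    have h5 : (t : H) * (rep c₀ * (repT c₀ d₀ : H)) * (t : H)⁻¹ = rep c₀ * (h * v * h⁻¹) := by
      rw [← ht']
      calc (t : H) * (rep c₀ * (repT c₀ d₀ : H)) * (t : H)⁻¹
          = ((t : H) * rep c₀) * (repT c₀ d₀ : H) * (t : H)⁻¹ := by group
        _ = (rep c₀ * (t : H)) * (repT c₀ d₀ : H) * (t : H)⁻¹ := by rw [htc]
        _ = _ := by group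
    calc h⁻¹ * (t : H) * (rep c₀ * (repT c₀ d₀ : H)) * (h⁻¹ * (t : H))⁻¹
        = h⁻¹ * ((t : H) * (rep c₀ * (repT c₀ d₀ : H)) * (t : H)⁻¹) * h := by group
      _ = h⁻¹ * (rep c₀ * (h * v * h⁻¹)) * h := by rw [h5]
      _ = h⁻¹ * ((h * u * h⁻¹) * (h * v * h⁻¹)) * h := by rw [hh]
      _ = u * v := by group
      _ = g := hguv.symm
  refine hle.trans ?_
  rw [Nat.card_sigma]
  calc ∑ c : KpT r H, Nat.card (KpiT π' (centralizer ({rep c} : Set H)))
      ≤ ∑ _c : KpT r H, A := Finset.sum_le_sum fun c _ => hA _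
    _ = _ := by
      rw [Finset.sum_const, smul_eq_mul, Finset.card_univ, Nat.card_eq_fintype_card]

/-- `k_π(H) ≤ |H|_π`. -/
theorem card_kpi_le (π : Finset ℕ) (hπ : ∀ r ∈ π, r.Prime) :
    ∀ (H : Type u) [Group H] [Finite H], Nat.card (KpiT π H) ≤ piPart π (Nat.card H) := by
  classical
  induction π using Finset.induction_on with
  | empty =>
    intro H _ _
    have hs : Subsingleton (KpiT ∅ H) := by
      constructor
      rintro ⟨a, ha⟩ ⟨b, hb⟩
      apply Subtype.ext
      obtain ⟨x, rfl⟩ := ConjClasses.exists_rep a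
      obtain ⟨y, rfl⟩ := ConjClasses.exists_rep b
      have hx := ha x ConjClasses.mem_carrier_mk
      have hy := hb y ConjClasses.mem_carrier_mk
      have hx1 : orderOf x = 1 := by
        by_contra hne
        obtain ⟨q, hq, hqd⟩ := Nat.exists_prime_and_dvd hne
        simpa using hx q hq hqd
      have hy1 : orderOf y = 1 := by
        by_contra hne
        obtain ⟨q, hq, hqd⟩ := Nat.exists_prime_and_dvd hne
        simpa using hy q hq hqd
      rw [orderOf_eq_one_iff] at hx1 hy1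
      show ConjClasses.mk x = ConjClasses.mk y
      rw [hx1, hy1]
    have : Nat.card (KpiT ∅ H) ≤ 1 := Finite.card_le_one_iff_subsingleton.mpr hs
    simpa [piPart] using this
  | insert r π' hr ih =>
    intro H _ _
    have hrp : r.Prime := hπ r (Finset.mem_insert_self _ _)
    haveI : Fact r.Prime := ⟨hrp⟩
    have hπ' : ∀ s ∈ π', s.Prime := fun s hs => hπ s (Finset.mem_insert_of_mem hs)
    have hH0 : Nat.card H ≠ 0 := Nat.card_pos.ne'
    have h1 := step r π' hr (piPart π' (Nat.card H)) (fun u => (ih hπ' _).trans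
      (piPart_mono π' hπ' Nat.card_pos.ne' hH0 (Subgroup.card_subgroup_dvd_card _)))
    obtain ⟨P⟩ : Nonempty (Sylow r H) := inferInstance
    have h2 := card_kp_le P
    rw [Sylow.card_eq_multiplicity] at h2
    have h3 : piPart (insert r π') (Nat.card H) =
        r ^ (Nat.card H).factorization r * piPart π' (Nat.card H) := by
      unfold piPart
      rw [Finset.prod_insert hr]
    rw [h3]
    exact h1.trans (Nat.mul_le_mul_right _ h2)

/-- Reduction to a single prime. -/
theorem sylow_bound {G : Type u} [Group G] [Finite G] (π : Finset ℕ) (hπ : ∀ r ∈ π, r.Prime)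
    (p : ℕ) (hp : p ∈ π) (hmin : ∀ r ∈ π, p ≤ r)
    (hk : (p + 1) * piPart π (Nat.card G) < 2 * p * Nat.card (KpiT π G))
    (r : ℕ) [Fact r.Prime] (hr : r ∈ π) (P : Sylow r G) :
    (r + 1) * Nat.card (P : Subgroup G) < 2 * r * Nat.card (KpT r G) := by
  classical
  have hH0 : Nat.card G ≠ 0 := Nat.card_pos.ne'
  have hπ' : ∀ s ∈ π.erase r, s.Prime := fun s hs => hπ s (Finset.mem_of_mem_erase hs)
  obtain ⟨A, hA⟩ : ∃ A, A = piPart (π.erase r) (Nat.card G) := ⟨_, rfl⟩
  have h1 := step (H := G) r (π.erase r) (Finset.notMem_erase r π) A (fun u => by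
    rw [hA]
    exact (card_kpi_le _ hπ' _).trans
      (piPart_mono _ hπ' Nat.card_pos.ne' hH0 (Subgroup.card_subgroup_dvd_card _)))
  rw [Finset.insert_erase hr] at h1
  have hApos : 0 < A := hA ▸ piPart_pos _ hπ' _
  have h3 : piPart π (Nat.card G) = r ^ (Nat.card G).factorization r * A := by
    rw [hA]
    unfold piPart
    rw [Finset.mul_prod_erase π (fun s => s ^ (Nat.card G).factorization s) hr]
  have hcard : Nat.card (P : Subgroup G) = r ^ (Nat.card G).factorization r :=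
    Sylow.card_eq_multiplicity P
  rw [h3, ← hcard] at hk
  have hp0 : 0 < p := (hπ p hp).pos
  have h4 : (p + 1) * Nat.card (P : Subgroup G) * A < 2 * p * Nat.card (KpT r G) * A := by
    calc (p + 1) * Nat.card (P : Subgroup G) * A = (p + 1) * (Nat.card (P : Subgroup G) * A) := by ring
      _ < 2 * p * Nat.card (KpiT π G) := hk
      _ ≤ 2 * p * (Nat.card (KpT r G) * A) := Nat.mul_le_mul_left _ h1
      _ = _ := by ring
  have h5 : (p + 1) * Nat.card (P : Subgroup G) < 2 * p * Nat.card (KpT r G) :=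
    Nat.lt_of_mul_lt_mul_right h4
  have hpr := hmin r hr
  have h6 : p * (r + 1) ≤ r * (p + 1) := by nlinarith
  have h7 : p * ((r + 1) * Nat.card (P : Subgroup G)) < p * (2 * r * Nat.card (KpT r G)) := by
    have hr0 : 0 < r := (hπ r hr).pos
    calc p * ((r + 1) * Nat.card (P : Subgroup G)) = (p * (r + 1)) * Nat.card (P : Subgroup G) := by ring
      _ ≤ (r * (p + 1)) * Nat.card (P : Subgroup G) := Nat.mul_le_mul_right _ h6
      _ = r * ((p + 1) * Nat.card (P : Subgroup G)) := by ring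
      _ < r * (2 * p * Nat.card (KpT r G)) := Nat.mul_lt_mul_of_pos_left h5 hr0
      _ = _ := by ring
  exact Nat.lt_of_mul_lt_mul_left h7

/-- Normal data from `p`-nilpotence and commutative Sylow subgroups. -/
theorem normal_data {G : Type*} [Group G] [Finite G] (r : ℕ) [Fact r.Prime]
    (h : ∀ P : Sylow r G, Cfsg.HasNormalPComplement r G ∧ IsMulCommutative (P : Subgroup G)) :
    ∃ N : Subgroup G, N.Normal ∧ ¬ r ∣ Nat.card N ∧ (∀ s : ℕ, s.Prime → s ∣ N.index → s = r) ∧
      commutator G ≤ N := by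
  obtain ⟨P⟩ : Nonempty (Sylow r G) := inferInstance
  obtain ⟨P₀, N, hNn, hNc⟩ := (h P).1
  have hcomm := (h P₀).2
  have hr : r.Prime := Fact.out
  refine ⟨N, hNn, ?_, ?_, ?_⟩
  · have h1 : (P₀ : Subgroup G).index = Nat.card N := hNc.index_eq_card
    rw [← h1]
    exact P₀.not_dvd_index
  · intro s hs hsd
    have h1 : N.index = Nat.card (P₀ : Subgroup G) := hNc.symm.index_eq_card
    rw [h1] at hsd
    obtain ⟨n, hn⟩ := IsPGroup.iff_card.mp P₀.isPGroup'
    rw [hn] at hsd
    exact (Nat.prime_dvd_prime_iff_eq hs hr).1 (hs.dvd_of_dvd_pow hsd)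
  · have hsup : (P₀ : Subgroup G) ⊔ N = ⊤ := by
      rw [sup_comm]
      exact hNc.sup_eq_top
    have hrep : ∀ a : G, ∃ u ∈ (P₀ : Subgroup G), QuotientGroup.mk' N a = QuotientGroup.mk' N u := by
      intro a
      have ha : a ∈ (P₀ : Subgroup G) ⊔ N := hsup ▸ mem_top a
      obtain ⟨u, hu, n, hn, rfl⟩ := (Subgroup.mem_sup_of_normal_right).mp ha
      refine ⟨u, hu, ?_⟩
      have h0 : QuotientGroup.mk' N n = 1 := (QuotientGroup.eq_one_iff n).2 hn
      rw [map_mul, h0, mul_one]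
    rw [_root_.commutator_def, Subgroup.commutator_le]
    intro a _ b _
    obtain ⟨u, hu, hau⟩ := hrep a
    obtain ⟨v, hv, hbv⟩ := hrep b
    have huv : u * v = v * u := congrArg Subtype.val
      (hcomm.is_comm.comm (⟨u, hu⟩ : (P₀ : Subgroup G)) ⟨v, hv⟩)
    apply (QuotientGroup.eq_one_iff _).1
    have h2 := map_commutatorElement (QuotientGroup.mk' N) a b
    change QuotientGroup.mk' N ⁅a, b⁆ = 1
    rw [h2, hau, hbv, ← map_commutatorElement, commutatorElement_eq_one_iff_mul_comm.mpr huv, map_one]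

/-- Intersection of normal data. -/
theorem exists_core {G : Type*} [Group G] [Finite G] (π : Finset ℕ)
    (h : ∀ r ∈ π, ∃ N : Subgroup G, N.Normal ∧ ¬ r ∣ Nat.card N ∧
      (∀ s : ℕ, s.Prime → s ∣ N.index → s = r) ∧ commutator G ≤ N) :
    ∃ M : Subgroup G, M.Normal ∧ (∀ r ∈ π, ¬ r ∣ Nat.card M) ∧
      (∀ s : ℕ, s.Prime → s ∣ M.index → s ∈ π) ∧ commutator G ≤ M := by
  classical
  induction π using Finset.induction_on with
  | empty =>
    refine ⟨⊤, inferInstance, by simp, ?_, le_top⟩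
    intro s hs hsd
    rw [Subgroup.index_top] at hsd
    exact absurd (Nat.dvd_one.mp hsd) hs.ne_one
  | insert r π' hr ih =>
    obtain ⟨M, hMn, hM1, hM2, hM3⟩ := ih fun s hs => h s (Finset.mem_insert_of_mem hs)
    obtain ⟨N, hNn, hN1, hN2, hN3⟩ := h r (Finset.mem_insert_self _ _)
    refine ⟨M ⊓ N, inferInstance, ?_, ?_, le_inf hM3 hN3⟩
    · intro s hs hsd
      rw [Finset.mem_insert] at hs
      rcases hs with rfl | hs
      · exact hN1 (hsd.trans (Subgroup.card_dvd_of_le inf_le_right))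
      · exact hM1 s hs (hsd.trans (Subgroup.card_dvd_of_le inf_le_left))
    · intro s hs hsd
      have h1 : (M ⊓ N).relIndex M * M.index = (M ⊓ N).index := Subgroup.relIndex_mul_index inf_le_left
      rw [inf_relIndex_left] at h1
      have h2 : N.relIndex M ∣ N.index := Subgroup.relIndex_dvd_index_of_normal N M
      rw [← h1] at hsd
      rw [Finset.mem_insert]
      rcases (Nat.Prime.dvd_mul hs).1 hsd with h3 | h3
      · exact Or.inl (hN2 s hs (h3.trans h2))
      · exact Or.inr (hM2 s hs h3)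

/-- The conclusion from normal data at all primes of `π`. -/
theorem conclusion {G : Type*} [Group G] [Finite G] (π : Finset ℕ) (hπ : ∀ r ∈ π, r.Prime)
    (h : ∀ r ∈ π, ∃ N : Subgroup G, N.Normal ∧ ¬ r ∣ Nat.card N ∧
      (∀ s : ℕ, s.Prime → s ∣ N.index → s = r) ∧ commutator G ≤ N) :
    (∃ N : Subgroup G, N.Normal ∧ (∀ r : ℕ, r.Prime → r ∣ Nat.card ↥N → r ∉ π) ∧
      ∀ r : ℕ, r.Prime → r ∣ N.index → r ∈ π) ∧
    ∃ H : Subgroup G, Cfsg.IsPiHall (↑π : Set ℕ) H ∧ IsMulCommutative ↥H := by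
  obtain ⟨M, hMn, hM1, hM2, hM3⟩ := exists_core π h
  refine ⟨⟨M, hMn, fun r _ hrd hrπ => hM1 r hrπ hrd, hM2⟩, ?_⟩
  have hcop : (Nat.card M).Coprime M.index := by
    apply Nat.coprime_of_dvd
    intro k hk hk1 hk2
    exact hM1 k (hM2 k hk hk2) hk1
  obtain ⟨H, hH⟩ := Subgroup.exists_right_complement'_of_coprime hcop
  refine ⟨H, ⟨?_, ?_⟩, ?_⟩
  · intro s hs hsd
    have h1 : M.index = Nat.card H := hH.symm.index_eq_card
    rw [← h1] at hsd
    exact hM2 s hs hsd
  · intro s _ hsπ hsd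
    have h1 : H.index = Nat.card M := hH.index_eq_card
    rw [h1] at hsd
    exact hM1 s hsπ hsd
  · refine ⟨⟨fun a b => Subtype.ext ?_⟩⟩
    have h1 : ⁅(a : G), (b : G)⁆ ∈ M :=
      hM3 (Subgroup.commutator_mem_commutator (mem_top _) (mem_top _))
    have h2 : ⁅(a : G), (b : G)⁆ ∈ H := by
      rw [commutatorElement_def]
      exact mul_mem (mul_mem (mul_mem a.2 b.2) (inv_mem a.2)) (inv_mem b.2)
    have h3 : ⁅(a : G), (b : G)⁆ = 1 := Subgroup.disjoint_def.mp hH.disjoint h1 h2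
    exact commutatorElement_eq_one_iff_mul_comm.mp h3

end Cfsg.Agent.Lib.Coprime.KPi
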