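import Cfsg.Agent.Lib.Coprime.MetaGroup

/-!
A metacyclic `p`-group, `p` odd, is a product of two cyclic subgroups with trivial intersection.
-/

set_option autoImplicit false

namespace Cfsg.Agent.Lib.Coprime.Meta

open Subgroup Cfsg

universe u

variable {p : ℕ} [hpf : Fact p.Prime] {G : Type u} [Group G] [Finite G]

omit hpf [Finite G] in
theorem pow_mul_formula (x a : G) (k : ℕ) (h : x⁻¹ * a * x = a ^ k) (i t : ℕ) :
    (x * a ^ i) ^ t = x ^ t * a ^ (i * ∑ l ∈ Finset.range t, k ^ l) := by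
  induction t with
  | zero => simp
  | succ t ih =>
    set S := ∑ l ∈ Finset.range t, k ^ l with hS
    have h1 : a ^ (i * S) * x = x * a ^ (k * (i * S)) := by
      have h2 : x⁻¹ * a ^ (i * S) * x = a ^ (k * (i * S)) := by
        have h3 := conj_pow (a := x⁻¹) (b := a) (i := i * S)
        rw [inv_inv] at h3
        rw [← h3, h, ← pow_mul]
      rw [← h2]
      group
    have h4 : ∑ l ∈ Finset.range (t + 1), k ^ l = k * S + 1 := by
      rw [Finset.sum_range_succ', pow_zero, hS, Finset.mul_sum]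
      congr 1
      apply Finset.sum_congr rfl
      intro l _
      rw [pow_succ']
    rw [pow_succ, ih, h4]
    calc x ^ t * a ^ (i * S) * (x * a ^ i) = x ^ t * (a ^ (i * S) * x) * a ^ i := by group
      _ = x ^ t * (x * a ^ (k * (i * S))) * a ^ i := by rw [h1]
      _ = x ^ (t + 1) * (a ^ (k * (i * S)) * a ^ i) := by rw [pow_succ]; group
      _ = _ := by
        rw [← pow_add]
        congr 2
        ring

omit [Finite G] in
theorem geom_form (hodd : p ≠ 2) {k : ℕ} (hk : 1 < k) (hpk : p ∣ k - 1) (u : ℕ) :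
    ∃ e : ℕ, ¬ p ∣ e ∧ ∑ l ∈ Finset.range (p ^ u), k ^ l = p ^ u * e := by
  have hp : p.Prime := hpf.out
  have hv := geom_padicVal hodd hk hpk (pow_ne_zero u hp.ne_zero)
  rw [padicValNat.prime_pow] at hv
  have hS0 : (∑ l ∈ Finset.range (p ^ u), k ^ l) ≠ 0 :=
    (Finset.sum_pos (fun i _ => pow_pos (by omega) i)
      ⟨0, Finset.mem_range.mpr (pow_pos hp.pos u)⟩).ne'
  obtain ⟨e', n', hn', hS⟩ := Nat.exists_eq_pow_mul_and_not_dvd hS0 p hp.ne_one
  refine ⟨n', hn', ?_⟩
  have hn0 : n' ≠ 0 := by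
    rintro rfl
    exact hn' (dvd_zero p)
  rw [hS, padicValNat.mul (pow_ne_zero _ hp.ne_zero) hn0, padicValNat.prime_pow,
    padicValNat.eq_zero_of_not_dvd hn', add_zero] at hv
  rw [hS, hv]

theorem exists_pow_pow_eq (hG : IsPGroup p G) (a : G) {e : ℕ} (he : ¬ p ∣ e) {c : G} (hc : c ∈ zpowers a) :
    ∃ i : ℕ, (a ^ e) ^ i = c := by
  have hp : p.Prime := hpf.out
  obtain ⟨m, hm⟩ := (IsPGroup.iff_orderOf.mp hG) a
  have hcop : (orderOf a).Coprime e := by
    rw [hm]
    exact Nat.Coprime.pow_left m ((Nat.Prime.coprime_iff_not_dvd hp).mpr he)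
  have h1 : zpowers (a ^ e) = zpowers a := by
    apply Subgroup.eq_of_le_of_card_ge
    · rw [zpowers_le]
      exact pow_mem (mem_zpowers a) e
    · rw [Nat.card_zpowers, Nat.card_zpowers, hcop.orderOf_pow]
  rw [← h1, ← mem_powers_iff_mem_zpowers] at hc
  exact hc

/-- Product of two cyclic subgroups with trivial intersection. -/
theorem exists_cyclic_product (hodd : p ≠ 2) (hG : IsPGroup p G) (hm : IsMetacyclic G) :
    ∃ A B : Subgroup G, IsCyclic ↥A ∧ IsCyclic ↥B ∧ A ⊓ B = ⊥ ∧ Nat.card ↥A * Nat.card ↥B = Nat.card G := by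
  classical
  have hp : p.Prime := hpf.out
  obtain ⟨a, b, hn, hspan⟩ := exists_data hm
  haveI := hn
  let N := zpowers a
  let f := QuotientGroup.mk' N
  have hQ : ∀ q : G ⧸ N, q ∈ zpowers (f b) := by
    intro q
    obtain ⟨g, rfl⟩ := QuotientGroup.mk'_surjective N q
    obtain ⟨i, j, rfl⟩ := hspan g
    have h1 : f (a ^ i) = 1 := (QuotientGroup.eq_one_iff _).mpr (pow_mem (mem_zpowers a) i)
    have h2 : QuotientGroup.mk' N (a ^ i * b ^ j) = f (a ^ i) * f (b ^ j) := map_mul f _ _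
    rw [h2, h1, one_mul, map_pow]
    exact pow_mem (mem_zpowers _) j
  obtain ⟨r, hr⟩ := (IsPGroup.iff_orderOf.mp (hG.to_quotient N)) (f b)
  have hcardQ : Nat.card (G ⧸ N) = p ^ r := by
    rw [← hr]
    exact (orderOf_eq_card_of_forall_mem_zpowers hQ).symm
  obtain ⟨m, hm'⟩ := (IsPGroup.iff_orderOf.mp hG) a
  have hcardN : Nat.card N = p ^ m := by
    show Nat.card (zpowers a) = _
    rw [Nat.card_zpowers, hm']
  have hcardG : Nat.card G = p ^ m * p ^ r := by
    rw [← Subgroup.card_mul_index N, hcardN, Subgroup.index_eq_card, hcardQ]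
  have hbN : ∀ k : ℕ, b ^ k ∈ N ↔ p ^ r ∣ k := by
    intro k
    rw [← hr, orderOf_dvd_iff_pow_eq_one, ← map_pow]
    exact (QuotientGroup.eq_one_iff _).symm
  have hf : ∀ x y : G, x⁻¹ * y ∈ N → f x = f y := fun x y h => QuotientGroup.eq.mpr h
  -- the complement case
  have hcompl : ∀ x : G, x ^ p ^ r = 1 → (∀ k : ℕ, x ^ k ∈ N ↔ p ^ r ∣ k) →
      ∃ A B : Subgroup G, IsCyclic ↥A ∧ IsCyclic ↥B ∧ A ⊓ B = ⊥ ∧ Nat.card ↥A * Nat.card ↥B = Nat.card G := by
    intro x hx hxN
    have hord : orderOf x = p ^ r := by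
      apply Nat.dvd_antisymm (orderOf_dvd_of_pow_eq_one hx)
      rw [← hxN, pow_orderOf_eq_one]
      exact one_mem _
    refine ⟨N, zpowers x, inferInstance, inferInstance, ?_, ?_⟩
    · rw [eq_bot_iff]
      intro z hz
      obtain ⟨hz1, hz2⟩ := Subgroup.mem_inf.mp hz
      rw [← mem_powers_iff_mem_zpowers] at hz2
      obtain ⟨k, hk⟩ := hz2
      have hk' : x ^ k = z := hk
      rw [Subgroup.mem_bot, ← hk']
      rw [← hk'] at hz1
      obtain ⟨l, hl⟩ := (hxN k).mp hz1
      rw [hl, pow_mul, hx, one_pow]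
    · rw [hcardN, Nat.card_zpowers, hord, hcardG]
  by_cases hy : b ^ p ^ r = 1
  · exact hcompl b hy hbN
  -- `b ^ p ^ r` is a nontrivial power of `a`
  have hyN : b ^ p ^ r ∈ N := (hbN _).mpr dvd_rfl
  rw [show N = zpowers a from rfl, ← mem_powers_iff_mem_zpowers] at hyN
  obtain ⟨t, ht⟩ := hyN
  have ht' : a ^ t = b ^ p ^ r := ht
  have ht0 : t ≠ 0 := by
    rintro rfl
    rw [pow_zero] at ht'
    exact hy ht'.symm
  obtain ⟨w, t', ht'd, htw⟩ := Nat.exists_eq_pow_mul_and_not_dvd ht0 p hp.ne_one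
  -- a new generator
  obtain ⟨a₁, ha₁⟩ : ∃ x, x = a ^ t' := ⟨_, rfl⟩
  have hcop : (orderOf a).Coprime t' := by
    rw [hm']
    exact Nat.Coprime.pow_left m ((Nat.Prime.coprime_iff_not_dvd hp).mpr ht'd)
  have hord₁ : orderOf a₁ = p ^ m := by
    rw [ha₁, hcop.orderOf_pow, hm']
  have ha₁N : a₁ ∈ N := by
    rw [ha₁]
    exact pow_mem (mem_zpowers a) t'
  have hNa₁ : N = zpowers a₁ := by
    symm
    apply Subgroup.eq_of_le_of_card_ge (zpowers_le.mpr ha₁N)
    rw [hcardN, Nat.card_zpowers, hord₁]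
  have hy₁ : b ^ p ^ r = a₁ ^ p ^ w := by
    rw [← ht', htw, ha₁, ← pow_mul, mul_comm]
  have hwm : w < m := by
    by_contra hle
    push Not at hle
    apply hy
    rw [hy₁, ← orderOf_dvd_iff_pow_eq_one, hord₁]
    exact pow_dvd_pow p hle
  have hmult : ∀ x : G, ∃ k : ℕ, 1 < k ∧ p ∣ k - 1 ∧ x⁻¹ * a₁ * x = a₁ ^ k := by
    intro x
    obtain ⟨k, hk, hpk, hmul⟩ := exists_mult hG N (inferInstance : IsCyclic N) x⁻¹
    refine ⟨k, hk, hpk, ?_⟩
    have := hmul a₁ ha₁N
    rwa [inv_inv] at this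
  rcases le_or_gt r w with hrw | hrw
  · -- the split case
    obtain ⟨k, hk, hpk, hmulk⟩ := hmult b
    obtain ⟨e, he, hS⟩ := geom_form hodd hk hpk r
    have hG' := hG
    obtain ⟨i, hi⟩ := exists_pow_pow_eq hG a₁ he (inv_mem (pow_mem (mem_zpowers a₁) (p ^ (w - r))))
    refine hcompl (b * a₁ ^ i) ?_ ?_
    · rw [pow_mul_formula b a₁ k hmulk, hS, hy₁]
      have h1 : a₁ ^ p ^ w = (a₁ ^ p ^ (w - r)) ^ p ^ r := by
        rw [← pow_mul, ← pow_add]
        congr 2
        omega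
      have h2 : a₁ ^ (i * (p ^ r * e)) = ((a₁ ^ e) ^ i) ^ p ^ r := by
        rw [← pow_mul, ← pow_mul]
        congr 1
        ring
      rw [h1, h2, hi, inv_pow, mul_inv_cancel]
    · intro l
      rw [← hbN]
      have h1 : f ((b * a₁ ^ i) ^ l) = f (b ^ l) := by
        rw [map_pow, map_pow]
        congr 1
        apply hf
        have h5 : a₁ ^ i ∈ N := pow_mem ha₁N i
        have h6 : (b * a₁ ^ i)⁻¹ * b = (a₁ ^ i)⁻¹ := by group
        rw [h6]
        exact inv_mem h5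
      constructor
      · intro h2
        apply (QuotientGroup.eq_one_iff _).mp
        change f (b ^ l) = 1
        rw [← h1]
        exact (QuotientGroup.eq_one_iff _).mpr h2
      · intro h2
        apply (QuotientGroup.eq_one_iff _).mp
        change f ((b * a₁ ^ i) ^ l) = 1
        rw [h1]
        exact (QuotientGroup.eq_one_iff _).mpr h2
  · -- `w < r`
    obtain ⟨x₀, hx₀⟩ : ∃ x, x = (b ^ p ^ (r - w))⁻¹ := ⟨_, rfl⟩
    obtain ⟨k, hk, hpk, hmulk⟩ := hmult x₀
    obtain ⟨e, he, hS⟩ := geom_form hodd hk hpk w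
    obtain ⟨i, hi⟩ := exists_pow_pow_eq hG a₁ he (mem_zpowers a₁)
    obtain ⟨a', ha'⟩ : ∃ x, x = x₀ * a₁ ^ i := ⟨_, rfl⟩
    have hx₀w : x₀ ^ p ^ w = (a₁ ^ p ^ w)⁻¹ := by
      rw [hx₀, inv_pow, ← pow_mul, ← pow_add, ← hy₁]
      congr 3
      omega
    have ha'w : a' ^ p ^ w = 1 := by
      rw [ha', pow_mul_formula x₀ a₁ k hmulk, hS, hx₀w]
      have h2 : a₁ ^ (i * (p ^ w * e)) = ((a₁ ^ e) ^ i) ^ p ^ w := by
        rw [← pow_mul, ← pow_mul]
        congr 1
        ring
      rw [h2, hi, inv_mul_cancel]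
    -- image of `a'`
    have hfa' : f a' = (f b ^ p ^ (r - w))⁻¹ := by
      have h1 : f (a₁ ^ i) = 1 := (QuotientGroup.eq_one_iff _).mpr (pow_mem ha₁N i)
      rw [ha', map_mul, h1, mul_one, hx₀, map_inv, map_pow]
    have ha'N : ∀ l : ℕ, a' ^ l ∈ N ↔ p ^ w ∣ l := by
      intro l
      have h1 : a' ^ l ∈ N ↔ f a' ^ l = 1 := by
        rw [← map_pow]
        exact (QuotientGroup.eq_one_iff _).symm
      rw [h1, hfa', inv_pow, inv_eq_one, ← pow_mul, ← orderOf_dvd_iff_pow_eq_one, hr]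
      have h2 : p ^ r = p ^ (r - w) * p ^ w := by
        rw [← pow_add]
        congr 1
        omega
      rw [h2]
      exact Nat.mul_dvd_mul_iff_left (pow_pos hp.pos _)
    have hordA : orderOf a' = p ^ w := by
      apply Nat.dvd_antisymm (orderOf_dvd_of_pow_eq_one ha'w)
      rw [← ha'N, pow_orderOf_eq_one]
      exact one_mem _
    -- the order of `b`
    have hordy : orderOf (b ^ p ^ r) = p ^ (m - w) := by
      rw [hy₁, orderOf_pow_of_dvd (pow_ne_zero _ hp.ne_zero) (by rw [hord₁]; exact pow_dvd_pow p hwm.le), hord₁,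
        Nat.pow_div hwm.le hp.pos]
    have hordb : orderOf b = p ^ (r + (m - w)) := by
      apply Nat.dvd_antisymm
      · apply orderOf_dvd_of_pow_eq_one
        rw [pow_add, pow_mul, ← hordy, pow_orderOf_eq_one]
      · have h1 : p ^ r ∣ orderOf b := by
          rw [← hbN, pow_orderOf_eq_one]
          exact one_mem _
        obtain ⟨l, hl⟩ := h1
        rw [hl, pow_add]
        apply Nat.mul_dvd_mul_left
        rw [← hordy]
        apply orderOf_dvd_of_pow_eq_one
        rw [← pow_mul, ← hl, pow_orderOf_eq_one]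
    refine ⟨zpowers b, zpowers a', inferInstance, inferInstance, ?_, ?_⟩
    · rw [eq_bot_iff]
      intro z hz
      rw [Subgroup.mem_bot]
      obtain ⟨hz1, hz2⟩ := Subgroup.mem_inf.mp hz
      by_contra hz0
      obtain ⟨u, hu⟩ := (IsPGroup.iff_orderOf.mp hG) z
      have hu0 : u ≠ 0 := by
        rintro rfl
        rw [pow_zero, orderOf_eq_one_iff] at hu
        exact hz0 hu
      let z₁ := z ^ p ^ (u - 1)
      have hz₁p : z₁ ^ p = 1 := by
        show (z ^ p ^ (u - 1)) ^ p = 1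
        rw [← pow_mul, ← pow_succ, ← orderOf_dvd_iff_pow_eq_one, hu]
        exact pow_dvd_pow p (by omega)
      have hz₁1 : z₁ ≠ 1 := by
        intro h
        have h1 : orderOf z ∣ p ^ (u - 1) := orderOf_dvd_of_pow_eq_one h
        rw [hu] at h1
        have h2 := (Nat.pow_dvd_pow_iff_le_right hp.one_lt).mp h1
        omega
      have hz₁b : z₁ ∈ zpowers b := pow_mem hz1 _
      have hz₁a : z₁ ∈ zpowers a' := pow_mem hz2 _
      rw [← mem_powers_iff_mem_zpowers] at hz₁b hz₁a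
      obtain ⟨q, hq⟩ := hz₁b
      obtain ⟨l, hl⟩ := hz₁a
      have hq' : b ^ q = z₁ := hq
      have hl' : a' ^ l = z₁ := hl
      -- `z₁ ∈ N`
      have hz₁N : z₁ ∈ N := by
        rw [← hq', hbN]
        have h1 : b ^ (q * p) = 1 := by
          rw [pow_mul, hq', hz₁p]
        have h2 := orderOf_dvd_of_pow_eq_one h1
        rw [hordb] at h2
        have h3 : p ^ r ∣ p ^ (r + (m - w)) := pow_dvd_pow p (by omega)
        have h4 : p ^ (r + (m - w)) = p ^ (r + (m - w) - 1) * p := by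
          rw [← pow_succ]
          congr 1
          omega
        rw [h4] at h2
        have h5 := Nat.dvd_of_mul_dvd_mul_right hp.pos h2
        exact (pow_dvd_pow p (by omega)).trans h5
      rw [← hl', ha'N] at hz₁N
      apply hz₁1
      rw [← hl']
      obtain ⟨l', rfl⟩ := hz₁N
      rw [pow_mul, ha'w, one_pow]
    · rw [Nat.card_zpowers, Nat.card_zpowers, hordb, hordA, hcardG, ← pow_add, ← pow_add]
      congr 1
      omega

end Cfsg.Agent.Lib.Coprime.Meta
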