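import Mathlib
import Cfsg.Agent.Lib.Basic.CoprimeAction
import Cfsg.Agent.Lib.Basic.Frattini

/-!
# Minimal subgroups on which a coprime action is nontrivial

`Q` is a `p`-subgroup, minimal among the `D`-invariant subgroups not centralized by `A`
(`A ≤ D`, `A` normal in `D`, `|A|` prime to `p`).  Then `Q = [Q, A]`, the Frattini subgroup of `Q`
is central in `Q` and centralized by `A`, `C_Q(A) ≤ Φ(Q)`, and for `p = 2` the group has exponent
dividing `4`.
-/

set_option autoImplicit false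
set_option linter.unusedSectionVars false
set_option linter.style.haveILetI false

namespace Cfsg.Agent.Lib.Coprime.MinAct

open Cfsg.Agent.Lib.Basic
open scoped commutatorElement

variable {X : Type*} [Group X] [Finite X] {p : ℕ} [hpf : Fact p.Prime]

/-- Minimality data. -/
structure IsMinAct (p : ℕ) (D A Q : Subgroup X) : Prop where
  pgroup : IsPGroup p Q
  norm : D ≤ Subgroup.normalizer (Q : Set X)
  le : A ≤ D
  Anormal : D ≤ Subgroup.normalizer (A : Set X)
  cop : (Nat.card A).Coprime p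
  nc : ¬ Q ≤ Subgroup.centralizer (A : Set X)
  min : ∀ W : Subgroup X, W ≤ Q → D ≤ Subgroup.normalizer (W : Set X) → W ≠ Q →
    W ≤ Subgroup.centralizer (A : Set X)

theorem exists_isMinAct {D A P : Subgroup X} (hP : IsPGroup p P)
    (hDP : D ≤ Subgroup.normalizer (P : Set X)) (hAD : A ≤ D)
    (hDA : D ≤ Subgroup.normalizer (A : Set X)) (hcop : (Nat.card A).Coprime p)
    (hnc : ¬ P ≤ Subgroup.centralizer (A : Set X)) :
    ∃ Q : Subgroup X, Q ≤ P ∧ IsMinAct p D A Q := by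
  classical
  obtain ⟨Q, hQle, hQ⟩ := (Set.toFinite {W : Subgroup X | W ≤ P ∧ D ≤ Subgroup.normalizer (W : Set X) ∧
    ¬ W ≤ Subgroup.centralizer (A : Set X)}).exists_le_minimal (a := P) ⟨le_rfl, hDP, hnc⟩
  obtain ⟨⟨h1, h2, h3⟩, hmin⟩ := hQ
  refine ⟨Q, h1, ?_⟩
  refine ⟨hP.to_le h1, h2, hAD, hDA, hcop, h3, ?_⟩
  intro W hW hDW hne
  by_contra hnc'
  exact hne (le_antisymm hW (hmin ⟨hW.trans h1, hDW, hnc'⟩ hW))

variable {D A Q : Subgroup X}

namespace IsMinAct

theorem Anorm (h : IsMinAct p D A Q) : A ≤ Subgroup.normalizer (Q : Set X) := h.le.trans h.norm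

theorem coprime_card (h : IsMinAct p D A Q) : (Nat.card A).Coprime (Nat.card Q) := by
  obtain ⟨n, hn⟩ := IsPGroup.iff_card.mp h.pgroup
  rw [hn]
  exact Nat.Coprime.pow_right _ h.cop

theorem solv (h : IsMinAct p D A Q) : Group.IsSolvable A ∨ Group.IsSolvable Q := by
  right
  haveI := h.pgroup.isNilpotent
  infer_instance

theorem comm_norm (h : IsMinAct p D A Q) : D ≤ Subgroup.normalizer ((⁅Q, A⁆ : Subgroup X) : Set X) := by
  intro g hg
  have hgQ := h.norm hg
  have hgA := h.Anormal hg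
  rw [Subgroup.mem_normalizer_iff]
  have key : ∀ g ∈ D, ∀ u ∈ (⁅Q, A⁆ : Subgroup X), g * u * g⁻¹ ∈ (⁅Q, A⁆ : Subgroup X) := by
    intro g hg
    have hgQ := h.norm hg
    have hgA := h.Anormal hg
    have : (⁅Q, A⁆ : Subgroup X) ≤ (⁅Q, A⁆ : Subgroup X).comap (MulAut.conj g).toMonoidHom := by
      rw [Subgroup.commutator_le]
      intro x hx a ha
      rw [Subgroup.mem_comap]
      have h1 : (MulAut.conj g).toMonoidHom ⁅x, a⁆ = ⁅g * x * g⁻¹, g * a * g⁻¹⁆ := by
        simp only [MulEquiv.coe_toMonoidHom, MulAut.conj_apply, commutatorElement_def]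
        group
      rw [h1]
      exact Subgroup.commutator_mem_commutator ((Subgroup.mem_normalizer_iff.mp hgQ x).mp hx)
        ((Subgroup.mem_normalizer_iff.mp hgA a).mp ha)
    exact fun u hu => this hu
  intro u
  constructor
  · exact key g hg u
  · intro hu
    have := key g⁻¹ (D.inv_mem hg) _ hu
    simpa [mul_assoc] using this

/-- `Q = [Q, A]`. -/
theorem comm_eq (h : IsMinAct p D A Q) : ⁅Q, A⁆ = Q := by
  by_contra hne
  have h1 := h.min _ (commutator_le_of_le_normalizer h.Anorm) h.comm_norm hne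
  have h2 : ⁅⁅Q, A⁆, A⁆ = ⊥ := by
    rw [Subgroup.commutator_eq_bot_iff_le_centralizer]
    exact h1
  rw [coprime_commutator_commutator h.Anorm h.coprime_card h.solv,
    Subgroup.commutator_eq_bot_iff_le_centralizer] at h2
  exact h.nc h2

/-- The Frattini subgroup of `Q`, inside `X`. -/
def frat (Q : Subgroup X) : Subgroup X := (frattini ↥Q).map Q.subtype

theorem mem_frat {x : X} : x ∈ frat Q ↔ ∃ hx : x ∈ Q, (⟨x, hx⟩ : Q) ∈ frattini ↥Q := by
  constructor
  · rintro ⟨y, hy, rfl⟩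
    exact ⟨y.2, hy⟩
  · rintro ⟨hx, h⟩
    exact ⟨_, h, rfl⟩

theorem frat_le : frat Q ≤ Q := Subgroup.map_subtype_le _

/-- Conjugation on `Q`. -/
def conjQ (g : X) (hg : g ∈ Subgroup.normalizer (Q : Set X)) : ↥Q ≃* ↥Q where
  toFun y := ⟨g * y * g⁻¹, (Subgroup.mem_normalizer_iff.mp hg y).mp y.2⟩
  invFun y := ⟨g⁻¹ * y * g, by
    have := (Subgroup.mem_normalizer_iff.mp (Subgroup.inv_mem _ hg) y).mp y.2
    simpa using this⟩
  left_inv y := by
    apply Subtype.ext
    simp [mul_assoc]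
  right_inv y := by
    apply Subtype.ext
    simp [mul_assoc]
  map_mul' a b := by
    apply Subtype.ext
    simp [mul_assoc]

theorem conjQ_coe (g : X) (hg : g ∈ Subgroup.normalizer (Q : Set X)) (y : ↥Q) :
    ((conjQ g hg y : ↥Q) : X) = g * y * g⁻¹ := rfl

theorem frat_norm {g : X} (hg : g ∈ Subgroup.normalizer (Q : Set X)) :
    g ∈ Subgroup.normalizer ((frat Q : Subgroup X) : Set X) := by
  have key : ∀ g (hg : g ∈ Subgroup.normalizer (Q : Set X)), ∀ u ∈ frat Q, g * u * g⁻¹ ∈ frat Q := by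
    rintro g hg _ ⟨y, hy, rfl⟩
    have h1 : (conjQ g hg).toMonoidHom y ∈ frattini ↥Q := by
      have h2 := (Subgroup.characteristic_iff_map_eq.mp (inferInstance : (frattini ↥Q).Characteristic)) (conjQ g hg)
      rw [← h2]
      exact Subgroup.mem_map_of_mem _ hy
    exact ⟨_, h1, rfl⟩
  rw [Subgroup.mem_normalizer_iff]
  intro u
  constructor
  · exact key g hg u
  · intro hu
    have := key g⁻¹ (Subgroup.inv_mem _ hg) _ hu
    simpa [mul_assoc] using this

theorem frat_ne (h : IsMinAct p D A Q) : frat Q ≠ Q := by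
  intro he
  have hQ1 : Q ≠ ⊥ := by
    intro hb
    apply h.nc
    rw [hb]
    exact bot_le
  haveI hnt : Nontrivial ↥Q := (Subgroup.nontrivial_iff_ne_bot Q).mpr hQ1
  obtain ⟨M, hM, -⟩ := exists_isCoatom_ge (G := ↥Q) (K := ⊥) bot_ne_top
  apply hM.1
  rw [eq_top_iff]
  intro y _
  have hy : (y : X) ∈ frat Q := by
    rw [he]
    exact y.2
  obtain ⟨hy', h2⟩ := mem_frat.mp hy
  exact (mem_frattini_iff.mp h2) M hM

theorem frat_cent (h : IsMinAct p D A Q) : frat Q ≤ Subgroup.centralizer (A : Set X) :=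
  h.min _ frat_le (fun _ hg => frat_norm (h.norm hg)) h.frat_ne

theorem frat_normal_Q (h : IsMinAct p D A Q) {x u : X} (hx : x ∈ Q) (hu : u ∈ frat Q) :
    x * u * x⁻¹ ∈ frat Q := by
  have hxN : x ∈ Subgroup.normalizer (Q : Set X) := Subgroup.le_normalizer hx
  exact (Subgroup.mem_normalizer_iff.mp (frat_norm hxN) u).mp hu

/-- `Φ(Q)` is central in `Q`. -/
theorem frat_central (h : IsMinAct p D A Q) {x z : X} (hx : x ∈ Q) (hz : z ∈ frat Q) :
    x * z = z * x := by
  have h1 : ⁅⁅A, frat Q⁆, Q⁆ = ⊥ := by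
    have : ⁅A, frat Q⁆ = ⊥ := by
      rw [Subgroup.commutator_comm, Subgroup.commutator_eq_bot_iff_le_centralizer]
      exact h.frat_cent
    rw [this, Subgroup.commutator_bot_left]
  have h2 : ⁅⁅frat Q, Q⁆, A⁆ = ⊥ := by
    rw [Subgroup.commutator_eq_bot_iff_le_centralizer]
    refine le_trans ?_ h.frat_cent
    rw [Subgroup.commutator_le]
    intro u hu y hy
    have h3 := h.frat_normal_Q hy (Subgroup.inv_mem _ hu)
    have h4 : ⁅u, y⁆ = u * (y * u⁻¹ * y⁻¹) := by
      simp [commutatorElement_def, mul_assoc]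
    rw [h4]
    exact Subgroup.mul_mem _ hu h3
  have h3 : ⁅⁅Q, A⁆, frat Q⁆ = ⊥ := Subgroup.commutator_commutator_eq_bot_of_rotate h1 h2
  rw [h.comm_eq, Subgroup.commutator_eq_bot_iff_le_centralizer] at h3
  have h4 := h3 hx
  exact (Subgroup.mem_centralizer_iff.mp h4 z hz).symm

theorem pow_mem_frat (h : IsMinAct p D A Q) {x : X} (hx : x ∈ Q) : x ^ p ∈ frat Q := by
  haveI := h.pgroup.isNilpotent
  have h1 := pow_mem_frattini_of_isPGroup h.pgroup (⟨x, hx⟩ : Q)
  exact ⟨_, h1, rfl⟩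

theorem comm_mem_frat (h : IsMinAct p D A Q) {x y : X} (hx : x ∈ Q) (hy : y ∈ Q) :
    ⁅x, y⁆ ∈ frat Q := by
  haveI := h.pgroup.isNilpotent
  have h1 := commutator_le_frattini_of_isNilpotent (G := ↥Q)
  have h2 : ⁅(⟨x, hx⟩ : ↥Q), (⟨y, hy⟩ : ↥Q)⁆ ∈ frattini ↥Q := h1 (Subgroup.commutator_mem_commutator trivial trivial)
  exact ⟨_, h2, rfl⟩

/-- Exponent four. -/
theorem pow_four (h : IsMinAct 2 D A Q) {x : X} (hx : x ∈ Q) : x ^ 4 = 1 := by
  have hcen : ∀ z ∈ frat Q, ∀ y ∈ Q, y * z = z * y := fun z hz y hy => h.frat_central hy hz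
  have hFcomm : ∀ a ∈ frat Q, ∀ b ∈ frat Q, Commute a b := fun a ha b hb => (hcen b hb a (frat_le ha))
  have hsq : ∀ u : X, u ^ 4 = (u ^ 2) ^ 2 := fun u => by rw [← pow_mul]
  -- the subgroup of elements with fourth power one
  have hmul : ∀ u ∈ Q, ∀ v ∈ Q, (u * v) ^ 4 = u ^ 4 * v ^ 4 := by
    intro u hu v hv
    have hu2 := h.pow_mem_frat hu
    have hv2 := h.pow_mem_frat hv
    obtain ⟨c, hc⟩ : ∃ c, c = ⁅u⁻¹, v⁆ := ⟨_, rfl⟩
    have hcF : c ∈ frat Q := by
      rw [hc]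
      exact h.comm_mem_frat (Q.inv_mem hu) hv
    have h1 : (u * v) ^ 2 = u ^ 2 * c * v ^ 2 := by
      rw [hc]
      simp only [commutatorElement_def, pow_two, inv_inv]
      group
    have hcQ : c ∈ Q := frat_le hcF
    -- `c² = 1`
    have hc2 : c ^ 2 = 1 := by
      have hw := h.pow_mem_frat (Q.inv_mem hu)
      have h3 : u⁻¹ * c = c * u⁻¹ := hcen c hcF _ (Q.inv_mem hu)
      have h4 : c * c = ⁅u⁻¹ ^ 2, v⁆ := by
        have h5 : c * c = u⁻¹ * c * u * c := by
          rw [h3]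
          group
        rw [h5]
        rw [hc]
        simp only [commutatorElement_def, pow_two, inv_inv, mul_inv_rev, mul_assoc,
          mul_inv_cancel_left, inv_mul_cancel_left]
      have h6 : ⁅u⁻¹ ^ 2, v⁆ = 1 := by
        rw [commutatorElement_eq_one_iff_mul_comm]
        exact (hcen _ hw v hv).symm
      rw [pow_two, h4, h6]
    rw [hsq (u * v), h1, hsq u, hsq v]
    have hac := hFcomm _ hu2 _ hcF
    have hab := hFcomm _ hu2 _ hv2
    have hcb := hFcomm _ hcF _ hv2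
    rw [(Commute.mul_left hab hcb).mul_pow, hac.mul_pow, hc2, mul_one]
  let S : Subgroup X :=
    { carrier := {u | u ∈ Q ∧ u ^ 4 = 1}
      mul_mem' := by
        rintro a b ⟨ha, ha4⟩ ⟨hb, hb4⟩
        exact ⟨Q.mul_mem ha hb, by rw [hmul a ha b hb, ha4, hb4, one_mul]⟩
      one_mem' := ⟨Q.one_mem, one_pow _⟩
      inv_mem' := by
        rintro a ⟨ha, ha4⟩
        exact ⟨Q.inv_mem ha, by rw [inv_pow, ha4, inv_one]⟩ }
  have hle : ⁅Q, A⁆ ≤ S := by
    rw [Subgroup.commutator_le]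
    intro u hu a ha
    have hy : a * u⁻¹ * a⁻¹ ∈ Q :=
      (Subgroup.mem_normalizer_iff.mp (h.Anorm ha) _).mp (Q.inv_mem hu)
    have h1 : ⁅u, a⁆ = u * (a * u⁻¹ * a⁻¹) := by
      simp only [commutatorElement_def, mul_assoc]
    rw [h1]
    refine ⟨Q.mul_mem hu hy, ?_⟩
    rw [hmul u hu _ hy]
    have h4F : (u ^ 4)⁻¹ ∈ frat Q := by
      rw [hsq]
      exact Subgroup.inv_mem _ (Subgroup.pow_mem _ (h.pow_mem_frat hu) 2)
    have hfix : a * (u ^ 4)⁻¹ * a⁻¹ = (u ^ 4)⁻¹ := by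
      have := Subgroup.mem_centralizer_iff.mp (h.frat_cent h4F) a ha
      rw [this, mul_inv_cancel_right]
    have h2 : (a * u⁻¹ * a⁻¹) ^ 4 = a * (u⁻¹) ^ 4 * a⁻¹ := by
      rw [conj_pow]
    rw [h2, inv_pow, hfix, mul_inv_cancel]
  rw [h.comm_eq] at hle
  exact (hle hx).2

/-- The conjugation action of `A` on `Q`. -/
def actHom (h : IsMinAct p D A Q) : ↥A →* MulAut ↥Q where
  toFun a := conjQ (a : X) (h.Anorm a.2)
  map_one' := by
    ext y
    simp [conjQ_coe]
  map_mul' a b := by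
    ext y
    simp [conjQ_coe, mul_assoc]

theorem norm_fixed_abstract {Q' A' B : Type*} [Group Q'] [Group A'] [Fintype A'] [CommGroup B] (π : Q' →* B)
    (β : A' →* MulAut Q')
    (hgen : ∀ N : Q' →* B, (∀ u (a : A'), N (u * (β a u)⁻¹) = 1) → ∀ u, N u = 1)
    (x : Q') (hfix : ∀ a, β a x = x) : π x ^ Fintype.card A' = 1 := by
  classical
  let N : Q' →* B := ∏ b : A', π.comp (β b).toMonoidHom
  have hN : ∀ u, N u = ∏ b : A', π (β b u) := by
    intro u
    simp only [N, MonoidHom.finsetProd_apply, MonoidHom.comp_apply, MulEquiv.coe_toMonoidHom]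
  have hinv : ∀ u (a : A'), N (β a u) = N u := by
    intro u a
    rw [hN, hN]
    refine Fintype.prod_equiv (Equiv.mulRight a) _ _ ?_
    intro b
    simp only [Equiv.coe_mulRight, map_mul, MulAut.mul_apply]
  have h1 := hgen N (fun u a => by rw [map_mul, map_inv, hinv, mul_inv_cancel]) x
  rw [hN] at h1
  simp only [hfix, Finset.prod_const, Finset.card_univ] at h1
  exact h1

/-- `C_Q(A) ≤ Φ(Q)`. -/
theorem fixed_le_frat (h : IsMinAct p D A Q) {x : X} (hx : x ∈ Q)
    (hxc : x ∈ Subgroup.centralizer (A : Set X)) : x ∈ frat Q := by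
  classical
  haveI := h.pgroup.isNilpotent
  letI instC : CommGroup (↥Q ⧸ frattini ↥Q) :=
    { (inferInstance : Group (↥Q ⧸ frattini ↥Q)) with
      mul_comm := by
        intro u v
        obtain ⟨a, rfl⟩ := QuotientGroup.mk_surjective u
        obtain ⟨b, rfl⟩ := QuotientGroup.mk_surjective v
        rw [← QuotientGroup.mk_mul, ← QuotientGroup.mk_mul, QuotientGroup.eq]
        have h1 : (a * b)⁻¹ * (b * a) = ⁅b⁻¹, a⁻¹⁆ := by
          simp only [commutatorElement_def, mul_inv_rev, inv_inv, mul_assoc]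
        rw [h1]
        exact commutator_le_frattini_of_isNilpotent (Subgroup.commutator_mem_commutator trivial trivial) }
  letI : Fintype ↥A := Fintype.ofFinite _
  let π : ↥Q →* (↥Q ⧸ frattini ↥Q) := QuotientGroup.mk' (frattini ↥Q)
  have hπ : ∀ u : ↥Q, π u = 1 ↔ u ∈ frattini ↥Q := fun u => QuotientGroup.eq_one_iff u
  have hgen : ∀ N : ↥Q →* (↥Q ⧸ frattini ↥Q), (∀ u (a : ↥A), N (u * ((h.actHom a) u)⁻¹) = 1) → ∀ u, N u = 1 := by
    intro N hN u
    have hle : ⁅Q, A⁆ ≤ N.ker.map Q.subtype := by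
      rw [Subgroup.commutator_le]
      intro y hy a ha
      refine ⟨⟨y, hy⟩ * ((h.actHom ⟨a, ha⟩) ⟨y, hy⟩)⁻¹, hN _ _, ?_⟩
      show y * (a * y * a⁻¹)⁻¹ = ⁅y, a⁆
      simp only [commutatorElement_def, mul_inv_rev, inv_inv, mul_assoc]
    rw [h.comm_eq] at hle
    obtain ⟨w, hw, hwu⟩ := hle u.2
    have : w = u := Subtype.ext hwu
    rw [← this]
    exact hw
  have hfix : ∀ a : ↥A, (h.actHom a) ⟨x, hx⟩ = ⟨x, hx⟩ := by
    intro a
    apply Subtype.ext
    show (a : X) * x * (a : X)⁻¹ = x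
    have := Subgroup.mem_centralizer_iff.mp hxc a a.2
    rw [this]
    group
  have h1 := norm_fixed_abstract π h.actHom hgen ⟨x, hx⟩ hfix
  have h2 : π ⟨x, hx⟩ ^ p = 1 := by
    rw [← map_pow, hπ]
    exact pow_mem_frattini_of_isPGroup h.pgroup _
  have h3 : (Fintype.card ↥A).Coprime p := by
    rw [← Nat.card_eq_fintype_card]
    exact h.cop
  have h4 := (pow_gcd_eq_one (a := π ⟨x, hx⟩)).mpr ⟨h1, h2⟩
  rw [h3.gcd_eq_one, pow_one, hπ] at h4
  exact mem_frat.mpr ⟨hx, h4⟩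

end IsMinAct

end Cfsg.Agent.Lib.Coprime.MinAct
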