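import Mathlib
import Cfsg.Prelude.Def_TwoFusion
import Cfsg.Agent.Lib.Tech.PNilp
import Cfsg.Agent.Lib.PGroups.Parts
import Cfsg.Agent.Lib.Basic.Hall

/-!
# A normal `p`-complement criterion relative to a strongly closed subgroup
-/

set_option autoImplicit false
set_option linter.unusedSectionVars false
set_option linter.style.haveILetI false
set_option linter.unusedVariables false

namespace Cfsg.Agent.Lib.Coprime.StrongClosed

open Subgroup Cfsg Cfsg.Agent.Lib.Transfer Cfsg.Agent.Lib.Tech

universe u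

variable {G : Type*} [Group G] [Finite G] {p : ℕ} [hpf : Fact p.Prime]

theorem mem_norm_conj {P : Subgroup G} {g : G} (h : ∀ u ∈ P, g * u * g⁻¹ ∈ P) :
    g ∈ Subgroup.normalizer (P : Set G) := by
  have h1 : P.map (MulAut.conj g).toMonoidHom ≤ P := by
    rintro _ ⟨u, hu, rfl⟩
    exact h u hu
  have h2 : P.map (MulAut.conj g).toMonoidHom = P :=
    Subgroup.eq_of_le_of_card_ge h1 (by
      rw [Subgroup.card_map_of_injective (MulAut.conj g).injective])
  rw [Subgroup.mem_normalizer_iff]
  intro u
  constructor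
  · exact h u
  · intro hu
    rw [← h2] at hu
    obtain ⟨v, hv, e⟩ := hu
    have : v = u := by
      have e' : g * v * g⁻¹ = g * u * g⁻¹ := e
      simpa using e'
    rwa [← this]

theorem stable_sub {X : Subgroup G} (h : HasNormalPComplement p ↥X) {Q : Subgroup G} (hQ : IsPGroup p Q)
    (hQX : Q ≤ X) {y : G} (hyX : y ∈ X) (hy : y ∈ normalizer (Q : Set G)) (hcop : Nat.Coprime (orderOf y) p) :
    y ∈ centralizer (Q : Set G) := by
  have hS := hasNormalPComplement_iff_stable.mp h
  have h1 := hS (Q.subgroupOf X) (hQ.comap_of_injective X.subtype X.subtype_injective) ⟨y, hyX⟩ ?_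
    (by rwa [Subgroup.orderOf_mk])
  · rw [mem_centralizer_iff] at h1 ⊢
    intro q hq
    have := h1 ⟨q, hQX hq⟩ hq
    exact congrArg Subtype.val this
  · rw [mem_normalizer_iff]
    intro q
    show (q : G) ∈ Q ↔ y * (q : G) * y⁻¹ ∈ Q
    exact mem_normalizer_iff.mp hy q

theorem card_inf_mul_relIndex (H K : Subgroup G) : Nat.card ↥(H ⊓ K) * H.relIndex K = Nat.card K := by
  have h1 := Subgroup.card_mul_index ((H ⊓ K).subgroupOf K)
  rw [Nat.card_congr (Subgroup.subgroupOfEquivOfLe (inf_le_right : H ⊓ K ≤ K)).toEquiv] at h1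
  have h2 : ((H ⊓ K).subgroupOf K).index = H.relIndex K := Subgroup.inf_relIndex_right H K
  rwa [h2] at h1

theorem relIndex_sup_eq (C E : Subgroup G) [hC : C.Normal] :
    E.relIndex (C ⊔ E) = (E ⊓ C).relIndex C := by
  have h1 := card_inf_mul_relIndex E (C ⊔ E)
  rw [inf_eq_left.mpr (le_sup_right : E ≤ C ⊔ E)] at h1
  have h2 := card_inf_mul_relIndex C (C ⊔ E)
  rw [inf_eq_left.mpr (le_sup_left : C ≤ C ⊔ E), Subgroup.relIndex_sup_left] at h2
  have h3 := card_inf_mul_relIndex C E
  have h4 := card_inf_mul_relIndex E C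
  rw [Subgroup.inf_relIndex_right]
  rw [inf_comm] at h4
  have hc : 0 < C.relIndex E := by
    rcases Nat.eq_zero_or_pos (C.relIndex E) with h0 | h0
    · rw [h0, mul_zero] at h3
      exact absurd h3.symm (Nat.card_pos.ne')
    · exact h0
  have hd : 0 < Nat.card ↥(C ⊓ E) := Nat.card_pos
  apply Nat.eq_of_mul_eq_mul_left (mul_pos hd hc)
  calc Nat.card ↥(C ⊓ E) * C.relIndex E * E.relIndex (C ⊔ E) = Nat.card E * E.relIndex (C ⊔ E) := by rw [h3]
    _ = Nat.card ↥(C ⊔ E) := h1
    _ = Nat.card C * C.relIndex E := h2.symm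
    _ = (Nat.card ↥(C ⊓ E) * E.relIndex C) * C.relIndex E := by rw [h4]
    _ = Nat.card ↥(C ⊓ E) * C.relIndex E * E.relIndex C := by ring

/-- The key lemma. -/
theorem lemmaQ (T : Subgroup G) [hT : T.Normal] (hTp : IsPGroup p T) (hq : HasNormalPComplement p (G ⧸ T))
    (x : G) (hxT : x ∈ centralizer (T : Set G)) (hE : IsPGroup p ↥(T ⊔ zpowers x))
    (hN : HasNormalPComplement p ↥(normalizer ((T ⊔ zpowers x : Subgroup G) : Set G))) :
    HasNormalPComplement p G := by
  classical
  have hp : p.Prime := hpf.out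
  obtain ⟨Nb, hNb, hc, k, hk⟩ := exists_hall_of_hasNormalPComplement hq
  haveI := hNb
  set π : G →* G ⧸ T := QuotientGroup.mk' T with hπ
  have hπs : Function.Surjective π := QuotientGroup.mk'_surjective T
  set K : Subgroup G := Nb.comap π with hK
  haveI hKn : K.Normal := hNb.comap π
  have hπker : ∀ g, π g = 1 ↔ g ∈ T := fun g => QuotientGroup.eq_one_iff g
  have hTK : T ≤ K := by
    intro t ht
    show π t ∈ Nb
    rw [(hπker t).mpr ht]
    exact one_mem _
  have hmemK : ∀ g : G, Nat.Coprime (orderOf g) p → g ∈ K := by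
    intro g hg
    show π g ∈ Nb
    rw [mem_iff_coprime_of_hall hc hk]
    exact Nat.Coprime.coprime_dvd_left (orderOf_map_dvd π g) hg
  have hrel : Nat.Coprime (T.relIndex K) p := by
    have h1 := card_inf_mul_relIndex T K
    rw [inf_eq_left.mpr hTK] at h1
    have h2 : Nat.card K = Nat.card T * Nat.card Nb := Cfsg.Agent.Lib.Basic.card_comap_mk Nb
    have h4 : T.relIndex K = Nat.card Nb := by
      rw [h2] at h1
      exact Nat.eq_of_mul_eq_mul_left Nat.card_pos h1
    rw [h4]
    exact hc
  -- `p`-elements of `K` lie in `T`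
  have hpK : ∀ w ∈ K, (∃ a : ℕ, orderOf w = p ^ a) → w ∈ T := by
    rintro w hw ⟨a, ha⟩
    rw [← hπker]
    have h1 : Nat.Coprime (orderOf (π w)) p := (mem_iff_coprime_of_hall hc hk (π w)).mp hw
    have h2 : orderOf (π w) ∣ p ^ a := by
      rw [← ha]
      exact orderOf_map_dvd π w
    have h3 := Nat.Coprime.eq_one_of_dvd (h1.pow_right a) h2
    exact orderOf_eq_one_iff.mp h3
  set E : Subgroup G := T ⊔ zpowers x with hEdef
  have hTE : T ≤ E := le_sup_left
  have hxE : x ∈ E := Subgroup.mem_sup_right (mem_zpowers x)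
  have hcentn : (centralizer (T : Set G)).Normal := by
    refine ⟨fun c hc' g => ?_⟩
    rw [mem_centralizer_iff] at hc' ⊢
    intro t ht
    have h1 := hc' (g⁻¹ * t * g) (by
      have := hT.conj_mem t ht g⁻¹
      simpa using this)
    calc t * (g * c * g⁻¹) = g * ((g⁻¹ * t * g) * c) * g⁻¹ := by group
      _ = g * (c * (g⁻¹ * t * g)) * g⁻¹ := by rw [h1]
      _ = g * c * g⁻¹ * t := by group
  -- (a)
  have ha : ∀ w ∈ normalizer (E : Set G), Nat.Coprime (orderOf w) p → w ∈ centralizer (T : Set G) := by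
    intro w hw hcw
    apply stable_sub hN hTp (hTE.trans Subgroup.le_normalizer) hw _ hcw
    rw [normalizer_eq_top_iff.mpr hT]
    exact mem_top w
  -- (b)
  have hb : ∀ y : G, Nat.Coprime (orderOf y) p → y ∈ centralizer (T : Set G) := by
    intro y hy
    have hyK := hmemK y hy
    set C₁ : Subgroup G := K ⊓ centralizer (T : Set G) with hC₁
    haveI hC₁n : C₁.Normal := by
      haveI := hcentn
      infer_instance
    have hc₀ : y * x * y⁻¹ * x⁻¹ ∈ C₁ := by
      constructor
      · have h1 : x * y⁻¹ * x⁻¹ ∈ K := hKn.conj_mem _ (inv_mem hyK) x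
        have : y * x * y⁻¹ * x⁻¹ = y * (x * y⁻¹ * x⁻¹) := by group
        show y * x * y⁻¹ * x⁻¹ ∈ K
        rw [this]
        exact mul_mem hyK h1
      · show y * x * y⁻¹ * x⁻¹ ∈ centralizer (T : Set G)
        exact Subgroup.mul_mem _ (hcentn.conj_mem x hxT y) (Subgroup.inv_mem _ hxT)
    set B : Subgroup G := C₁ ⊔ E with hB
    have hC₁B : C₁ ≤ B := le_sup_left
    have hEB : E ≤ B := le_sup_right
    -- index
    have hindex : Nat.Coprime (E.relIndex B) p := by
      rw [hB, relIndex_sup_eq C₁ E]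
      have h1 : (E ⊓ C₁).relIndex C₁ ∣ (T ⊓ C₁).relIndex C₁ :=
        Subgroup.relIndex_dvd_of_le_left _ (inf_le_inf_right _ hTE)
      rw [Subgroup.inf_relIndex_right T C₁] at h1
      have h2 : T.relIndex C₁ ∣ T.relIndex K := by
        rw [← Subgroup.relIndex_sup_right (H := C₁) (K := T)]
        have h3 : C₁ ⊔ T ≤ K := sup_le inf_le_left hTK
        rw [← Subgroup.relIndex_mul_relIndex T (C₁ ⊔ T) K le_sup_right h3]
        exact dvd_mul_right _ _
      exact Nat.Coprime.coprime_dvd_left (h1.trans h2) hrel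
    -- the conjugate of `E`
    set E' : Subgroup G := E.map (MulAut.conj y).toMonoidHom with hE'
    have hE'B : E' ≤ B := by
      rw [hE', hEdef, Subgroup.map_sup]
      apply sup_le
      · rintro _ ⟨t, ht, rfl⟩
        exact hEB (hTE (hT.conj_mem t ht y))
      · rw [MonoidHom.map_zpowers, zpowers_le]
        have : (MulAut.conj y).toMonoidHom x = (y * x * y⁻¹ * x⁻¹) * x := by
          show y * x * y⁻¹ = (y * x * y⁻¹ * x⁻¹) * x
          group
        rw [this]
        exact mul_mem (hC₁B hc₀) (hEB hxE)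
    have hcardE' : Nat.card E' = Nat.card E := Subgroup.card_map_of_injective (MulAut.conj y).injective
    have hEp' : IsPGroup p E' := hE.map _
    have hp₁ : IsPGroup p ↥(E.subgroupOf B) := hE.comap_of_injective B.subtype B.subtype_injective
    have hp₂ : IsPGroup p ↥(E'.subgroupOf B) := hEp'.comap_of_injective B.subtype B.subtype_injective
    have hi₁ : ¬ p ∣ (E.subgroupOf B).index := by
      intro hd
      have : p ∣ E.relIndex B := hd
      exact hp.one_lt.ne' (Nat.Coprime.eq_one_of_dvd hindex.symm this)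
    have hi₂ : ¬ p ∣ (E'.subgroupOf B).index := by
      have e : (E'.subgroupOf B).index = (E.subgroupOf B).index := by
        have h1 := Subgroup.card_mul_index (E'.subgroupOf B)
        have h2 := Subgroup.card_mul_index (E.subgroupOf B)
        rw [Nat.card_congr (Subgroup.subgroupOfEquivOfLe hE'B).toEquiv, hcardE'] at h1
        rw [Nat.card_congr (Subgroup.subgroupOfEquivOfLe hEB).toEquiv] at h2
        exact Nat.eq_of_mul_eq_mul_left Nat.card_pos (h1.trans h2.symm)
      rw [e]
      exact hi₁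
    obtain ⟨b, hb⟩ := MulAction.exists_smul_eq ↥B (hp₁.toSylow hi₁) (hp₂.toSylow hi₂)
    have hbconj : ∀ e ∈ E, (b : G) * e * (b : G)⁻¹ ∈ E' := by
      intro e he
      have h1 : b * (⟨e, hEB he⟩ : ↥B) * b⁻¹ ∈ ((b • hp₁.toSylow hi₁ : Sylow p ↥B) : Subgroup ↥B) := by
        rw [Sylow.coe_subgroup_smul]
        exact ⟨⟨e, hEB he⟩, he, rfl⟩
      rw [hb] at h1
      exact h1
    obtain ⟨c, hc', e₀, he₀, hbe⟩ := Subgroup.mem_sup_of_normal_left.mp b.2
    have hcT : c ∈ centralizer (T : Set G) := hc'.2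
    have hw : ∀ e ∈ E, (y⁻¹ * c) * e * (y⁻¹ * c)⁻¹ ∈ E := by
      intro e he
      have h1 := hbconj (e₀⁻¹ * e * e₀) (mul_mem (mul_mem (inv_mem he₀) he) he₀)
      rw [← hbe] at h1
      obtain ⟨e'', he'', h2⟩ := h1
      have h3 : y * e'' * y⁻¹ = c * e₀ * (e₀⁻¹ * e * e₀) * (c * e₀)⁻¹ := h2
      have h4 : (y⁻¹ * c) * e * (y⁻¹ * c)⁻¹ = e'' := by
        have h5 : c * e₀ * (e₀⁻¹ * e * e₀) * (c * e₀)⁻¹ = c * e * c⁻¹ := by group
        rw [h5] at h3
        calc (y⁻¹ * c) * e * (y⁻¹ * c)⁻¹ = y⁻¹ * (c * e * c⁻¹) * y := by group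
          _ = y⁻¹ * (y * e'' * y⁻¹) * y := by rw [h3]
          _ = e'' := by group
      rw [h4]
      exact he''
    have hwN : y⁻¹ * c ∈ normalizer (E : Set G) := mem_norm_conj hw
    have hwK : y⁻¹ * c ∈ K := mul_mem (inv_mem hyK) hc'.1
    obtain ⟨a, b', hab, hcomm, ⟨k₁, hk₁⟩, hb'ord, ha', hb''⟩ := Cfsg.Agent.Lib.PGroups.exists_pPart p (y⁻¹ * c)
    have haK : a ∈ K := (zpowers_le.mpr hwK) ha'
    have haT : a ∈ T := hpK a haK ⟨k₁, hk₁⟩
    have hb'N : b' ∈ normalizer (E : Set G) := (zpowers_le.mpr hwN) hb''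
    have hb'T : b' ∈ centralizer (T : Set G) :=
      ha b' hb'N ((Nat.Prime.coprime_iff_not_dvd hp).mpr hb'ord).symm
    have hconj : ∀ t ∈ T, y⁻¹ * t * y = a * t * a⁻¹ := by
      intro t ht
      have h1 : (y⁻¹ * c) * t * (y⁻¹ * c)⁻¹ = y⁻¹ * t * y := by
        have h2 : t * c = c * t := (mem_centralizer_iff.mp hcT) t ht
        calc (y⁻¹ * c) * t * (y⁻¹ * c)⁻¹ = y⁻¹ * (c * t) * c⁻¹ * y := by group
          _ = y⁻¹ * (t * c) * c⁻¹ * y := by rw [h2]
          _ = y⁻¹ * t * y := by group
      have h2 : (y⁻¹ * c) * t * (y⁻¹ * c)⁻¹ = a * t * a⁻¹ := by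
        have h3 : t * b' = b' * t := (mem_centralizer_iff.mp hb'T) t ht
        rw [hab]
        calc (a * b') * t * (a * b')⁻¹ = a * (b' * t) * b'⁻¹ * a⁻¹ := by group
          _ = a * (t * b') * b'⁻¹ * a⁻¹ := by rw [h3]
          _ = a * t * a⁻¹ := by group
      rw [← h1, h2]
    have hv : ∀ t ∈ T, y * t * y⁻¹ = a⁻¹ * t * (a⁻¹)⁻¹ := by
      intro t ht
      have h1 := hconj (y * t * y⁻¹) (hT.conj_mem t ht y)
      have h2 : y⁻¹ * (y * t * y⁻¹) * y = t := by group
      rw [h2] at h1
      calc y * t * y⁻¹ = a⁻¹ * (a * (y * t * y⁻¹) * a⁻¹) * a := by group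
        _ = a⁻¹ * t * a := by rw [← h1]
        _ = a⁻¹ * t * (a⁻¹)⁻¹ := by rw [inv_inv]
    have hvT : a⁻¹ ∈ T := inv_mem haT
    have hiter : ∀ (m : ℕ), ∀ t ∈ T, y ^ m * t * (y ^ m)⁻¹ = (a⁻¹) ^ m * t * ((a⁻¹) ^ m)⁻¹ := by
      intro m
      induction m with
      | zero => intro t ht; simp
      | succ m ih =>
        intro t ht
        have h1 := ih t ht
        have h2 : (a⁻¹) ^ m * t * ((a⁻¹) ^ m)⁻¹ ∈ T :=
          mul_mem (mul_mem (pow_mem hvT m) ht) (inv_mem (pow_mem hvT m))
        calc y ^ (m + 1) * t * (y ^ (m + 1))⁻¹ = y * (y ^ m * t * (y ^ m)⁻¹) * y⁻¹ := by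
              rw [pow_succ' y m]; group
          _ = y * ((a⁻¹) ^ m * t * ((a⁻¹) ^ m)⁻¹) * y⁻¹ := by rw [h1]
          _ = a⁻¹ * ((a⁻¹) ^ m * t * ((a⁻¹) ^ m)⁻¹) * (a⁻¹)⁻¹ := hv _ h2
          _ = (a⁻¹) ^ (m + 1) * t * ((a⁻¹) ^ (m + 1))⁻¹ := by
              rw [pow_succ' (a⁻¹) m]; group
    rw [mem_centralizer_iff]
    intro t ht
    have h1 := hiter (orderOf y) t ht
    rw [pow_orderOf_eq_one] at h1
    have h2 : Commute ((a⁻¹) ^ (orderOf y)) t := by
      have e : t = (a⁻¹) ^ (orderOf y) * t * ((a⁻¹) ^ (orderOf y))⁻¹ := by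
        simpa using h1
      show (a⁻¹) ^ (orderOf y) * t = t * (a⁻¹) ^ (orderOf y)
      calc (a⁻¹) ^ (orderOf y) * t = ((a⁻¹) ^ (orderOf y) * t * ((a⁻¹) ^ (orderOf y))⁻¹) * (a⁻¹) ^ (orderOf y) := by group
        _ = t * (a⁻¹) ^ (orderOf y) := by rw [← e]
    have hco : (orderOf y).Coprime (orderOf (a⁻¹)) := by
      rw [orderOf_inv, hk₁]
      exact Nat.Coprime.pow_right _ hy
    obtain ⟨e, he⟩ := exists_pow_eq_self_of_coprime hco
    have h3 : Commute (a⁻¹) t := by
      rw [← he]
      exact h2.pow_left e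
    have h4 := hv t ht
    have h5 : a⁻¹ * t * (a⁻¹)⁻¹ = t := by
      rw [h3.eq]
      group
    rw [h5] at h4
    calc t * y = (y * t * y⁻¹) * y := by rw [h4]
      _ = y * t := by group
  -- conclusion
  rw [hasNormalPComplement_iff_stable]
  intro Q hQ g hgN hcop
  have hgT := hb g hcop
  have hS := hasNormalPComplement_iff_stable.mp hq
  have h1 := hS (Q.map π) (hQ.map π) (π g) (Subgroup.le_normalizer_map π ⟨g, hgN, rfl⟩)
    (Nat.Coprime.coprime_dvd_left (orderOf_map_dvd π g) hcop)
  rw [mem_centralizer_iff] at h1 ⊢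
  intro q hq
  have h2 := h1 (π q) ⟨q, hq, rfl⟩
  have htT : g * q * g⁻¹ * q⁻¹ ∈ T := by
    rw [← hπker, map_mul, map_mul, map_mul, map_inv, map_inv, ← h2]
    group
  set t : G := g * q * g⁻¹ * q⁻¹ with ht
  have hgt : g * t = t * g := by
    have := (mem_centralizer_iff.mp hgT) t htT
    exact this.symm
  have hq1 : g * q * g⁻¹ = t * q := by rw [ht]; group
  have hiter : ∀ m : ℕ, g ^ m * q * (g ^ m)⁻¹ = t ^ m * q := by
    intro m
    induction m with
    | zero => simp
    | succ m ih =>
      have hc1 : Commute g (t ^ m) := (show Commute g t from hgt).pow_right m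
      calc g ^ (m + 1) * q * (g ^ (m + 1))⁻¹ = g * (g ^ m * q * (g ^ m)⁻¹) * g⁻¹ := by
            rw [pow_succ' g m]; group
        _ = g * (t ^ m * q) * g⁻¹ := by rw [ih]
        _ = (g * t ^ m) * q * g⁻¹ := by group
        _ = (t ^ m * g) * q * g⁻¹ := by rw [hc1.eq]
        _ = t ^ m * (g * q * g⁻¹) := by group
        _ = t ^ (m + 1) * q := by rw [hq1, pow_succ]; group
  have h3 := hiter (orderOf g)
  rw [pow_orderOf_eq_one] at h3
  have h4 : t ^ orderOf g = 1 := by
    have e : q = t ^ orderOf g * q := by simpa using h3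
    exact (mul_eq_right.mp e.symm)
  have h5 : t = 1 := by
    obtain ⟨a, ha⟩ := hTp ⟨t, htT⟩
    have ha' : t ^ p ^ a = 1 := by
      have := congrArg Subtype.val ha
      simpa using this
    have h6 := Nat.dvd_gcd (orderOf_dvd_of_pow_eq_one h4) (orderOf_dvd_of_pow_eq_one ha')
    have h7 : (orderOf g).gcd (p ^ a) = 1 := Nat.Coprime.pow_right a hcop
    rw [h7, Nat.dvd_one, orderOf_eq_one_iff] at h6
    exact h6
  have h6 : g * q * g⁻¹ = q := by
    rw [hq1, h5, one_mul]
  calc q * g = (g * q * g⁻¹) * g := by rw [h6]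
    _ = g * q := by group


local notation:max "cj[" g "]" H:max => Subgroup.map (MulEquiv.toMonoidHom (MulAut.conj g)) H

theorem conj_full {S : Subgroup G} (hS : IsPGroup p S) (hi : ¬ p ∣ S.index) {Q : Subgroup G} (hQ : IsPGroup p Q) :
    ∃ g : G, cj[g] Q ≤ S ∧ ¬ p ∣ S.relIndex (normalizer ((cj[g] Q : Subgroup G) : Set G)) := by
  classical
  set X : Subgroup G := normalizer (Q : Set G) with hX
  have hQX : Q ≤ X := Subgroup.le_normalizer
  have h1 : IsPGroup p ↥(Q.subgroupOf X) := hQ.comap_of_injective _ X.subtype_injective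
  obtain ⟨T, hT⟩ := h1.exists_le_sylow
  have hT' : IsPGroup p ↥((T : Subgroup ↥X).map X.subtype) := T.isPGroup'.map _
  obtain ⟨P₁, hP₁⟩ := hT'.exists_le_sylow
  obtain ⟨g, hg⟩ := MulAction.exists_smul_eq G P₁ (hS.toSylow hi)
  have hconj : cj[g] ((T : Subgroup ↥X).map X.subtype) ≤ S := by
    rintro _ ⟨u, hu, rfl⟩
    have h2 : g * u * g⁻¹ ∈ ((g • P₁ : Sylow p G) : Subgroup G) := by
      rw [Sylow.coe_subgroup_smul]
      exact ⟨u, hP₁ hu, rfl⟩
    rw [hg] at h2
    exact h2
  refine ⟨g, ?_, ?_⟩
  · refine le_trans (Subgroup.map_mono ?_) hconj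
    intro q hq
    exact ⟨⟨q, hQX hq⟩, hT hq, rfl⟩
  · have hnorm : normalizer ((cj[g] Q : Subgroup G) : Set G) = cj[g] X :=
      (Subgroup.map_equiv_normalizer_eq Q (MulAut.conj g)).symm
    rw [hnorm]
    intro hd
    have h3 : S.relIndex (cj[g] X) ∣ (cj[g] ((T : Subgroup ↥X).map X.subtype)).relIndex (cj[g] X) :=
      Subgroup.relIndex_dvd_of_le_left _ hconj
    rw [Subgroup.relIndex_map_map_of_injective _ _ (MulAut.conj g).injective] at h3
    have h4 : ((T : Subgroup ↥X).map X.subtype).relIndex X = (T : Subgroup ↥X).index := by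
      rw [Subgroup.relIndex, Subgroup.subgroupOf, Subgroup.comap_map_eq_self_of_injective X.subtype_injective]
    rw [h4] at h3
    exact T.not_dvd_index (hd.trans h3)

theorem central_element {S D : Subgroup G} (hS : IsPGroup p S) (hD : IsStronglyClosed D S) (hne : D ≠ ⊥) :
    ∃ z ∈ D, z ≠ 1 ∧ ∀ s ∈ S, s * z = z * s := by
  haveI hN : (D.subgroupOf S).Normal := by
    refine ⟨fun d hd s => ?_⟩
    show (s : G) * (d : G) * (s : G)⁻¹ ∈ D
    exact hD.2 d hd s (mul_mem (mul_mem s.2 d.2) (inv_mem s.2))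
  have hne' : D.subgroupOf S ≠ ⊥ := by
    obtain ⟨d, hd, hd1⟩ := (Subgroup.bot_or_exists_ne_one D).resolve_left hne
    intro e
    have h1 : (⟨d, hD.1 hd⟩ : ↥S) ∈ D.subgroupOf S := hd
    rw [e, Subgroup.mem_bot] at h1
    exact hd1 (congrArg Subtype.val h1)
  obtain ⟨z, hz, hz1, hzc, -⟩ := Cfsg.Agent.Lib.Transfer.exists_central_of_normal hS hne'
  refine ⟨z, hz, ?_, fun s hs => ?_⟩
  · intro e
    exact hz1 (Subtype.ext e)
  · have := hzc ⟨s, hs⟩
    exact congrArg Subtype.val this

theorem sc_sub {S D : Subgroup G} (hD : IsStronglyClosed D S) (X : Subgroup G) :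
    IsStronglyClosed (D.subgroupOf X) (S.subgroupOf X) := by
  refine ⟨fun x hx => hD.1 hx, fun x hx g hg => ?_⟩
  exact hD.2 x hx g hg

theorem sc_map {S D T : Subgroup G} [hT : T.Normal] (hD : IsStronglyClosed D S) (hTS : T ≤ S) :
    IsStronglyClosed (D.map (QuotientGroup.mk' T)) (S.map (QuotientGroup.mk' T)) := by
  refine ⟨Subgroup.map_mono hD.1, ?_⟩
  rintro _ ⟨d, hd, rfl⟩ gb hgb
  obtain ⟨g, rfl⟩ := QuotientGroup.mk'_surjective T gb
  have e : (QuotientGroup.mk' T) g * (QuotientGroup.mk' T) d * ((QuotientGroup.mk' T) g)⁻¹ =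
      (QuotientGroup.mk' T) (g * d * g⁻¹) := by
    simp only [map_mul, map_inv]
  rw [e] at hgb ⊢
  obtain ⟨s, hs, hse⟩ := hgb
  have h1 : s⁻¹ * (g * d * g⁻¹) ∈ T := by
    have := (QuotientGroup.eq (s := T)).mp hse
    exact this
  have h2 : g * d * g⁻¹ ∈ S := by
    have : g * d * g⁻¹ = s * (s⁻¹ * (g * d * g⁻¹)) := by group
    rw [this]
    exact mul_mem hs (hTS h1)
  exact ⟨_, hD.2 d hd g h2, rfl⟩

/-- Theorem A: all nontrivial subgroups of `D` have `p`-nilpotent normalizers. -/
theorem thmA : ∀ (n : ℕ) (G : Type u) [Group G] [Finite G], Nat.card G ≤ n → ∀ (S D : Subgroup G),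
    IsPGroup p S → ¬ p ∣ S.index → IsStronglyClosed D S → D ≠ ⊥ →
    (∀ R : Subgroup G, R ≤ D → R ≠ ⊥ → HasNormalPComplement p ↥(normalizer (R : Set G))) →
    HasNormalPComplement p G := by
  intro n
  induction n with
  | zero =>
    intro G _ _ h
    have := Nat.card_pos (α := G)
    omega
  | succ n IH =>
    intro G _ _ hcard S D hS hi hD hDne hN
    classical
    have hp : p.Prime := hpf.out
    obtain ⟨z, hzD, hz1, hzS⟩ := central_element hS hD hDne
    -- the core
    have core : ∀ Q : Subgroup G, Q ≠ ⊥ → Q ≤ S → ¬ p ∣ S.relIndex (normalizer (Q : Set G)) →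
        HasNormalPComplement p ↥(normalizer (Q : Set G)) := by
      intro Q hQ1 hQS hQi
      have hQp : IsPGroup p Q := hS.to_le hQS
      by_cases hR : Q ⊓ D = ⊥
      · by_cases hX : normalizer (Q : Set G) = ⊤
        · -- `Q` is normal
          haveI hQn : Q.Normal := normalizer_eq_top_iff.mp hX
          have hπs : Function.Surjective (QuotientGroup.mk' Q) := QuotientGroup.mk'_surjective Q
          have hcardlt : Nat.card (G ⧸ Q) ≤ n := by
            have h1 := Subgroup.card_eq_card_quotient_mul_card_subgroup Q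
            have h2 : 2 ≤ Nat.card Q := by
              have h3 : Nat.card Q ≠ 1 := fun e => hQ1 (Subgroup.card_eq_one.mp e)
              have h4 : 0 < Nat.card Q := Nat.card_pos
              omega
            have h5 : 0 < Nat.card (G ⧸ Q) := Nat.card_pos
            have : Nat.card (G ⧸ Q) * 2 ≤ Nat.card G := by
              rw [h1]
              exact Nat.mul_le_mul_left _ h2
            omega
          have hzQ : z ∉ Q := by
            intro hzq
            have : z ∈ Q ⊓ D := ⟨hzq, hzD⟩
            rw [hR] at this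
            exact hz1 (Subgroup.mem_bot.mp this)
          have hq : HasNormalPComplement p (G ⧸ Q) := by
            refine IH (G ⧸ Q) hcardlt (S.map (QuotientGroup.mk' Q)) (D.map (QuotientGroup.mk' Q)) (hS.map _) ?_
              (sc_map hD hQS) ?_ ?_
            · intro hd
              exact hi (hd.trans (Subgroup.index_map_dvd S hπs))
            · intro he
              have : (QuotientGroup.mk' Q) z ∈ D.map (QuotientGroup.mk' Q) := ⟨z, hzD, rfl⟩
              rw [he, Subgroup.mem_bot] at this
              exact hzQ ((QuotientGroup.eq_one_iff z).mp this)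
            · intro Rb hRb hRb1
              set R : Subgroup G := D ⊓ Rb.comap (QuotientGroup.mk' Q) with hRdef
              have hRmap : R.map (QuotientGroup.mk' Q) = Rb := by
                apply le_antisymm
                · rintro _ ⟨r, hr, rfl⟩
                  exact hr.2
                · intro b hb
                  obtain ⟨d, hd, hde⟩ := hRb hb
                  exact ⟨d, ⟨hd, by
                    show (QuotientGroup.mk' Q) d ∈ Rb
                    rw [hde]
                    exact hb⟩, hde⟩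
              have hRne : R ≠ ⊥ := by
                intro e
                apply hRb1
                rw [← hRmap, e, Subgroup.map_bot]
              refine hnpc_of_le_map (QuotientGroup.mk' Q) _ _ ?_ (hN R inf_le_left hRne)
              intro b hb
              obtain ⟨g, rfl⟩ := hπs b
              refine ⟨g, ?_, rfl⟩
              apply mem_norm_conj
              intro r hr
              have h1 : (QuotientGroup.mk' Q) (g * r * g⁻¹) ∈ Rb := by
                have h2 := (mem_normalizer_iff.mp hb ((QuotientGroup.mk' Q) r)).mp hr.2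
                simpa only [map_mul, map_inv] using h2
              refine ⟨?_, h1⟩
              apply hD.2 r hr.1 g
              obtain ⟨d, hd, hde⟩ := hRb h1
              have h3 : d⁻¹ * (g * r * g⁻¹) ∈ Q := (QuotientGroup.eq (s := Q)).mp hde
              have : g * r * g⁻¹ = d * (d⁻¹ * (g * r * g⁻¹)) := by group
              rw [this]
              exact mul_mem (hD.1 hd) (hQS h3)
          have hzC : z ∈ centralizer (Q : Set G) := by
            rw [mem_centralizer_iff]
            intro q hq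
            exact hzS q (hQS hq)
          have hES : Q ⊔ zpowers z ≤ S := sup_le hQS (zpowers_le.mpr (hD.1 hzD))
          have hEN : HasNormalPComplement p ↥(normalizer ((Q ⊔ zpowers z : Subgroup G) : Set G)) := by
            have hle : normalizer ((Q ⊔ zpowers z : Subgroup G) : Set G) ≤ normalizer ((zpowers z : Subgroup G) : Set G) := by
              intro g hg
              have h1 : g * z * g⁻¹ ∈ Q ⊔ zpowers z :=
                (mem_normalizer_iff.mp hg z).mp (Subgroup.mem_sup_right (mem_zpowers z))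
              have h2 : g * z * g⁻¹ ∈ D := hD.2 z hzD g (hES h1)
              obtain ⟨q, hq, ζ, hζ, e⟩ := Subgroup.mem_sup_of_normal_left.mp h1
              have hqD : q ∈ D := by
                have : q = (g * z * g⁻¹) * ζ⁻¹ := by rw [← e]; group
                rw [this]
                exact mul_mem h2 (inv_mem ((zpowers_le.mpr hzD) hζ))
              have hq1 : q = 1 := by
                have : q ∈ Q ⊓ D := ⟨hq, hqD⟩
                rw [hR] at this
                exact Subgroup.mem_bot.mp this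
              have h3 : g * z * g⁻¹ ∈ zpowers z := by
                rw [← e, hq1, one_mul]
                exact hζ
              apply mem_norm_conj
              rintro _ ⟨k, rfl⟩
              show g * z ^ k * g⁻¹ ∈ zpowers z
              rw [← conj_zpow]
              exact Subgroup.zpow_mem _ h3 k
            have h4 := hN (zpowers z) (zpowers_le.mpr hzD) (by
              intro e
              exact hz1 (zpowers_eq_bot.mp e))
            exact hnpc_of_injective (Subgroup.inclusion hle) (Subgroup.inclusion_injective hle) h4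
          have hG := lemmaQ Q hQp hq z hzC (hS.to_le hES) hEN
          exact hasNormalPComplement_subgroup hG _
        · -- the normalizer is proper
          have hcardlt : Nat.card ↥(normalizer (Q : Set G)) ≤ n := by
            by_contra hlt
            apply hX
            apply Subgroup.eq_of_le_of_card_ge le_top
            rw [Subgroup.card_top]
            omega
          refine IH _ hcardlt (S.subgroupOf _) (D.subgroupOf _)
            (hS.comap_of_injective _ (Subgroup.subtype_injective _)) hQi (sc_sub hD _) ?_ ?_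
          · have hzX : z ∈ normalizer (Q : Set G) := by
              apply Subgroup.centralizer_le_normalizer
              rw [mem_centralizer_iff]
              intro q hq
              exact hzS q (hQS hq)
            intro e
            have : (⟨z, hzX⟩ : ↥(normalizer (Q : Set G))) ∈ D.subgroupOf (normalizer (Q : Set G)) := hzD
            rw [e, Subgroup.mem_bot] at this
            exact hz1 (congrArg Subtype.val this)
          · intro R' hR' hR'1
            apply hnpc_normalizer_of_injective _ (Subgroup.subtype_injective _) R'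
            apply hN
            · rintro _ ⟨r, hr, rfl⟩
              exact hR' hr
            · intro e
              exact hR'1 ((Subgroup.map_eq_bot_iff_of_injective _ (Subgroup.subtype_injective _)).mp e)
      · -- `Q ⊓ D` nontrivial
        have hle : normalizer (Q : Set G) ≤ normalizer ((Q ⊓ D : Subgroup G) : Set G) := by
          intro g hg
          apply mem_norm_conj
          intro r hr
          have h1 : g * r * g⁻¹ ∈ Q := (mem_normalizer_iff.mp hg r).mp hr.1
          exact ⟨h1, hD.2 r hr.2 g (hQS h1)⟩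
        exact hnpc_of_injective (Subgroup.inclusion hle) (Subgroup.inclusion_injective hle)
          (hN _ inf_le_right hR)
    rw [hasNormalPComplement_iff_stable]
    intro Q₀ hQ₀ y₀ hy₀N hy₀c
    by_cases hQ₀1 : Q₀ = ⊥
    · rw [mem_centralizer_iff]
      intro q hq
      rw [hQ₀1] at hq
      have : q = 1 := Subgroup.mem_bot.mp hq
      rw [this, one_mul, mul_one]
    · obtain ⟨g, hg1, hg2⟩ := conj_full hS hi hQ₀
      have hne : cj[g] Q₀ ≠ ⊥ := by
        intro e
        exact hQ₀1 ((Subgroup.map_eq_bot_iff_of_injective _ (MulAut.conj g).injective).mp e)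
      have h1 := hnpc_normalizer_conj Q₀ g (core _ hne hg1 hg2)
      exact stable_sub h1 hQ₀ Subgroup.le_normalizer hy₀N hy₀N hy₀c


/-- The inductive step of Theorem B. -/
theorem stepB {G : Type u} [Group G] [Finite G] {S D : Subgroup G} (hS : IsPGroup p S) (hi : ¬ p ∣ S.index)
    (hD : IsStronglyClosed D S)
    (hU : ∀ U : Subgroup G, U ≤ D → D ⊓ Subgroup.centralizer (U : Set G) ≤ U →
      HasNormalPComplement p ↥(normalizer (U : Set G)))
    {R : Subgroup G} (hRD : R ≤ D) (hR1 : R ≠ ⊥)
    (hIH : ∀ R₁ : Subgroup G, R₁ ≤ D → R₁ ≠ ⊥ → Nat.card R < Nat.card R₁ →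
      HasNormalPComplement p ↥(normalizer (R₁ : Set G))) :
    HasNormalPComplement p ↥(normalizer (R : Set G)) := by
  classical
  have hRp : IsPGroup p R := hS.to_le (hRD.trans hD.1)
  obtain ⟨g, hg1, hg2⟩ := conj_full hS hi hRp
  apply hnpc_normalizer_conj R g
  set R' : Subgroup G := cj[g] R with hR'
  have hR'D : R' ≤ D := by
    rintro _ ⟨r, hr, rfl⟩
    exact hD.2 r (hRD hr) g (hg1 ⟨r, hr, rfl⟩)
  have hcardR' : Nat.card R' = Nat.card R := Subgroup.card_map_of_injective (MulAut.conj g).injective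
  by_cases hcent : D ⊓ Subgroup.centralizer (R' : Set G) ≤ R'
  · exact hU R' hR'D hcent
  · obtain ⟨x, ⟨hxD, hxC⟩, hxR⟩ := SetLike.not_le_iff_exists.mp hcent
    set X : Subgroup G := normalizer (R' : Set G) with hX
    have hxC0 : x ∈ centralizer (R' : Set G) := hxC
    have hxX : x ∈ X := (Subgroup.centralizer_le_normalizer (R' : Set G)) hxC0
    have hR'X : R' ≤ X := Subgroup.le_normalizer
    have hS₁ : IsPGroup p ↥(S.subgroupOf X) := hS.comap_of_injective _ X.subtype_injective
    haveI hTn : (R'.subgroupOf X).Normal := Subgroup.normal_in_normalizer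
    set T : Subgroup ↥X := R'.subgroupOf X with hT
    have hTS : T ≤ S.subgroupOf X := fun t ht => hg1 ht
    have hTD : T ≤ D.subgroupOf X := fun t ht => hR'D ht
    have hTp : IsPGroup p ↥T := hS₁.to_le hTS
    have hπs : Function.Surjective (QuotientGroup.mk' T) := QuotientGroup.mk'_surjective T
    have hmapsub : ∀ W : Subgroup ↥X, T ≤ W → W ≠ T → R' ≤ W.map X.subtype ∧ Nat.card R < Nat.card ↥(W.map X.subtype) := by
      intro W hW hne
      have hle : R' ≤ W.map X.subtype := by
        intro r hr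
        exact ⟨⟨r, hR'X hr⟩, hW hr, rfl⟩
      refine ⟨hle, ?_⟩
      rw [← hcardR']
      apply lt_of_le_of_ne (Subgroup.card_le_of_le hle)
      intro e
      apply hne
      have h3 : R' = W.map X.subtype := Subgroup.eq_of_le_of_card_ge hle e.ge
      apply le_antisymm _ hW
      intro w hw
      have : (w : G) ∈ R' := by
        rw [h3]
        exact ⟨w, hw, rfl⟩
      exact this
    have hq : HasNormalPComplement p (↥X ⧸ T) := by
      refine thmA _ (↥X ⧸ T) le_rfl ((S.subgroupOf X).map (QuotientGroup.mk' T)) ((D.subgroupOf X).map (QuotientGroup.mk' T))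
        (hS₁.map _) ?_ (sc_map (sc_sub hD X) hTS) ?_ ?_
      · intro hd
        exact hg2 (hd.trans (Subgroup.index_map_dvd _ hπs))
      · intro he
        have h1 : (QuotientGroup.mk' T) ⟨x, hxX⟩ ∈ (D.subgroupOf X).map (QuotientGroup.mk' T) := ⟨⟨x, hxX⟩, hxD, rfl⟩
        rw [he, Subgroup.mem_bot] at h1
        exact hxR ((QuotientGroup.eq_one_iff (⟨x, hxX⟩ : ↥X)).mp h1)
      · intro Rb hRb hRb1
        set R₂ : Subgroup ↥X := Rb.comap (QuotientGroup.mk' T) with hR₂
        have hTR₂ : T ≤ R₂ := by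
          intro t ht
          show (QuotientGroup.mk' T) t ∈ Rb
          have e1 : (QuotientGroup.mk' T) t = 1 := (QuotientGroup.eq_one_iff t).mpr ht
          rw [e1]
          exact one_mem _
        have hne : R₂ ≠ T := by
          intro e
          apply hRb1
          rw [← Subgroup.map_comap_eq_self_of_surjective hπs Rb, ← hR₂, e]
          rw [eq_bot_iff]
          rintro _ ⟨t, ht, rfl⟩
          rw [Subgroup.mem_bot]
          exact (QuotientGroup.eq_one_iff t).mpr ht
        obtain ⟨hle1, hlt⟩ := hmapsub R₂ hTR₂ hne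
        have hR₂D : R₂.map X.subtype ≤ D := by
          rintro _ ⟨r, hr, rfl⟩
          obtain ⟨d, hd, hde⟩ := hRb hr
          have h3 : d⁻¹ * r ∈ T := (QuotientGroup.eq (s := T)).mp hde
          have h4 : r = d * (d⁻¹ * r) := by group
          rw [h4]
          exact (D.subgroupOf X).mul_mem hd (hTD h3)
        have hR₁ne : R₂.map X.subtype ≠ ⊥ := by
          intro e
          apply hR1
          have : Nat.card ↥(R₂.map X.subtype) = 1 := by rw [e]; simp
          rw [this] at hlt
          have h5 : 0 < Nat.card R := Nat.card_pos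
          omega
        have h5 := hnpc_normalizer_of_injective X.subtype X.subtype_injective R₂ (hIH _ hR₂D hR₁ne hlt)
        refine hnpc_of_le_map (QuotientGroup.mk' T) _ _ ?_ h5
        intro b hb
        obtain ⟨y, rfl⟩ := hπs b
        refine ⟨y, ?_, rfl⟩
        apply mem_norm_conj
        intro r hr
        show (QuotientGroup.mk' T) (y * r * y⁻¹) ∈ Rb
        have h2 := (mem_normalizer_iff.mp hb ((QuotientGroup.mk' T) r)).mp hr
        simpa only [map_mul, map_inv] using h2
    -- apply the key lemma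
    have hxC' : (⟨x, hxX⟩ : ↥X) ∈ centralizer (T : Set ↥X) := by
      rw [mem_centralizer_iff]
      intro t ht
      apply Subtype.ext
      exact (mem_centralizer_iff.mp hxC0) t ht
    have hES : T ⊔ zpowers (⟨x, hxX⟩ : ↥X) ≤ S.subgroupOf X :=
      sup_le hTS (zpowers_le.mpr (hD.1 hxD))
    refine lemmaQ T hTp hq ⟨x, hxX⟩ hxC' (hS₁.to_le hES) ?_
    have hne : T ⊔ zpowers (⟨x, hxX⟩ : ↥X) ≠ T := by
      intro e
      apply hxR
      have : (⟨x, hxX⟩ : ↥X) ∈ T := by
        rw [← e]
        exact Subgroup.mem_sup_right (mem_zpowers _)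
      exact this
    obtain ⟨hle1, hlt⟩ := hmapsub _ le_sup_left hne
    apply hnpc_normalizer_of_injective X.subtype X.subtype_injective
    apply hIH _ _ _ hlt
    · rw [Subgroup.map_sup]
      apply sup_le
      · rintro _ ⟨r, hr, rfl⟩
        exact hTD hr
      · rw [MonoidHom.map_zpowers, zpowers_le]
        exact hxD
    · intro e
      apply hR1
      have : Nat.card ↥((T ⊔ zpowers (⟨x, hxX⟩ : ↥X)).map X.subtype) = 1 := by rw [e]; simp
      rw [this] at hlt
      have h5 : 0 < Nat.card R := Nat.card_pos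
      omega

/-- Theorem B. -/
theorem thmB {G : Type u} [Group G] [Finite G] {S D : Subgroup G} (hS : IsPGroup p S) (hi : ¬ p ∣ S.index)
    (hD : IsStronglyClosed D S)
    (hU : ∀ U : Subgroup G, U ≤ D → D ⊓ Subgroup.centralizer (U : Set G) ≤ U →
      HasNormalPComplement p ↥(normalizer (U : Set G))) :
    HasNormalPComplement p G := by
  by_cases hD1 : D = ⊥
  · have h1 := hU ⊥ bot_le (by rw [hD1]; exact inf_le_left)
    have htop : normalizer (((⊥ : Subgroup G) : Subgroup G) : Set G) = ⊤ := by
      rw [normalizer_eq_top_iff]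
      infer_instance
    refine hnpc_of_surjective (normalizer (((⊥ : Subgroup G) : Subgroup G) : Set G)).subtype ?_ h1
    intro g
    exact ⟨⟨g, by rw [htop]; trivial⟩, rfl⟩
  · have claim : ∀ k : ℕ, ∀ R : Subgroup G, R ≤ D → R ≠ ⊥ → Nat.card D - Nat.card R ≤ k →
        HasNormalPComplement p ↥(normalizer (R : Set G)) := by
      intro k
      induction k with
      | zero =>
        intro R hRD hR1 hk
        refine stepB hS hi hD hU hRD hR1 ?_
        intro R₁ hR₁D _ hlt
        have := Subgroup.card_le_of_le hR₁D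
        omega
      | succ k ih =>
        intro R hRD hR1 hk
        refine stepB hS hi hD hU hRD hR1 ?_
        intro R₁ hR₁D hR₁1 hlt
        exact ih R₁ hR₁D hR₁1 (by omega)
    exact thmA _ G le_rfl S D hS hi hD hD1 (fun R hRD hR1 => claim _ R hRD hR1 le_rfl)

end Cfsg.Agent.Lib.Coprime.StrongClosed
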