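import Mathlib

/-!
# Triples of elements of order three with product one

The triangle group `(3,3,3)` has an abelian normal subgroup of index three; this gives a strong
restriction on the solutions of `x y w = 1` with `x, y, w` of order dividing three.
-/

set_option autoImplicit false

namespace Cfsg.Agent.Lib.Coprime.Tri333

universe u

variable {G : Type u} [Group G]

/-- Identities in the triangle group. -/
theorem tri_identities {x y w : G} (hx : x * x * x = 1) (hy : y * y * y = 1) (hw : w * w * w = 1)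
    (h : x * y * w = 1) :
    (x * y⁻¹) * (x⁻¹ * y) = (x⁻¹ * y) * (x * y⁻¹) ∧
    w * (x * y⁻¹) * w⁻¹ = (x * y⁻¹)⁻¹ * (x⁻¹ * y) ∧
    w * (x⁻¹ * y) * w⁻¹ = (x * y⁻¹)⁻¹ ∧
    x = (x⁻¹ * y) * w ∧
    y = (x * y⁻¹)⁻¹ * (x⁻¹ * y) * w := by
  have hw' : w = y⁻¹ * x⁻¹ := by
    have h2 : x * (y * w) = 1 := by rw [← mul_assoc]; exact h
    have h3 : y * w = x⁻¹ := eq_inv_of_mul_eq_one_right h2
    rw [← h3]; group
  have xinv : x⁻¹ = x * x := by
    rw [inv_eq_iff_mul_eq_one]; rw [← mul_assoc]; exact hx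
  have yinv : y⁻¹ = y * y := by
    rw [inv_eq_iff_mul_eq_one]; rw [← mul_assoc]; exact hy
  have hxy : x * y * x * y * x * y = 1 := by
    have h1 : w⁻¹ = x * y := by rw [hw']; group
    have h2 : w⁻¹ * w⁻¹ * w⁻¹ = 1 := by
      have : (w * w * w)⁻¹ = w⁻¹ * w⁻¹ * w⁻¹ := by group
      rw [← this, hw, inv_one]
    rw [h1] at h2
    simpa [mul_assoc] using h2
  have hyy : x * y * x * y * x = y * y := by
    rw [← yinv, eq_inv_iff_mul_eq_one]
    exact hxy
  have hxyx : y⁻¹ * (x * (y * (x * y))) = y * x⁻¹ := by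
    rw [inv_mul_eq_iff_eq_mul]
    -- `x y x y = y y x⁻¹`
    have : x * y * x * y = y * y * x⁻¹ := by
      rw [eq_mul_inv_iff_mul_eq]; exact hyy
    rw [← mul_assoc, ← mul_assoc, ← mul_assoc, this]
  refine ⟨?_, ?_, ?_, ?_, ?_⟩
  · -- commute
    rw [xinv, yinv]
    calc x * (y * y) * (x * x * y) = x * ((y * y) * x * x * y) := by group
      _ = x * ((x * y * x * y * x) * x * x * y) := by rw [hyy]
      _ = x * x * y * x * y * (x * x * x) * y := by group
      _ = x * x * y * (x * (y * y)) := by rw [hx]; simp only [mul_one, mul_assoc]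
  · -- `w a w⁻¹`
    rw [hw']
    have e1 : y⁻¹ * x⁻¹ * (x * y⁻¹) * (y⁻¹ * x⁻¹)⁻¹ = y⁻¹ * y⁻¹ * x * y := by group
    have e2 : (x * y⁻¹)⁻¹ * (x⁻¹ * y) = y * (x⁻¹ * x⁻¹) * y := by group
    rw [e1, e2]
    have e3 : x⁻¹ * x⁻¹ = x := by
      rw [xinv]
      have : x * x * (x * x) = (x * x * x) * x := by group
      rw [this, hx, one_mul]
    have e4 : y⁻¹ * y⁻¹ = y := by
      rw [yinv]
      have : y * y * (y * y) = (y * y * y) * y := by group
      rw [this, hy, one_mul]
    rw [e3, e4]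
  · -- `w b w⁻¹`
    rw [hw']
    have e1 : y⁻¹ * x⁻¹ * (x⁻¹ * y) * (y⁻¹ * x⁻¹)⁻¹ = y⁻¹ * (x⁻¹ * x⁻¹ * (y * (x * y))) := by group
    have e3 : x⁻¹ * x⁻¹ = x := by
      rw [xinv]
      have : x * x * (x * x) = (x * x * x) * x := by group
      rw [this, hx, one_mul]
    rw [e1, e3, hxyx]
    group
  · rw [hw']
    have e3 : x⁻¹ * x⁻¹ = x := by
      rw [xinv]
      have : x * x * (x * x) = (x * x * x) * x := by group
      rw [this, hx, one_mul]
    have : x⁻¹ * y * (y⁻¹ * x⁻¹) = x⁻¹ * x⁻¹ := by group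
    rw [this, e3]
  · rw [hw']
    have e3 : x⁻¹ * x⁻¹ = x := by
      rw [xinv]
      have : x * x * (x * x) = (x * x * x) * x := by group
      rw [this, hx, one_mul]
    have : (x * y⁻¹)⁻¹ * (x⁻¹ * y) * (y⁻¹ * x⁻¹) = y * (x⁻¹ * x⁻¹) * x⁻¹ := by group
    rw [this, e3]
    group

/-- The main structural lemma: if `x y w = 1` and the elements have order dividing `3`, and the
centraliser of `w` meets the (abelian) group generated by `x y⁻¹`, `x⁻¹ y` trivially, then `x` is
conjugate to `w`. Otherwise there is a nonidentity element `c` of the abelian group commuting with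
`w`, and `x`, `y` lie in the subgroup containing the centraliser of `c` together with `w`. -/
theorem tri_main [Finite G] {x y w : G} (hx : x ^ 3 = 1) (hy : y ^ 3 = 1) (hw : w ^ 3 = 1)
    (h : x * y * w = 1) :
    IsConj w x ∨ ∃ c : G, c ≠ 1 ∧ c * w = w * c ∧
      c * (x * y⁻¹) = (x * y⁻¹) * c ∧ c * (x⁻¹ * y) = (x⁻¹ * y) * c := by
  have hx' : x * x * x = 1 := by rw [← pow_three']; exact hx
  have hy' : y * y * y = 1 := by rw [← pow_three']; exact hy
  have hw' : w * w * w = 1 := by rw [← pow_three']; exact hw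
  obtain ⟨hcomm, hwa, hwb, hxb, hya⟩ := tri_identities hx' hy' hw' h
  set a := x * y⁻¹ with ha
  set b := x⁻¹ * y with hb
  let A : Subgroup G := Subgroup.closure {a, b}
  have hA_comm : ∀ c ∈ A, ∀ c' ∈ A, c * c' = c' * c := by
    intro c hc c' hc'
    have h1 : A ≤ Subgroup.centralizer ({a, b} : Set G) := by
      rw [show A = Subgroup.closure {a, b} from rfl, Subgroup.closure_le]
      intro p hp
      rw [SetLike.mem_coe, Subgroup.mem_centralizer_iff]
      intro q hq
      rcases hp with rfl | rfl <;> rcases hq with rfl | rfl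
      · rfl
      · exact hcomm.symm
      · exact hcomm
      · rfl
    have h2 : A ≤ Subgroup.centralizer ({c} : Set G) := by
      rw [show A = Subgroup.closure {a, b} from rfl, Subgroup.closure_le]
      intro p hp
      rw [SetLike.mem_coe, Subgroup.mem_centralizer_iff]
      intro q hq
      rw [Set.mem_singleton_iff] at hq
      subst hq
      have := (Subgroup.mem_centralizer_iff.mp (h1 hc)) p hp
      exact this.symm
    have := (Subgroup.mem_centralizer_iff.mp (h2 hc')) c rfl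
    exact this
  have ha_mem : a ∈ A := Subgroup.subset_closure (by simp)
  have hb_mem : b ∈ A := Subgroup.subset_closure (by simp)
  have hA_conj : ∀ c ∈ A, w * c * w⁻¹ ∈ A := by
    intro c hc
    induction hc using Subgroup.closure_induction with
    | mem p hp =>
      rcases hp with rfl | rfl
      · rw [hwa]; exact A.mul_mem (A.inv_mem ha_mem) hb_mem
      · rw [hwb]; exact A.inv_mem ha_mem
    | one => simp [A.one_mem]
    | mul p q _ _ hp hq =>
      have : w * (p * q) * w⁻¹ = (w * p * w⁻¹) * (w * q * w⁻¹) := by group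
      rw [this]; exact A.mul_mem hp hq
    | inv p _ hp =>
      have : w * p⁻¹ * w⁻¹ = (w * p * w⁻¹)⁻¹ := by group
      rw [this]; exact A.inv_mem hp
  by_cases hfix : ∃ c ∈ A, c ≠ 1 ∧ c * w = w * c
  · obtain ⟨c, hc, hc1, hcw⟩ := hfix
    exact Or.inr ⟨c, hc1, hcw, hA_comm c hc a ha_mem, hA_comm c hc b hb_mem⟩
  · left
    push Not at hfix
    -- the commutator map is injective on `A`
    let ψ : A → A := fun c => ⟨c * (w * (c : G)⁻¹ * w⁻¹), A.mul_mem c.2 (hA_conj _ (A.inv_mem c.2))⟩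
    have hψ : Function.Injective ψ := by
      intro c c' hcc
      have h1 : (c : G) * (w * (c : G)⁻¹ * w⁻¹) = c' * (w * (c' : G)⁻¹ * w⁻¹) :=
        congrArg Subtype.val hcc
      by_contra hne
      have hne' : (c' : G)⁻¹ * c ≠ 1 := by
        intro h0
        apply hne
        apply Subtype.ext
        exact (inv_mul_eq_one.mp h0).symm
      apply hfix _ (A.mul_mem (A.inv_mem c'.2) c.2) hne'
      -- `c'⁻¹ c` is fixed by `w`
      have h5 : (c' : G)⁻¹ * (c : G) = (w * (c' : G)⁻¹ * w⁻¹) * (w * (c : G)⁻¹ * w⁻¹)⁻¹ := by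
        rw [eq_mul_inv_iff_mul_eq, mul_assoc, h1]
        group
      calc (c' : G)⁻¹ * c * w = ((w * (c' : G)⁻¹ * w⁻¹) * (w * (c : G)⁻¹ * w⁻¹)⁻¹) * w := by rw [← h5]
        _ = w * ((c' : G)⁻¹ * c) := by group
    have hsurj : Function.Surjective ψ := Finite.surjective_of_injective hψ
    obtain ⟨c, hc⟩ := hsurj ⟨b, hb_mem⟩
    have h1 : (c : G) * (w * (c : G)⁻¹ * w⁻¹) = b := congrArg Subtype.val hc
    rw [isConj_iff]
    refine ⟨c, ?_⟩
    rw [hxb, ← h1]
    group

end Cfsg.Agent.Lib.Coprime.Tri333
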