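import Mathlib
import Cfsg.Agent.Lib.Coprime.Tri333
import Cfsg.Agent.Lib.Coprime.Class333

/-!
# A self-centralising elementary abelian subgroup of order nine with Klein four automiser

The local analysis: the classes of `T` in `G` and the class constants.
-/

set_option autoImplicit false

namespace Cfsg.Agent.Lib.Coprime.Sub333

open Cfsg

universe u

variable {G : Type u} [Group G]

theorem card_one_of (P : G × G → Prop) (p₀ : G × G) (h₀ : P p₀) (h : ∀ p, P p → p = p₀) :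
    Nat.card {p : G × G // P p} = 1 := by
  rw [Nat.card_eq_one_iff_unique]
  refine ⟨⟨fun p q => Subtype.ext ((h _ p.2).trans (h _ q.2).symm)⟩, ⟨⟨p₀, h₀⟩⟩⟩

theorem card_zero_of [Finite G] (P : G × G → Prop) (h : ∀ p, ¬ P p) :
    Nat.card {p : G × G // P p} = 0 := by
  have : IsEmpty {p : G × G // P p} := ⟨fun p => h _ p.2⟩
  exact Nat.card_of_isEmpty

theorem one_of_cube_of_sq {y : G} (h3 : y ^ 3 = 1) (h2 : y * y = 1) : y = 1 := by
  rw [pow_three, h2, mul_one] at h3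
  exact h3

theorem main [Finite G] (T : Subgroup G)
    (hTc : ∀ x ∈ T, ∀ y ∈ T, x * y = y * x) (hT3 : ∀ x ∈ T, x ^ 3 = 1) (hT9 : Nat.card T = 9)
    (hC : Subgroup.centralizer (T : Set G) = T)
    (hN36 : Nat.card (Subgroup.normalizer (T : Set G)) = 36)
    (hsq : ∀ g ∈ Subgroup.normalizer (T : Set G), g * g ∈ T)
    (hloc : ∀ t ∈ T, t ≠ 1 → Subgroup.centralizer ({t} : Set G) ≤ Subgroup.normalizer (T : Set G)) :
    16 * (Subgroup.normalizer (T : Set G)).index ^ 2 ≤ 36 * (Subgroup.normalizer (T : Set G)).index := by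
  classical
  set N := Subgroup.normalizer (T : Set G) with hN
  have hnorm : ∀ g ∈ N, ∀ t ∈ T, g * t * g⁻¹ ∈ T := fun g hg t ht =>
    (Subgroup.mem_normalizer_iff.mp hg t).mp ht
  have hTN : T ≤ N := by
    intro t ht
    rw [hN, Subgroup.mem_normalizer_iff]
    intro h
    constructor
    · intro hh
      exact T.mul_mem (T.mul_mem ht hh) (T.inv_mem ht)
    · intro hh
      have : h = t⁻¹ * (t * h * t⁻¹) * t := by group
      rw [this]
      exact T.mul_mem (T.mul_mem (T.inv_mem ht) hh) ht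
  have h3N : ∀ y ∈ N, y ^ 3 = 1 → y ∈ T := by
    intro y hy h3
    have : y = (y * y)⁻¹ := by
      rw [eq_inv_iff_mul_eq_one, ← pow_three]
      exact h3
    rw [this]
    exact T.inv_mem (hsq y hy)
  have hτ : ∀ g ∈ N, ∀ h ∈ N, g * h * g⁻¹ * h⁻¹ ∈ T := by
    intro g hg h hh
    have e : g * h * g⁻¹ * h⁻¹ = ((g * h) * (g * h)) * (h⁻¹ * (g * g)⁻¹ * h⁻¹⁻¹) * (h * h)⁻¹ := by group
    rw [e]
    exact T.mul_mem (T.mul_mem (hsq _ (N.mul_mem hg hh))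
      (hnorm _ (N.inv_mem hh) _ (T.inv_mem (hsq g hg)))) (T.inv_mem (hsq h hh))
  have hcomm : ∀ g ∈ N, ∀ h ∈ N, ∀ t ∈ T, g * (h * t * h⁻¹) * g⁻¹ = h * (g * t * g⁻¹) * h⁻¹ := by
    intro g hg h hh t ht
    have h1 := hτ g hg h hh
    have h2 := hnorm h hh _ (hnorm g hg t ht)
    have h3 := hTc _ h1 _ h2
    calc g * (h * t * h⁻¹) * g⁻¹
        = (g * h * g⁻¹ * h⁻¹) * (h * (g * t * g⁻¹) * h⁻¹) * (g * h * g⁻¹ * h⁻¹)⁻¹ := by group
      _ = h * (g * t * g⁻¹) * h⁻¹ := by rw [h3]; group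
  have hinvo : ∀ g ∈ N, ∀ t ∈ T, g * (g * t * g⁻¹) * g⁻¹ = t := by
    intro g hg t ht
    have h1 := hTc _ (hsq g hg) _ ht
    calc g * (g * t * g⁻¹) * g⁻¹ = (g * g) * t * (g * g)⁻¹ := by group
      _ = t := by rw [h1]; group
  have hexists : ∀ g : G, ∃ h ∈ N, h ∉ T ∧ g⁻¹ * h ∉ T := by
    intro g
    by_contra hcon
    push Not at hcon
    have hsub : (N : Set G) ⊆ (T : Set G) ∪ ((fun t => g * t) '' (T : Set G)) := by
      intro h hh
      by_cases hT : h ∈ T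
      · exact Or.inl hT
      · exact Or.inr ⟨g⁻¹ * h, hcon h hh hT, by simp⟩
    have h1 := Set.ncard_le_ncard hsub (Set.toFinite _)
    have h2 := Set.ncard_union_le (T : Set G) ((fun t => g * t) '' (T : Set G))
    have h3 := Set.ncard_image_le (f := fun t => g * t) (Set.toFinite (T : Set G))
    have h4 : (N : Set G).ncard = 36 := by
      rw [← Nat.card_coe_set_eq]; exact hN36
    have h5 : (T : Set G).ncard = 9 := by
      rw [← Nat.card_coe_set_eq]; exact hT9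
    omega
  have hmemC : ∀ g : G, (∀ t ∈ T, t * g = g * t) → g ∈ T := by
    intro g h
    have h1 : g ∈ Subgroup.centralizer (T : Set G) := Subgroup.mem_centralizer_iff.mpr h
    rwa [hC] at h1
  have hnc : ∀ g ∈ N, g ∉ T → ∃ t ∈ T, g * t * g⁻¹ ≠ t := by
    intro g _ hgT
    by_contra hcon
    push Not at hcon
    apply hgT
    apply hmemC
    intro t ht
    have := hcon t ht
    rw [mul_inv_eq_iff_eq_mul] at this
    exact this.symm
  obtain ⟨g₁, hg₁, hg₁T, -⟩ := hexists 1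
  have hs : ∃ s ∈ N, s ∉ T ∧ ∃ t ∈ T, s * t * s⁻¹ ≠ t⁻¹ := by
    by_cases hinv : ∀ t ∈ T, g₁ * t * g₁⁻¹ = t⁻¹
    · obtain ⟨g₂, hg₂, hg₂T, hg₂'⟩ := hexists g₁
      refine ⟨g₂, hg₂, hg₂T, ?_⟩
      by_contra hcon
      push Not at hcon
      apply hg₂'
      apply hmemC
      intro t ht
      have h1 := hcon t ht
      have h2 := hinv t ht
      -- `g₁⁻¹ g₂` centralises `t`
      have h3 : t = g₁⁻¹ * t⁻¹ * g₁ := by
        rw [← h2]; group
      have h4 : g₁⁻¹ * g₂ * t * (g₁⁻¹ * g₂)⁻¹ = t := by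
        calc g₁⁻¹ * g₂ * t * (g₁⁻¹ * g₂)⁻¹ = g₁⁻¹ * (g₂ * t * g₂⁻¹) * g₁ := by group
          _ = g₁⁻¹ * t⁻¹ * g₁ := by rw [h1]
          _ = t := h3.symm
      rw [mul_inv_eq_iff_eq_mul] at h4
      exact h4.symm
    · push Not at hinv
      exact ⟨g₁, hg₁, hg₁T, hinv⟩
  obtain ⟨s, hsN, hsT, t₁, ht₁, hs1⟩ := hs
  obtain ⟨t₂, ht₂, hs2⟩ := hnc s hsN hsT
  -- the two eigenvectors
  set e₁ := t₁ * (s * t₁ * s⁻¹) with he₁
  set e₂ := t₂ * (s * t₂ * s⁻¹)⁻¹ with he₂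
  have he₁T : e₁ ∈ T := T.mul_mem ht₁ (hnorm s hsN t₁ ht₁)
  have he₂T : e₂ ∈ T := T.mul_mem ht₂ (T.inv_mem (hnorm s hsN t₂ ht₂))
  have he₁1 : e₁ ≠ 1 := by
    intro h
    apply hs1
    exact (eq_inv_of_mul_eq_one_right h)
  have he₂1 : e₂ ≠ 1 := by
    intro h
    apply hs2
    have := eq_inv_of_mul_eq_one_left h
    rw [inv_inv] at this
    exact this.symm
  have hse₁ : s * e₁ * s⁻¹ = e₁ := by
    have h1 := hinvo s hsN t₁ ht₁
    have h2 := hTc _ (hnorm s hsN t₁ ht₁) _ ht₁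
    calc s * e₁ * s⁻¹ = (s * t₁ * s⁻¹) * (s * (s * t₁ * s⁻¹) * s⁻¹) := by rw [he₁]; group
      _ = e₁ := by rw [h1, h2]
  have hse₂ : s * e₂ * s⁻¹ = e₂⁻¹ := by
    have h1 := hinvo s hsN t₂ ht₂
    calc s * e₂ * s⁻¹ = (s * t₂ * s⁻¹) * (s * (s * t₂ * s⁻¹) * s⁻¹)⁻¹ := by rw [he₂]; group
      _ = e₂⁻¹ := by rw [h1, he₂]; group
  have hfi : ∀ y ∈ T, s * y * s⁻¹ = y → s * y * s⁻¹ = y⁻¹ → y = 1 := by
    intro y hy h1 h2
    apply one_of_cube_of_sq (hT3 y hy)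
    rw [h1] at h2
    have := mul_eq_one_iff_eq_inv.mpr h2
    exact this
  have uniq : ∀ a a' b b' : G, a ∈ T → a' ∈ T → b ∈ T → b' ∈ T → s * a * s⁻¹ = a → s * a' * s⁻¹ = a' →
      s * b * s⁻¹ = b⁻¹ → s * b' * s⁻¹ = b'⁻¹ → a * b = a' * b' → a = a' ∧ b = b' := by
    intro a a' b b' ha ha' hb hb' Fa Fa' Ib Ib' h
    have hy : a'⁻¹ * a = b' * b⁻¹ := by
      rw [inv_mul_eq_iff_eq_mul, ← mul_assoc, ← h]
      group
    have hyT : a'⁻¹ * a ∈ T := T.mul_mem (T.inv_mem ha') ha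
    have h1 : s * (a'⁻¹ * a) * s⁻¹ = a'⁻¹ * a := by
      calc s * (a'⁻¹ * a) * s⁻¹ = (s * a' * s⁻¹)⁻¹ * (s * a * s⁻¹) := by group
        _ = a'⁻¹ * a := by rw [Fa, Fa']
    have h2 : s * (a'⁻¹ * a) * s⁻¹ = (a'⁻¹ * a)⁻¹ := by
      rw [hy]
      calc s * (b' * b⁻¹) * s⁻¹ = (s * b' * s⁻¹) * (s * b * s⁻¹)⁻¹ := by group
        _ = b'⁻¹ * b := by rw [Ib, Ib', inv_inv]
        _ = (b' * b⁻¹)⁻¹ := by
          rw [mul_inv_rev, inv_inv]
          exact hTc _ (T.inv_mem hb') _ hb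
    have h3 := hfi _ hyT h1 h2
    constructor
    · rw [inv_mul_eq_one] at h3
      exact h3.symm
    · rw [hy, mul_inv_eq_one] at h3
      exact h3.symm
  have ho₁ : orderOf e₁ = 3 := orderOf_eq_prime (hT3 _ he₁T) he₁1
  have ho₂ : orderOf e₂ = 3 := orderOf_eq_prime (hT3 _ he₂T) he₂1
  have hF : ∀ i : ℕ, s * e₁ ^ i * s⁻¹ = e₁ ^ i := by
    intro i
    rw [← conj_pow, hse₁]
  have hI : ∀ i : ℕ, s * e₂ ^ i * s⁻¹ = (e₂ ^ i)⁻¹ := by
    intro i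
    rw [← conj_pow, hse₂, inv_pow]
  -- enumeration of `T`
  let μ : Fin 3 × Fin 3 → T := fun p => ⟨e₁ ^ (p.1 : ℕ) * e₂ ^ (p.2 : ℕ),
    T.mul_mem (T.pow_mem he₁T _) (T.pow_mem he₂T _)⟩
  have hμ : Function.Injective μ := by
    rintro ⟨i, j⟩ ⟨i', j'⟩ h
    have h1 : e₁ ^ (i : ℕ) * e₂ ^ (j : ℕ) = e₁ ^ (i' : ℕ) * e₂ ^ (j' : ℕ) := congrArg Subtype.val h
    obtain ⟨h2, h3⟩ := uniq _ _ _ _ (T.pow_mem he₁T _) (T.pow_mem he₁T _) (T.pow_mem he₂T _) (T.pow_mem he₂T _)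
      (hF _) (hF _) (hI _) (hI _) h1
    have h4 : (i : ℕ) = i' := pow_injOn_Iio_orderOf (by rw [ho₁]; exact i.2) (by rw [ho₁]; exact i'.2) h2
    have h5 : (j : ℕ) = j' := pow_injOn_Iio_orderOf (by rw [ho₂]; exact j.2) (by rw [ho₂]; exact j'.2) h3
    rw [Fin.ext h4, Fin.ext h5]
  have hμb : Function.Bijective μ :=
    hμ.bijective_of_nat_card_le (by rw [hT9]; simp)
  have he₁sq : e₁ ^ 2 = e₁⁻¹ := by
    rw [eq_inv_iff_mul_eq_one, ← hT3 _ he₁T]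
    group
  have he₂sq : e₂ ^ 2 = e₂⁻¹ := by
    rw [eq_inv_iff_mul_eq_one, ← hT3 _ he₂T]
    group
  have hTelt : ∀ t ∈ T, ∃ a b : G, (a = 1 ∨ a = e₁ ∨ a = e₁⁻¹) ∧ (b = 1 ∨ b = e₂ ∨ b = e₂⁻¹) ∧ t = a * b := by
    intro t ht
    obtain ⟨⟨i, j⟩, hij⟩ := hμb.2 ⟨t, ht⟩
    have h1 : t = e₁ ^ (i : ℕ) * e₂ ^ (j : ℕ) := (congrArg Subtype.val hij).symm
    refine ⟨_, _, ?_, ?_, h1⟩
    · fin_cases i
      · left; simp
      · right; left; simp
      · right; right; simpa using he₁sq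
    · fin_cases j
      · left; simp
      · right; left; simp
      · right; right; simpa using he₂sq
  have hFa : ∀ a : G, (a = 1 ∨ a = e₁ ∨ a = e₁⁻¹) → a ∈ T ∧ s * a * s⁻¹ = a := by
    rintro a (rfl | rfl | rfl)
    · exact ⟨T.one_mem, by group⟩
    · exact ⟨he₁T, hse₁⟩
    · refine ⟨T.inv_mem he₁T, ?_⟩
      calc s * e₁⁻¹ * s⁻¹ = (s * e₁ * s⁻¹)⁻¹ := by group
        _ = e₁⁻¹ := by rw [hse₁]
  have hIb : ∀ b : G, (b = 1 ∨ b = e₂ ∨ b = e₂⁻¹) → b ∈ T ∧ s * b * s⁻¹ = b⁻¹ := by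
    rintro b (rfl | rfl | rfl)
    · exact ⟨T.one_mem, by group⟩
    · exact ⟨he₂T, hse₂⟩
    · refine ⟨T.inv_mem he₂T, ?_⟩
      calc s * e₂⁻¹ * s⁻¹ = (s * e₂ * s⁻¹)⁻¹ := by group
        _ = e₂⁻¹⁻¹ := by rw [hse₂]
  have hfix : ∀ y ∈ T, s * y * s⁻¹ = y → y = 1 ∨ y = e₁ ∨ y = e₁⁻¹ := by
    intro y hy h
    obtain ⟨a, b, ha, hb, rfl⟩ := hTelt y hy
    obtain ⟨haT, Fa⟩ := hFa a ha
    obtain ⟨hbT, Ib⟩ := hIb b hb
    have h1 : a * b⁻¹ = a * b := by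
      calc a * b⁻¹ = (s * a * s⁻¹) * (s * b * s⁻¹) := by rw [Fa, Ib]
        _ = s * (a * b) * s⁻¹ := by group
        _ = a * b := h
    have h2 : b * b = 1 := by
      have h3 : b⁻¹ = b := mul_left_cancel h1
      exact mul_eq_one_iff_eq_inv.mpr h3.symm
    rw [one_of_cube_of_sq (hT3 b hbT) h2, mul_one]
    exact ha
  have hinvd : ∀ y ∈ T, s * y * s⁻¹ = y⁻¹ → y = 1 ∨ y = e₂ ∨ y = e₂⁻¹ := by
    intro y hy h
    obtain ⟨a, b, ha, hb, rfl⟩ := hTelt y hy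
    obtain ⟨haT, Fa⟩ := hFa a ha
    obtain ⟨hbT, Ib⟩ := hIb b hb
    have h1 : a * b⁻¹ = b⁻¹ * a⁻¹ := by
      rw [← mul_inv_rev, ← h]
      calc a * b⁻¹ = (s * a * s⁻¹) * (s * b * s⁻¹) := by rw [Fa, Ib]
        _ = s * (a * b) * s⁻¹ := by group
    have h2 : a * a = 1 := by
      have h3 := hTc _ (T.inv_mem hbT) _ (T.inv_mem haT)
      rw [h3] at h1
      have h4 : a = a⁻¹ := mul_right_cancel h1
      exact mul_eq_one_iff_eq_inv.mpr h4
    rw [one_of_cube_of_sq (hT3 a haT) h2, one_mul]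
    exact hb
  have hsign₁ : ∀ g ∈ N, g * e₁ * g⁻¹ = e₁ ∨ g * e₁ * g⁻¹ = e₁⁻¹ := by
    intro g hg
    have h1 : s * (g * e₁ * g⁻¹) * s⁻¹ = g * e₁ * g⁻¹ := by
      rw [hcomm s hsN g hg e₁ he₁T, hse₁]
    rcases hfix _ (hnorm g hg e₁ he₁T) h1 with h | h | h
    · exfalso
      apply he₁1
      have : e₁ = g⁻¹ * (g * e₁ * g⁻¹) * g := by group
      rw [this, h]
      group
    · exact Or.inl h
    · exact Or.inr h
  have hsign₂ : ∀ g ∈ N, g * e₂ * g⁻¹ = e₂ ∨ g * e₂ * g⁻¹ = e₂⁻¹ := by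
    intro g hg
    have h1 : s * (g * e₂ * g⁻¹) * s⁻¹ = (g * e₂ * g⁻¹)⁻¹ := by
      rw [hcomm s hsN g hg e₂ he₂T, hse₂]
      group
    rcases hinvd _ (hnorm g hg e₂ he₂T) h1 with h | h | h
    · exfalso
      apply he₂1
      have : e₂ = g⁻¹ * (g * e₂ * g⁻¹) * g := by group
      rw [this, h]
      group
    · exact Or.inl h
    · exact Or.inr h
  have hpp : ∀ g ∈ N, g * e₁ * g⁻¹ = e₁ → g * e₂ * g⁻¹ = e₂ → g ∈ T := by
    intro g _ h1 h2
    apply hmemC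
    intro t ht
    obtain ⟨a, b, ha, hb, rfl⟩ := hTelt t ht
    have hca : a * g = g * a := by
      rcases ha with rfl | rfl | rfl
      · simp
      · rw [mul_inv_eq_iff_eq_mul] at h1; exact h1.symm
      · rw [mul_inv_eq_iff_eq_mul] at h1
        have : e₁⁻¹ * g = g * e₁⁻¹ := by
          rw [inv_mul_eq_iff_eq_mul, ← mul_assoc, ← h1]
          group
        exact this
    have hcb : b * g = g * b := by
      rcases hb with rfl | rfl | rfl
      · simp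
      · rw [mul_inv_eq_iff_eq_mul] at h2; exact h2.symm
      · rw [mul_inv_eq_iff_eq_mul] at h2
        have : e₂⁻¹ * g = g * e₂⁻¹ := by
          rw [inv_mul_eq_iff_eq_mul, ← mul_assoc, ← h2]
          group
        exact this
    rw [mul_assoc, hcb, ← mul_assoc, hca, mul_assoc]
  have he₁ne : e₁ ≠ e₁⁻¹ := by
    intro h
    exact he₁1 (one_of_cube_of_sq (hT3 _ he₁T) (mul_eq_one_iff_eq_inv.mpr h))
  have he₂ne : e₂ ≠ e₂⁻¹ := by
    intro h
    exact he₂1 (one_of_cube_of_sq (hT3 _ he₂T) (mul_eq_one_iff_eq_inv.mpr h))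
  have hr : ∃ r ∈ N, r * e₁ * r⁻¹ = e₁⁻¹ ∧ r * e₂ * r⁻¹ = e₂ := by
    obtain ⟨h, hh, hhT, hh'⟩ := hexists s
    have hsi₁ : s⁻¹ * e₁ * s = e₁ := by
      calc s⁻¹ * e₁ * s = s⁻¹ * (s * e₁ * s⁻¹) * s := by rw [hse₁]
        _ = e₁ := by group
    have hsi₂ : s⁻¹ * e₂⁻¹ * s = e₂ := by
      calc s⁻¹ * e₂⁻¹ * s = s⁻¹ * (s * e₂ * s⁻¹) * s := by rw [hse₂]
        _ = e₂ := by group
    rcases hsign₁ h hh with h1 | h1 <;> rcases hsign₂ h hh with h2 | h2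
    · exact absurd (hpp h hh h1 h2) hhT
    · exfalso
      apply hh'
      apply hpp _ (N.mul_mem (N.inv_mem hsN) hh)
      · calc s⁻¹ * h * e₁ * (s⁻¹ * h)⁻¹ = s⁻¹ * (h * e₁ * h⁻¹) * s := by group
          _ = e₁ := by rw [h1, hsi₁]
      · calc s⁻¹ * h * e₂ * (s⁻¹ * h)⁻¹ = s⁻¹ * (h * e₂ * h⁻¹) * s := by group
          _ = e₂ := by rw [h2, hsi₂]
    · exact ⟨h, hh, h1, h2⟩
    · refine ⟨s * h, N.mul_mem hsN hh, ?_, ?_⟩
      · calc s * h * e₁ * (s * h)⁻¹ = s * (h * e₁ * h⁻¹) * s⁻¹ := by group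
          _ = s * e₁⁻¹ * s⁻¹ := by rw [h1]
          _ = (s * e₁ * s⁻¹)⁻¹ := by group
          _ = e₁⁻¹ := by rw [hse₁]
      · calc s * h * e₂ * (s * h)⁻¹ = s * (h * e₂ * h⁻¹) * s⁻¹ := by group
          _ = s * e₂⁻¹ * s⁻¹ := by rw [h2]
          _ = (s * e₂ * s⁻¹)⁻¹ := by group
          _ = e₂ := by rw [hse₂, inv_inv]
  obtain ⟨r, hrN, hr₁, hr₂⟩ := hr
  have hrT : r ∉ T := by
    intro h
    have h1 : r * e₁ * r⁻¹ = e₁ := by
      rw [hTc _ h _ he₁T]; group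
    exact he₁ne (h1.symm.trans hr₁)
  have hrC₁ : r * e₁ * r⁻¹ ≠ e₁ := by
    intro h
    exact he₁ne (h.symm.trans hr₁)
  have hsC₂ : s * e₂ * s⁻¹ ≠ e₂ := by
    intro h
    exact he₂ne (h.symm.trans hse₂)
  set f := e₁ * e₂ with hf
  have hfT : f ∈ T := T.mul_mem he₁T he₂T
  have hf1 : f ≠ 1 := by
    intro h
    have h1 := (uniq e₁ 1 e₂ 1 he₁T T.one_mem he₂T T.one_mem hse₁ (by group) hse₂ (by group)
      (by rw [mul_one]; exact h)).1
    exact he₁1 h1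
  have hf3 : f ^ 3 = 1 := hT3 f hfT
  have hconj_f : ∀ g : G, g * f * g⁻¹ = (g * e₁ * g⁻¹) * (g * e₂ * g⁻¹) := by
    intro g
    rw [hf]; group
  have r1 : IsConj e₁ e₁⁻¹ := isConj_iff.mpr ⟨r, hr₁⟩
  have r2 : IsConj e₂ e₂⁻¹ := isConj_iff.mpr ⟨s, hse₂⟩
  have hfinv : f⁻¹ = e₁⁻¹ * e₂⁻¹ := by
    rw [hf, mul_inv_rev]
    exact hTc _ (T.inv_mem he₂T) _ (T.inv_mem he₁T)
  have r3 : IsConj f f⁻¹ := by
    refine isConj_iff.mpr ⟨s * r, ?_⟩
    rw [hconj_f, hfinv]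
    congr 1
    · calc s * r * e₁ * (s * r)⁻¹ = s * (r * e₁ * r⁻¹) * s⁻¹ := by group
        _ = s * e₁⁻¹ * s⁻¹ := by rw [hr₁]
        _ = (s * e₁ * s⁻¹)⁻¹ := by group
        _ = e₁⁻¹ := by rw [hse₁]
    · calc s * r * e₂ * (s * r)⁻¹ = s * (r * e₂ * r⁻¹) * s⁻¹ := by group
        _ = e₂⁻¹ := by rw [hr₂, hse₂]
  -- conjugation inside `T` comes from `N`
  have hgN : ∀ (g t : G), t ∈ T → t ≠ 1 → g * t * g⁻¹ ∈ T → g ∈ N := by
    intro g t ht ht1 hx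
    have hx1 : g * t * g⁻¹ ≠ 1 := by
      intro h
      apply ht1
      have : t = g⁻¹ * (g * t * g⁻¹) * g := by group
      rw [this, h]
      group
    have hmem : ∀ y ∈ T, g * y * g⁻¹ ∈ T := by
      intro y hy
      have h1 : g * y * g⁻¹ ∈ Subgroup.centralizer ({g * t * g⁻¹} : Set G) := by
        rw [Subgroup.mem_centralizer_singleton_iff]
        have := hTc y hy t ht
        calc g * y * g⁻¹ * (g * t * g⁻¹) = g * (y * t) * g⁻¹ := by group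
          _ = g * (t * y) * g⁻¹ := by rw [this]
          _ = g * t * g⁻¹ * (g * y * g⁻¹) := by group
      apply h3N _ (hloc _ hx hx1 h1)
      rw [conj_pow, hT3 y hy]
      group
    rw [hN, Subgroup.mem_normalizer_iff]
    intro h
    constructor
    · exact hmem h
    · intro hh
      let ψ : T → T := fun y => ⟨g * y * g⁻¹, hmem y y.2⟩
      have hψ : Function.Injective ψ := by
        intro y y' hyy
        have h1 : g * (y : G) * g⁻¹ = g * (y' : G) * g⁻¹ := congrArg Subtype.val hyy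
        apply Subtype.ext
        have h2 := mul_right_cancel h1
        exact mul_left_cancel h2
      obtain ⟨y, hy⟩ := (Finite.surjective_of_injective hψ) ⟨_, hh⟩
      have h1 : g * (y : G) * g⁻¹ = g * h * g⁻¹ := congrArg Subtype.val hy
      have h2 := mul_left_cancel (mul_right_cancel h1)
      rw [← h2]
      exact y.2
  have conj₁ : ∀ x ∈ T, IsConj e₁ x → x = e₁ ∨ x = e₁⁻¹ := by
    intro x hx hc
    obtain ⟨c, rfl⟩ := isConj_iff.mp hc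
    exact hsign₁ c (hgN c e₁ he₁T he₁1 hx)
  have conj₂ : ∀ x ∈ T, IsConj e₂ x → x = e₂ ∨ x = e₂⁻¹ := by
    intro x hx hc
    obtain ⟨c, rfl⟩ := isConj_iff.mp hc
    exact hsign₂ c (hgN c e₂ he₂T he₂1 hx)
  have conj₃ : ∀ x ∈ T, IsConj f x → ∃ a b : G, (a = e₁ ∨ a = e₁⁻¹) ∧ (b = e₂ ∨ b = e₂⁻¹) ∧ x = a * b := by
    intro x hx hc
    obtain ⟨c, rfl⟩ := isConj_iff.mp hc
    have hcN := hgN c f hfT hf1 hx
    exact ⟨_, _, hsign₁ c hcN, hsign₂ c hcN, hconj_f c⟩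
  have n12 : ¬ IsConj e₁ e₂ := by
    intro h
    apply he₂1
    apply hfi e₂ he₂T _ hse₂
    rcases conj₁ e₂ he₂T h with h1 | h1
    · rw [h1]; exact hse₁
    · rw [h1]; exact (hFa _ (Or.inr (Or.inr rfl))).2
  have n13 : ¬ IsConj e₁ f := by
    intro h
    apply he₂1
    rcases conj₁ f hfT h with h1 | h1
    · exact (uniq e₁ e₁ e₂ 1 he₁T he₁T he₂T T.one_mem hse₁ hse₁ hse₂ (by group)
        (by rw [mul_one]; exact h1)).2
    · have := hFa _ (Or.inr (Or.inr rfl) : e₁⁻¹ = 1 ∨ e₁⁻¹ = e₁ ∨ e₁⁻¹ = e₁⁻¹)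
      exact (uniq e₁ e₁⁻¹ e₂ 1 he₁T this.1 he₂T T.one_mem hse₁ this.2 hse₂ (by group)
        (by rw [mul_one]; exact h1)).2
  have n23 : ¬ IsConj e₂ f := by
    intro h
    apply he₁1
    rcases conj₂ f hfT h with h1 | h1
    · exact (uniq e₁ 1 e₂ e₂ he₁T T.one_mem he₂T he₂T hse₁ (by group) hse₂ hse₂
        (by rw [one_mul]; exact h1)).1
    · have := hIb _ (Or.inr (Or.inr rfl) : e₂⁻¹ = 1 ∨ e₂⁻¹ = e₂ ∨ e₂⁻¹ = e₂⁻¹)
      exact (uniq e₁ 1 e₂ e₂⁻¹ he₁T T.one_mem he₂T this.1 hse₁ (by group) hse₂ this.2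
        (by rw [one_mul]; exact h1)).1
  -- centralisers
  have hCf : Subgroup.centralizer ({f} : Set G) = T := by
    apply le_antisymm
    · intro g hg
      have hgN' := hloc f hfT hf1 hg
      rw [Subgroup.mem_centralizer_singleton_iff] at hg
      have h1 : g * f * g⁻¹ = f := by
        rw [hg]; group
      rw [hconj_f] at h1
      have F1 : ∀ a : G, (a = e₁ ∨ a = e₁⁻¹) → a ∈ T ∧ s * a * s⁻¹ = a := fun a ha => hFa a (Or.inr ha)
      have I1 : ∀ b : G, (b = e₂ ∨ b = e₂⁻¹) → b ∈ T ∧ s * b * s⁻¹ = b⁻¹ := fun b hb => hIb b (Or.inr hb)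
      obtain ⟨h2, h3⟩ := uniq _ e₁ _ e₂ (F1 _ (hsign₁ g hgN')).1 he₁T (I1 _ (hsign₂ g hgN')).1 he₂T
        (F1 _ (hsign₁ g hgN')).2 hse₁ (I1 _ (hsign₂ g hgN')).2 hse₂ h1
      exact hpp g hgN' h2 h3
    · intro t ht
      rw [Subgroup.mem_centralizer_singleton_iff]
      exact hTc t ht f hfT
  have c3 : Nat.card (Subgroup.centralizer ({f} : Set G)) = 9 := by
    rw [hCf]; exact hT9
  have hcard_mid : ∀ C : Subgroup G, T ≤ C → C ≤ N → (∃ x ∈ C, x ∉ T) → (∃ x ∈ N, x ∉ C) → Nat.card C = 18 := by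
    intro C h1 h2 ⟨x, hx, hxT⟩ ⟨y, hy, hyC⟩
    have h3 : Nat.card T ∣ Nat.card C := Subgroup.card_dvd_of_le h1
    have h4 : Nat.card C ∣ Nat.card N := Subgroup.card_dvd_of_le h2
    rw [hT9] at h3
    rw [hN36] at h4
    obtain ⟨k, hk⟩ := h3
    have h5 : k ≠ 1 := by
      rintro rfl
      apply hxT
      have : T = C := Subgroup.eq_of_le_of_card_ge h1 (by rw [hT9, hk])
      rw [this]
      exact hx
    have h6 : k ≠ 4 := by
      rintro rfl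
      apply hyC
      have : C = N := Subgroup.eq_of_le_of_card_ge h2 (by rw [hN36, hk])
      rw [this]
      exact hy
    rw [hk] at h4 ⊢
    have h7 : k ∣ 4 := Nat.dvd_of_mul_dvd_mul_left (by norm_num : 0 < 9) (by simpa using h4)
    obtain ⟨m, hm, rfl⟩ := (Nat.dvd_prime_pow Nat.prime_two).mp (show k ∣ 2 ^ 2 from h7)
    have hm' : m = 0 ∨ m = 1 ∨ m = 2 := by omega
    rcases hm' with rfl | rfl | rfl
    · exact absurd (by norm_num) h5
    · norm_num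
    · exact absurd (by norm_num) h6
  have c1 : Nat.card (Subgroup.centralizer ({e₁} : Set G)) = 18 := by
    apply hcard_mid _ _ (hloc e₁ he₁T he₁1)
    · refine ⟨s, ?_, hsT⟩
      rw [Subgroup.mem_centralizer_singleton_iff]
      rw [mul_inv_eq_iff_eq_mul] at hse₁
      exact hse₁
    · refine ⟨r, hrN, ?_⟩
      intro h
      rw [Subgroup.mem_centralizer_singleton_iff] at h
      apply hrC₁
      rw [h]; group
    · intro t ht
      rw [Subgroup.mem_centralizer_singleton_iff]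
      exact hTc t ht e₁ he₁T
  have c2 : Nat.card (Subgroup.centralizer ({e₂} : Set G)) = 18 := by
    apply hcard_mid _ _ (hloc e₂ he₂T he₂1)
    · refine ⟨r, ?_, hrT⟩
      rw [Subgroup.mem_centralizer_singleton_iff]
      rw [mul_inv_eq_iff_eq_mul] at hr₂
      exact hr₂
    · refine ⟨s, hsN, ?_⟩
      intro h
      rw [Subgroup.mem_centralizer_singleton_iff] at h
      apply hsC₂
      rw [h]; group
    · intro t ht
      rw [Subgroup.mem_centralizer_singleton_iff]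
      exact hTc t ht e₂ he₂T
  -- the triple lemma
  have hinvf3 : f⁻¹ ^ 3 = 1 := by rw [inv_pow, hf3, inv_one]
  have htri : ∀ x y : G, x ^ 3 = 1 → y ^ 3 = 1 → x * y = f → ¬ IsConj f x → x ∈ T ∧ y ∈ T := by
    intro x y hx hy hxy hnc'
    have hxyw : x * y * f⁻¹ = 1 := by rw [hxy]; group
    rcases Tri333.tri_main hx hy hinvf3 hxyw with h | ⟨c, hc1, hcw, hca, hcb⟩
    · exact absurd (r3.trans h) hnc'
    · have hcT : c ∈ T := by
        rw [← hCf, Subgroup.mem_centralizer_singleton_iff]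
        have : c * f⁻¹ = f⁻¹ * c := hcw
        rw [mul_inv_eq_iff_eq_mul, mul_assoc, ← inv_mul_eq_iff_eq_mul] at this
        rw [eq_comm]
        have h2 : f * c = c * f := by
          rw [← this]; group
        exact h2
      have hCc := hloc c hcT hc1
      have ha : x * y⁻¹ ∈ N := hCc (by
        rw [Subgroup.mem_centralizer_singleton_iff]; exact hca.symm)
      have hb : x⁻¹ * y ∈ N := hCc (by
        rw [Subgroup.mem_centralizer_singleton_iff]; exact hcb.symm)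
      obtain ⟨-, -, -, hx', hy'⟩ := Tri333.tri_identities (x := x) (y := y) (w := f⁻¹)
        (by rw [← pow_three']; exact hx) (by rw [← pow_three']; exact hy)
        (by rw [← pow_three']; exact hinvf3) hxyw
      have hwN : f⁻¹ ∈ N := hTN (T.inv_mem hfT)
      constructor
      · apply h3N _ _ hx
        rw [hx']
        exact N.mul_mem hb hwN
      · apply h3N _ _ hy
        rw [hy']
        exact N.mul_mem (N.mul_mem (N.inv_mem ha) hb) hwN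
  have hc3 : ∀ a x : G, a ^ 3 = 1 → IsConj a x → x ^ 3 = 1 := by
    intro a x ha hc
    obtain ⟨c, rfl⟩ := isConj_iff.mp hc
    rw [conj_pow, ha]
    group
  have hnc₁ : ∀ x : G, IsConj e₁ x → ¬ IsConj f x := fun x h1 h2 => n13 (h1.trans h2.symm)
  have hnc₂ : ∀ x : G, IsConj e₂ x → ¬ IsConj f x := fun x h1 h2 => n23 (h1.trans h2.symm)
  have he₁3 := hT3 _ he₁T
  have he₂3 := hT3 _ he₂T
  have F1 : ∀ a : G, (a = e₁ ∨ a = e₁⁻¹) → a ∈ T ∧ s * a * s⁻¹ = a := fun a ha => hFa a (Or.inr ha)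
  have I1 : ∀ b : G, (b = e₂ ∨ b = e₂⁻¹) → b ∈ T ∧ s * b * s⁻¹ = b⁻¹ := fun b hb => hIb b (Or.inr hb)
  have cnt1 : Nat.card {p : G × G // IsConj e₁ p.1 ∧ IsConj e₂ p.2 ∧ p.1 * p.2 = f} = 1 := by
    refine card_one_of _ (e₁, e₂) ⟨IsConj.refl _, IsConj.refl _, rfl⟩ ?_
    rintro ⟨x, y⟩ ⟨h1, h2, h3⟩
    simp only at h1 h2 h3
    obtain ⟨hx, hy⟩ := htri x y (hc3 _ _ he₁3 h1) (hc3 _ _ he₂3 h2) h3 (hnc₁ x h1)
    have Fx := F1 x (conj₁ x hx h1)
    have Iy := I1 y (conj₂ y hy h2)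
    obtain ⟨h4, h5⟩ := uniq x e₁ y e₂ hx he₁T hy he₂T Fx.2 hse₁ Iy.2 hse₂ h3
    rw [h4, h5]
  have cnt2 : Nat.card {p : G × G // IsConj e₁ p.1 ∧ IsConj e₁ p.2 ∧ p.1 * p.2 = f} = 0 := by
    refine card_zero_of _ ?_
    rintro ⟨x, y⟩ ⟨h1, h2, h3⟩
    simp only at h1 h2 h3
    obtain ⟨hx, hy⟩ := htri x y (hc3 _ _ he₁3 h1) (hc3 _ _ he₁3 h2) h3 (hnc₁ x h1)
    have Fx := F1 x (conj₁ x hx h1)
    have Fy := F1 y (conj₁ y hy h2)
    have hF' : s * (x * y) * s⁻¹ = x * y := by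
      calc s * (x * y) * s⁻¹ = (s * x * s⁻¹) * (s * y * s⁻¹) := by group
        _ = x * y := by rw [Fx.2, Fy.2]
    have h4 := (uniq (x * y) e₁ 1 e₂ (T.mul_mem hx hy) he₁T T.one_mem he₂T hF' hse₁ (by group) hse₂
      (by rw [mul_one]; exact h3)).2
    exact he₂1 h4.symm
  have cnt3 : Nat.card {p : G × G // IsConj e₂ p.1 ∧ IsConj e₂ p.2 ∧ p.1 * p.2 = f} = 0 := by
    refine card_zero_of _ ?_
    rintro ⟨x, y⟩ ⟨h1, h2, h3⟩
    simp only at h1 h2 h3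
    obtain ⟨hx, hy⟩ := htri x y (hc3 _ _ he₂3 h1) (hc3 _ _ he₂3 h2) h3 (hnc₂ x h1)
    have Ix := I1 x (conj₂ x hx h1)
    have Iy := I1 y (conj₂ y hy h2)
    have hI' : s * (x * y) * s⁻¹ = (x * y)⁻¹ := by
      calc s * (x * y) * s⁻¹ = (s * x * s⁻¹) * (s * y * s⁻¹) := by group
        _ = x⁻¹ * y⁻¹ := by rw [Ix.2, Iy.2]
        _ = (x * y)⁻¹ := by
          rw [mul_inv_rev]
          exact hTc _ (T.inv_mem hx) _ (T.inv_mem hy)
    have h4 := (uniq 1 e₁ (x * y) e₂ T.one_mem he₁T (T.mul_mem hx hy) he₂T (by group) hse₁ hI' hse₂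
      (by rw [one_mul]; exact h3)).1
    exact he₁1 h4.symm
  have he₁cube : e₁⁻¹ * e₁⁻¹ = e₁ := by
    rw [← sq, inv_pow, he₁sq, inv_inv]
  have he₂cube : e₂⁻¹ * e₂⁻¹ = e₂ := by
    rw [← sq, inv_pow, he₂sq, inv_inv]
  have cnt4 : Nat.card {p : G × G // IsConj e₁ p.1 ∧ IsConj f p.2 ∧ p.1 * p.2 = f} = 1 := by
    refine card_one_of _ (e₁⁻¹, e₁⁻¹ * e₂) ⟨r1, ?_, ?_⟩ ?_
    · refine isConj_iff.mpr ⟨r, ?_⟩
      rw [hconj_f, hr₁, hr₂]
    · simp only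
      rw [← mul_assoc, he₁cube]
    · rintro ⟨x, y⟩ ⟨h1, h2, h3⟩
      simp only at h1 h2 h3
      obtain ⟨hx, hy⟩ := htri x y (hc3 _ _ he₁3 h1) (hc3 _ _ hf3 h2) h3 (hnc₁ x h1)
      obtain ⟨a, b, ha, hb, rfl⟩ := conj₃ y hy h2
      have Fx := F1 x (conj₁ x hx h1)
      have Fa := F1 a ha
      have Ib := I1 b hb
      have hF' : s * (x * a) * s⁻¹ = x * a := by
        calc s * (x * a) * s⁻¹ = (s * x * s⁻¹) * (s * a * s⁻¹) := by group
          _ = x * a := by rw [Fx.2, Fa.2]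
      obtain ⟨h4, h5⟩ := uniq (x * a) e₁ b e₂ (T.mul_mem hx Fa.1) he₁T Ib.1 he₂T hF' hse₁ Ib.2 hse₂
        (by rw [mul_assoc]; exact h3)
      have hx' : x = e₁⁻¹ ∧ a = e₁⁻¹ := by
        rcases conj₁ x hx h1 with rfl | rfl <;> rcases ha with rfl | rfl
        · exfalso
          apply he₁1
          exact mul_left_cancel (h4.trans (mul_one _).symm)
        · exfalso
          apply he₁1
          rw [mul_inv_cancel] at h4
          exact h4.symm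
        · exfalso
          apply he₁1
          rw [inv_mul_cancel] at h4
          exact h4.symm
        · exact ⟨rfl, rfl⟩
      rw [hx'.1, hx'.2, h5]
  have cnt5 : Nat.card {p : G × G // IsConj e₂ p.1 ∧ IsConj f p.2 ∧ p.1 * p.2 = f} = 1 := by
    refine card_one_of _ (e₂⁻¹, e₁ * e₂⁻¹) ⟨r2, ?_, ?_⟩ ?_
    · refine isConj_iff.mpr ⟨s, ?_⟩
      rw [hconj_f, hse₁, hse₂]
    · simp only
      rw [← mul_assoc, hTc _ (T.inv_mem he₂T) _ he₁T, mul_assoc, he₂cube]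
    · rintro ⟨x, y⟩ ⟨h1, h2, h3⟩
      simp only at h1 h2 h3
      obtain ⟨hx, hy⟩ := htri x y (hc3 _ _ he₂3 h1) (hc3 _ _ hf3 h2) h3 (hnc₂ x h1)
      obtain ⟨a, b, ha, hb, rfl⟩ := conj₃ y hy h2
      have Ix := I1 x (conj₂ x hx h1)
      have Fa := F1 a ha
      have Ib := I1 b hb
      have hI' : s * (x * b) * s⁻¹ = (x * b)⁻¹ := by
        calc s * (x * b) * s⁻¹ = (s * x * s⁻¹) * (s * b * s⁻¹) := by group
          _ = x⁻¹ * b⁻¹ := by rw [Ix.2, Ib.2]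
          _ = (x * b)⁻¹ := by
            rw [mul_inv_rev]
            exact hTc _ (T.inv_mem hx) _ (T.inv_mem Ib.1)
      have h3' : a * (x * b) = e₁ * e₂ := by
        change a * (x * b) = f
        rw [← h3, ← mul_assoc, ← mul_assoc, hTc _ Fa.1 _ hx]
      obtain ⟨h4, h5⟩ := uniq a e₁ (x * b) e₂ Fa.1 he₁T (T.mul_mem hx Ib.1) he₂T Fa.2 hse₁ hI' hse₂ h3'
      have hx' : x = e₂⁻¹ ∧ b = e₂⁻¹ := by
        rcases conj₂ x hx h1 with rfl | rfl <;> rcases hb with rfl | rfl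
        · exfalso
          apply he₂1
          exact mul_left_cancel (h5.trans (mul_one _).symm)
        · exfalso
          apply he₂1
          rw [mul_inv_cancel] at h5
          exact h5.symm
        · exfalso
          apply he₂1
          rw [inv_mul_cancel] at h5
          exact h5.symm
        · exact ⟨rfl, rfl⟩
      rw [hx'.1, hx'.2, h4]
  letI : Fintype G := Fintype.ofFinite G
  have hG : Nat.card G = 36 * N.index := by
    rw [← Subgroup.card_mul_index N, hN36]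
  have hidx : 0 < N.index := Nat.pos_of_ne_zero Subgroup.index_ne_zero_of_finite
  exact Class333.three_class_bound e₁ e₂ f N.index hidx hG (hT3 _ he₁T) (hT3 _ he₂T) hf3 he₁1 he₂1 hf1
    r1 r2 r3 n12 n13 n23 c1 c2 c3 cnt1 cnt2 cnt3 cnt4 cnt5

end Cfsg.Agent.Lib.Coprime.Sub333
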